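import Mathlib

/-!
# Two primes at distance at least three in `(m/2, m]`

`H16.exists_two_primes`: a strengthening of Bertrand's postulate.
-/

set_option autoImplicit false

namespace H16
open Nat

theorem centralBinom_le_of_few (n : ℕ) (n_large : 2 < n) (T : Finset ℕ)
    (hT : ∀ p : ℕ, p.Prime → n < p → p ≤ 2 * n → p ∈ T) :
    centralBinom n ≤ (2 * n) ^ sqrt (2 * n) * 4 ^ (2 * n / 3) * (2 * n) ^ T.card := by
  classical
  have n_pos : 0 < n := (Nat.zero_le _).trans_lt n_large
  have n2_pos : 1 ≤ 2 * n := mul_pos (zero_lt_two' ℕ) n_pos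
  let S := {p ∈ Finset.range (2 * n / 3 + 1) | Nat.Prime p}
  let f x := x ^ n.centralBinom.factorization x
  have hf : ∀ p, f p ≤ 2 * n := fun p => pow_factorization_choose_le (mul_pos two_pos n_pos)
  have hf1 : ∀ p, 1 ≤ f p := by
    intro p
    by_cases h : p.Prime
    · exact Nat.one_le_pow _ _ h.pos
    · simp only [f]; rw [factorization_eq_zero_of_not_prime _ h, pow_zero]
  have h1 : centralBinom n ≤ ∏ x ∈ S ∪ T, f x := by
    rw [← n.prod_pow_factorization_centralBinom, ← Finset.prod_filter_ne_one]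
    refine Finset.prod_le_prod_of_subset_of_one_le' ?_ (fun p _ _ => hf1 p)
    · intro p hp
      obtain ⟨hp, hne⟩ := Finset.mem_filter.1 hp
      rw [Finset.mem_range, Nat.lt_succ_iff] at hp
      have hpr : p.Prime := by
        by_contra h
        exact hne (by rw [factorization_eq_zero_of_not_prime _ h, pow_zero])
      rw [Finset.mem_union]
      by_cases h : n < p
      · exact Or.inr (hT p hpr h hp)
      · left
        refine Finset.mem_filter.2 ⟨?_, hpr⟩
        rw [Finset.mem_range, Nat.lt_succ_iff]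
        by_contra h2x
        rw [not_le, Nat.div_lt_iff_lt_mul three_pos, mul_comm p] at h2x
        exact hne (by
          rw [factorization_centralBinom_of_two_mul_self_lt_three_mul n_large (not_lt.1 h) h2x,
            pow_zero])
  have h2 : ∏ x ∈ S ∪ T, f x ≤ (∏ x ∈ S, f x) * ∏ x ∈ T, f x := by
    rw [← Finset.prod_union_inter]
    exact Nat.le_mul_of_pos_right _ (Finset.prod_pos fun p _ => hf1 p)
  refine h1.trans (h2.trans (Nat.mul_le_mul ?_ (Finset.prod_le_pow_card _ _ _ fun p _ => hf p)))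
  rw [← Finset.prod_filter_mul_prod_filter_not S (· ≤ sqrt (2 * n))]
  apply mul_le_mul'
  · refine (Finset.prod_le_prod' fun p _ => hf p).trans ?_
    have : (Finset.Icc 1 (sqrt (2 * n))).card = sqrt (2 * n) := by rw [card_Icc, Nat.add_sub_cancel]
    rw [Finset.prod_const]
    refine pow_right_mono₀ n2_pos ((Finset.card_le_card fun x hx => ?_).trans this.le)
    obtain ⟨h1, h2⟩ := Finset.mem_filter.1 hx
    exact Finset.mem_Icc.mpr ⟨(Finset.mem_filter.1 h1).2.one_lt.le, h2⟩
  · refine le_trans ?_ (primorial_le_four_pow (2 * n / 3))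
    refine (Finset.prod_le_prod' fun p hp => (?_ : f p ≤ p)).trans ?_
    · obtain ⟨h1, h2⟩ := Finset.mem_filter.1 hp
      refine (pow_right_mono₀ (Finset.mem_filter.1 h1).2.one_lt.le ?_).trans (pow_one p).le
      exact Nat.factorization_choose_le_one (sqrt_lt'.mp <| not_le.1 h2)
    refine Finset.prod_le_prod_of_subset_of_one_le' (Finset.filter_subset _ _) ?_
    exact fun p hp _ => (Finset.mem_filter.1 hp).2.one_lt.le

theorem six_mul_le_two_pow (j : ℕ) : 6 * j + 48 ≤ 2 ^ (j + 6) := by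
  induction j with
  | zero => norm_num
  | succ j ih => rw [show j + 1 + 6 = j + 6 + 1 by ring, pow_succ]; omega

theorem main_ineq {n : ℕ} (hn : 882 ≤ n) :
    n * ((2 * n) ^ sqrt (2 * n) * 4 ^ (2 * n / 3) * (2 * n) ^ 3) ≤ 4 ^ n := by
  set s := sqrt (2 * n) with hs
  have h1 : s * s ≤ 2 * n := Nat.sqrt_le _
  have h2 : 2 * n < (s + 1) * (s + 1) := Nat.lt_succ_sqrt _
  have h3 : 42 ≤ s := by
    rw [hs, Nat.le_sqrt]; omega
  obtain ⟨j, hj⟩ : ∃ j, s / 6 = j + 7 := ⟨s / 6 - 7, by omega⟩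
  have h4 : s + 1 ≤ 2 ^ (j + 6) := le_trans (by omega) (six_mul_le_two_pow j)
  have h5 : 2 * n ≤ 4 ^ (j + 6) := by
    have : (s + 1) * (s + 1) ≤ 2 ^ (j + 6) * 2 ^ (j + 6) := Nat.mul_le_mul h4 h4
    rw [← mul_pow, show 2 * 2 = 4 from rfl] at this
    omega
  have h6 : (j + 6) * (s + 4) + 2 * n / 3 ≤ n := by
    have : 6 * (j + 6) + 6 ≤ s := by omega
    have : 6 * ((j + 6) * (s + 4)) ≤ 2 * n := by nlinarith
    omega
  calc n * ((2 * n) ^ s * 4 ^ (2 * n / 3) * (2 * n) ^ 3)
      ≤ (2 * n) * ((2 * n) ^ s * 4 ^ (2 * n / 3) * (2 * n) ^ 3) :=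
        Nat.mul_le_mul_right _ (by omega)
    _ = (2 * n) ^ (s + 4) * 4 ^ (2 * n / 3) := by ring
    _ ≤ (4 ^ (j + 6)) ^ (s + 4) * 4 ^ (2 * n / 3) :=
        Nat.mul_le_mul_right _ (Nat.pow_le_pow_left h5 _)
    _ = 4 ^ ((j + 6) * (s + 4) + 2 * n / 3) := by rw [← pow_mul, ← pow_add]
    _ ≤ 4 ^ n := Nat.pow_le_pow_right (by norm_num) h6

theorem exists_two_primes_large {n : ℕ} (hn : 882 ≤ n) :
    ∃ p q : ℕ, p.Prime ∧ q.Prime ∧ n < p ∧ p + 3 ≤ q ∧ q ≤ 2 * n := by
  classical
  by_contra hno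
  push Not at hno
  have hex : ∃ p, p.Prime ∧ n < p := by
    obtain ⟨p, h1, h2⟩ := Nat.exists_infinite_primes (n + 1)
    exact ⟨p, h2, h1⟩
  have hp := Nat.find_spec hex
  have h := centralBinom_le_of_few n (by omega) (Finset.Icc (Nat.find hex) (Nat.find hex + 2))
    (fun q hq h1 h2 => by
      rw [Finset.mem_Icc]
      refine ⟨Nat.find_min' hex ⟨hq, h1⟩, ?_⟩
      by_contra h3
      have := hno _ q hp.1 hq hp.2 (by omega)
      omega)
  rw [Nat.card_Icc, show Nat.find hex + 2 + 1 - Nat.find hex = 3 by omega] at h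
  have h2 := Nat.four_pow_lt_mul_centralBinom n (by omega)
  have h3 := main_ineq hn
  have := Nat.mul_le_mul_left n h
  omega

theorem exists_two_primes {m : ℕ} (hm : 17 ≤ m) :
    ∃ p q : ℕ, p.Prime ∧ q.Prime ∧ m < 2 * p ∧ p + 3 ≤ q ∧ q ≤ m := by
  by_cases h : m < 26
  · exact ⟨13, 17, by norm_num, by norm_num, by omega, by omega, by omega⟩
  by_cases h : m < 38
  · exact ⟨19, 23, by norm_num, by norm_num, by omega, by omega, by omega⟩
  by_cases h : m < 62
  · exact ⟨31, 37, by norm_num, by norm_num, by omega, by omega, by omega⟩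
  by_cases h : m < 106
  · exact ⟨53, 59, by norm_num, by norm_num, by omega, by omega, by omega⟩
  by_cases h : m < 194
  · exact ⟨97, 101, by norm_num, by norm_num, by omega, by omega, by omega⟩
  by_cases h : m < 362
  · exact ⟨181, 191, by norm_num, by norm_num, by omega, by omega, by omega⟩
  by_cases h : m < 698
  · exact ⟨349, 353, by norm_num, by norm_num, by omega, by omega, by omega⟩
  by_cases h : m < 1354
  · exact ⟨677, 683, by norm_num, by norm_num, by omega, by omega, by omega⟩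
  by_cases h : m < 2606
  · exact ⟨1303, 1307, by norm_num, by norm_num, by omega, by omega, by omega⟩
  obtain ⟨p, q, hp, hq, h1, h2, h3⟩ := exists_two_primes_large (n := m / 2) (by omega)
  exact ⟨p, q, hp, hq, by omega, h2, by omega⟩

end H16
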