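import Mathlib
import Cfsg.Agent.H24.Uni
import Cfsg.Agent.H28.El2

/-!
# Classes of elements of prime order `r` in projective groups, `r` dividing the order of the centre (namespace `H16.Cc`)
* `Tup`, `card_orb` (rotation orbits on tuples), `iso_of_pow`, `count_proj`
-/

set_option autoImplicit false
set_option linter.unusedSectionVars false
set_option linter.style.haveILetI false

namespace H16.Cc
open Module Polynomial H24.Sim H28.El

/-- non-concentrated tuples -/
def Tup (G : Type*) [Fintype G] (n : ℕ) := {a : G → ℕ // ∑ g, a g = n ∧ ∀ g, a g < n}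

section
variable {G : Type*} [Group G] [Fintype G] {n r : ℕ}

instance : MulAction G (Tup G n) where
  smul g a := ⟨fun x => a.1 (x * g), (Equiv.sum_comp (Equiv.mulRight g) a.1).trans a.2.1, fun _ => a.2.2 _⟩
  one_smul a := Subtype.ext (funext fun x => congrArg a.1 (mul_one x))
  mul_smul g h a := Subtype.ext (funext fun x => congrArg a.1 (mul_assoc x g h).symm)

theorem tup_smul (g : G) (a : Tup G n) (x : G) : (g • a).1 x = a.1 (x * g) := rfl

instance : Finite (Tup G n) := Finite.of_injective (fun a g => (⟨a.1 g, a.2.2 g⟩ : Fin n))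
  fun _ _ h => Subtype.ext (funext fun g => congrArg Fin.val (congrFun h g))

theorem card_tup (hn : 0 < n) : Nat.card (Tup G n) + Fintype.card G = (n + Fintype.card G - 1).choose (Fintype.card G - 1) := by
  classical
  have h1 := Nat.card_congr (Sym.equivNatSumOfFintype G n)
  have h2 := Nat.card_congr (Equiv.sumCompl fun a : {P : G → ℕ // ∑ i, P i = n} => ∀ g, a.1 g < n)
  have h3 : Nat.card G = Nat.card {a : {P : G → ℕ // ∑ i, P i = n} // ¬ ∀ g, a.1 g < n} :=
    Nat.card_eq_of_bijective (fun g => ⟨⟨Pi.single g n, by simp⟩, fun h => by simpa using h g⟩) ⟨fun g h e => by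
      by_contra hc
      have := congrFun (congrArg (·.1.1) e) g
      simp [hc, hn.ne'] at this, fun ⟨⟨a, h1⟩, h2⟩ => by
      obtain ⟨g, hg⟩ := not_forall.1 h2
      refine ⟨g, Subtype.ext (Subtype.ext (funext fun x => ?_))⟩
      rw [← Finset.add_sum_erase _ _ (Finset.mem_univ g)] at h1
      obtain rfl | hx := eq_or_ne x g
      · simp at hg ⊢; omega
      · have := Finset.single_le_sum (f := a) (fun _ _ => Nat.zero_le _) (show x ∈ Finset.univ.erase g by simp [hx])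
        simp [hx] at hg ⊢; omega⟩
  haveI : Finite {P : G → ℕ // ∑ i, P i = n} := Finite.of_equiv _ (Sym.equivNatSumOfFintype G n)
  rw [Nat.card_sum, ← h3, ← h1, Nat.card_congr (Equiv.subtypeSubtypeEquivSubtypeInter _ fun a : G → ℕ => ∀ g, a g < n),
    Nat.card_eq_fintype_card (α := G), Nat.card_eq_fintype_card (α := Sym G n), Sym.card_sym_eq_choose, add_comm _ n] at h2
  have := Fintype.card_pos (α := G)
  exact h2.trans (Nat.choose_symm_of_eq_add (by omega))

theorem card_fixed (hr : r.Prime) (hG : Fintype.card G = r) (hn : 0 < n) {g : G} (hg : g ≠ 1) :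
    Nat.card (MulAction.fixedBy (Tup G n) g) = if r ∣ n then 1 else 0 := by
  haveI := Fact.mk hr
  have h1 : ∀ a : MulAction.fixedBy (Tup G n) g, (∀ x, a.1.1 x = a.1.1 1) ∧ r * a.1.1 1 = n := fun a => by
    have h2 : ∀ x, a.1.1 x = a.1.1 1 := fun x => by
      have := MulAction.fixedBy_subset_fixedBy_zpow (Tup G n) g
      obtain ⟨k, rfl⟩ := mem_zpowers_of_prime_card (Nat.card_eq_fintype_card.trans hG) hg (g' := x)
      simpa [tup_smul] using congrFun (congrArg Subtype.val (this k a.2)) 1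
    exact ⟨h2, by simpa [h2, hG] using (Finset.sum_congr rfl fun x _ => h2 x).symm.trans a.1.2.1⟩
  split_ifs with h
  · obtain ⟨k, rfl⟩ := h
    have := hr.two_le
    refine Nat.card_eq_one_iff_exists.2 ⟨⟨⟨fun _ => k, by simp [hG], fun _ => by nlinarith [Nat.pos_of_mul_pos_left hn]⟩, rfl⟩,
      fun a => Subtype.ext (Subtype.ext (funext fun x => ((h1 a).1 x).trans (Nat.eq_of_mul_eq_mul_left hr.pos (h1 a).2)))⟩
  · exact Nat.card_eq_zero.2 (Or.inl ⟨fun a => h ⟨_, (h1 a).2.symm⟩⟩)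

theorem card_orb (hr : r.Prime) (hG : Fintype.card G = r) (hn : 0 < n) :
    Nat.card (Quotient (MulAction.orbitRel G (Tup G n))) =
      ((n + r - 1).choose (r - 1) - r - if r ∣ n then 1 else 0) / r + if r ∣ n then 1 else 0 := by
  classical
  haveI := Fintype.ofFinite (Tup G n)
  haveI := Fintype.ofFinite (Quotient (MulAction.orbitRel G (Tup G n)))
  have h1 := MulAction.sum_card_fixedBy_eq_card_orbits_mul_card_group G (Tup G n)
  have h2 := card_tup (G := G) hn
  simp only [← Nat.card_eq_fintype_card (α := MulAction.fixedBy _ _), ← Nat.card_eq_fintype_card (α := Quotient _)] at h1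
  rw [← Finset.add_sum_erase _ _ (Finset.mem_univ 1), Finset.sum_congr rfl fun g hg => card_fixed hr hG hn (by simpa using hg),
    MulAction.fixedBy_one_eq_univ, Nat.card_univ, Finset.sum_const, Finset.card_erase_of_mem (Finset.mem_univ 1),
    Finset.card_univ, hG, smul_eq_mul] at h1
  rw [hG] at h2
  rw [← h2, Nat.add_sub_cancel]
  have := hr.two_le
  generalize Nat.card (Quotient _) = a at h1 ⊢
  split_ifs at h1 ⊢ with h
  · obtain _ | a := a
    · omega
    rw [show Nat.card (Tup G n) - 1 = a * r by rw [add_mul] at h1; omega, Nat.mul_div_cancel _ hr.pos]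
  · rw [show Nat.card (Tup G n) - 0 = a * r by omega, Nat.mul_div_cancel _ hr.pos, add_zero]

end

variable {F V : Type*} [Field F] [AddCommGroup V] [Module F V] [FiniteDimensional F V] {y y' : End F V} {r : ℕ}

theorem iso_of_sqfree {P : F[X]} (hP : Squarefree P) (h1 : aeval y P = 0) (h2 : aeval y' P = 0)
    (h : ∀ f : F[X], f.Monic → Irreducible f → f ∣ P → kd y f = kd y' f) : Iso y y' := by
  have key : ∀ y : End F V, aeval y P = 0 → ∀ p : F[X], p.Monic → Irreducible p →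
      (∀ k, kd y (p ^ (k + 1)) = kd y p) ∧ (¬ p ∣ P → kd y p = 0) := fun y hy p k1 k2 => by
    obtain ⟨M, l1, l2⟩ := exists_hasTyp y
    have l3 : ∀ f ∈ M, f = p ∧ p ∣ P ∨ IsCoprime f p := fun f hf => by
      have l4 := (l2.aeval_eq_zero_iff P).1 hy f hf
      obtain ⟨q, e, m1, m2, m3, rfl⟩ := l1 f hf
      obtain rfl : e = 1 := by
        by_contra hne
        exact m2.not_isUnit (hP.squarefree_of_dvd l4 q (by rw [← pow_two]; exact pow_dvd_pow q (by omega)))
      rw [pow_one] at l4 ⊢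
      exact (eq_or_ne q p).imp (fun e => ⟨e, e ▸ l4⟩) (coprime_of_ne m1 k1 m2 k2)
    simp only [l2.kd fun f hf => (l1.monic hf).ne_zero]
    refine ⟨fun k => congrArg _ (Multiset.map_congr rfl fun f hf => ?_), fun hp => Multiset.sum_eq_zero fun a ha => ?_⟩
    · rcases l3 f hf with ⟨rfl, -⟩ | e
      · rw [kd1_of_dvd (dvd_pow_self f k.succ_ne_zero), kd1_of_dvd dvd_rfl]
      · rw [kd1_of_coprime e, kd1_of_coprime e.pow_right]
    · obtain ⟨f, hf, rfl⟩ := Multiset.mem_map.1 ha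
      exact kd1_of_coprime ((l3 f hf).resolve_left fun e => hp e.2)
  refine iso_of_kd fun p k1 k2 k => ?_
  obtain _ | k := k
  · rw [pow_zero, kd, kd, map_one, map_one]
  rw [(key y h1 p k1 k2).1, (key y' h2 p k1 k2).1]
  by_cases hp : p ∣ P
  · exact h p k1 k2 hp
  · rw [(key y h1 p k1 k2).2 hp, (key y' h2 p k1 k2).2 hp]

theorem aeval_pow_sub {z : F} (h : y ^ r = z • 1) : aeval y (X ^ r - C z) = 0 := by
  simp [h, Algebra.algebraMap_eq_smul_one]

theorem lin_of_dvd (hr : r.Prime) {ζ w : F} (hζ : IsPrimitiveRoot ζ r) {f : F[X]} (h1 : f.Monic) (h2 : Irreducible f)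
    (h : f ∣ X ^ r - C (w ^ r)) : ∃ c, c ^ r = w ^ r ∧ f = X - C c := by
  have h3 := (X_pow_sub_C_splits_of_isPrimitiveRoot hζ rfl).of_dvd (X_pow_sub_C_ne_zero hr.pos _) h
  have h4 := h1.eq_X_add_C (natDegree_eq_of_degree_eq_some (h3.degree_eq_one_of_irreducible h2))
  rw [← sub_neg_eq_add, ← C_neg] at h4
  exact ⟨_, by
    have := dvd_iff_isRoot.1 (h4 ▸ h)
    rwa [IsRoot, eval_sub, eval_pow, eval_X, eval_C, sub_eq_zero] at this, h4⟩

theorem iso_of_pow (hr : r.Prime) {ζ z : F} (hζ : IsPrimitiveRoot ζ r) (hz : z ≠ 0) (h1 : y ^ r = z • 1) (h2 : y' ^ r = z • 1)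
    (h : ∀ c, c ^ r = z → kd y (X - C c) = kd y' (X - C c)) : Iso y y' := by
  haveI : NeZero r := ⟨hr.ne_zero⟩
  refine iso_of_sqfree (separable_X_pow_sub_C z hζ.neZero'.out hz).squarefree (aeval_pow_sub h1) (aeval_pow_sub h2)
    fun f k1 k2 k3 => ?_
  by_cases hw : ∃ w, w ^ r = z
  · obtain ⟨w, rfl⟩ := hw
    obtain ⟨c, l1, rfl⟩ := lin_of_dvd hr hζ k1 k2 k3
    exact h c l1
  · rw [eq_of_monic_of_associated k1 (monic_X_pow_sub_C z hr.ne_zero) (k2.associated_of_dvd
      (X_pow_sub_C_irreducible_of_prime hr (not_exists.1 hw)) k3), (kd_eq_finrank_iff _ _).2 (aeval_pow_sub h1),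
      (kd_eq_finrank_iff _ _).2 (aeval_pow_sub h2)]

theorem kd_smul {c : F} (hc : c ≠ 0) (d : F) : kd (c • y) (X - C (d * c)) = kd y (X - C d) := by
  rw [kd, kd, ← LinearMap.ker_smul (aeval y _) c hc, show aeval (c • y) (X - C (d * c)) = c • aeval y (X - C d) by
    simp [Algebra.algebraMap_eq_smul_one, smul_sub, smul_smul, mul_comm]]

theorem kd_lin {μ : Type*} [DecidableEq μ] {v : μ → F} (hv : Function.Injective v) {N : Multiset μ}
    (h : HasTyp y (N.map fun a => X - C (v a))) (a : μ) : kd y (X - C (v a)) = N.count a := by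
  rw [h.kd fun f hf => by obtain ⟨b, -, rfl⟩ := Multiset.mem_map.1 hf; exact X_sub_C_ne_zero _, Multiset.map_map]
  clear h
  induction N using Multiset.induction_on with
  | empty => simp
  | cons b N ih =>
    rw [Multiset.map_cons, Multiset.sum_cons, ih, Multiset.count_cons, add_comm, Function.comp]
    split_ifs with e
    · rw [e, kd1_of_dvd dvd_rfl, natDegree_X_sub_C]
    · rw [kd1_of_coprime (isCoprime_X_sub_C_of_isUnit_sub (sub_ne_zero.2 (hv.ne (Ne.symm e))).isUnit)]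

theorem Iso.pow_smul [Nontrivial V] {c z z' : F} (h : Iso (c • y) y') (h1 : y ^ r = z • 1) (h2 : y' ^ r = z' • 1) :
    c ^ r * z = z' := by
  have := (h.aeval _).eq_zero_iff.2 (aeval_pow_sub h2)
  simp only [map_sub, map_pow, aeval_X, aeval_C, Algebra.algebraMap_eq_smul_one, _root_.smul_pow, h1, smul_smul, ← sub_smul,
    smul_eq_zero, one_ne_zero, or_false] at this
  exact sub_eq_zero.1 this

theorem count_proj [Fintype F] {G : Type*} [Group G] (ρ : G →* End F V) (S : Subgroup Fˣ) (hr : r.Prime) (hd : r ∣ Nat.card S)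
    (hn : 0 < finrank F V) (hZ : ∀ g, g ∈ Subgroup.center G ↔ ∃ c : S, ρ g = (c.1 : F) • 1)
    (hF : ∀ a b, Iso (ρ a) (ρ b) → IsConj a b) (hE : ∀ (y : End F V) (z : S), y ^ r = (z.1 : F) • 1 → ∃ a, Iso y (ρ a))
    (hC : ∀ w : Fˣ, w ^ r ∈ S → w ∈ S) :
    Nat.card {x : ConjClasses (G ⧸ Subgroup.center G) // ∃ g, ConjClasses.mk g = x ∧ orderOf g = r} =
      ((finrank F V + r - 1).choose (r - 1) - r - if r ∣ finrank F V then 1 else 0) / r +
        r * if r ∣ finrank F V then 1 else 0 := by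
  classical
  haveI := Fact.mk hr
  haveI := Module.nontrivial_of_finrank_pos hn
  let μ := (powMonoidHom r : S →* S).ker
  let R := (powMonoidHom r : S →* S).range
  let v : μ → F := fun a => a.1.1
  have hv : Function.Injective v := fun a b h => Subtype.ext (Subtype.ext (Units.ext h))
  have hv' : ∀ a, v a ^ r = 1 := fun a => by simpa [v] using congrArg (fun s : S => (s.1 : F)) a.2
  have hS : ∀ (w : F) (z : S), w ^ r = z.1 → ∃ s : S, (s.1 : F) = w ∧ s ^ r = z := fun w z h => by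
    have h1 : w ≠ 0 := fun e => z.1.ne_zero (by rw [← h, e, zero_pow hr.ne_zero])
    have h2 : Units.mk0 w h1 ^ r = z.1 := Units.ext (by simpa using h)
    exact ⟨⟨Units.mk0 w h1, hC _ (h2 ▸ z.2)⟩, rfl, Subtype.ext h2⟩
  have hμ : ∀ w : F, w ^ r = 1 → ∃ a, v a = w := fun w h => (hS w 1 h).elim fun s hs => ⟨⟨s, hs.2⟩, hs.1⟩
  obtain ⟨ζ, hζ⟩ : ∃ ζ : F, IsPrimitiveRoot ζ r := by
    obtain ⟨s, hs⟩ := exists_prime_orderOf_dvd_card' r hd
    exact ⟨s.1, IsPrimitiveRoot.iff_orderOf.2 (by rw [orderOf_units, Subgroup.orderOf_coe, hs])⟩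
  have hcj : ∀ g h : G, IsConj (g : G ⧸ Subgroup.center G) h ↔ ∃ c : S, Iso ((c.1 : F) • ρ g) (ρ h) := fun g h => by
    constructor
    · intro e
      obtain ⟨k, hk⟩ := isConj_iff.1 e
      obtain ⟨k, rfl⟩ := QuotientGroup.mk_surjective k
      obtain ⟨c, hc⟩ := (hZ _).1 (QuotientGroup.eq.1 (show ((k * g * k⁻¹ : G) : G ⧸ Subgroup.center G) = h from hk))
      refine ⟨c, LinearEquiv.ofLinear (ρ k) (ρ k⁻¹) ((map_mul ρ _ _).symm.trans (by simp [End.one_eq_id]))
        ((map_mul ρ _ _).symm.trans (by simp [End.one_eq_id])), fun w => ?_⟩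
      have : ρ h * ρ k = ρ k * ρ g * ρ k⁻¹ * ρ ((k * g * k⁻¹)⁻¹ * h) * ρ k := by simp only [← map_mul]; group
      rw [hc, mul_smul_comm, mul_one, smul_mul_assoc, mul_assoc, ← map_mul ρ k⁻¹, inv_mul_cancel, map_one, mul_one] at this
      simpa using (LinearMap.congr_fun this w).symm
    · rintro ⟨c, hc⟩
      obtain ⟨s, e, he⟩ := hE ((c.1 : F) • 1) (c ^ r) (by simp [_root_.smul_pow])
      have h1 : ρ s = (c.1 : F) • 1 := LinearMap.ext fun w => by
        obtain ⟨w, rfl⟩ := e.surjective w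
        simpa using (he w).symm
      have := (QuotientGroup.mk' (Subgroup.center G)).map_isConj (hF (s * g) h (by rwa [map_mul, h1, smul_mul_assoc, one_mul]))
      rwa [map_mul, QuotientGroup.mk'_apply, (QuotientGroup.eq_one_iff s).2 ((hZ s).2 ⟨c, h1⟩), one_mul] at this
  have hord : ∀ g : G, orderOf (g : G ⧸ Subgroup.center G) = r ↔
      (∃ z : S, ρ g ^ r = (z.1 : F) • 1) ∧ g ∉ Subgroup.center G := fun g => by
    rw [orderOf_eq_prime_iff, ← QuotientGroup.mk_pow, QuotientGroup.eq_one_iff, Ne, QuotientGroup.eq_one_iff, hZ, map_pow]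
  have hty : ∀ y : End F V, y ^ r = 1 → ∑ a, kd y (X - C (v a)) = finrank F V := fun y hy => by
    obtain ⟨M, l1, l2⟩ := exists_hasTyp y
    have l3 : ∀ f ∈ M, ∃ a, X - C (v a) = f := fun f hf => by
      have l4 := (l2.aeval_eq_zero_iff _).1 (aeval_pow_sub (z := 1 ^ r) (by simpa using hy)) f hf
      obtain ⟨q, e, m1, m2, m3, rfl⟩ := l1 f hf
      obtain rfl : e = 1 := by
        by_contra hne
        haveI : NeZero r := ⟨hr.ne_zero⟩
        exact m2.not_isUnit ((separable_X_pow_sub_C _ hζ.neZero'.out (by simp)).squarefree.squarefree_of_dvd l4 q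
          (by rw [← pow_two]; exact pow_dvd_pow q (by omega)))
      rw [pow_one] at l4 ⊢
      obtain ⟨c, n1, rfl⟩ := lin_of_dvd hr hζ m1 m2 l4
      obtain ⟨a, rfl⟩ := hμ c (by simpa using n1)
      exact ⟨a, rfl⟩
    choose u hu using l3
    obtain ⟨N, rfl⟩ : ∃ N : Multiset μ, N.map (fun a => X - C (v a)) = M :=
      ⟨M.pmap u fun _ h => h, by simp [Multiset.map_pmap, hu, Multiset.pmap_eq_map]⟩
    simp only [kd_lin hv l2, l2.finrank fun f hf => (l1.monic hf).ne_zero]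
    simp [Multiset.sum_count_eq_card]
  have hlt : ∀ g : G, g ∉ Subgroup.center G → ∀ a, kd (ρ g) (X - C (v a)) < finrank F V := fun g hg a =>
    lt_of_le_of_ne (kd_le _ _) fun e => hg ((hZ g).2 ⟨a.1, by
      simpa [sub_eq_zero, Algebra.algebraMap_eq_smul_one] using (kd_eq_finrank_iff _ _).1 e⟩)
  have hns : ∀ z : S, z ∉ R → ∀ w : F, w ^ r ≠ z.1 := fun z hz w e => hz ((hS w z e).imp fun _ h => h.2)
  have hnc : ∀ (g : G) (z : S), ρ g ^ r = (z.1 : F) • 1 → z ∉ R → g ∉ Subgroup.center G := fun g z h1 h2 h3 => by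
    obtain ⟨c, hc⟩ := (hZ g).1 h3
    rw [hc, _root_.smul_pow, one_pow] at h1
    exact hns z h2 _ (smul_left_injective F one_ne_zero h1)
  let α := {g : G // ρ g ^ r = 1 ∧ g ∉ Subgroup.center G} ⊕ {x : G × S // ρ x.1 ^ r = (x.2.1 : F) • 1 ∧ x.2 ∉ R}
  let φ : α → {x : ConjClasses (G ⧸ Subgroup.center G) // ∃ g, ConjClasses.mk g = x ∧ orderOf g = r} := Sum.elim
    (fun g => ⟨_, (g.1 : G ⧸ Subgroup.center G), rfl, (hord _).2 ⟨⟨1, by simpa using g.2.1⟩, g.2.2⟩⟩)
    (fun x => ⟨_, (x.1.1 : G ⧸ Subgroup.center G), rfl, (hord _).2 ⟨⟨_, x.2.1⟩, hnc _ _ x.2.1 x.2.2⟩⟩)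
  let ψ : α → Quotient (MulAction.orbitRel μ (Tup μ (finrank F V))) ⊕ {x : S ⧸ R // x ≠ 1 ∧ r ∣ finrank F V} := Sum.map
    (fun g => Quotient.mk _ ⟨fun a => kd (ρ g.1) (X - C (v a)), hty _ g.2.1, hlt _ g.2.2⟩)
    (fun x => ⟨x.1.2, by rw [Ne, QuotientGroup.eq_one_iff]; exact x.2.2,
      (det_nonsplit hr (hns _ x.2.2) x.2.1).elim fun s hs => ⟨s, hs.1⟩⟩)
  have hmix : ∀ (g h : G) (z c : S), ρ g ^ r = 1 → ρ h ^ r = (z.1 : F) • 1 → z ∉ R → ¬ IsConj (g : G ⧸ Subgroup.center G) h :=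
    fun g h z _ h1 h2 h3 e => by
    obtain ⟨c, hc⟩ := (hcj g h).1 e
    exact hns z h3 c.1 (by simpa using Iso.pow_smul (z := 1) hc (by simpa using h1) h2)
  rw [card_eq_of_ker (φ := φ) (ψ := ψ) ?_ ?_ ?_, Nat.card_sum, card_orb hr ?_ hn, add_assoc]
  · congr 1
    have h1 : Nat.card (S ⧸ R) = r := (IsCyclic.index_powMonoidHom_range S r).trans (Nat.gcd_eq_right hd)
    split_ifs with h
    · simp only [h, and_true]
      rw [Nat.card_eq_fintype_card, Fintype.card_subtype_compl, Fintype.card_subtype_eq, ← Nat.card_eq_fintype_card, h1]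
      have := hr.two_le
      omega
    · simp [h]
  · rw [← Nat.card_eq_fintype_card]; exact (IsCyclic.card_powMonoidHom_ker S r).trans (Nat.gcd_eq_right hd)
  · rintro ⟨_, g, rfl, hg⟩
    obtain ⟨g, rfl⟩ := QuotientGroup.mk_surjective g
    obtain ⟨⟨z, h1⟩, h2⟩ := (hord g).1 hg
    by_cases hz : z ∈ R
    · obtain ⟨c, rfl⟩ := hz
      obtain ⟨a, ha⟩ := hE (((c⁻¹ : S).1 : F) • ρ g) 1 (by simp [_root_.smul_pow, h1, smul_smul])
      have h3 := (hcj g a).2 ⟨_, ha⟩
      refine ⟨.inl ⟨a, ?_, fun e => h2 ?_⟩, Subtype.ext (ConjClasses.mk_eq_mk_iff_isConj.2 h3.symm)⟩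
      · simpa [sub_eq_zero] using (ha.aeval (X ^ r - C 1)).eq_zero_iff.1 (aeval_pow_sub (by simp [_root_.smul_pow, h1, smul_smul]))
      · rwa [(QuotientGroup.eq_one_iff a).2 e, isConj_one_left, QuotientGroup.eq_one_iff] at h3
    · exact ⟨.inr ⟨(g, z), h1, hz⟩, rfl⟩
  · rintro (a | ⟨x, h1, s, hs⟩)
    · obtain ⟨⟨a, h1, h2⟩, rfl⟩ := Quotient.mk_surjective a
      obtain ⟨N, hN⟩ := (Sym.equivNatSumOfFintype μ _).surjective ⟨a, h1⟩
      obtain rfl : (fun x => N.1.count x) = a := congrArg Subtype.val hN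
      obtain ⟨y, hy⟩ := exists_end_typ (V := V) (M := N.1.map fun a => X - C (v a)) (fun f hf => by
        obtain ⟨b, -, rfl⟩ := Multiset.mem_map.1 hf; exact X_sub_C_ne_zero _) (by simp)
      have h3 : aeval y (X ^ r - 1 : F[X]) = 0 := (hy.aeval_eq_zero_iff _).2 fun f hf => by
        obtain ⟨b, -, rfl⟩ := Multiset.mem_map.1 hf; simp [dvd_iff_isRoot, hv']
      obtain ⟨g, hg⟩ := hE y 1 (by simpa [sub_eq_zero] using h3)
      have h4 := kd_lin hv (hy.of_iso hg.symm)
      have h5 : ρ g ^ r = 1 := by simpa [sub_eq_zero] using (hg.aeval _).eq_zero_iff.1 h3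
      refine ⟨.inl ⟨g, h5, fun e => ?_⟩, congrArg (fun a => Sum.inl (Quotient.mk _ a)) (Subtype.ext (funext h4))⟩
      obtain ⟨c, hc⟩ := (hZ g).1 e
      rw [hc, _root_.smul_pow, one_pow, ← one_smul F (1 : End F V), smul_smul, mul_one] at h5
      obtain ⟨a, ha⟩ := hμ _ (smul_left_injective F one_ne_zero h5)
      exact (h2 a).ne ((h4 a).symm.trans ((kd_eq_finrank_iff _ _).2 (by simp [hc, ha, Algebra.algebraMap_eq_smul_one])))
    · obtain ⟨z, rfl⟩ := QuotientGroup.mk_surjective x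
      obtain ⟨y, hy⟩ := exists_nonsplit hr.ne_zero (z.1 : F) hs
      obtain ⟨g, hg⟩ := hE y z hy
      exact ⟨.inr ⟨(g, z), by simpa [sub_eq_zero, Algebra.algebraMap_eq_smul_one] using
        (hg.aeval _).eq_zero_iff.1 (aeval_pow_sub hy), fun e => h1 ((QuotientGroup.eq_one_iff z).2 e)⟩, rfl⟩
  · rintro (⟨g, h1, h2⟩ | ⟨⟨g, z⟩, h1, h2⟩) (⟨h, k1, k2⟩ | ⟨⟨h, z'⟩, k1, k2⟩) <;>
      simp only [φ, ψ, Sum.elim_inl, Sum.elim_inr, Sum.map_inl, Sum.map_inr, Subtype.mk.injEq, ConjClasses.mk_eq_mk_iff_isConj,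
        Sum.inl.injEq, Sum.inr.injEq, reduceCtorEq, iff_false]
    · refine (hcj g h).trans (Iff.trans ?_ (Quotient.eq.trans MulAction.orbitRel_apply).symm)
      constructor
      · rintro ⟨c, hc⟩
        refine ⟨⟨c, Subtype.ext (Units.ext ?_)⟩, Subtype.ext (funext fun a => ?_)⟩
        · simpa using Iso.pow_smul (z := 1) (z' := 1) hc (by simpa using h1) (by simpa using k1)
        · exact (hc.kd _).symm.trans (kd_smul c.1.ne_zero _)
      · rintro ⟨c, hc⟩
        refine ⟨c.1, iso_of_pow hr hζ one_ne_zero (by rw [_root_.smul_pow, h1]; exact congrArg (· • 1) (hv' c))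
          (by simpa using k1) fun d hd => ?_⟩
        obtain ⟨a, rfl⟩ := hμ d hd
        obtain ⟨a, rfl⟩ := (Equiv.mulRight c).surjective a
        exact (kd_smul c.1.1.ne_zero _).trans (congrFun (congrArg Subtype.val hc) a).symm
    · exact hmix g h z' 1 h1 k1 k2
    · exact fun e => hmix h g z 1 k1 h1 h2 e.symm
    · rw [hcj, QuotientGroup.eq]
      constructor
      · rintro ⟨c, hc⟩
        refine ⟨c, eq_inv_mul_of_mul_eq (Subtype.ext (Units.ext ?_))⟩
        simpa [mul_comm] using Iso.pow_smul hc h1 k1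
      · rintro ⟨c, hc⟩
        obtain rfl : z' = z * c ^ r := (eq_inv_mul_iff_mul_eq.1 hc).symm
        exact ⟨c, iso_of_pow hr hζ (Units.ne_zero _) (by simp [_root_.smul_pow, show ρ g ^ r = _ from h1, smul_smul, mul_comm])
          k1 fun d hd => absurd hd (hns _ k2 d)⟩

variable (F) in
/-- the natural representation -/
noncomputable def glEnd (n : ℕ) : GL (Fin n) F →* End F (Fin n → F) :=
  (Matrix.toLinAlgEquiv' (R := F) (n := Fin n)).toMonoidHom.comp (Units.coeHom _)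

theorem glEnd_apply {n : ℕ} (g : GL (Fin n) F) : glEnd F n g = Matrix.toLin' g.1 := rfl

theorem exists_glEnd {n : ℕ} (hr : r ≠ 0) {y : End F (Fin n → F)} {z : Fˣ} (h : y ^ r = (z : F) • 1) : ∃ g, glEnd F n g = y := by
  have h1 : IsUnit y := (isUnit_pow_iff hr).1 (h ▸ Algebra.algebraMap_eq_smul_one (A := End F (Fin n → F)) (z : F) ▸ z.isUnit.map _)
  exact ⟨(h1.map (Matrix.toLinAlgEquiv' (R := F) (n := Fin n)).symm).unit, by simp [glEnd]⟩

theorem selfdual_of_pow [Fintype F] {q n : ℕ} (hK : Nat.card F = q ^ 2) (hr : r.Prime) {ζ : F} (hζ : IsPrimitiveRoot ζ r)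
    (g : GL (Fin n) F) {z : F} (h : g.1 ^ r = z • 1) (hz : H10.conj hK z * z = 1)
    (hc : ∀ c, c ^ r = z → H10.conj hK c * c = 1) : IsConj g.1 (H24.Uni.st hK g.1)⁻¹ := by
  rw [H24.Uni.st_inv, isConj_iff_iso]
  have h1 : ∀ A : Matrix (Fin n) (Fin n) F, A ^ r = z • 1 → (Matrix.toLin' A : End F _) ^ r = z • 1 := fun A h => by
    rw [← Matrix.toLin'_pow, h, map_smul, Matrix.toLin'_one]; rfl
  have h2 : (g⁻¹).1 ^ r = H10.conj hK z • 1 := by
    have : (g⁻¹).1 ^ r * g.1 ^ r = 1 := by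
      rw [← Units.val_pow_eq_pow_val, ← Units.val_pow_eq_pow_val, ← Units.val_mul, inv_pow, inv_mul_cancel, Units.val_one]
    rw [← this, h, mul_smul_comm, smul_smul, hz, one_smul, mul_one]
  refine iso_of_pow hr hζ (right_ne_zero_of_mul_eq_one hz) (h1 _ h) (h1 _ (by
    rw [← H24.Uni.st_pow, h2, H24.Uni.st_smul, H10.conj_conj, H24.Uni.st_one])) fun c e => ?_
  have h3 := kd_add_rank g.1 (X - C c)
  have h4 := kd_add_rank (H24.Uni.st hK (g⁻¹).1) (X - C c)
  have h5 : (-H10.conj hK c • (g⁻¹).1) * aeval g.1 (X - C c) = (g⁻¹).1 - H10.conj hK c • 1 := by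
    rw [map_sub, aeval_X, aeval_C, Algebra.algebraMap_eq_smul_one, smul_mul_assoc, mul_sub, Units.inv_mul, mul_smul_comm,
      mul_one, smul_sub, smul_smul, neg_mul, hc c e]
    simp [sub_eq_add_neg, add_comm]
  have h6 : aeval (H24.Uni.st hK (g⁻¹).1) (X - C c) = H24.Uni.st hK ((g⁻¹).1 - H10.conj hK c • 1) := by
    simp [Algebra.algebraMap_eq_smul_one, H24.Uni.st_smul, H24.Uni.st_one, H10.conj_conj]
  rw [h6, ← h5, H24.Uni.rank_st, Matrix.rank_mul_eq_right_of_isUnit_det _ _ ((Matrix.isUnit_iff_isUnit_det _).1 (by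
    exact (g⁻¹).isUnit.smul (Units.mk0 _ (neg_ne_zero.2 (left_ne_zero_of_mul_eq_one (hc c e))))))] at h4
  omega

end H16.Cc
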