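import Mathlib
import Cfsg.Agent.H24.Sim3

/-! The sequence of polynomials `hs M i` attached to a similarity type `M`
(product of the irreducible `p` with `p ^ i ∈ M`), and norms on `F[X]/(p^e)`. -/

namespace H16
namespace Cnt

open Polynomial Finset H24.Sim Module

variable {F : Type*} [Field F]

/-- `f` is a power of a monic irreducible polynomial -/
def IsPP (f : F[X]) : Prop := ∃ x : F[X] × ℕ, x.1.Monic ∧ Irreducible x.1 ∧ 0 < x.2 ∧ f = x.1 ^ x.2

open Classical in
/-- base and exponent of a prime power -/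
noncomputable def be (f : F[X]) : F[X] × ℕ := if h : IsPP f then h.choose else (1, 0)

lemma be_pow {p : F[X]} (hp : p.Monic) (hi : Irreducible p) {e : ℕ} (he : 0 < e) :
    be (p ^ e) = (p, e) := by
  have h : IsPP (p ^ e) := ⟨(p, e), hp, hi, he, rfl⟩
  rw [be, dif_pos h]
  obtain ⟨h1, h2, h3, h4⟩ := h.choose_spec
  obtain ⟨h5, h6⟩ := pow_inj hp h1 hi h2 he h4
  exact Prod.ext h5.symm h6.symm

lemma be_spec {M : Multiset F[X]} (hM : IsTyp M) {f : F[X]} (hf : f ∈ M) :
    (be f).1.Monic ∧ Irreducible (be f).1 ∧ 0 < (be f).2 ∧ f = (be f).1 ^ (be f).2 := by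
  obtain ⟨p, e, h1, h2, h3, rfl⟩ := hM f hf
  rw [be_pow h1 h2 h3]
  exact ⟨h1, h2, h3, rfl⟩

/-- the irreducible factors occurring with exponent `i` -/
noncomputable def fs (M : Multiset F[X]) (i : ℕ) : Multiset F[X] :=
  (M.filter fun f => (be f).2 = i).map fun f => (be f).1

/-- the polynomial attached to the exponent `i` -/
noncomputable def hs (M : Multiset F[X]) (i : ℕ) : F[X] := (fs M i).prod

lemma mem_fs {M : Multiset F[X]} (hM : IsTyp M) {i : ℕ} {p : F[X]} (h : p ∈ fs M i) :
    p.Monic ∧ Irreducible p ∧ 0 < i ∧ p ^ i ∈ M := by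
  obtain ⟨f, hf, rfl⟩ := Multiset.mem_map.mp h
  rw [Multiset.mem_filter] at hf
  obtain ⟨h1, h2, h3, h4⟩ := be_spec hM hf.1
  refine ⟨h1, h2, hf.2 ▸ h3, ?_⟩
  rw [← hf.2, ← h4]; exact hf.1

lemma count_fs [DecidableEq F] {M : Multiset F[X]} (hM : IsTyp M) {p : F[X]} (hp : p.Monic)
    (hi : Irreducible p) {i : ℕ} (h0 : 0 < i) : (fs M i).count p = M.count (p ^ i) := by
  rw [fs, Multiset.count_map, Multiset.filter_filter, Multiset.count_eq_card_filter_eq]
  congr 1
  refine Multiset.filter_congr fun f hf => ?_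
  obtain ⟨h1, h2, h3, h4⟩ := be_spec hM hf
  constructor
  · rintro ⟨h5, h6⟩
    rw [h4, ← h5, h6]
  · rintro rfl
    rw [be_pow hp hi h0]; exact ⟨rfl, rfl⟩

lemma monic_hs {M : Multiset F[X]} (hM : IsTyp M) (i : ℕ) : (hs M i).Monic :=
  monic_multiset_prod_of_monic _ _ fun f hf => (be_spec hM (Multiset.mem_filter.mp hf).1).1

lemma eq_of_prod_eq {S T : Multiset F[X]} (hS : ∀ p ∈ S, p.Monic ∧ Irreducible p)
    (hT : ∀ p ∈ T, p.Monic ∧ Irreducible p) (h : S.prod = T.prod) : S = T := by
  classical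
  have h1 := UniqueFactorizationMonoid.normalizedFactors_prod_eq S fun p hp => (hS p hp).2
  have h2 := UniqueFactorizationMonoid.normalizedFactors_prod_eq T fun p hp => (hT p hp).2
  rw [Multiset.map_congr rfl fun p hp => (hS p hp).1.normalize_eq_self, Multiset.map_id'] at h1
  rw [Multiset.map_congr rfl fun p hp => (hT p hp).1.normalize_eq_self, Multiset.map_id'] at h2
  rw [← h1, ← h2, h]

lemma fs_eq_of_hs {M N : Multiset F[X]} (hM : IsTyp M) (hN : IsTyp N) {i : ℕ} (h : hs M i = hs N i) :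
    fs M i = fs N i :=
  eq_of_prod_eq (fun _ hp => ⟨(mem_fs hM hp).1, (mem_fs hM hp).2.1⟩)
    (fun _ hp => ⟨(mem_fs hN hp).1, (mem_fs hN hp).2.1⟩) h

theorem eq_of_hs {M N : Multiset F[X]} (hM : IsTyp M) (hN : IsTyp N)
    (h : ∀ i, 0 < i → hs M i = hs N i) : M = N := by
  classical
  have key : ∀ {M N : Multiset F[X]}, IsTyp M → IsTyp N → (∀ i, 0 < i → hs M i = hs N i) →
      ∀ f ∈ M, M.count f = N.count f := by
    intro M N hM hN h f hf
    obtain ⟨p, e, h1, h2, h3, rfl⟩ := hM f hf
    rw [← count_fs hM h1 h2 h3, ← count_fs hN h1 h2 h3, fs_eq_of_hs hM hN (h e h3)]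
  ext f
  by_cases h1 : f ∈ M
  · exact key hM hN h f h1
  by_cases h2 : f ∈ N
  · exact (key hN hM (fun i hi => (h i hi).symm) f h2).symm
  rw [Multiset.count_eq_zero.mpr h1, Multiset.count_eq_zero.mpr h2]

lemma hs_cons {f : F[X]} (M : Multiset F[X]) (i : ℕ) :
    hs (f ::ₘ M) i = (if (be f).2 = i then (be f).1 else 1) * hs M i := by
  unfold hs fs
  by_cases h : (be f).2 = i
  · rw [Multiset.filter_cons_of_pos (p := fun f => (be f).2 = i) _ h, Multiset.map_cons, Multiset.prod_cons, if_pos h]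
  · rw [Multiset.filter_cons_of_neg (p := fun f => (be f).2 = i) _ h, if_neg h, one_mul]

theorem prod_hs {M : Multiset F[X]} (hM : IsTyp M) {k : ℕ} (hk : ∀ f ∈ M, (be f).2 ≤ k) :
    ∏ i ∈ Ico 1 (1 + k), hs M i ^ i = M.prod := by
  induction M using Multiset.induction_on with
  | empty => simp [hs, fs]
  | cons f M ih =>
    have hM' : IsTyp M := fun g hg => hM g (Multiset.mem_cons_of_mem hg)
    obtain ⟨h1, h2, h3, h4⟩ := be_spec hM (Multiset.mem_cons_self f M)
    have h5 := hk f (Multiset.mem_cons_self f M)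
    simp only [hs_cons, mul_pow, prod_mul_distrib]
    rw [ih hM' fun g hg => hk g (Multiset.mem_cons_of_mem hg), Multiset.prod_cons]
    congr 1
    rw [prod_eq_single (be f).2]
    · rw [if_pos rfl, ← h4]
    · intro i _ hi
      rw [if_neg hi.symm, one_pow]
    · intro h
      exact absurd (mem_Ico.mpr ⟨h3, by omega⟩) h

lemma be_le_deg {M : Multiset F[X]} (hM : IsTyp M) {f : F[X]} (hf : f ∈ M) :
    (be f).2 ≤ (M.map natDegree).sum := by
  obtain ⟨h1, h2, h3, h4⟩ := be_spec hM hf
  have h5 : f.natDegree ≤ (M.map natDegree).sum :=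
    Multiset.single_le_sum (fun _ _ => Nat.zero_le _) _ (Multiset.mem_map_of_mem _ hf)
  have h6 : f.natDegree = (be f).2 * (be f).1.natDegree := by
    conv_lhs => rw [h4]
    exact h1.natDegree_pow _
  have h7 := h2.natDegree_pos
  nlinarith

theorem deg_hs {M : Multiset F[X]} (hM : IsTyp M) {k : ℕ} (hk : ∀ f ∈ M, (be f).2 ≤ k) :
    ∑ i ∈ Ico 1 (1 + k), i * (hs M i).natDegree = (M.map natDegree).sum := by
  rw [← natDegree_multiset_prod_of_monic _ fun f hf => hM.monic hf, ← prod_hs hM hk,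
    natDegree_prod_of_monic _ _ fun i _ => (monic_hs hM i).pow i]
  exact sum_congr rfl fun i _ => ((monic_hs hM i).natDegree_pow i).symm

lemma hs_eq_one {M : Multiset F[X]} {i : ℕ} (h : ∀ f ∈ M, (be f).2 ≠ i) : hs M i = 1 := by
  unfold hs fs
  rw [Multiset.filter_eq_nil.mpr h]; simp

lemma exists_mem_of_deg {M : Multiset F[X]} (hM : IsTyp M) {i : ℕ} (h : 0 < (hs M i).natDegree) :
    ∃ p : F[X], p.Monic ∧ Irreducible p ∧ p ∣ hs M i ∧ p ^ i ∈ M := by
  rcases Multiset.empty_or_exists_mem (fs M i) with h0 | ⟨p, hp⟩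
  · rw [hs, h0] at h; simp at h
  · obtain ⟨h1, h2, -, h4⟩ := mem_fs hM hp
    exact ⟨p, h1, h2, Multiset.dvd_prod hp, h4⟩

lemma hs_coeff_ne_zero {M : Multiset F[X]} (hM : IsTyp M) (hX : ∀ f ∈ M, ¬ X ∣ f) (i : ℕ) :
    (hs M i).coeff 0 ≠ 0 := by
  intro h
  have h1 : X ∣ (fs M i).prod := X_dvd_iff.mpr h
  obtain ⟨p, hp, hd⟩ := prime_X.exists_mem_multiset_dvd h1
  obtain ⟨-, -, h3, h4⟩ := mem_fs hM hp
  exact hX _ h4 (hd.trans (dvd_pow_self p h3.ne'))

/-! ### determinants of polynomials in a matrix -/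

lemma det_aeval_pow_of_splits {K : Type*} [Field K] {n m : Type*} [Fintype n] [DecidableEq n] [Fintype m]
    [DecidableEq m] (A : Matrix n n K) (B : Matrix m m K) {e : ℕ} (h : A.charpoly = B.charpoly ^ e)
    {w : K[X]} (hw : w.Splits) : (aeval A w).det = (aeval B w).det ^ e := by
  have hc : Fintype.card n = Fintype.card m * e := by
    rw [← Matrix.charpoly_natDegree_eq_dim A, h, (Matrix.charpoly_monic B).natDegree_pow,
      Matrix.charpoly_natDegree_eq_dim, mul_comm]
  have h1 : ∀ c : K, (aeval A (C c)).det = (aeval B (C c)).det ^ e := by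
    intro c
    simp only [aeval_C, Algebra.algebraMap_eq_smul_one, Matrix.det_smul, Matrix.det_one, mul_one, hc,
      pow_mul]
  have h2 : ∀ c : K, (aeval A (X - C c)).det = (aeval B (X - C c)).det ^ e := by
    intro c
    have e1 : aeval A (X - C c) = -(Matrix.scalar n c - A) := by
      simp [Algebra.algebraMap_eq_smul_one, Matrix.smul_one_eq_diagonal]
    have e2 : aeval B (X - C c) = -(Matrix.scalar m c - B) := by
      simp [Algebra.algebraMap_eq_smul_one, Matrix.smul_one_eq_diagonal]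
    rw [e1, e2, Matrix.det_neg, Matrix.det_neg, ← Matrix.eval_charpoly, ← Matrix.eval_charpoly, h, hc,
      eval_pow, mul_pow, pow_mul]
  rw [hw.eq_prod_roots]
  generalize w.roots = R
  induction R using Multiset.induction_on with
  | empty => simpa using h1 w.leadingCoeff
  | cons c R ih =>
    rw [Multiset.map_cons, Multiset.prod_cons, mul_left_comm, map_mul, map_mul (aeval B), Matrix.det_mul,
      Matrix.det_mul, ih, h2, mul_pow]

lemma aeval_map_matrix {K : Type*} [Field K] (ι : F →+* K) {l : Type*} [Fintype l] [DecidableEq l]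
    (D : Matrix l l F) (w : F[X]) : aeval (D.map ι) (w.map ι) = (aeval D w).map ι := by
  have := Polynomial.map_aeval_eq_aeval_map (φ := ι) (ψ := (ι.mapMatrix : Matrix l l F →+* Matrix l l K))
    (by ext c i j; simp [Matrix.algebraMap_matrix_apply]; split_ifs <;> simp) w D
  exact this.symm

lemma det_aeval_pow {n m : Type*} [Fintype n] [DecidableEq n] [Fintype m]
    [DecidableEq m] (A : Matrix n n F) (B : Matrix m m F) {e : ℕ} (h : A.charpoly = B.charpoly ^ e)
    (w : F[X]) : (aeval A w).det = (aeval B w).det ^ e := by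
  let K := AlgebraicClosure F
  let ι := algebraMap F K
  apply ι.injective
  have h1 := det_aeval_pow_of_splits (A.map ι) (B.map ι) (e := e)
    (by rw [Matrix.charpoly_map, Matrix.charpoly_map, h, Polynomial.map_pow])
    (IsAlgClosed.splits (w.map ι))
  rw [aeval_map_matrix, aeval_map_matrix] at h1
  rw [map_pow, RingHom.map_det, RingHom.map_det]
  exact h1

lemma det_aeval_end_pow {V W : Type*} [AddCommGroup V] [Module F V] [AddCommGroup W] [Module F W]
    [Module.Finite F V] [Module.Finite F W] (s : End F V) (t : End F W) {e : ℕ}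
    (h : s.charpoly = t.charpoly ^ e) (w : F[X]) :
    LinearMap.det (aeval s w) = LinearMap.det (aeval t w) ^ e := by
  classical
  let b := Module.finBasis F V
  let c := Module.finBasis F W
  have h1 := det_aeval_pow (LinearMap.toMatrix b b s) (LinearMap.toMatrix c c t) (e := e)
    (by rw [LinearMap.charpoly_toMatrix, LinearMap.charpoly_toMatrix, h]) w
  have h2 := Polynomial.aeval_algHom_apply (LinearMap.toMatrixAlgEquiv b) s w
  have h3 := Polynomial.aeval_algHom_apply (LinearMap.toMatrixAlgEquiv c) t w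
  rw [← LinearMap.det_toMatrix b, ← LinearMap.det_toMatrix c]
  change (LinearMap.toMatrixAlgEquiv b (aeval s w)).det = (LinearMap.toMatrixAlgEquiv c (aeval t w)).det ^ e
  rw [← h2, ← h3]
  exact h1

lemma norm_mk_pow {p : F[X]} (hp : p.Monic) (e : ℕ) (w : F[X]) :
    Algebra.norm F (AdjoinRoot.mk (p ^ e) w) = Algebra.norm F (AdjoinRoot.mk p w) ^ e := by
  haveI := finite_adjoinRoot hp.ne_zero
  haveI := finite_adjoinRoot (hp.pow e).ne_zero
  have h1 := det_aeval_end_pow (Algebra.lmul F _ (AdjoinRoot.root (p ^ e)))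
    (Algebra.lmul F _ (AdjoinRoot.root p)) (e := e)
    (by rw [charpoly_root hp, charpoly_root (hp.pow e)]) w
  rw [Polynomial.aeval_algHom_apply, Polynomial.aeval_algHom_apply, AdjoinRoot.aeval_eq,
    AdjoinRoot.aeval_eq] at h1
  exact h1

theorem exists_commute_det_pp [Finite F] {n : Type*} [Fintype n] [DecidableEq n] {A : Matrix n n F}
    {p : F[X]} (hp : p.Monic) (hi : Irreducible p) {e : ℕ} (hf : p ^ e ∈ typ A) (c : F) :
    ∃ B : Matrix n n F, Commute B A ∧ B.det = c ^ e := by
  haveI := Fact.mk hi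
  haveI := finite_adjoinRoot hi.ne_zero
  haveI : Finite (AdjoinRoot p) := Module.finite_of_finite F
  obtain ⟨u, rfl⟩ := FiniteField.norm_surjective F (AdjoinRoot p) c
  obtain ⟨w, rfl⟩ := AdjoinRoot.mk_surjective u
  rw [← norm_mk_pow hp]
  exact exists_commute_det hf _

/-- monic polynomials of given degree whose constant term lies in a set of bounded size -/
lemma card_monic_le [Fintype F] (m : ℕ) (R : F → Prop) (t : Finset F[X])
    (h : ∀ f ∈ t, f.Monic ∧ f.natDegree = m + 1 ∧ R (f.coeff 0)) :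
    t.card ≤ Nat.card {c // R c} * Fintype.card F ^ m := by
  rw [← card_monic]
  haveI : Finite {f : F[X] // f.Monic ∧ f.natDegree = m + 1 ∧ R (f.coeff 0)} := by
    have : {f : F[X] | f.Monic ∧ f.natDegree = m + 1 ∧ R (f.coeff 0)}.Finite := by
      refine Set.Finite.subset (s := (Polynomial.degreeLT F (m + 2) : Set F[X])) ?_ ?_
      · haveI : Module.Finite F (Polynomial.degreeLT F (m + 2)) :=
          Module.Finite.equiv (Polynomial.degreeLTEquiv F (m + 2)).symm
        haveI : Finite (Polynomial.degreeLT F (m + 2)) := Module.finite_of_finite F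
        exact Set.toFinite _
      · rintro f ⟨h1, h2, -⟩
        simp only [SetLike.mem_coe, mem_degreeLT]
        rw [degree_eq_natDegree h1.ne_zero, h2]
        exact_mod_cast Nat.lt_succ_self _
    exact this
  rw [← Nat.card_eq_finsetCard]
  exact Nat.card_le_card_of_injective (fun f : t => ⟨f.1, h f.1 f.2⟩)
    fun a b hab => Subtype.ext (by simpa using hab)

end Cnt
end H16
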