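import Mathlib
import Cfsg.Agent.H16.CntTyp

/-! Invariance of the polynomials `hs (typ A) i` under scaling and (twisted) inversion of roots. -/

namespace H16
namespace Cnt

open Polynomial Finset H24.Sim Module Matrix

variable {F : Type*} [Field F] {n : Type*} [Fintype n] [DecidableEq n]

/-- monic with non-zero constant term -/
def MC (f : F[X]) : Prop := f.Monic ∧ f.coeff 0 ≠ 0

lemma MC.one : MC (1 : F[X]) := ⟨monic_one, by simp⟩

lemma MC.mul {f g : F[X]} (hf : MC f) (hg : MC g) : MC (f * g) :=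
  ⟨hf.1.mul hg.1, by rw [mul_coeff_zero]; exact mul_ne_zero hf.2 hg.2⟩

lemma MC.pow {f : F[X]} (hf : MC f) (k : ℕ) : MC (f ^ k) := by
  induction k with
  | zero => simpa using MC.one
  | succ k ih => rw [pow_succ]; exact ih.mul hf

lemma MC.prod {S : Multiset F[X]} (h : ∀ f ∈ S, MC f) : MC S.prod :=
  Multiset.prod_induction _ _ (fun _ _ => MC.mul) MC.one h

/-- a degree preserving multiplicative map on monic polynomials with non-zero constant term -/
structure Tw (τ : F[X] → F[X]) : Prop where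
  mc : ∀ f, MC f → MC (τ f)
  deg : ∀ f, MC f → (τ f).natDegree = f.natDegree
  mul : ∀ f g, MC f → MC g → τ (f * g) = τ f * τ g

lemma Tw.one {τ : F[X] → F[X]} (h : Tw τ) : τ 1 = 1 :=
  (h.mc 1 MC.one).1.natDegree_eq_zero.mp (by rw [h.deg 1 MC.one, natDegree_one])

lemma Tw.pow {τ : F[X] → F[X]} (h : Tw τ) {f : F[X]} (hf : MC f) (k : ℕ) : τ (f ^ k) = τ f ^ k := by
  induction k with
  | zero => simpa using h.one
  | succ k ih => rw [pow_succ, h.mul _ _ (hf.pow k) hf, ih, pow_succ]

lemma Tw.prod {τ : F[X] → F[X]} (h : Tw τ) {S : Multiset F[X]} (hS : ∀ f ∈ S, MC f) :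
    τ S.prod = (S.map τ).prod := by
  induction S using Multiset.induction_on with
  | empty => simpa using h.one
  | cons f S ih =>
    have h1 : ∀ g ∈ S, MC g := fun g hg => hS g (Multiset.mem_cons_of_mem hg)
    rw [Multiset.prod_cons, h.mul _ _ (hS f (Multiset.mem_cons_self f S)) (MC.prod h1), ih h1,
      Multiset.map_cons, Multiset.prod_cons]

lemma Tw.irreducible {τ τ' : F[X] → F[X]} (h : Tw τ) (h' : Tw τ') (hinv : ∀ f, MC f → τ' (τ f) = f)
    {p : F[X]} (hp : MC p) (hi : Irreducible p) : Irreducible (τ p) := by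
  have h1 := h.mc p hp
  rw [h1.1.irreducible_iff_natDegree]
  refine ⟨fun h2 => ?_, fun f g hf hg hfg => ?_⟩
  · have := h.deg p hp
    rw [h2, natDegree_one] at this
    exact hi.natDegree_pos.ne this
  · have h2 : f.coeff 0 * g.coeff 0 ≠ 0 := by rw [← mul_coeff_zero, hfg]; exact h1.2
    have hf' : MC f := ⟨hf, left_ne_zero_of_mul h2⟩
    have hg' : MC g := ⟨hg, right_ne_zero_of_mul h2⟩
    have h3 : τ' f * τ' g = p := by rw [← h'.mul f g hf' hg', hfg, hinv p hp]
    have := (hp.1.irreducible_iff_natDegree.mp hi).2 _ _ (h'.mc f hf').1 (h'.mc g hg').1 h3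
    rwa [h'.deg f hf', h'.deg g hg'] at this

lemma count_typ_eq [DecidableEq F] {m : Type*} [Fintype m] [DecidableEq m] {A : Matrix n n F}
    {B : Matrix m m F} (hc : Fintype.card n = Fintype.card m) {p p' : F[X]}
    (hp : p.Monic) (hi : Irreducible p) (hp' : p'.Monic) (hi' : Irreducible p')
    (hd : p'.natDegree = p.natDegree) (h : ∀ k, (aeval B (p' ^ k)).rank = (aeval A (p ^ k)).rank)
    {i : ℕ} (h0 : 0 < i) : (typ B).count (p' ^ i) = (typ A).count (p ^ i) := by
  obtain ⟨e, rfl⟩ : ∃ e, i = e + 1 := ⟨i - 1, by omega⟩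
  have h1 := count_formula (isTyp_typ A) hp hi e
  have h2 := count_formula (isTyp_typ B) hp' hi' e
  have h3 : ∀ k, ((typ B).map fun f => kd1 f (p' ^ k)).sum = ((typ A).map fun f => kd1 f (p ^ k)).sum := by
    intro k
    have a1 := rank_add_sum A (p ^ k)
    have a2 := rank_add_sum B (p' ^ k)
    rw [h k] at a2
    omega
  rw [h3, h3, h3, hd] at h2
  have h4 := hi.natDegree_pos
  refine Nat.eq_of_mul_eq_mul_right h4 ?_
  have h5 : _ = _ := (h2.trans h1.symm)
  convert Nat.add_left_cancel h5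

lemma mc_of_mem_fs {A : Matrix n n F} (hA : IsUnit A) {i : ℕ} {p : F[X]} (hp : p ∈ fs (typ A) i) :
    MC p := by
  obtain ⟨h1, -, h3, h4⟩ := mem_fs (isTyp_typ A) hp
  refine ⟨h1, fun h => (isUnit_iff A).mp hA _ h4 ?_⟩
  exact (X_dvd_iff.mpr h).trans (dvd_pow_self p h3.ne')

theorem fs_invariant {τ τ' : F[X] → F[X]} (h : Tw τ) (h' : Tw τ') (hinv : ∀ f, MC f → τ' (τ f) = f)
    {A : Matrix n n F} (hA : IsUnit A) (hr : ∀ f, MC f → (aeval A (τ f)).rank = (aeval A f).rank)
    (i : ℕ) : (fs (typ A) i).map τ = fs (typ A) i := by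
  classical
  refine Multiset.eq_of_le_of_card_le ?_ (by simp)
  refine Multiset.le_iff_count.mpr fun g => ?_
  by_cases hg : g ∈ (fs (typ A) i).map τ
  swap
  · rw [Multiset.count_eq_zero.mpr hg]; exact Nat.zero_le _
  obtain ⟨p, hp, rfl⟩ := Multiset.mem_map.mp hg
  obtain ⟨h1, h2, h3, h4⟩ := mem_fs (isTyp_typ A) hp
  have hm := mc_of_mem_fs hA hp
  have h5 := h.irreducible h' hinv hm h2
  rw [Multiset.count_map_eq_count τ _ (fun a ha b hb hab => by
      rw [← hinv a (mc_of_mem_fs hA ha), hab, hinv b (mc_of_mem_fs hA hb)]) p hp,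
    count_fs (isTyp_typ A) h1 h2 h3, count_fs (isTyp_typ A) (h.mc p hm).1 h5 h3,
    count_typ_eq rfl h1 h2 (h.mc p hm).1 h5 (h.deg p hm) (fun k => by
      rw [← h.pow hm, hr _ (hm.pow k)]) h3]

theorem hs_invariant {τ τ' : F[X] → F[X]} (h : Tw τ) (h' : Tw τ') (hinv : ∀ f, MC f → τ' (τ f) = f)
    {A : Matrix n n F} (hA : IsUnit A) (hr : ∀ f, MC f → (aeval A (τ f)).rank = (aeval A f).rank)
    (i : ℕ) : τ (hs (typ A) i) = hs (typ A) i := by
  rw [hs, h.prod fun f hf => mc_of_mem_fs hA hf, fs_invariant h h' hinv hA hr]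

lemma mc_hs {A : Matrix n n F} (hA : IsUnit A) (i : ℕ) : MC (hs (typ A) i) :=
  ⟨monic_hs (isTyp_typ A) i, hs_coeff_ne_zero (isTyp_typ A) ((isUnit_iff A).mp hA) i⟩

/-! ### scaling -/

lemma tw_scale {c : F} (hc : c ≠ 0) : Tw (fun f : F[X] => f.scaleRoots c) where
  mc f hf := ⟨(monic_scaleRoots_iff c).mpr hf.1, by
    rw [coeff_scaleRoots]; exact mul_ne_zero hf.2 (pow_ne_zero _ hc)⟩
  deg f _ := natDegree_scaleRoots f c
  mul f g _ _ := mul_scaleRoots_of_noZeroDivisors f g c

lemma rank_smul_ne {c : F} (hc : c ≠ 0) (A : Matrix n n F) : (c • A).rank = A.rank := by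
  have : c • A = (c • (1 : Matrix n n F)) * A := by simp
  rw [this, rank_mul_eq_right_of_isUnit_det]
  rw [det_smul, det_one, mul_one]
  exact (pow_ne_zero _ hc).isUnit

theorem hs_scale {A : Matrix n n F} (hA : IsUnit A) {c : F} (hc : c ≠ 0) (h : IsConj A (c • A)) (i : ℕ) :
    (hs (typ A) i).scaleRoots c = hs (typ A) i := by
  refine hs_invariant (tw_scale hc) (tw_scale (inv_ne_zero hc)) (fun f _ => by
    rw [← scaleRoots_mul, mul_inv_cancel₀ hc, scaleRoots_one]) hA (fun f _ => ?_) i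
  rw [IsConj.rank_aeval h]
  have := scaleRoots_eval₂_mul_of_commute (p := f) (algebraMap F (Matrix n n F)) A c
    (Algebra.commutes c A) (fun a b => Algebra.commutes a _)
  rw [← aeval_def, ← aeval_def, ← Algebra.smul_def, ← map_pow, ← Algebra.smul_def] at this
  rw [this, rank_smul_ne (pow_ne_zero _ hc)]

lemma eq_expand_of_scale {f : F[X]} (hf : MC f) {c : F} (h : f.scaleRoots c = f) {e : ℕ}
    (he : orderOf c = e) (he0 : 0 < e) : ∃ g, f = expand F e g := by
  have h1 : ∀ k, f.coeff k ≠ 0 → e ∣ f.natDegree - k := by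
    intro k hk
    have := congrArg (coeff · k) h
    simp only [coeff_scaleRoots] at this
    rw [← he]
    exact orderOf_dvd_of_pow_eq_one (mul_left_cancel₀ hk (this.trans (mul_one _).symm))
  refine ⟨contract e f, ?_⟩
  ext k
  rw [coeff_expand he0, coeff_contract he0.ne']
  split_ifs with hk
  · rw [Nat.div_mul_cancel hk]
  · by_contra h2
    have h3 := h1 0 hf.2
    have h4 := h1 k h2
    have h5 : k ≤ f.natDegree := le_natDegree_of_ne_zero h2
    exact hk (by
      have := Nat.dvd_sub h3 h4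
      rwa [show f.natDegree - 0 - (f.natDegree - k) = k by omega] at this)

/-! ### twisted inversion -/

/-- the monic polynomial whose roots are the inverses of the `σ`-images of the roots of `f` -/
noncomputable def dual (σ : F →+* F) (f : F[X]) : F[X] := C (σ (f.coeff 0))⁻¹ * (f.map σ).reverse

lemma natTrailingDegree_map_mc (σ : F →+* F) {f : F[X]} (hf : MC f) : (f.map σ).natTrailingDegree = 0 := by
  rw [natTrailingDegree_eq_zero, coeff_map]
  exact Or.inr ((map_ne_zero σ).mpr hf.2)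

lemma coeff_dual (σ : F →+* F) {f : F[X]} {k : ℕ} (hk : k ≤ f.natDegree) :
    (dual σ f).coeff k = (σ (f.coeff 0))⁻¹ * σ (f.coeff (f.natDegree - k)) := by
  rw [dual, coeff_C_mul, coeff_reverse, natDegree_map, revAt_le hk, coeff_map]

lemma natDegree_dual (σ : F →+* F) {f : F[X]} (hf : MC f) : (dual σ f).natDegree = f.natDegree := by
  rw [dual, natDegree_C_mul (inv_ne_zero ((map_ne_zero σ).mpr hf.2)), reverse_natDegree,
    natTrailingDegree_map_mc σ hf, natDegree_map, Nat.sub_zero]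

lemma tw_dual (σ : F →+* F) : Tw (dual σ) where
  mc f hf := by
    refine ⟨?_, ?_⟩
    · rw [Monic, leadingCoeff, natDegree_dual σ hf, coeff_dual σ le_rfl, Nat.sub_self,
        inv_mul_cancel₀ ((map_ne_zero σ).mpr hf.2)]
    · rw [coeff_dual σ (Nat.zero_le _), Nat.sub_zero, hf.1.coeff_natDegree, map_one, mul_one]
      exact inv_ne_zero ((map_ne_zero σ).mpr hf.2)
  deg f hf := natDegree_dual σ hf
  mul f g _ _ := by
    simp only [dual, mul_coeff_zero, map_mul, mul_inv, Polynomial.map_mul, reverse_mul_of_domain]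
    ring

lemma dual_dual {σ : F →+* F} (hσ : ∀ a, σ (σ a) = a) {f : F[X]} (hf : MC f) : dual σ (dual σ f) = f := by
  have h1 := natDegree_dual σ hf
  have h2 := natDegree_dual σ ((tw_dual σ).mc f hf)
  ext k
  by_cases hk : k ≤ f.natDegree
  · rw [coeff_dual σ (h1 ▸ hk), coeff_dual σ (Nat.zero_le _), h1, coeff_dual σ (Nat.sub_le _ _),
      Nat.sub_zero, hf.1.coeff_natDegree, show f.natDegree - (f.natDegree - k) = k by omega]
    have := hf.2
    simp only [map_one, mul_one, map_mul, map_inv₀, hσ]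
    field_simp
  · rw [coeff_eq_zero_of_natDegree_lt (by omega), coeff_eq_zero_of_natDegree_lt (by omega)]

lemma aeval_reverse_mul {R : Type*} [Ring R] [Algebra F R] {x y : R} (h1 : y * x = 1) (f : F[X]) :
    aeval y f.reverse * x ^ f.natDegree = aeval x f := by
  have h2 : ∀ k, y ^ k * x ^ k = 1 := by
    intro k
    induction k with
    | zero => simp
    | succ k ih => rw [pow_succ, pow_succ', mul_assoc, ← mul_assoc y, h1, one_mul, ih]
  rw [aeval_eq_sum_range' (n := f.natDegree + 1) (Nat.lt_succ_of_le (reverse_natDegree_le f)),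
    aeval_eq_sum_range, sum_mul, ← sum_range_reflect]
  refine sum_congr rfl fun k hk => ?_
  rw [mem_range] at hk
  rw [Nat.add_sub_cancel, coeff_reverse, revAt_le (Nat.sub_le _ _),
    show f.natDegree - (f.natDegree - k) = k by omega, smul_mul_assoc]
  congr 1
  conv_lhs => rw [show f.natDegree = (f.natDegree - k) + k by omega]
  rw [Nat.add_sub_cancel, pow_add, ← mul_assoc, h2, one_mul]

lemma rank_map_le' (σ : F →+* F) (A : Matrix n n F) : (A.map σ).rank ≤ A.rank := by
  let W := LinearMap.range A.mulVecLin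
  let b := Module.finBasis F W
  let P : Matrix n (Fin (finrank F W)) F := fun i k => (b k).1 i
  let Q : Matrix (Fin (finrank F W)) n F := fun k j =>
    b.repr ⟨A *ᵥ Pi.single j 1, ⟨Pi.single j 1, rfl⟩⟩ k
  have h : A = P * Q := by
    ext i j
    have := congrFun (congrArg Subtype.val (b.sum_repr ⟨A *ᵥ Pi.single j 1, ⟨Pi.single j 1, rfl⟩⟩)) i
    simp only [AddSubmonoidClass.coe_finset_sum, SetLike.val_smul, Finset.sum_apply, Pi.smul_apply,
      smul_eq_mul, mulVec_single_one, col_apply] at this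
    rw [Matrix.mul_apply, ← this]
    exact sum_congr rfl fun k _ => by simp only [P, Q, mulVec_single_one]; ring
  conv_lhs => rw [h, Matrix.map_mul]
  exact (rank_mul_le_left _ _).trans ((rank_le_card_width _).trans (Fintype.card_fin _).le)

lemma rank_map_le (σ : F →+* F) (hσ : ∀ a, σ (σ a) = a) (A : Matrix n n F) : (A.map σ).rank = A.rank := by
  refine le_antisymm (rank_map_le' σ A) ?_
  have : (A.map σ).map σ = A := by ext i j; simp [hσ]
  conv_lhs => rw [← this]
  exact rank_map_le' σ _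

theorem hs_dual {σ : F →+* F} (hσ : ∀ a, σ (σ a) = a) {A B : Matrix n n F} (hA : IsUnit A)
    (hB : B * (A.map σ)ᵀ = 1) (h : IsConj A B) (i : ℕ) : dual σ (hs (typ A) i) = hs (typ A) i := by
  refine hs_invariant (tw_dual σ) (tw_dual σ) (fun f hf => dual_dual hσ hf) hA (fun f hf => ?_) i
  rw [IsConj.rank_aeval h, dual, map_mul, aeval_C, ← Algebra.smul_def,
    rank_smul_ne (inv_ne_zero ((map_ne_zero σ).mpr hf.2))]
  have h1 := aeval_reverse_mul hB (f.map σ)
  have hu : IsUnit ((A.map σ)ᵀ ^ (f.map σ).natDegree).det := by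
    rw [det_pow]
    exact (isUnit_det_of_left_inverse hB).pow _
  rw [← rank_mul_eq_left_of_isUnit_det _ _ hu, h1, aeval_transpose, rank_transpose, aeval_map_matrix,
    rank_map_le σ hσ]

end Cnt
end H16
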