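import Mathlib
import Cfsg.Agent.H16.CntInv

/-! Similarity types of block sums and of twisted inverses; commutants of cyclic matrices. -/

namespace H16
namespace Cnt

open Polynomial Finset H24.Sim Module Matrix

variable {F : Type*} [Field F] {n m : Type*} [Fintype n] [DecidableEq n] [Fintype m] [DecidableEq m]

lemma aeval_fromBlocks (A : Matrix n n F) (B : Matrix m m F) (g : F[X]) :
    aeval (fromBlocks A 0 0 B) g = fromBlocks (aeval A g) 0 0 (aeval B g) := by
  induction g using Polynomial.induction_on with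
  | C a =>
    simp only [aeval_C, Algebra.algebraMap_eq_smul_one]
    rw [← fromBlocks_one, fromBlocks_smul]; simp
  | add p q hp hq => simp [hp, hq, fromBlocks_add]
  | monomial k a h =>
    rw [pow_succ, ← mul_assoc, map_mul, h, map_mul (aeval A) _ X, map_mul (aeval B) _ X, aeval_X, aeval_X,
      aeval_X, fromBlocks_multiply]
    simp

lemma finrank_ker_fromBlocks (A : Matrix n n F) (B : Matrix m m F) :
    finrank F (LinearMap.ker (toLin' (fromBlocks A 0 0 B))) =
      finrank F (LinearMap.ker (toLin' A)) + finrank F (LinearMap.ker (toLin' B)) := by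
  have key : ∀ v : n ⊕ m → F, fromBlocks A 0 0 B *ᵥ v = 0 ↔ A *ᵥ (v ∘ Sum.inl) = 0 ∧ B *ᵥ (v ∘ Sum.inr) = 0 := by
    intro v
    rw [fromBlocks_mulVec, zero_mulVec, zero_mulVec, add_zero, zero_add]
    constructor
    · intro h
      exact ⟨funext fun i => congrFun h (Sum.inl i), funext fun i => congrFun h (Sum.inr i)⟩
    · rintro ⟨h1, h2⟩
      rw [h1, h2]; ext (i | i) <;> rfl
  let e : LinearMap.ker (toLin' (fromBlocks A 0 0 B)) ≃ₗ[F]
      LinearMap.ker (toLin' A) × LinearMap.ker (toLin' B) :=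
    { toFun := fun v => (⟨v.1 ∘ Sum.inl, ((key v.1).mp v.2).1⟩, ⟨v.1 ∘ Sum.inr, ((key v.1).mp v.2).2⟩)
      invFun := fun p => ⟨Sum.elim p.1.1 p.2.1, (key _).mpr ⟨p.1.2, p.2.2⟩⟩
      map_add' := fun _ _ => rfl
      map_smul' := fun _ _ => rfl
      left_inv := fun v => Subtype.ext (by ext (i | i) <;> rfl)
      right_inv := fun _ => rfl }
  rw [e.finrank_eq, Module.finrank_prod]

theorem typ_fromBlocks (A : Matrix n n F) (B : Matrix m m F) :
    typ (fromBlocks A 0 0 B) = typ A + typ B := by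
  refine typ_unique (isTyp_typ _) (fun f hf => (Multiset.mem_add.mp hf).elim (isTyp_typ A f)
    (isTyp_typ B f)) fun p _ _ k => ?_
  rw [Multiset.map_add, Multiset.sum_add, ← (hasTyp_typ _).kd (typ_ne_zero _),
    ← (hasTyp_typ _).kd (typ_ne_zero _), ← (hasTyp_typ _).kd (typ_ne_zero _)]
  rw [kd, kd, kd, aeval_toLin', aeval_toLin', aeval_toLin', aeval_fromBlocks, finrank_ker_fromBlocks]

lemma typ_reindex (e : n ≃ m) (A : Matrix n n F) : typ (reindex e e A) = typ A :=
  (typ_eq_of_iso (iso_reindex e A)).symm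

lemma mc_of_mem_typ {A : Matrix n n F} (hA : IsUnit A) {f : F[X]} (hf : f ∈ typ A) : MC f :=
  ⟨(isTyp_typ A).monic hf, fun h => (isUnit_iff A).mp hA f hf (X_dvd_iff.mpr h)⟩

lemma MC.of_pow {p : F[X]} (hp : p.Monic) {e : ℕ} (he : 0 < e) (h : MC (p ^ e)) : MC p :=
  ⟨hp, fun h0 => h.2 (by rw [coeff_zero_eq_eval_zero] at h0 ⊢; rw [eval_pow, h0, zero_pow he.ne'])⟩

lemma rank_aeval_dual {σ : F →+* F} (hσ : ∀ a, σ (σ a) = a) {A B : Matrix n n F}
    (hB : B * (A.map σ)ᵀ = 1) {f : F[X]} (hf : MC f) : (aeval B (dual σ f)).rank = (aeval A f).rank := by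
  rw [dual, map_mul, aeval_C, ← Algebra.smul_def, rank_smul_ne (inv_ne_zero ((map_ne_zero σ).mpr hf.2))]
  have h1 := aeval_reverse_mul hB (f.map σ)
  have hu : IsUnit ((A.map σ)ᵀ ^ (f.map σ).natDegree).det := by
    rw [det_pow]
    exact (isUnit_det_of_left_inverse hB).pow _
  rw [← rank_mul_eq_left_of_isUnit_det _ _ hu, h1, aeval_transpose, rank_transpose, aeval_map_matrix,
    rank_map_le σ hσ]

lemma irreducible_dual {σ : F →+* F} (hσ : ∀ a, σ (σ a) = a) {p : F[X]} (hp : MC p) (hi : Irreducible p) :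
    Irreducible (dual σ p) :=
  (tw_dual σ).irreducible (tw_dual σ) (fun _ hf => dual_dual hσ hf) hp hi

theorem typ_dual {σ : F →+* F} (hσ : ∀ a, σ (σ a) = a) {A B : Matrix n n F} (hA : IsUnit A)
    (hB : B * (A.map σ)ᵀ = 1) : typ B = (typ A).map (dual σ) := by
  classical
  have hBu : IsUnit B := IsUnit.of_mul_eq_one _ hB
  have key : ∀ f, MC f → (∃ (p : F[X]) (e : ℕ), p.Monic ∧ Irreducible p ∧ 0 < e ∧ f = p ^ e) →
      (typ B).count (dual σ f) = (typ A).count f := by
    rintro _ hf ⟨p, e, h1, h2, h3, rfl⟩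
    have hp := MC.of_pow h1 h3 hf
    rw [(tw_dual σ).pow hp]
    exact count_typ_eq rfl h1 h2 ((tw_dual σ).mc p hp).1 (irreducible_dual hσ hp h2) (natDegree_dual σ hp)
      (fun k => by rw [← (tw_dual σ).pow hp, rank_aeval_dual hσ hB (hp.pow k)]) h3
  have hcnt : ∀ f ∈ typ A, ((typ A).map (dual σ)).count (dual σ f) = (typ A).count f := fun f hf =>
    Multiset.count_map_eq_count _ _ (fun a ha b hb hab => by
      rw [← dual_dual hσ (mc_of_mem_typ hA ha), hab, dual_dual hσ (mc_of_mem_typ hA hb)]) f hf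
  ext g
  by_cases h1 : g ∈ (typ A).map (dual σ)
  · obtain ⟨f, hf, rfl⟩ := Multiset.mem_map.mp h1
    rw [hcnt f hf, key f (mc_of_mem_typ hA hf) (isTyp_typ A f hf)]
  · rw [Multiset.count_eq_zero.mpr h1, Multiset.count_eq_zero]
    intro h2
    have hg := mc_of_mem_typ hBu h2
    obtain ⟨p, e, a1, a2, a3, rfl⟩ := isTyp_typ B _ h2
    have hp := MC.of_pow a1 a3 hg
    have h3 := key (dual σ (p ^ e)) ((tw_dual σ).mc _ hg) ⟨dual σ p, e, ((tw_dual σ).mc p hp).1,
      irreducible_dual hσ hp a2, a3, (tw_dual σ).pow hp e⟩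
    rw [dual_dual hσ hg] at h3
    have h4 : dual σ (p ^ e) ∈ typ A := by
      rw [← Multiset.count_pos, ← h3, Multiset.count_pos]; exact h2
    exact h1 (Multiset.mem_map.mpr ⟨_, h4, dual_dual hσ hg⟩)

theorem exists_aeval_of_commute' {ι : Type*} [Fintype ι] {A B : Matrix n n F} {f : ι → F[X]}
    (h : typ A = Finset.univ.val.map f) (hf : Pairwise fun i j => IsCoprime (f i) (f j))
    (hc : Commute B A) : ∃ g : F[X], B = aeval A g := by
  obtain ⟨e, he⟩ := (h ▸ hasTyp_typ A).iso_mdl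
  have hsurj : ∀ y : ∀ i, AdjoinRoot (f i), ∃ g : F[X], ∀ i, AdjoinRoot.mk (f i) g = y i :=
    fun y => Ideal.pi_quotient_surjective (I := fun i => Ideal.span {f i})
      (fun i j hij => (Ideal.isCoprime_span_singleton_iff _ _).mpr (hf hij)) y
  obtain ⟨g, hg⟩ := hsurj (e (toLin' B (e.symm 1)))
  have key : ∀ (a : F[X]) v i, e (toLin' (aeval A a) v) i = AdjoinRoot.mk (f i) a * e v i := fun a v i => by
    have := intertwine_aeval (e := e.toLinearMap) he a v
    rw [aeval_toLin'] at this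
    rw [← aeval_mdl]
    exact congrFun this i
  refine ⟨g, toLin'.injective (LinearMap.ext fun v => e.injective ?_)⟩
  obtain ⟨a, ha⟩ := hsurj (e v)
  have hv : v = toLin' (aeval A a) (e.symm 1) := e.injective (funext fun i => by rw [key, ha]; simp)
  funext i
  rw [key, hg, hv, ← toLin'_mul_apply, (commute_aeval hc a).eq, toLin'_mul_apply, key, key]
  simp [mul_comm]

end Cnt
end H16
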