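import Mathlib

/-! Counting sequences of data by shapes: recursions `Z`, `K` and Rankin type bounds. -/

namespace H16
namespace Cnt

open Finset

/-- weighted number of shapes `(m_i)_{j ≤ i < j+k}` with `∑ i m_i = n`. -/
def Z (w : ℕ → ℕ → ℕ) : ℕ → ℕ → ℕ → ℕ
  | 0, _, n => if n = 0 then 1 else 0
  | k + 1, j, n => ∑ m ∈ range (n + 1), if j * m ≤ n then w j m * Z w k (j + 1) (n - j * m) else 0

/-- as `Z`, with the weight `W` at the first non-trivial index. -/
def K (W w : ℕ → ℕ → ℕ) : ℕ → ℕ → ℕ → ℕ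
  | 0, _, _ => 0
  | k + 1, j, n => K W w k (j + 1) n +
      ∑ m ∈ range n, if j * (m + 1) ≤ n then W j (m + 1) * Z w k (j + 1) (n - j * (m + 1)) else 0

variable {α X : Type*}

theorem card_le_Z (w : ℕ → ℕ → ℕ) (d : α → ℕ) (P : ℕ → α → Prop)
    (hw : ∀ i m (t : Finset α), (∀ a ∈ t, P i a ∧ d a = m) → t.card ≤ w i m) (φ : X → ℕ → α) :
    ∀ (k j n : ℕ) (s : Finset X), 0 < j → (∀ x ∈ s, ∀ i ∈ Ico j (j + k), P i (φ x i)) →
      (∀ x ∈ s, ∑ i ∈ Ico j (j + k), i * d (φ x i) = n) →
      (∀ x ∈ s, ∀ y ∈ s, (∀ i ∈ Ico j (j + k), φ x i = φ y i) → x = y) → s.card ≤ Z w k j n := by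
  classical
  intro k
  induction k with
  | zero =>
    intro j n s _ _ h2 h3
    rcases s.eq_empty_or_nonempty with rfl | ⟨x, hx⟩
    · simp
    · have := h2 x hx
      simp only [add_zero, Ico_self, sum_empty] at this
      subst this
      simp only [Z, if_true]
      exact card_le_one.mpr fun a ha b hb => h3 a ha b hb (by simp)
  | succ k ih =>
    intro j n s hj h1 h2 h3
    have hsplit : ∀ x ∈ s, j * d (φ x j) + ∑ i ∈ Ico (j + 1) (j + 1 + k), i * d (φ x i) = n := by
      intro x hx
      rw [← h2 x hx, sum_eq_sum_Ico_succ_bot (show j < j + (k + 1) by omega)]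
      congr 3; omega
    rw [card_eq_sum_card_fiberwise (f := fun x => d (φ x j)) (t := range (n + 1))
      (fun x hx => by
        have := hsplit x hx
        have h4 : d (φ x j) ≤ j * d (φ x j) := Nat.le_mul_of_pos_left _ hj
        simp only [coe_range, Set.mem_Iio]; omega)]
    simp only [Z]
    refine sum_le_sum fun m _ => ?_
    rcases (s.filter fun x => d (φ x j) = m).eq_empty_or_nonempty with h | ⟨x₀, hx₀⟩
    · rw [h]; simp
    rw [mem_filter] at hx₀
    have hjm : j * m ≤ n := by have := hsplit x₀ hx₀.1; rw [hx₀.2] at this; omega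
    rw [if_pos hjm, mul_comm]
    refine (card_le_mul_card_image (f := fun x => φ x j) _ (Z w k (j + 1) (n - j * m)) ?_).trans ?_
    · intro a _
      refine ih (j + 1) _ _ (by omega) ?_ ?_ ?_
      · intro x hx i hi
        simp only [mem_filter, mem_Ico] at hx hi
        exact h1 x hx.1.1 i (mem_Ico.mpr ⟨by omega, by omega⟩)
      · intro x hx
        simp only [mem_filter] at hx
        have := hsplit x hx.1.1
        rw [hx.1.2] at this; omega
      · intro x hx y hy hxy
        simp only [mem_filter] at hx hy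
        refine h3 x hx.1.1 y hy.1.1 fun i hi => ?_
        rw [mem_Ico] at hi
        by_cases hij : i = j
        · rw [hij, hx.2, hy.2]
        · exact hxy i (mem_Ico.mpr ⟨by omega, by omega⟩)
    · refine Nat.mul_le_mul_left _ (hw j m _ fun a ha => ?_)
      obtain ⟨x, hx, rfl⟩ := mem_image.mp ha
      rw [mem_filter] at hx
      exact ⟨h1 x hx.1 j (mem_Ico.mpr ⟨le_rfl, by omega⟩), hx.2⟩

theorem card_le_K (W w : ℕ → ℕ → ℕ) (d : α → ℕ) (P : ℕ → α → Prop)
    (hw : ∀ i m (t : Finset α), (∀ a ∈ t, P i a ∧ d a = m) → t.card ≤ w i m) (φ : X → ℕ → α) (o : α)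
    {n : ℕ} (hn : 0 < n) :
    ∀ (k j : ℕ) (s : Finset X), 0 < j → (∀ x ∈ s, ∀ i ∈ Ico j (j + k), P i (φ x i)) →
      (∀ x ∈ s, ∑ i ∈ Ico j (j + k), i * d (φ x i) = n) →
      (∀ x ∈ s, ∀ i, j + k ≤ i → φ x i = o) →
      (∀ x ∈ s, ∀ i, 0 < i → i < j → d (φ x i) = 0) →
      (∀ j' m (t : Finset X), 0 < j' → t ⊆ s → (∀ x ∈ t, ∀ i, 0 < i → i < j' → d (φ x i) = 0) →
        (∀ x ∈ t, d (φ x j') = m + 1) → (∀ x ∈ t, ∀ y ∈ t, ∀ i, j' < i → φ x i = φ y i) →
        t.card ≤ W j' (m + 1)) → s.card ≤ K W w k j n := by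
  classical
  intro k
  induction k with
  | zero =>
    intro j s _ _ h2 _ _ _
    rcases s.eq_empty_or_nonempty with rfl | ⟨x, hx⟩
    · simp
    · have := h2 x hx
      simp only [add_zero, Ico_self, sum_empty] at this
      omega
  | succ k ih =>
    intro j s hj h1 h2 h3 h4 h5
    have hsplit : ∀ x ∈ s, j * d (φ x j) + ∑ i ∈ Ico (j + 1) (j + 1 + k), i * d (φ x i) = n := by
      intro x hx
      rw [← h2 x hx, sum_eq_sum_Ico_succ_bot (show j < j + (k + 1) by omega)]
      congr 3; omega
    rw [card_eq_sum_card_fiberwise (f := fun x => d (φ x j)) (t := range (n + 1))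
      (fun x hx => by
        have := hsplit x hx
        have h4 : d (φ x j) ≤ j * d (φ x j) := Nat.le_mul_of_pos_left _ hj
        simp only [coe_range, Set.mem_Iio]; omega), sum_range_succ', add_comm]
    simp only [K]
    refine add_le_add ?_ (sum_le_sum fun m _ => ?_)
    · refine ih (j + 1) _ (by omega) ?_ ?_ ?_ ?_ ?_
      · intro x hx i hi
        simp only [mem_filter, mem_Ico] at hx hi
        exact h1 x hx.1 i (mem_Ico.mpr ⟨by omega, by omega⟩)
      · intro x hx
        simp only [mem_filter] at hx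
        have := hsplit x hx.1
        rw [hx.2] at this; omega
      · intro x hx i hi
        exact h3 x (mem_filter.mp hx).1 i (by omega)
      · intro x hx i hi hij
        rw [mem_filter] at hx
        by_cases h : i = j
        · rw [h, hx.2]
        · exact h4 x hx.1 i hi (by omega)
      · intro j' m t hj' ht
        exact h5 j' m t hj' (ht.trans (filter_subset _ _))
    rcases (s.filter fun x => d (φ x j) = m + 1).eq_empty_or_nonempty with h | ⟨x₀, hx₀⟩
    · rw [h]; simp
    rw [mem_filter] at hx₀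
    have hjm : j * (m + 1) ≤ n := by have := hsplit x₀ hx₀.1; rw [hx₀.2] at this; omega
    rw [if_pos hjm]
    let ψ : X → ℕ → α := fun x i => if j < i then φ x i else o
    refine (card_le_mul_card_image (f := ψ) _ (W j (m + 1)) ?_).trans ?_
    · intro a _
      refine h5 j m _ hj ((filter_subset _ _).trans (filter_subset _ _)) ?_ ?_ ?_
      · intro x hx
        simp only [mem_filter] at hx
        exact h4 x hx.1.1
      · intro x hx
        simp only [mem_filter] at hx
        exact hx.1.2
      · intro x hx y hy i hi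
        simp only [mem_filter] at hx hy
        have := congrFun (hx.2.trans hy.2.symm) i
        simpa only [ψ, if_pos hi] using this
    · refine Nat.mul_le_mul_left _ (card_le_Z w d P hw id k (j + 1) _ _ (by omega) ?_ ?_ ?_)
      · intro a ha i hi
        obtain ⟨x, hx, rfl⟩ := mem_image.mp ha
        rw [mem_filter] at hx
        rw [mem_Ico] at hi
        simp only [id, ψ, if_pos (show j < i by omega)]
        exact h1 x hx.1 i (mem_Ico.mpr ⟨by omega, by omega⟩)
      · intro a ha
        obtain ⟨x, hx, rfl⟩ := mem_image.mp ha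
        rw [mem_filter] at hx
        have := hsplit x hx.1
        rw [hx.2] at this
        rw [sum_congr rfl (g := fun i => i * d (φ x i)) fun i hi => by
          rw [mem_Ico] at hi
          simp only [id, ψ, if_pos (show j < i by omega)]]
        omega
      · intro a ha b hb hab
        obtain ⟨x, hx, rfl⟩ := mem_image.mp ha
        obtain ⟨y, hy, rfl⟩ := mem_image.mp hb
        rw [mem_filter] at hx hy
        funext i
        by_cases hi : j < i
        · by_cases hi2 : i < j + 1 + k
          · exact hab i (mem_Ico.mpr ⟨by omega, hi2⟩)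
          · simp only [ψ, if_pos hi]
            rw [h3 x hx.1 i (by omega), h3 y hy.1 i (by omega)]
        · simp only [ψ, if_neg hi]

lemma sum_shift_le (f : ℕ → ℝ) (hf : ∀ t, 0 ≤ f t) (c N : ℕ) :
    ∑ t ∈ range N, (if c ≤ t then f (t - c) else 0) ≤ ∑ t ∈ range N, f t := by
  classical
  rw [← sum_filter, ← sum_image (s := (range N).filter (c ≤ ·)) (g := fun t => t - c) (f := f)]
  · refine sum_le_sum_of_subset_of_nonneg ?_ fun t _ _ => hf t
    intro t ht
    obtain ⟨u, hu, rfl⟩ := mem_image.mp ht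
    simp only [mem_filter, mem_range] at hu ⊢
    omega
  · intro a ha b hb hab
    simp only [coe_filter, mem_range, Set.mem_setOf_eq] at ha hb hab
    omega

/-- Rankin's trick -/
theorem rankin (w : ℕ → ℕ → ℕ) {u : ℝ} (hu : 0 ≤ u) (T : ℕ → ℝ) (j₀ : ℕ)
    (hT1 : ∀ i, j₀ ≤ i → 1 ≤ T i)
    (hT : ∀ i, j₀ ≤ i → ∀ M, (∑ m ∈ range M, (w i m : ℝ) * u ^ (i * m)) * T (i + 1) ≤ T i) :
    ∀ k j N, j₀ ≤ j → ∑ t ∈ range N, (Z w k j t : ℝ) * u ^ t ≤ T j := by
  intro k
  induction k with
  | zero =>
    intro j N hj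
    refine le_trans ?_ (hT1 j hj)
    simp only [Z]
    rcases N with _ | N
    · simp
    · rw [sum_range_succ']; simp
  | succ k ih =>
    intro j N hj
    refine le_trans ?_ (hT j hj N)
    have h1 : ∀ t ∈ range N, (Z w (k + 1) j t : ℝ) * u ^ t ≤
        ∑ m ∈ range N, (w j m : ℝ) * u ^ (j * m) *
          (if j * m ≤ t then (Z w k (j + 1) (t - j * m) : ℝ) * u ^ (t - j * m) else 0) := by
      intro t ht
      simp only [Z]
      push_cast
      rw [sum_mul]
      refine le_trans (le_of_eq (sum_congr rfl fun m _ => ?_))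
        (sum_le_sum_of_subset_of_nonneg (range_subset_range.mpr (mem_range.mp ht)) fun m _ _ => ?_)
      · split_ifs with h
        · have : u ^ t = u ^ (j * m) * u ^ (t - j * m) := by rw [← pow_add]; congr 1; omega
          rw [this]; ring
        · simp
      · split_ifs <;> positivity
    refine (sum_le_sum h1).trans ?_
    rw [sum_comm, sum_mul]
    refine sum_le_sum fun m _ => ?_
    rw [← mul_sum]
    refine mul_le_mul_of_nonneg_left ?_ (by positivity)
    exact (sum_shift_le (fun t => (Z w k (j + 1) t : ℝ) * u ^ t) (fun t => by positivity) _ N).trans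
      (ih (j + 1) N (by omega))

/-- the first level of the recursion, bounded through Rankin's trick -/
theorem level_le (z : ℕ → ℝ) (hz : ∀ t, 0 ≤ z t) {u B C : ℝ} (hu : 0 ≤ u) (hC : 0 ≤ C)
    (hB : ∀ N, ∑ t ∈ range N, z t * u ^ t ≤ B) (a : ℕ → ℝ) (e : ℕ → ℕ) (he : Function.Injective e)
    (M n : ℕ) (ha : ∀ m ∈ range M, a m * u ^ e m ≤ C) :
    (∑ m ∈ range M, if e m ≤ n then a m * z (n - e m) else 0) * u ^ n ≤ C * B := by
  classical
  refine le_trans ?_ (mul_le_mul_of_nonneg_left (hB (n + 1)) hC)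
  rw [← sum_filter, sum_mul]
  have h1 : ∀ m ∈ (range M).filter (fun m => e m ≤ n), a m * z (n - e m) * u ^ n ≤
      C * (z (n - e m) * u ^ (n - e m)) := by
    intro m hm
    rw [mem_filter] at hm
    have : u ^ n = u ^ e m * u ^ (n - e m) := by rw [← pow_add]; congr 1; omega
    rw [this]
    calc _ = a m * u ^ e m * (z (n - e m) * u ^ (n - e m)) := by ring
      _ ≤ _ := mul_le_mul_of_nonneg_right (ha m hm.1) (mul_nonneg (hz _) (by positivity))
  refine (sum_le_sum h1).trans ?_
  rw [← mul_sum]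
  refine mul_le_mul_of_nonneg_left ?_ hC
  rw [← sum_image (s := (range M).filter (fun m => e m ≤ n)) (g := fun m => n - e m)
    (f := fun t => z t * u ^ t)]
  · refine sum_le_sum_of_subset_of_nonneg ?_ fun t _ _ => mul_nonneg (hz _) (by positivity)
    intro t ht
    obtain ⟨m, -, rfl⟩ := mem_image.mp ht
    simp only [mem_range]; omega
  · intro a ha b hb hab
    simp only [coe_filter, mem_range, Set.mem_setOf_eq] at ha hb hab
    exact he (by omega)

lemma geom_le {x : ℝ} (h0 : 0 ≤ x) (h1 : x < 1) (M : ℕ) : ∑ m ∈ range M, x ^ m ≤ 1 / (1 - x) := by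
  rw [le_div_iff₀ (by linarith), geom_sum_mul_neg]
  have := pow_nonneg h0 M
  linarith

theorem Z_mono {w w' : ℕ → ℕ → ℕ} (h : ∀ i m, w i m ≤ w' i m) : ∀ k j n, Z w k j n ≤ Z w' k j n := by
  intro k
  induction k with
  | zero => intro j n; simp [Z]
  | succ k ih =>
    intro j n
    simp only [Z]
    refine sum_le_sum fun m _ => ?_
    split_ifs
    · exact Nat.mul_le_mul (h _ _) (ih _ _)
    · exact le_rfl

theorem K_mono {W W' w w' : ℕ → ℕ → ℕ} (hW : ∀ i m, W i m ≤ W' i m) (h : ∀ i m, w i m ≤ w' i m) :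
    ∀ k j n, K W w k j n ≤ K W' w' k j n := by
  intro k
  induction k with
  | zero => intro j n; simp [K]
  | succ k ih =>
    intro j n
    simp only [K]
    refine add_le_add (ih _ _) (sum_le_sum fun m _ => ?_)
    split_ifs
    · exact Nat.mul_le_mul (hW _ _) (Z_mono h _ _ _)
    · exact le_rfl

end Cnt
end H16
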