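import Mathlib
import Cfsg.Agent.H16.CntZ
import Cfsg.Agent.H16.CntTyp

/-! Upper bounds for the number of conjugacy classes of `SL_n(q)` (all, or those stable under a scalar). -/

namespace H16
namespace Cnt

open Polynomial Finset H24.Sim Module Matrix

variable {F : Type*} [Field F]

/-- number of monic polynomials of degree `m` with non-zero constant term -/
def NN (q : ℕ) : ℕ → ℕ → ℕ := fun _ m => if m = 0 then 1 else (q - 1) * q ^ (m - 1)

/-- weight of the first non-trivial index -/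
def WW (r q : ℕ) : ℕ → ℕ → ℕ := fun j m => (Nat.gcd r j) ^ 2 * q ^ (m - 1)

lemma card_NN [Fintype F] (i m : ℕ) (t : Finset F[X])
    (h : ∀ a ∈ t, (a.Monic ∧ a.coeff 0 ≠ 0) ∧ a.natDegree = m) : t.card ≤ NN (Fintype.card F) i m := by
  rcases m with _ | m
  · simp only [NN, if_true]
    refine card_le_one.mpr fun a ha b hb => ?_
    rw [(h a ha).1.1.natDegree_eq_zero.mp (h a ha).2, (h b hb).1.1.natDegree_eq_zero.mp (h b hb).2]
  · refine (card_monic_le m (· ≠ 0) t fun f hf => ⟨(h f hf).1.1, (h f hf).2, (h f hf).1.2⟩).trans ?_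
    simp only [NN, Nat.succ_ne_zero, if_false, Nat.add_sub_cancel]
    refine Nat.mul_le_mul_right _ (le_of_eq ?_)
    classical
    rw [Nat.card_eq_fintype_card, Fintype.card_subtype_compl, Fintype.card_subtype_eq]

lemma card_pow_eq_le [Fintype F] {c₀ : F} (h0 : c₀ ≠ 0) {j : ℕ} (hj : 0 < j) :
    Nat.card {c : F // c ^ j = c₀ ^ j} ≤ Nat.gcd (Fintype.card F - 1) j := by
  classical
  have h1 := IsCyclic.card_powMonoidHom_ker Fˣ j
  rw [Nat.card_eq_fintype_card (α := Fˣ), Fintype.card_units] at h1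
  rw [← h1]
  have h2 : ∀ c : {c : F // c ^ j = c₀ ^ j}, c.1 ≠ 0 := by
    rintro ⟨c, hc⟩ rfl
    exact pow_ne_zero j h0 (by rw [← hc, zero_pow hj.ne'])
  refine Nat.card_le_card_of_injective (fun c => ⟨Units.mk0 c.1 (h2 c) * (Units.mk0 c₀ h0)⁻¹, ?_⟩) ?_
  · rw [MonoidHom.mem_ker, powMonoidHom_apply, mul_pow, _root_.inv_pow, mul_inv_eq_one]
    ext; simpa using c.2
  · intro a b hab
    simp only [Subtype.mk.injEq, mul_left_inj] at hab
    exact Subtype.ext (by simpa using congrArg Units.val hab)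

variable {n : ℕ}

/-- a representative of a conjugacy class -/
noncomputable def rp {G : Type*} [Monoid G] (C : ConjClasses G) : G := (ConjClasses.exists_rep C).choose

lemma mk_rp {G : Type*} [Monoid G] (C : ConjClasses G) : ConjClasses.mk (rp C) = C :=
  (ConjClasses.exists_rep C).choose_spec

lemma card_SL_fiber [Fintype F] (hn : 0 < n) (t : Finset (ConjClasses (SpecialLinearGroup (Fin n) F)))
    {M : Multiset F[X]} (h : ∀ C ∈ t, typ (rp C).1 = M) {j : ℕ} (hj : 0 < (hs M j).natDegree) :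
    t.card ≤ Nat.gcd (Fintype.card F - 1) j := by
  classical
  haveI : Nonempty (Fin n) := ⟨⟨0, hn⟩⟩
  rcases t.eq_empty_or_nonempty with rfl | ⟨C₀, h0⟩
  · simp
  have h1 := card_SL_classes (rp C₀)
  have hM : IsTyp M := h C₀ h0 ▸ isTyp_typ _
  obtain ⟨p, hp, hi, -, hm⟩ := exists_mem_of_deg hM hj
  have h2 : (powMonoidHom j : Fˣ →* Fˣ).range ≤
      (Subgroup.centralizer ({SpecialLinearGroup.toGL (rp C₀)} : Set (GL (Fin n) F))).map
        GeneralLinearGroup.det := by
    rintro _ ⟨c, rfl⟩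
    obtain ⟨B, hB, hd⟩ := exists_commute_det_pp hp hi ((h C₀ h0).symm ▸ hm) (c : F)
    have hu : IsUnit B := (isUnit_iff_isUnit_det B).2 (by rw [hd]; exact (c.isUnit).pow j)
    refine ⟨hu.unit, ?_, ?_⟩
    · simp only [SetLike.mem_coe, Subgroup.mem_centralizer_iff, Set.mem_singleton_iff, forall_eq]
      exact Units.ext hB.eq.symm
    · ext; simpa using hd
  have h3 := Subgroup.index_antitone h2
  rw [IsCyclic.index_powMonoidHom_range, Nat.card_eq_fintype_card (α := Fˣ), Fintype.card_units,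
    ← h1] at h3
  refine le_trans ?_ h3
  rw [← Nat.card_eq_finsetCard]
  refine Nat.card_le_card_of_injective (fun C : t => ⟨C.1, rp C.1, mk_rp _,
    (typ_eq_iff _ _).mp ((h C₀ h0).trans (h C.1 C.2).symm)⟩) fun a b hab => Subtype.ext (by simpa using hab)

lemma coeff_prod_hs (A : Matrix (Fin n) (Fin n) F) :
    ∏ i ∈ Ico 1 (1 + n), (hs (typ A) i).coeff 0 ^ i = (-1) ^ n * A.det := by
  have h1 := prod_hs (isTyp_typ A) (k := n) fun f hf => by
    have := be_le_deg (isTyp_typ A) hf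
    rwa [deg_typ, Fintype.card_fin] at this
  rw [prod_typ] at h1
  rw [Matrix.det_eq_sign_charpoly_coeff, ← h1, Fintype.card_fin, ← mul_assoc, ← mul_pow]
  simp only [coeff_zero_eq_eval_zero, eval_prod, eval_pow]
  simp

lemma sum_deg_hs (A : Matrix (Fin n) (Fin n) F) :
    ∑ i ∈ Ico 1 (1 + n), i * (hs (typ A) i).natDegree = n := by
  have h1 := deg_hs (isTyp_typ A) (k := n) fun f hf => by
    have := be_le_deg (isTyp_typ A) hf
    rwa [deg_typ, Fintype.card_fin] at this
  rwa [deg_typ, Fintype.card_fin] at h1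

lemma hs_typ_eq_one (A : Matrix (Fin n) (Fin n) F) {i : ℕ} (hi : n < i) : hs (typ A) i = 1 :=
  hs_eq_one fun f hf => by
    have := be_le_deg (isTyp_typ A) hf
    rw [deg_typ, Fintype.card_fin] at this
    omega

lemma mul_deg_hs_le (A : Matrix (Fin n) (Fin n) F) (i : ℕ) : i * (hs (typ A) i).natDegree ≤ n := by
  by_cases h : i ∈ Ico 1 (1 + n)
  · conv_rhs => rw [← sum_deg_hs A]
    exact single_le_sum (f := fun i => i * (hs (typ A) i).natDegree) (fun _ _ => Nat.zero_le _) h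
  · rw [mem_Ico] at h
    rcases Nat.eq_zero_or_pos i with rfl | hi
    · simp
    · rw [hs_typ_eq_one A (by omega)]; simp

/-- the first non-trivial constant term is determined up to a root of unity by the determinant -/
lemma coeff_pow_eq {A B : Matrix (Fin n) (Fin n) F} (hA : IsUnit A) (hd : A.det = B.det) {j : ℕ}
    (hj : 0 < j) (h : ∀ i, 0 < i → i ≠ j → (hs (typ A) i).coeff 0 = (hs (typ B) i).coeff 0)
    (hjn : j ≤ n) : (hs (typ A) j).coeff 0 ^ j = (hs (typ B) j).coeff 0 ^ j := by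
  have h1 := coeff_prod_hs A
  have h2 := coeff_prod_hs B
  have hm : j ∈ Ico 1 (1 + n) := mem_Ico.mpr ⟨hj, by omega⟩
  rw [← mul_prod_erase _ _ hm] at h1 h2
  have h3 : ∏ i ∈ (Ico 1 (1 + n)).erase j, (hs (typ A) i).coeff 0 ^ i =
      ∏ i ∈ (Ico 1 (1 + n)).erase j, (hs (typ B) i).coeff 0 ^ i :=
    prod_congr rfl fun i hi => by
      rw [mem_erase, mem_Ico] at hi
      rw [h i hi.2.1 hi.1]
  have h4 : ∏ i ∈ (Ico 1 (1 + n)).erase j, (hs (typ A) i).coeff 0 ^ i ≠ 0 :=
    prod_ne_zero_iff.mpr fun i _ => pow_ne_zero _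
      (hs_coeff_ne_zero (isTyp_typ A) ((isUnit_iff A).mp hA) i)
  refine mul_right_cancel₀ h4 ?_
  rw [h1, h3, h2, hd]

lemma isUnit_SL (a : SpecialLinearGroup (Fin n) F) : IsUnit a.1 :=
  (isUnit_iff_isUnit_det _).2 (by rw [a.2]; exact isUnit_one)

theorem card_SL_le [Fintype F] {e n' : ℕ} (he : 0 < e) (hn' : 0 < n') (hn : n = e * n')
    (s : Finset (ConjClasses (SpecialLinearGroup (Fin n) F)))
    (hs' : ∀ C ∈ s, ∀ i, ∃ h, hs (typ (rp C).1) i = expand F e h) :
    s.card ≤ K (WW (Fintype.card F - 1) (Fintype.card F)) (NN (Fintype.card F)) n' 1 n' := by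
  classical
  let φ : ConjClasses (SpecialLinearGroup (Fin n) F) → ℕ → F[X] :=
    fun C i => contract e (hs (typ (rp C).1) i)
  have hφ : ∀ C ∈ s, ∀ i, hs (typ (rp C).1) i = expand F e (φ C i) := by
    intro C hC i
    obtain ⟨h, hh⟩ := hs' C hC i
    simp only [φ]
    rw [hh, contract_expand e he.ne']
  have hmon : ∀ C ∈ s, ∀ i, (φ C i).Monic := fun C hC i =>
    (monic_expand_iff he).mp (hφ C hC i ▸ monic_hs (isTyp_typ _) i)
  have hdeg : ∀ C ∈ s, ∀ i, (hs (typ (rp C).1) i).natDegree = (φ C i).natDegree * e := fun C hC i => by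
    rw [hφ C hC i, natDegree_expand]
  have hco : ∀ C ∈ s, ∀ i, (hs (typ (rp C).1) i).coeff 0 = (φ C i).coeff 0 := fun C hC i => by
    rw [hφ C hC i, coeff_expand he]; simp
  have hle : ∀ C ∈ s, ∀ i, i * (φ C i).natDegree ≤ n' := by
    intro C hC i
    have := mul_deg_hs_le (rp C).1 i
    rw [hdeg C hC, hn, ← mul_assoc, mul_comm e] at this
    exact Nat.le_of_mul_le_mul_right this he
  have hout : ∀ C ∈ s, ∀ i, 1 + n' ≤ i → φ C i = 1 := by
    intro C hC i hi
    have := hle C hC i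
    refine (hmon C hC i).natDegree_eq_zero.mp ?_
    by_contra h
    have : i * 1 ≤ i * (φ C i).natDegree := Nat.mul_le_mul_left _ (by omega)
    omega
  have hn'n : n' ≤ n := by rw [hn]; exact Nat.le_mul_of_pos_left _ he
  refine card_le_K _ _ natDegree (fun _ a => a.Monic ∧ a.coeff 0 ≠ 0) (card_NN) φ 1 hn' n' 1 s one_pos
    ?_ ?_ hout (fun _ _ i h1 h2 => by omega) ?_
  · intro C hC i _
    refine ⟨hmon C hC i, ?_⟩
    rw [← hco C hC]
    exact hs_coeff_ne_zero (isTyp_typ _) ((isUnit_iff _).mp (isUnit_SL _)) i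
  · intro C hC
    have h1 := sum_deg_hs (rp C).1
    simp only [hdeg C hC, ← mul_assoc, ← sum_mul] at h1
    rw [← sum_subset (s₁ := Ico 1 (1 + n')) (Ico_subset_Ico_right (by omega)) fun i hi hi' => by
      rw [mem_Ico] at hi hi'
      rw [hout C hC i (by omega)]; simp] at h1
    refine Nat.eq_of_mul_eq_mul_right he ?_
    rw [h1, hn, mul_comm]
  · intro j m t hj hts h1 h2 h3
    rcases t.eq_empty_or_nonempty with rfl | ⟨C₀, h0⟩
    · simp
    have hlow : ∀ C ∈ t, ∀ i, 0 < i → i < j → φ C i = 1 := fun C hC i hi hij =>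
      (hmon C (hts hC) i).natDegree_eq_zero.mp (h1 C hC i hi hij)
    have hoth : ∀ C ∈ t, ∀ C' ∈ t, ∀ i, 0 < i → i ≠ j → φ C i = φ C' i := by
      intro C hC C' hC' i hi hij
      rcases lt_or_gt_of_ne hij with h | h
      · rw [hlow C hC i hi h, hlow C' hC' i hi h]
      · exact h3 C hC C' hC' i h
    have hjn : j ≤ n := by
      have := hle C₀ (hts h0) j
      rw [h2 C₀ h0] at this
      have : j * 1 ≤ j * (m + 1) := Nat.mul_le_mul_left _ (by omega)
      omega
    simp only [WW, Nat.add_sub_cancel, sq, mul_assoc]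
    refine (card_le_mul_card_image (f := fun C => φ C j) _ _ ?_).trans (Nat.mul_le_mul_left _ ?_)
    · intro a ha
      obtain ⟨C₁, hC₁, rfl⟩ := mem_image.mp ha
      refine card_SL_fiber (by omega) _ (M := typ (rp C₁).1) ?_ ?_
      · intro C hC
        rw [mem_filter] at hC
        refine eq_of_hs (isTyp_typ _) (isTyp_typ _) fun i hi => ?_
        rw [hφ C (hts hC.1), hφ C₁ (hts hC₁)]
        by_cases hij : i = j
        · rw [hij, hC.2]
        · rw [hoth C hC.1 C₁ hC₁ i hi hij]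
      · rw [hdeg C₁ (hts hC₁), h2 C₁ hC₁]; positivity
    · have hc0 : (φ C₀ j).coeff 0 ≠ 0 := by
        rw [← hco C₀ (hts h0)]
        exact hs_coeff_ne_zero (isTyp_typ _) ((isUnit_iff _).mp (isUnit_SL _)) j
      refine (card_monic_le m (fun c => c ^ j = (φ C₀ j).coeff 0 ^ j) _ ?_).trans
        (Nat.mul_le_mul_right _ (card_pow_eq_le hc0 hj))
      intro f hf
      obtain ⟨C, hC, rfl⟩ := mem_image.mp hf
      refine ⟨hmon C (hts hC) j, h2 C hC, ?_⟩
      rw [← hco C (hts hC), ← hco C₀ (hts h0)]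
      refine coeff_pow_eq (isUnit_SL _) ((rp C).2.trans (rp C₀).2.symm) hj (fun i hi hij => ?_) hjn
      rw [hco C (hts hC), hco C₀ (hts h0), hoth C hC C₀ h0 i hi hij]

/-! ### numerical estimates -/

lemma tail_eq (z : ℕ → ℕ) (q : ℕ) {j : ℕ} (hj : 0 < j) (n : ℕ) :
    (∑ m ∈ range n, if j * (m + 1) ≤ n then q ^ m * z (n - j * (m + 1)) else 0) =
      if j ≤ n then ∑ m ∈ range (n - j + 1), if j * m ≤ n - j then q ^ m * z (n - j - j * m) else 0
      else 0 := by
  split_ifs with h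
  · symm
    refine sum_subset_zero_on_sdiff (range_subset_range.mpr (by omega)) ?_ ?_
    · intro m hm
      simp only [mem_sdiff, mem_range] at hm
      have : m ≤ j * m := Nat.le_mul_of_pos_left _ hj
      rw [if_neg (by rw [mul_add]; omega)]
    · intro m _
      rw [mul_add, mul_one]
      by_cases h2 : j * m ≤ n - j
      · rw [if_pos h2, if_pos (by omega)]; congr 2; omega
      · rw [if_neg h2, if_neg (by omega)]
  · refine sum_eq_zero fun m _ => ?_
    rw [if_neg (by rw [mul_add]; omega)]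

/-- a Fibonacci type sequence -/
def fq (q : ℕ) : ℕ → ℕ
  | 0 => 0
  | 1 => 1
  | t + 2 => fq q (t + 1) + q * fq q t

lemma fq_mono (q : ℕ) : Monotone (fq q) := by
  refine monotone_nat_of_le_succ fun t => ?_
  rcases t with _ | t
  · simp [fq]
  · simp [fq]

lemma Z_zero_le (w : ℕ → ℕ → ℕ) (hw : ∀ i, w i 0 = 1) : ∀ k j, Z w k j 0 = 1 := by
  intro k
  induction k with
  | zero => intro j; simp [Z]
  | succ k ih => intro j; simp [Z, hw, ih]

lemma Zq_succ (q k : ℕ) {j : ℕ} (hj : 0 < j) (n : ℕ) :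
    Z (fun _ m => q ^ m) (k + 1) j n = Z (fun _ m => q ^ m) k (j + 1) n +
      q * if j ≤ n then Z (fun _ m => q ^ m) (k + 1) j (n - j) else 0 := by
  conv_lhs => rw [Z, sum_range_succ', add_comm]
  congr 1
  · simp
  · rw [Z, ← tail_eq _ q hj, mul_sum]
    refine sum_congr rfl fun m _ => ?_
    split_ifs
    · ring
    · simp

lemma Zq_le (q : ℕ) : ∀ n k j, 2 ≤ j → 1 ≤ n → Z (fun _ m => q ^ m) k j n ≤ q * fq q (n + 1 - j) := by
  intro n
  induction n using Nat.strong_induction_on with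
  | _ n ihn =>
    intro k
    induction k with
    | zero => intro j _ hn; simp [Z, show n ≠ 0 by omega]
    | succ k ih =>
      intro j hj hn
      rw [Zq_succ q k (by omega)]
      have h1 := ih (j + 1) (by omega) hn
      rw [show n + 1 - (j + 1) = n - j by omega] at h1
      rcases lt_trichotomy n j with h | rfl | h
      · rw [if_neg (by omega), show n + 1 - j = 0 by omega]
        rw [show n - j = 0 by omega] at h1
        simpa using h1
      · rw [if_pos le_rfl, Nat.sub_self, Z_zero_le _ (by simp), show n + 1 - n = 1 by omega]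
        rw [Nat.sub_self] at h1
        simp only [fq] at h1 ⊢; omega
      · rw [if_pos h.le]
        have h2 := ihn (n - j) (by omega) (k + 1) j hj (by omega)
        have h3 := fq_mono q (show n - j + 1 - j ≤ n - j - 1 by omega)
        obtain ⟨t, ht⟩ : ∃ t, n - j = t + 1 := ⟨n - j - 1, by omega⟩
        rw [show n + 1 - j = t + 2 by omega, fq, mul_add]
        rw [ht] at h1 h2 h3 ⊢
        refine add_le_add h1 (Nat.mul_le_mul_left _ (h2.trans (Nat.mul_le_mul_left _ h3)))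

lemma K_le_fq (q r : ℕ) (W w : ℕ → ℕ → ℕ) (hW : ∀ j m, W j (m + 1) ≤ r * q ^ m) (hw : ∀ i m, w i m ≤ q ^ m)
    {n : ℕ} (hn : 1 ≤ n) : ∀ k j, 2 ≤ j → K W w k j n ≤ r * fq q (n + 1 - j) := by
  intro k
  induction k with
  | zero => intro j _; simp [K]
  | succ k ih =>
    intro j hj
    have h1 := ih (j + 1) (by omega)
    rw [show n + 1 - (j + 1) = n - j by omega] at h1
    have h2 : (∑ m ∈ range n, if j * (m + 1) ≤ n then W j (m + 1) * Z w k (j + 1) (n - j * (m + 1)) else 0)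
        ≤ r * if j ≤ n then Z (fun _ m => q ^ m) (k + 1) j (n - j) else 0 := by
      rw [Z, ← tail_eq _ q (by omega), mul_sum]
      refine sum_le_sum fun m _ => ?_
      split_ifs
      · rw [← mul_assoc]; exact Nat.mul_le_mul (hW _ _) (Z_mono hw _ _ _)
      · simp
    rw [K]
    refine (add_le_add h1 h2).trans ?_
    rw [← mul_add]
    refine Nat.mul_le_mul_left _ ?_
    rcases lt_trichotomy n j with h | rfl | h
    · rw [if_neg (by omega), show n + 1 - j = 0 by omega, show n - j = 0 by omega]; simp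
    · rw [if_pos le_rfl, Nat.sub_self, Z_zero_le _ (by simp), show n + 1 - n = 1 by omega]
      simp [fq]
    · rw [if_pos h.le]
      have h2 := Zq_le q (n - j) (k + 1) j hj (by omega)
      have h3 := fq_mono q (show n - j + 1 - j ≤ n - j - 1 by omega)
      obtain ⟨t, ht⟩ : ∃ t, n - j = t + 1 := ⟨n - j - 1, by omega⟩
      rw [show n + 1 - j = t + 2 by omega, fq]
      rw [ht] at h2 h3 ⊢
      exact add_le_add le_rfl (h2.trans (Nat.mul_le_mul_left _ h3))

lemma sum_geom_weight_le (w : ℕ → ℕ) {a q x : ℝ} (ha : 0 ≤ a) (hq : 0 ≤ q) (hx : 0 ≤ x) (h1 : q * x < 1)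
    (h0 : (w 0 : ℝ) ≤ 1) (hw : ∀ m, (w (m + 1) : ℝ) ≤ a * q ^ m) (M : ℕ) :
    ∑ m ∈ range M, (w m : ℝ) * x ^ m ≤ 1 + a * x / (1 - q * x) := by
  have h2 : 0 < 1 - q * x := by linarith
  rcases M with _ | M
  · simp; positivity
  rw [sum_range_succ', add_comm]
  refine add_le_add (by simpa using h0) ?_
  calc ∑ m ∈ range M, (w (m + 1) : ℝ) * x ^ (m + 1) ≤ ∑ m ∈ range M, a * x * (q * x) ^ m :=
        sum_le_sum fun m _ => by
          calc (w (m + 1) : ℝ) * x ^ (m + 1) ≤ a * q ^ m * x ^ (m + 1) := by gcongr; exact hw m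
            _ = _ := by ring
    _ = a * x * ∑ m ∈ range M, (q * x) ^ m := by rw [mul_sum]
    _ ≤ a * x * (1 / (1 - q * x)) := by
        gcongr; exact geom_le (by positivity) h1 M
    _ = _ := by ring

lemma rankin_NN {q : ℕ} (hq : 2 ≤ q) (k N : ℕ) :
    ∑ t ∈ range N, (Z (NN q) k 2 t : ℝ) * ((q : ℝ)⁻¹) ^ t ≤ q / (q - 1) := by
  have hq' : (2 : ℝ) ≤ q := by exact_mod_cast hq
  set u : ℝ := (q : ℝ)⁻¹ with hu
  have hu0 : 0 < u := by positivity
  have hqu : q * u = 1 := by rw [hu]; field_simp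
  have hu1 : u < 1 := by nlinarith
  have hlt : ∀ i, 1 ≤ i → u ^ i < 1 := fun i hi => pow_lt_one₀ hu0.le hu1 (by omega)
  have := rankin (NN q) hu0.le (fun i => 1 / (1 - u ^ (i - 1))) 2 (fun i hi => by
      have := hlt (i - 1) (by omega)
      have h2 : 0 < u ^ (i - 1) := by positivity
      rw [le_div_iff₀ (by linarith)]; linarith) (fun i hi M => by
      obtain ⟨i, rfl⟩ : ∃ i', i = i' + 1 := ⟨i - 1, by omega⟩
      have h1 := hlt i (by omega)
      have h2 := hlt (i + 1) (by omega)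
      have h3 : q * u ^ (i + 1) = u ^ i := by rw [pow_succ']; rw [← mul_assoc, hqu, one_mul]
      have h4 := sum_geom_weight_le (NN q (i + 1)) (a := q - 1) (q := q) (x := u ^ (i + 1))
        (by linarith) (by linarith) (by positivity) (by rw [h3]; exact h1) (by simp [NN])
        (fun m => by simp [NN, Nat.cast_sub (show 1 ≤ q by omega)]) M
      simp only [pow_mul, Nat.add_sub_cancel]
      rw [h3] at h4
      have h5 : 0 < 1 - u ^ i := by linarith
      have h6 : 0 < 1 - u ^ (i + 1) := by linarith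
      refine (mul_le_mul_of_nonneg_right h4 (by positivity)).trans (le_of_eq ?_)
      field_simp
      linear_combination h3) k 2 N le_rfl
  refine this.trans (le_of_eq ?_)
  have : (q : ℝ) - 1 ≠ 0 := by linarith
  simp only [hu]
  field_simp
  norm_num
  field_simp

/-- the bound for the number of classes of `SL_n(q)` -/
def BSL (q n : ℕ) : ℕ := K (WW (q - 1) q) (NN q) n 1 n

lemma BSL_main {q : ℕ} (hq : 2 ≤ q) (k : ℕ) :
    (q - 1) * BSL q (k + 1) ≤ q ^ (k + 1) + (q - 1) * ((q - 1) ^ 2 * fq q k) := by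
  have hq' : (2 : ℝ) ≤ q := by exact_mod_cast hq
  rw [BSL, K, mul_add, add_comm]
  refine add_le_add ?_ (Nat.mul_le_mul_left _ ?_)
  · have h1 := level_le (fun t => (Z (NN q) k 2 t : ℝ)) (fun _ => by positivity) (u := (q : ℝ)⁻¹)
      (C := (q : ℝ)⁻¹) (by positivity) (by positivity) (rankin_NN hq k)
      (fun m => (WW (q - 1) q 1 (m + 1) : ℝ)) (fun m => 1 * (m + 1)) (fun a b h => by simpa using h)
      (k + 1) (k + 1) (fun m _ => by
        simp only [WW, Nat.gcd_one_right, one_pow, one_mul, Nat.add_sub_cancel]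
        push_cast
        rw [pow_succ, ← mul_assoc, ← mul_pow, mul_inv_cancel₀ (by linarith), one_pow, one_mul])
    have h2 : (((q - 1) * ∑ m ∈ range (k + 1), (if 1 * (m + 1) ≤ k + 1 then
        WW (q - 1) q 1 (m + 1) * Z (NN q) k (1 + 1) (k + 1 - 1 * (m + 1)) else 0) : ℕ) : ℝ) ≤
        ((q ^ (k + 1) : ℕ) : ℝ) := by
      push_cast [Nat.cast_sub (show 1 ≤ q by omega)]
      rw [_root_.inv_pow, ← div_eq_mul_inv, div_le_iff₀ (by positivity)] at h1
      have h3 : (q : ℝ) - 1 ≠ 0 := by linarith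
      calc _ ≤ ((q : ℝ) - 1) * ((q : ℝ)⁻¹ * (q / (q - 1)) * q ^ (k + 1)) :=
            mul_le_mul_of_nonneg_left h1 (by linarith)
        _ = _ := by field_simp
    exact_mod_cast h2
  · have := K_le_fq q ((q - 1) ^ 2) (WW (q - 1) q) (NN q) (fun j m => by
        simp only [WW, Nat.add_sub_cancel]
        gcongr
        exact Nat.gcd_le_left _ (by omega)) (fun i m => by
        rcases m with _ | m
        · simp [NN]
        · simp only [NN, Nat.succ_ne_zero, if_false, Nat.add_sub_cancel, pow_succ']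
          gcongr; omega) (n := k + 1) (by omega) k 2 le_rfl
    simpa using this

lemma fq_bound (x t : ℕ) : (x + 1) ^ 3 * fq (x + 2) (t + 4) ≤ (2 * x + 1) * (x + 2) ^ (t + 3) := by
  induction t using Nat.twoStepInduction with
  | zero => simp only [fq]; ring_nf; nlinarith [Nat.zero_le x, Nat.zero_le (x ^ 2), Nat.zero_le (x ^ 3)]
  | one =>
    simp only [fq]; ring_nf
    nlinarith [Nat.zero_le x, Nat.zero_le (x ^ 2), Nat.zero_le (x ^ 3), Nat.zero_le (x ^ 4),
      Nat.zero_le (x ^ 5)]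
  | more t h1 h2 =>
    rw [show t + 2 + 4 = (t + 4) + 2 by ring, fq, mul_add]
    calc _ ≤ (2 * x + 1) * (x + 2) ^ (t + 1 + 3) + (x + 2) * ((2 * x + 1) * (x + 2) ^ (t + 3)) := by
          refine add_le_add h2 ?_
          rw [mul_left_comm]; exact Nat.mul_le_mul_left _ h1
      _ = 2 * ((2 * x + 1) * (x + 2) ^ (t + 4)) := by ring
      _ ≤ (x + 2) * ((2 * x + 1) * (x + 2) ^ (t + 4)) := Nat.mul_le_mul_right _ (by omega)
      _ = _ := by ring

lemma BSL_one (q : ℕ) : BSL q 1 = 1 := by simp [BSL, K, Z, WW]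

lemma BSL_two (q : ℕ) : BSL q 2 = q + (Nat.gcd (q - 1) 2) ^ 2 := by
  simp [BSL, K, Z, WW, NN, sum_range_succ]; ring

lemma BSL_three (q : ℕ) : BSL q 3 = q ^ 2 + (q - 1) + (Nat.gcd (q - 1) 3) ^ 2 := by
  simp [BSL, K, Z, WW, NN, sum_range_succ]; ring

lemma BSL_four (q : ℕ) : BSL q 4 = q ^ 3 + q * (q - 1) + (q - 1) + (Nat.gcd (q - 1) 2) ^ 2 * q
    + (Nat.gcd (q - 1) 4) ^ 2 := by
  simp [BSL, K, Z, WW, NN, sum_range_succ]; ring

lemma BSL_two_le (q : ℕ) : BSL q 2 ≤ q + 4 := by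
  rw [BSL_two]
  have : Nat.gcd (q - 1) 2 ≤ 2 := Nat.gcd_le_right _ (by norm_num)
  nlinarith

theorem BSL_le {q : ℕ} (hq : 2 ≤ q) {n : ℕ} (hn : 3 ≤ n) : BSL q n ≤ q ^ (n - 1) + 3 * q ^ (n - 2) := by
  obtain ⟨x, rfl⟩ : ∃ x, q = x + 2 := ⟨q - 2, by omega⟩
  have g : ∀ j, 0 < j → Nat.gcd (x + 1) j ≤ x + 1 ∧ Nat.gcd (x + 1) j ≤ j := fun j hj =>
    ⟨Nat.gcd_le_left _ (by omega), Nat.gcd_le_right _ hj⟩
  rcases (show n = 3 ∨ n = 4 ∨ 5 ≤ n by omega) with rfl | rfl | h5
  · rw [BSL_three, show x + 2 - 1 = x + 1 by omega]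
    obtain ⟨g1, g2⟩ := g 3 (by norm_num)
    rcases (show x = 0 ∨ x = 1 ∨ 2 ≤ x by omega) with rfl | rfl | h
    · decide
    · decide
    · norm_num; nlinarith
  · rw [BSL_four, show x + 2 - 1 = x + 1 by omega]
    obtain ⟨g1, g2⟩ := g 2 (by norm_num)
    obtain ⟨g3, g4⟩ := g 4 (by norm_num)
    rcases (show x = 0 ∨ x = 1 ∨ 2 ≤ x by omega) with rfl | rfl | h
    · decide
    · decide
    · have h1 : Nat.gcd (x + 1) 2 ^ 2 ≤ 4 := by nlinarith
      have h2 : Nat.gcd (x + 1) 4 ^ 2 ≤ 16 := by nlinarith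
      have h3 : Nat.gcd (x + 1) 2 ^ 2 * (x + 2) ≤ 4 * (x + 2) := Nat.mul_le_mul_right _ h1
      norm_num; nlinarith
  · obtain ⟨t, rfl⟩ : ∃ t, n = t + 5 := ⟨n - 5, by omega⟩
    have h1 := BSL_main hq (t + 4)
    have h2 := fq_bound x t
    rw [show x + 2 - 1 = x + 1 by omega] at h1
    refine Nat.le_of_mul_le_mul_left (c := x + 1) ?_ (by omega)
    refine h1.trans ?_
    rw [show t + 5 - 1 = t + 4 by omega, show t + 5 - 2 = t + 3 by omega]
    calc _ = (x + 2) ^ (t + 5) + (x + 1) ^ 3 * fq (x + 2) (t + 4) := by ring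
      _ ≤ (x + 2) ^ (t + 5) + (2 * x + 1) * (x + 2) ^ (t + 3) := by gcongr
      _ = _ := by ring

theorem BSL_le' {q : ℕ} (hq : 2 ≤ q) {n : ℕ} (hn : 1 ≤ n) : 2 * BSL q n ≤ 5 * q ^ (n - 1) := by
  rcases (show n = 1 ∨ n = 2 ∨ 3 ≤ n by omega) with rfl | rfl | h
  · simp [BSL_one]
  · rcases (show q = 2 ∨ 3 ≤ q by omega) with rfl | h
    · rw [BSL_two]; decide
    · have := BSL_two_le q
      norm_num; omega
  · have := BSL_le hq h
    obtain ⟨t, rfl⟩ : ∃ t, n = t + 2 := ⟨n - 2, by omega⟩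
    rw [show t + 2 - 1 = t + 1 by omega, Nat.add_sub_cancel, pow_succ] at *
    nlinarith [Nat.zero_le (q ^ t)]

theorem card_SL_le_BSL [Fintype F] (hn : 0 < n) :
    Nat.card (ConjClasses (SpecialLinearGroup (Fin n) F)) ≤ BSL (Fintype.card F) n := by
  classical
  haveI : Fintype (ConjClasses (SpecialLinearGroup (Fin n) F)) := Fintype.ofFinite _
  rw [Nat.card_eq_fintype_card]
  exact card_SL_le one_pos hn (one_mul n).symm univ fun C _ i => ⟨_, (expand_one _).symm⟩

theorem lt_card_SL [Fintype F] (hn : 2 ≤ n) :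
    Fintype.card F ^ (n - 1) < Nat.card (ConjClasses (SpecialLinearGroup (Fin n) F)) := by
  classical
  obtain ⟨m, rfl⟩ : ∃ m, n = m + 1 := ⟨n - 1, by omega⟩
  have h1 := card_monic (F := F) m (fun c => c = (-1) ^ (m + 1))
  rw [Nat.card_eq_fintype_card (α := {c : F // c = _}), Fintype.card_subtype_eq, one_mul] at h1
  rw [Nat.add_sub_cancel, ← h1]
  have h2 : ∀ f : {f : F[X] // f.Monic ∧ f.natDegree = m + 1 ∧ f.coeff 0 = (-1) ^ (m + 1)},
      ∃ a : SpecialLinearGroup (Fin (m + 1)) F, (∀ g ∈ typ a.1, Irreducible g) ∧ a.1.charpoly = f.1 := by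
    rintro ⟨f, h1, h2, h3⟩
    obtain ⟨A, hA, hc⟩ := exists_irred_typ (n := Fin (m + 1)) h1 (by simpa using h2)
    refine ⟨⟨A, ?_⟩, hA, hc⟩
    rw [Matrix.det_eq_sign_charpoly_coeff, hc, h3, Fintype.card_fin, ← mul_pow]; simp
  choose a ha hc using h2
  obtain ⟨u, hu⟩ := exists_of_utyp (F := F) (n := Fin (m + 1)) (μ := {m + 1}) (by simp) (by simp)
  have hdet := det_of_unip (nilpotent_of_utyp hu)
  haveI : Finite {f : F[X] // f.Monic ∧ f.natDegree = m + 1 ∧ f.coeff 0 = (-1) ^ (m + 1)} :=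
    Nat.finite_of_card_ne_zero (by rw [h1]; exact pow_ne_zero _ Fintype.card_ne_zero)
  have hinj : Function.Injective fun f => ConjClasses.mk (a f) := by
    intro f g h
    have := (typ_eq_iff _ _).mpr (isConj_of_SL (ConjClasses.mk_eq_mk_iff_isConj.mp h))
    exact Subtype.ext (by rw [← hc, ← hc, ← prod_typ, ← prod_typ, this])
  haveI := Fintype.ofFinite
    {f : F[X] // f.Monic ∧ f.natDegree = m + 1 ∧ f.coeff 0 = (-1) ^ (m + 1)}
  haveI : Fintype (ConjClasses (SpecialLinearGroup (Fin (m + 1)) F)) := Fintype.ofFinite _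
  rw [Nat.card_eq_fintype_card, Nat.card_eq_fintype_card]
  refine Fintype.card_lt_of_injective_of_notMem _ hinj (b := ConjClasses.mk ⟨u.1, hdet⟩) ?_
  rintro ⟨f, hf⟩
  have h3 := (typ_eq_iff _ _).mpr (isConj_of_SL (ConjClasses.mk_eq_mk_iff_isConj.mp hf))
  have h4 := ha f ((X - 1) ^ (m + 1)) (by rw [h3]; change _ ∈ typ u.1; rw [hu]; exact mem_utyp.mpr (by simp))
  exact not_irreducible_pow (by omega) h4

end Cnt
end H16
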