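import Mathlib
import Cfsg.Agent.H16.CntSL
import Cfsg.Agent.H16.CntInv
import Cfsg.Agent.H09.SLBasic

/-! The number of conjugacy classes of `G / Z(G)` and of `PSL_n(q)`. -/

namespace H16
namespace Cnt

open Polynomial Finset H24.Sim Module Matrix

section
variable {G : Type*} [Group G] (Z : Subgroup G) (hZ : Z ≤ Subgroup.center G)

/-- a central subgroup acts on the conjugacy classes by multiplication -/
def centAct : MulAction Z (ConjClasses G) where
  smul z := Quotient.map' (fun a => z.1 * a) fun a b h => by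
    obtain ⟨c, hc⟩ := isConj_iff.mp (show IsConj a b from h)
    refine isConj_iff.mpr ⟨c, ?_⟩
    rw [← hc, ← mul_assoc, Subgroup.mem_center_iff.mp (hZ z.2) c]; group
  one_smul C := by
    obtain ⟨a, rfl⟩ := ConjClasses.exists_rep C
    change ConjClasses.mk (1 * a) = _
    rw [one_mul]
  mul_smul z w C := by
    obtain ⟨a, rfl⟩ := ConjClasses.exists_rep C
    change ConjClasses.mk (z.1 * w.1 * a) = ConjClasses.mk (z.1 * (w.1 * a))
    rw [mul_assoc]

include hZ in
theorem card_mul_card_quot [Finite G] [Z.Normal] [Fintype Z] :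
    Nat.card Z * Nat.card (ConjClasses (G ⧸ Z)) =
      ∑ z : Z, Nat.card {C : ConjClasses G // IsConj (rp C) (z.1 * rp C)} := by
  classical
  letI := centAct Z hZ
  have hsm : ∀ (z : Z) (a : G), z • ConjClasses.mk a = ConjClasses.mk (z.1 * a) := fun _ _ => rfl
  haveI : ∀ z : Z, Fintype (MulAction.fixedBy (ConjClasses G) z) := fun z => Fintype.ofFinite _
  haveI : Fintype (Quotient (MulAction.orbitRel Z (ConjClasses G))) := Fintype.ofFinite _
  have h1 := MulAction.sum_card_fixedBy_eq_card_orbits_mul_card_group Z (ConjClasses G)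
  have h2 : Fintype.card (Quotient (MulAction.orbitRel Z (ConjClasses G))) =
      Nat.card (ConjClasses (G ⧸ Z)) := by
    rw [← Nat.card_eq_fintype_card]
    refine card_eq_of_ker (φ := fun a : G => (Quotient.mk _ (ConjClasses.mk a) :
      Quotient (MulAction.orbitRel Z (ConjClasses G))))
      (ψ := fun a : G => ConjClasses.mk (a : G ⧸ Z)) ?_ ?_ ?_
    · exact Quotient.mk_surjective.comp ConjClasses.mk_surjective
    · exact ConjClasses.mk_surjective.comp QuotientGroup.mk_surjective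
    · intro a b
      rw [Quotient.eq, MulAction.orbitRel_apply, ConjClasses.mk_eq_mk_iff_isConj]
      constructor
      · rintro ⟨z, hz⟩
        have hz' : IsConj (z.1 * b) a := ConjClasses.mk_eq_mk_iff_isConj.mp hz
        have := (QuotientGroup.mk' Z).map_isConj hz'
        rw [map_mul, QuotientGroup.mk'_apply, (QuotientGroup.eq_one_iff _).mpr z.2, one_mul] at this
        exact this.symm
      · intro h
        obtain ⟨c, hc⟩ := isConj_iff.mp h
        obtain ⟨c, rfl⟩ := QuotientGroup.mk_surjective c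
        have h3 : (c * a * c⁻¹) * b⁻¹ ∈ Z := by
          rw [← QuotientGroup.eq_one_iff]
          simp only [QuotientGroup.mk_mul, QuotientGroup.mk_inv, hc, mul_inv_cancel]
        refine ⟨⟨_, h3⟩, ?_⟩
        change ConjClasses.mk (c * a * c⁻¹ * b⁻¹ * b) = _
        rw [ConjClasses.mk_eq_mk_iff_isConj, inv_mul_cancel_right]
        exact (isConj_iff.mpr ⟨c, rfl⟩).symm
  rw [h2] at h1
  rw [mul_comm, Nat.card_eq_fintype_card (α := Z), ← h1]
  refine sum_congr rfl fun z _ => ?_
  rw [← Nat.card_eq_fintype_card]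
  refine Nat.card_congr (Equiv.subtypeEquivRight fun C => ?_)
  rw [MulAction.mem_fixedBy]
  conv_lhs => rw [← mk_rp C, hsm, ConjClasses.mk_eq_mk_iff_isConj]
  exact ⟨IsConj.symm, IsConj.symm⟩
end

variable {F : Type*} [Field F] [Fintype F] {n : ℕ}

lemma fix_le (hn : 0 < n) (z : Subgroup.center (SpecialLinearGroup (Fin n) F)) (hz : z ≠ 1) :
    ∃ e n', 2 ≤ e ∧ 0 < n' ∧ n = e * n' ∧
      Nat.card {C : ConjClasses (SpecialLinearGroup (Fin n) F) // IsConj (rp C) (z.1 * rp C)} ≤
        BSL (Fintype.card F) n' := by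
  classical
  obtain ⟨r, hr, hrz⟩ := Matrix.SpecialLinearGroup.mem_center_iff.mp z.2
  rw [Fintype.card_fin] at hr
  have hr0 : r ≠ 0 := by rintro rfl; rw [zero_pow hn.ne'] at hr; exact zero_ne_one hr
  obtain ⟨n', hn'⟩ := orderOf_dvd_of_pow_eq_one hr
  have he0 : 0 < orderOf r := Nat.pos_of_ne_zero fun h => by rw [h, zero_mul] at hn'; omega
  have he1 : orderOf r ≠ 1 := by
    intro h
    rw [orderOf_eq_one_iff] at h
    exact hz (Subtype.ext (Subtype.ext (by rw [← hrz, h]; simp)))
  have hn0 : 0 < n' := Nat.pos_of_ne_zero fun h => by rw [h, mul_zero] at hn'; omega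
  refine ⟨orderOf r, n', by omega, hn0, hn', ?_⟩
  haveI : Fintype (ConjClasses (SpecialLinearGroup (Fin n) F)) := Fintype.ofFinite _
  rw [Nat.card_eq_fintype_card, Fintype.card_subtype]
  refine card_SL_le he0 hn0 hn' _ fun C hC i => ?_
  rw [mem_filter] at hC
  have h1 := isConj_of_SL hC.2
  have h2 : (z.1 * rp C).1 = r • (rp C).1 := by
    change z.1.1 * (rp C).1 = _
    rw [← hrz, scalar_apply, ← smul_eq_diagonal_mul]
  rw [h2] at h1
  exact eq_expand_of_scale (mc_hs (isUnit_SL _) i) (hs_scale (isUnit_SL _) hr0 h1 i) rfl he0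

theorem card_PSL (hn : 2 ≤ n) :
    Fintype.card F ^ (n - 1) ≤ Nat.gcd n (Fintype.card F - 1) *
        Nat.card (ConjClasses (ProjectiveSpecialLinearGroup (Fin n) F)) ∧
      Nat.gcd n (Fintype.card F - 1) * Nat.card (ConjClasses (ProjectiveSpecialLinearGroup (Fin n) F)) ≤
        Fintype.card F ^ (n - 1) + 5 * Fintype.card F ^ (n - 2) := by
  classical
  haveI : Nonempty (Fin n) := ⟨⟨0, by omega⟩⟩
  have hq : 2 ≤ Fintype.card F := Fintype.one_lt_card
  have hd := H09.card_center_SL (ι := Fin n) (F := F)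
  rw [Fintype.card_fin] at hd
  have h1 := card_mul_card_quot (Subgroup.center (SpecialLinearGroup (Fin n) F)) le_rfl
  rw [hd, ← add_sum_erase _ _ (mem_univ 1)] at h1
  have h2 : Nat.card {C : ConjClasses (SpecialLinearGroup (Fin n) F) //
      IsConj (rp C) ((1 : Subgroup.center (SpecialLinearGroup (Fin n) F)).1 * rp C)} =
      Nat.card (ConjClasses (SpecialLinearGroup (Fin n) F)) :=
    Nat.card_congr (Equiv.subtypeUnivEquiv fun C => by rw [OneMemClass.coe_one, one_mul])
  rw [h2] at h1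
  change _ * Nat.card (ConjClasses (ProjectiveSpecialLinearGroup (Fin n) F)) = _ at h1
  rw [h1]
  refine ⟨(lt_card_SL hn).le.trans (Nat.le_add_right _ _), ?_⟩
  have h3 := card_SL_le_BSL (F := F) (n := n) (by omega)
  set q := Fintype.card F
  have key : ∀ B, (∀ e n', 2 ≤ e → 0 < n' → n = e * n' → BSL q n' ≤ B) →
      ∑ z ∈ univ.erase (1 : Subgroup.center (SpecialLinearGroup (Fin n) F)),
        Nat.card {C : ConjClasses (SpecialLinearGroup (Fin n) F) // IsConj (rp C) (z.1 * rp C)} ≤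
        (Nat.gcd n (q - 1) - 1) * B := by
    intro B hB
    refine (sum_le_card_nsmul _ _ B fun z hz => ?_).trans ?_
    · obtain ⟨e, n', a1, a2, a3, a4⟩ := fix_le (by omega) z (ne_of_mem_erase hz)
      exact a4.trans (hB e n' a1 a2 a3)
    · rw [card_erase_of_mem (mem_univ _), card_univ, ← Nat.card_eq_fintype_card, hd, smul_eq_mul]
  have g1 : Nat.gcd n (q - 1) ≤ n := Nat.gcd_le_left _ (by omega)
  have g2 : Nat.gcd n (q - 1) ≤ q - 1 := Nat.gcd_le_right _ (by omega)
  have one : ∀ e n', 2 ≤ e → n = e * n' → n.Prime → n' = 1 := by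
    intro e n' h1 h2 h3
    rw [h2, Nat.prime_mul_iff] at h3
    omega
  rcases (show n = 2 ∨ 3 ≤ n by omega) with rfl | h3n
  · have := key 1 fun e n' a1 _ a3 => by rw [one e n' a1 a3 Nat.prime_two, BSL_one]
    have := BSL_two_le q
    rw [show 2 - 1 = 1 by rfl, show 2 - 2 = 0 by rfl, pow_one, pow_zero]; omega
  have h4 := BSL_le hq h3n
  suffices H : ∃ B, (∀ e n', 2 ≤ e → 0 < n' → n = e * n' → BSL q n' ≤ B) ∧
      (Nat.gcd n (q - 1) - 1) * B ≤ 2 * q ^ (n - 2) by
    obtain ⟨B, b1, b2⟩ := H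
    have := key B b1
    omega
  rcases (show n = 3 ∨ n = 4 ∨ n = 5 ∨ 6 ≤ n by omega) with rfl | rfl | rfl | h6
  · refine ⟨1, fun e n' a1 _ a3 => by rw [one e n' a1 a3 Nat.prime_three, BSL_one], ?_⟩
    norm_num; omega
  · refine ⟨q + 4, fun e n' a1 a2 a3 => ?_, ?_⟩
    · rcases (show n' = 1 ∨ n' = 2 ∨ 3 ≤ n' by omega) with rfl | rfl | h
      · rw [BSL_one]; omega
      · exact BSL_two_le q
      · nlinarith
    · rcases (show q = 2 ∨ q = 3 ∨ q = 4 ∨ 5 ≤ q by omega) with h | h | h | h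
      · rw [h]; decide
      · rw [h]; decide
      · rw [h]; decide
      · have : (Nat.gcd 4 (q - 1) - 1) * (q + 4) ≤ 3 * (q + 4) := Nat.mul_le_mul_right _ (by omega)
        norm_num; nlinarith
  · refine ⟨1, fun e n' a1 _ a3 => by rw [one e n' a1 a3 Nat.prime_five, BSL_one], ?_⟩
    have : 2 ^ 3 ≤ q ^ 3 := Nat.pow_le_pow_left hq 3
    norm_num at *; omega
  · refine ⟨3 * q ^ (n - 4), fun e n' a1 a2 a3 => ?_, ?_⟩
    · have b1 := BSL_le' hq a2
      have b2 : q ^ (n' - 1) ≤ q ^ (n - 4) := Nat.pow_le_pow_right (by omega) (by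
        have : 2 * n' ≤ e * n' := Nat.mul_le_mul_right _ a1
        omega)
      omega
    · rw [show n - 2 = (n - 4) + 2 by omega, pow_add]
      calc _ ≤ q * (3 * q ^ (n - 4)) := Nat.mul_le_mul_right _ (by omega)
        _ = q ^ (n - 4) * (3 * q) := by ring
        _ ≤ q ^ (n - 4) * (2 * q ^ 2) := Nat.mul_le_mul_left _ (by nlinarith)
        _ = _ := by ring

end Cnt
end H16
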