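import Mathlib
import Cfsg.Agent.H16.CntSL

/-! Step-by-step Rankin bounds for the recursions `Z` and `K`. -/

namespace H16
namespace Cnt

open Finset

/-- `B` bounds the generating function of `Z w · j ·` at `u` -/
def RB (w : ℕ → ℕ → ℕ) (u : ℝ) (j : ℕ) (B : ℝ) : Prop :=
  ∀ k N, ∑ t ∈ range N, (Z w k j t : ℝ) * u ^ t ≤ B

/-- `G` bounds the generating function of `w i ·` at `u ^ i` -/
def GB (w : ℕ → ℕ → ℕ) (u : ℝ) (i : ℕ) (G : ℝ) : Prop :=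
  ∀ M, ∑ m ∈ range M, (w i m : ℝ) * u ^ (i * m) ≤ G

lemma RB.mono {w : ℕ → ℕ → ℕ} {u : ℝ} {j : ℕ} {B B' : ℝ} (h : RB w u j B) (h' : B ≤ B') : RB w u j B' :=
  fun k N => (h k N).trans h'

lemma GB.mono {w : ℕ → ℕ → ℕ} {u : ℝ} {j : ℕ} {B B' : ℝ} (h : GB w u j B) (h' : B ≤ B') : GB w u j B' :=
  fun M => (h M).trans h'

lemma RB.one_le {w : ℕ → ℕ → ℕ} {u : ℝ} {j : ℕ} {B : ℝ} (h : RB w u j B) : 1 ≤ B := by
  simpa [Z] using h 0 1

theorem RB.step {w : ℕ → ℕ → ℕ} {u : ℝ} (hu : 0 ≤ u) {j : ℕ} {B G B' : ℝ} (h : RB w u (j + 1) B)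
    (hG : GB w u j G) (h1 : 1 ≤ B') (h2 : G * B ≤ B') : RB w u j B' := by
  intro k N
  rcases k with _ | k
  · refine le_trans ?_ h1
    simp only [Z]
    rcases N with _ | N
    · simp
    · rw [sum_range_succ']; simp
  have hB := h.one_le
  refine le_trans ?_ (le_trans (mul_le_mul_of_nonneg_right (hG N) (by linarith)) h2)
  have h1 : ∀ t ∈ range N, (Z w (k + 1) j t : ℝ) * u ^ t ≤
      ∑ m ∈ range N, (w j m : ℝ) * u ^ (j * m) *
        (if j * m ≤ t then (Z w k (j + 1) (t - j * m) : ℝ) * u ^ (t - j * m) else 0) := by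
    intro t ht
    simp only [Z]
    push_cast
    rw [sum_mul]
    refine le_trans (le_of_eq (sum_congr rfl fun m _ => ?_))
      (sum_le_sum_of_subset_of_nonneg (range_subset_range.mpr (mem_range.mp ht)) fun m _ _ => ?_)
    · split_ifs with h
      · have : u ^ t = u ^ (j * m) * u ^ (t - j * m) := by rw [← pow_add]; congr 1; omega
        rw [this]; ring
      · simp
    · split_ifs <;> positivity
  refine (sum_le_sum h1).trans ?_
  rw [sum_comm, sum_mul]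
  refine sum_le_sum fun m _ => ?_
  rw [← mul_sum]
  refine mul_le_mul_of_nonneg_left ?_ (by positivity)
  exact (sum_shift_le (fun t => (Z w k (j + 1) t : ℝ) * u ^ t) (fun t => by positivity) _ N).trans (h k N)

theorem RB.tail {w : ℕ → ℕ → ℕ} {u : ℝ} (hu : 0 ≤ u) {J : ℕ} {ρ C A : ℝ} (h0 : 0 ≤ ρ) (h1 : ρ ≤ 1)
    (hC : 0 ≤ C) (hA : 0 ≤ A) (hG : ∀ i, J ≤ i → GB w u i (1 + C * ρ ^ i))
    (h : C + A * ρ + C * A * ρ ^ (J + 1) ≤ A) {j : ℕ} (hj : J ≤ j) : RB w u j (1 + A * ρ ^ j) := by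
  intro k N
  refine rankin w hu (fun i => 1 + A * ρ ^ i) J (fun i _ => by
    have : 0 ≤ A * ρ ^ i := by positivity
    linarith) (fun i hi M => ?_) k j N hj
  refine (mul_le_mul_of_nonneg_right (hG i hi M) (by positivity)).trans ?_
  have h2 : ρ ^ (i + 1) ≤ ρ ^ (J + 1) := pow_le_pow_of_le_one h0 h1 (by omega)
  have h3 : 0 ≤ ρ ^ i := by positivity
  have h4 : C * A * ρ ^ (i + 1) ≤ C * A * ρ ^ (J + 1) := by gcongr
  have h5 : (C + A * ρ + C * A * ρ ^ (i + 1)) * ρ ^ i ≤ A * ρ ^ i := by gcongr; linarith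
  calc _ = 1 + (C + A * ρ + C * A * ρ ^ (i + 1)) * ρ ^ i := by ring
    _ ≤ _ := by linarith

/-- `R` bounds `K W w · j n * u ^ n` -/
def RK (W w : ℕ → ℕ → ℕ) (u : ℝ) (n j : ℕ) (R : ℝ) : Prop := ∀ k, (K W w k j n : ℝ) * u ^ n ≤ R

lemma RK.mono {W w : ℕ → ℕ → ℕ} {u : ℝ} {n j : ℕ} {R R' : ℝ} (h : RK W w u n j R) (h' : R ≤ R') :
    RK W w u n j R' := fun k => (h k).trans h'

lemma level_K {W w : ℕ → ℕ → ℕ} {u : ℝ} (hu : 0 ≤ u) {j : ℕ} (hj : 0 < j) {B C : ℝ} (hB : RB w u (j + 1) B)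
    (hC : ∀ m, (W j (m + 1) : ℝ) * u ^ (j * (m + 1)) ≤ C) (k n : ℕ) :
    ((∑ m ∈ range n, if j * (m + 1) ≤ n then W j (m + 1) * Z w k (j + 1) (n - j * (m + 1)) else 0 : ℕ) : ℝ)
      * u ^ n ≤ C * B := by
  have := level_le (fun t => (Z w k (j + 1) t : ℝ)) (fun _ => by positivity) hu
    (le_trans (by positivity) (hC 0)) (hB k) (fun m => (W j (m + 1) : ℝ)) (fun m => j * (m + 1))
    (fun a b h => by simpa [hj.ne'] using h) n n (fun m _ => hC m)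
  push_cast
  exact this

theorem RK.step {W w : ℕ → ℕ → ℕ} {u : ℝ} (hu : 0 ≤ u) {n j : ℕ} (hj : 0 < j) {R B C R' : ℝ}
    (h : RK W w u n (j + 1) R) (hB : RB w u (j + 1) B)
    (hC : ∀ m, (W j (m + 1) : ℝ) * u ^ (j * (m + 1)) ≤ C) (h2 : R + C * B ≤ R') : RK W w u n j R' := by
  have h3 : 0 ≤ R := by simpa [K] using h 0
  have h4 : 0 ≤ C := le_trans (by positivity) (hC 0)
  have h5 := hB.one_le
  intro k
  rcases k with _ | k
  · simp only [K, Nat.cast_zero, zero_mul]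
    have : 0 ≤ C * B := by positivity
    linarith
  · rw [K, Nat.cast_add, add_mul]
    exact (add_le_add (h k) (level_K hu hj hB hC k n)).trans h2

theorem RK.tail {W w : ℕ → ℕ → ℕ} {u : ℝ} (hu : 0 ≤ u) {n J : ℕ} (hJ : 0 < J) {B : ℝ} (C R : ℕ → ℝ)
    (hB : ∀ j, J ≤ j → RB w u (j + 1) B)
    (hC : ∀ j, J ≤ j → ∀ m, (W j (m + 1) : ℝ) * u ^ (j * (m + 1)) ≤ C j)
    (hR0 : ∀ j, J ≤ j → 0 ≤ R j) (hR : ∀ j, J ≤ j → R (j + 1) + C j * B ≤ R j) {j : ℕ} (hj : J ≤ j) :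
    RK W w u n j (R j) := by
  intro k
  induction k generalizing j with
  | zero => simpa [K] using hR0 j hj
  | succ k ih =>
    rw [K, Nat.cast_add, add_mul]
    exact (add_le_add (ih (by omega)) (level_K hu (by omega) (hB j hj) (hC j hj) k n)).trans (hR j hj)

lemma GB_geom (w : ℕ → ℕ → ℕ) {a q u : ℝ} (ha : 0 ≤ a) (hq : 0 ≤ q) (hu : 0 ≤ u) {i : ℕ}
    (h1 : q * u ^ i < 1) (h0 : (w i 0 : ℝ) ≤ 1) (hw : ∀ m, (w i (m + 1) : ℝ) ≤ a * q ^ m) :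
    GB w u i (1 + a * u ^ i / (1 - q * u ^ i)) := fun M => by
  simpa only [pow_mul] using sum_geom_weight_le (w i) ha hq (by positivity) h1 h0 hw M

/-- `Z` from the first index on, when `w 1 m ≤ C q^m` -/
theorem Z_one_le {w : ℕ → ℕ → ℕ} {u : ℝ} (hu : 0 ≤ u) {B C : ℝ} (hB : RB w u 2 B)
    (hC : ∀ m, (w 1 m : ℝ) * u ^ m ≤ C) (k n : ℕ) : (Z w (k + 1) 1 n : ℝ) * u ^ n ≤ C * B := by
  have := level_le (fun t => (Z w k 2 t : ℝ)) (fun _ => by positivity) hu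
    (le_trans (by positivity) (hC 0)) (hB k) (fun m => (w 1 m : ℝ)) (fun m => 1 * m)
    (fun a b h => by simpa using h) (n + 1) n (fun m _ => by simpa using hC m)
  rw [Z]
  push_cast
  exact this

end Cnt
end H16
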