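import Mathlib
import Cfsg.Agent.H16.CntBlk
import Cfsg.Agent.H16.CntZ2
import Cfsg.Agent.H24.Uni

/-! The number of conjugacy classes of `SU_n(q)`. -/

namespace H16
namespace Cnt

open Polynomial Finset H24.Sim H24.Uni Module Matrix Cfsg

variable {K : Type*} [Field K] [Finite K] {q : ℕ} (hK : Nat.card K = q ^ 2) {n : ℕ}

lemma typ_GU_dual (a : GU n K q) : (typ a.1.1).map (dual (H10.conj hK)) = typ a.1.1 :=
  (typ_dual (H10.conj_conj hK) a.1.isUnit (mul_eq_one_comm.mp ((mem_GU_iff hK _).mp a.2))).symm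

lemma exists_GU_typ {S : Multiset K[X]} (h1 : IsTyp S) (h2 : ∀ f ∈ S, MC f)
    (h3 : S.map (dual (H10.conj hK)) = S) (h4 : (S.map natDegree).sum = n) :
    ∃ b : GU n K q, typ b.1.1 = S := by
  obtain ⟨A, hA⟩ := exists_typ_eq (n := Fin n) h1 (by simpa using h4)
  have hu : IsUnit A := (isUnit_iff A).mpr fun f hf hX => (h2 f (hA ▸ hf)).2 (X_dvd_iff.mp hX)
  obtain ⟨A, rfl⟩ := hu
  have h5 : typ (st hK A.1)⁻¹ = (typ A.1).map (dual (H10.conj hK)) :=
    typ_dual (H10.conj_conj hK) A.isUnit (by rw [st_inv]; exact st_inv_mul hK A)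
  obtain ⟨b, hb⟩ := (exists_GU_iff hK A).mpr ((typ_eq_iff _ _).mp (by rw [h5, hA, h3]))
  exact ⟨b, by rw [← hA]; exact ((typ_eq_iff _ _).mpr ((isConj_GL_iff _ _).mp hb)).symm⟩

lemma st_blk {n₁ n₂ : ℕ} (e : Fin n₁ ⊕ Fin n₂ ≃ Fin n) (A : Matrix (Fin n₁) (Fin n₁) K)
    (B : Matrix (Fin n₂) (Fin n₂) K) :
    st hK (reindex e e (fromBlocks A 0 0 B)) = reindex e e (fromBlocks (st hK A) 0 0 (st hK B)) := by
  ext i j
  obtain ⟨i, rfl⟩ := e.surjective i
  obtain ⟨j, rfl⟩ := e.surjective j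
  rcases i with i | i <;> rcases j with j | j <;> simp [st_apply]

omit [Finite K] in
lemma blk_mul {n₁ n₂ : ℕ} (e : Fin n₁ ⊕ Fin n₂ ≃ Fin n) (A A' : Matrix (Fin n₁) (Fin n₁) K)
    (B B' : Matrix (Fin n₂) (Fin n₂) K) :
    reindex e e (fromBlocks A 0 0 B) * reindex e e (fromBlocks A' 0 0 B') =
      reindex e e (fromBlocks (A * A') 0 0 (B * B')) := by
  simp only [reindex_apply, submatrix_mul_equiv, fromBlocks_multiply]
  simp

theorem exists_unitary_det_pp (a : GU n K q) {p : K[X]} (hp : p.Monic) (hi : Irreducible p) {j : ℕ}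
    (hj : 0 < j) (hm : p ^ j ∈ typ a.1.1) {μ : K} (hμ : H10.conj hK μ * μ = 1) :
    ∃ c : GU n K q, c * a = a * c ∧ c.1.1.det = μ ^ j := by
  classical
  set σ := H10.conj hK with hσd
  have hσ := H10.conj_conj hK
  have hT := typ_GU_dual hK a
  have hmc : ∀ f ∈ typ a.1.1, MC f := fun f hf => mc_of_mem_typ a.1.isUnit hf
  have hpm := MC.of_pow hp hj (hmc _ hm)
  have hd : dual σ (p ^ j) = dual σ p ^ j := (tw_dual σ).pow hpm j
  obtain ⟨k, f, hf, hle, hmem, hinv⟩ : ∃ (k : ℕ) (f : Fin k → K[X]),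
      (Pairwise fun i j => IsCoprime (f i) (f j)) ∧ Finset.univ.val.map f ≤ typ a.1.1 ∧
      p ^ j ∈ Finset.univ.val.map f ∧ (Finset.univ.val.map f).map (dual σ) = Finset.univ.val.map f := by
    by_cases h : dual σ p = p
    · refine ⟨1, ![p ^ j], Subsingleton.pairwise, by simpa using hm, by simp, ?_⟩
      simp [hd, h]
    · have hp' := (tw_dual σ).mc p hpm
      have hi' := irreducible_dual hσ hpm hi
      have hco : IsCoprime (p ^ j) (dual σ p ^ j) := (coprime_of_ne hp hp'.1 hi hi' (Ne.symm h)).pow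
      have e1 : Finset.univ.val.map ![p ^ j, dual σ p ^ j] = {p ^ j, dual σ p ^ j} := rfl
      refine ⟨2, ![p ^ j, dual σ p ^ j], ?_, ?_, by simp, ?_⟩
      · intro a b hab
        fin_cases a <;> fin_cases b
        exacts [(hab rfl).elim, hco, hco.symm, (hab rfl).elim]
      · rw [e1, Multiset.insert_eq_cons, Multiset.cons_le_of_notMem]
        · refine ⟨hm, Multiset.singleton_le.mpr ?_⟩
          rw [← hT, ← hd]; exact Multiset.mem_map_of_mem _ hm
        · rw [Multiset.mem_singleton]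
          intro h2
          exact h (pow_inj hp hp'.1 hi hi' hj h2).1.symm
      · rw [e1, Multiset.insert_eq_cons, Multiset.map_cons, Multiset.map_singleton, hd, ← hd,
          dual_dual hσ (hpm.pow j), hd]
        exact Multiset.cons_swap _ _ 0
  set T₁ := Finset.univ.val.map f with hT₁
  obtain ⟨T₂, hT₂⟩ := Multiset.le_iff_exists_add.mp hle
  have hinv2 : T₂.map (dual σ) = T₂ := by
    rw [hT₂, Multiset.map_add, hinv] at hT
    exact add_left_cancel hT
  have m1 : ∀ g ∈ T₁, g ∈ typ a.1.1 := fun g hg => hT₂ ▸ Multiset.mem_add.mpr (Or.inl hg)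
  have m2 : ∀ g ∈ T₂, g ∈ typ a.1.1 := fun g hg => hT₂ ▸ Multiset.mem_add.mpr (Or.inr hg)
  obtain ⟨b₁, hb₁⟩ := exists_GU_typ hK (fun g hg => isTyp_typ _ g (m1 g hg)) (fun g hg => hmc g (m1 g hg))
    hinv rfl
  obtain ⟨b₂, hb₂⟩ := exists_GU_typ hK (fun g hg => isTyp_typ _ g (m2 g hg)) (fun g hg => hmc g (m2 g hg))
    hinv2 rfl
  have hn : (T₁.map natDegree).sum + (T₂.map natDegree).sum = n := by
    rw [← Multiset.sum_add, ← Multiset.map_add, ← hT₂, deg_typ, Fintype.card_fin]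
  let e := finSumFinEquiv.trans (finCongr hn)
  obtain ⟨c, hc0, hc⟩ := H10.exists_hilbert90 hK hμ
  obtain ⟨B, hB, hdB⟩ := exists_commute_det_pp hp hi (hb₁.symm ▸ hmem) c
  obtain ⟨g, hg⟩ := exists_aeval_of_commute' hb₁ hf hB
  obtain ⟨B, rfl⟩ : IsUnit B := (isUnit_iff_isUnit_det _).mpr (by rw [hdB]; exact (pow_ne_zero _ hc0).isUnit)
  have u1 := (mem_GU_iff hK _).mp b₁.2
  have u2 := (mem_GU_iff hK _).mp b₂.2
  have hst : ∀ D, Commute D b₁.1.1 → Commute (st hK D) b₁.1.1 := by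
    intro D hD
    have h1 : st hK D * st hK b₁.1.1 = st hK b₁.1.1 * st hK D := by rw [← st_mul, ← st_mul, hD.eq]
    calc st hK D * b₁.1.1 = b₁.1.1 * st hK b₁.1.1 * st hK D * b₁.1.1 := by
          rw [mul_eq_one_comm.mp u1, one_mul]
      _ = b₁.1.1 * st hK D * (st hK b₁.1.1 * b₁.1.1) := by rw [mul_assoc b₁.1.1, ← h1]; simp only [mul_assoc]
      _ = _ := by rw [u1, mul_one]
  have hBi : Commute (B⁻¹ : GL _ K).1 b₁.1.1 := hB.units_inv_left
  have hnorm : Commute (st hK B.1) B.1 := by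
    conv_rhs => rw [hg]
    exact commute_aeval (hst _ hB) g
  let u := B.1 * st hK (B⁻¹ : GL _ K).1
  have hu1 : st hK u * u = 1 := by
    simp only [u]
    rw [st_mul, st_st, mul_assoc, ← mul_assoc (st hK B.1), hnorm.eq, mul_assoc, st_mul_inv, mul_one,
      Units.inv_mul]
  have hu2 : Commute u b₁.1.1 := hB.mul_left (hst _ hBi)
  have hu3 : u.det = μ ^ j := by
    simp only [u]
    rw [det_mul, det_st, hdB, Matrix.coe_units_inv, det_nonsing_inv, hdB, Ring.inverse_eq_inv', map_inv₀,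
      map_pow, ← hc, mul_pow, _root_.inv_pow]
    rfl
  have g1 : st hK (reindex e e (fromBlocks b₁.1.1 0 0 b₂.1.1)) * reindex e e (fromBlocks b₁.1.1 0 0 b₂.1.1)
      = 1 := by rw [st_blk, blk_mul, u1, u2, fromBlocks_one]; simp
  have g2 : st hK (reindex e e (fromBlocks u 0 0 1)) * reindex e e (fromBlocks u 0 0 1) = 1 := by
    rw [st_blk, blk_mul, hu1, st_one, one_mul, fromBlocks_one]; simp
  let a' : GU n K q := ⟨(IsUnit.of_mul_eq_one_right _ g1).unit, (mem_GU_iff hK _).mpr g1⟩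
  let u' : GU n K q := ⟨(IsUnit.of_mul_eq_one_right _ g2).unit, (mem_GU_iff hK _).mpr g2⟩
  have hc1 : u' * a' = a' * u' := Subtype.ext (Units.ext (by
    change reindex e e (fromBlocks u 0 0 1) * reindex e e (fromBlocks b₁.1.1 0 0 b₂.1.1) =
      reindex e e (fromBlocks b₁.1.1 0 0 b₂.1.1) * reindex e e (fromBlocks u 0 0 1)
    rw [blk_mul, blk_mul, hu2.eq, one_mul, mul_one]))
  have hconj : IsConj a' a := (isConj_GU_iff hK _ _).mpr ((isConj_GL_iff _ _).mpr ((typ_eq_iff _ _).mp (by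
    change typ (reindex e e (fromBlocks b₁.1.1 0 0 b₂.1.1)) = _
    rw [typ_reindex, typ_fromBlocks, hb₁, hb₂, hT₂])))
  obtain ⟨k, hk⟩ := isConj_iff.mp hconj
  refine ⟨k * u' * k⁻¹, ?_, ?_⟩
  · rw [← hk]
    calc _ = k * (u' * a') * k⁻¹ := by group
      _ = _ := by rw [hc1]; group
  · have h1 : ((detU K q n (k * u' * k⁻¹) : Kˣ) : K) = (detU K q n u' : Kˣ) := by
      rw [map_mul, map_mul, map_inv, mul_inv_cancel_comm]
    change ((detU K q n (k * u' * k⁻¹) : Kˣ) : K) = _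
    rw [h1]
    change (reindex e e (fromBlocks u 0 0 1)).det = _
    rw [det_reindex_self, det_fromBlocks_zero₂₁, det_one, mul_one, hu3]

include hK in
lemma card_SU_fiber (hn : 0 < n) (t : Finset (ConjClasses (SU n K q)))
    {M : Multiset K[X]} (h : ∀ C ∈ t, typ (rp C).1.1 = M) {j : ℕ} (hj0 : 0 < j)
    (hj : 0 < (hs M j).natDegree) : t.card ≤ Nat.gcd (q + 1) j := by
  classical
  rcases t.eq_empty_or_nonempty with rfl | ⟨C₀, h0⟩
  · simp
  have h1 := card_ker_classes _ (detU K q n) toGU_injective range_toGU (rp C₀)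
  have hM : IsTyp M := h C₀ h0 ▸ isTyp_typ _
  obtain ⟨p, hp, hi, -, hm⟩ := exists_mem_of_deg hM hj
  rw [range_det hK hn] at h1
  set R := (powMonoidHom (q + 1) : Kˣ →* Kˣ).ker with hR
  have h2 : (powMonoidHom j : R →* R).range ≤
      ((Subgroup.centralizer ({toGU K q n (rp C₀)} : Set (GU n K q))).map (detU K q n)).subgroupOf R := by
    rintro _ ⟨c, rfl⟩
    have hc : H10.conj hK (c.1 : K) * c.1 = 1 := by
      have := congrArg Units.val c.2
      rw [H10.conj_apply, ← pow_succ]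
      simpa using this
    obtain ⟨B, hB, hd⟩ := exists_unitary_det_pp hK (toGU K q n (rp C₀)) hp hi hj0
      ((h C₀ h0).symm ▸ hm) hc
    rw [Subgroup.mem_subgroupOf]
    refine ⟨B, ?_, ?_⟩
    · simp only [SetLike.mem_coe, Subgroup.mem_centralizer_iff, Set.mem_singleton_iff, forall_eq]
      exact hB.symm
    · ext; exact hd.trans (by simp)
  have h3 := Subgroup.index_antitone h2
  rw [IsCyclic.index_powMonoidHom_range, hR, H10.card_ker_pow_add hK] at h3
  refine le_trans ?_ (h1.le.trans h3)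
  rw [← Nat.card_eq_finsetCard]
  refine Nat.card_le_card_of_injective (fun C : t => ⟨C.1, rp C.1, mk_rp _,
    (isConj_GU_iff hK _ _).mpr ((isConj_GL_iff _ _).mpr
    ((typ_eq_iff _ _).mp ((h C₀ h0).trans (h C.1 C.2).symm)))⟩) fun a b hab => Subtype.ext (by simpa using hab)

lemma conj_coeff_zero {f : K[X]} (hf : MC f) (h : dual (H10.conj hK) f = f) :
    H10.conj hK (f.coeff 0) * f.coeff 0 = 1 := by
  have h1 := coeff_dual (H10.conj hK) (f := f) (Nat.zero_le _)
  rw [h, Nat.sub_zero, hf.1.coeff_natDegree, map_one, mul_one] at h1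
  nth_rewrite 2 [h1]
  exact mul_inv_cancel₀ ((_root_.map_ne_zero _).mpr hf.2)

lemma card_selfdual_const (m : ℕ) (c : K) (t : Finset K[X])
    (h : ∀ f ∈ t, MC f ∧ dual (H10.conj hK) f = f ∧ f.natDegree = m + 1 ∧ f.coeff 0 = c) :
    t.card ≤ q ^ m := by
  classical
  obtain ⟨θ, -, hθ⟩ := exists_theta hK
  set σ := H10.conj hK
  have hrel : ∀ f ∈ t, ∀ k ≤ m + 1, f.coeff k = (σ c)⁻¹ * σ (f.coeff (m + 1 - k)) := by
    intro f hf k hk
    obtain ⟨-, h2, h3, h4⟩ := h f hf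
    have := coeff_dual σ (f := f) (k := k) (h3 ▸ hk)
    rwa [h2, h3, h4] at this
  have hext : ∀ f ∈ t, ∀ g ∈ t, (∀ k : Fin m, f.coeff (k + 1) = g.coeff (k + 1)) → f = g := by
    intro f hf g hg hk
    obtain ⟨a1, -, a3, a4⟩ := h f hf
    obtain ⟨b1, -, b3, b4⟩ := h g hg
    ext k
    rcases k with _ | k
    · rw [a4, b4]
    rcases lt_trichotomy k m with h1 | rfl | h1
    · exact hk ⟨k, h1⟩
    · have c1 := a1.1.coeff_natDegree
      have c2 := b1.1.coeff_natDegree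
      rw [a3] at c1
      rw [b3] at c2
      rw [c1, c2]
    · rw [coeff_eq_zero_of_natDegree_lt (by omega), coeff_eq_zero_of_natDegree_lt (by omega)]
  haveI := Fintype.ofFinite K
  have h1 : (t ×ˢ t).card ≤ (univ : Finset (Fin m → K)).card := by
    refine card_le_card_of_injOn (fun x k => x.1.coeff (k + 1) + θ * x.2.coeff (k + 1))
      (fun _ _ => mem_univ _) ?_
    rintro ⟨f, g⟩ hfg ⟨f', g'⟩ hfg' he
    simp only [coe_product, Set.mem_prod, mem_coe] at hfg hfg'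
    have hg : g = g' := hext g hfg.2 g' hfg'.2 fun k => by
      have e1 := congrFun he k
      have e2 := congrArg σ (congrFun he k.rev)
      have hk : (k.rev : ℕ) + 1 = m + 1 - (k + 1) := by rw [Fin.val_rev]; omega
      simp only [hk, map_add, map_mul] at e1 e2
      have r1 := hrel f hfg.1 (k + 1) (by omega)
      have r2 := hrel g hfg.2 (k + 1) (by omega)
      have r3 := hrel f' hfg'.1 (k + 1) (by omega)
      have r4 := hrel g' hfg'.2 (k + 1) (by omega)
      refine mul_left_cancel₀ hθ ?_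
      linear_combination e1 - (σ c)⁻¹ * e2 - r1 - σ θ * r2 + r3 + σ θ * r4
    subst hg
    refine Prod.ext (hext f hfg.1 f' hfg'.1 fun k => ?_) rfl
    exact add_right_cancel (congrFun he k)
  rw [card_product, card_univ, Fintype.card_fun, Fintype.card_fin, ← Nat.card_eq_fintype_card, hK,
    ← pow_mul, mul_comm 2, pow_mul, sq] at h1
  exact Nat.mul_self_le_mul_self_iff.mp h1

lemma card_selfdual_le (m : ℕ) (R : K → Prop) (t : Finset K[X])
    (h : ∀ f ∈ t, MC f ∧ dual (H10.conj hK) f = f ∧ f.natDegree = m + 1 ∧ R (f.coeff 0)) :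
    t.card ≤ Nat.card {c // R c} * q ^ m := by
  classical
  rw [mul_comm]
  refine (card_le_mul_card_image (f := fun f => f.coeff 0) _ (q ^ m) fun c _ => ?_).trans
    (Nat.mul_le_mul_left _ ?_)
  · refine card_selfdual_const hK m c _ fun f hf => ?_
    rw [mem_filter] at hf
    exact ⟨(h f hf.1).1, (h f hf.1).2.1, (h f hf.1).2.2.1, hf.2⟩
  · rw [← Nat.card_eq_finsetCard]
    refine Nat.card_le_card_of_injective (fun c => ⟨c.1, ?_⟩) fun a b hab => Subtype.ext (by simpa using hab)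
    obtain ⟨f, hf, he⟩ := mem_image.mp c.2
    rw [← he]; exact (h f hf).2.2.2

/-- number of self-dual monic polynomials of degree `m` -/
def NU (q : ℕ) : ℕ → ℕ → ℕ := fun _ m => if m = 0 then 1 else (q + 1) * q ^ (m - 1)

lemma card_NU (i m : ℕ) (t : Finset K[X])
    (h : ∀ a ∈ t, (MC a ∧ dual (H10.conj hK) a = a) ∧ a.natDegree = m) : t.card ≤ NU q i m := by
  rcases m with _ | m
  · simp only [NU, if_true]
    refine card_le_one.mpr fun a ha b hb => ?_
    rw [(h a ha).1.1.1.natDegree_eq_zero.mp (h a ha).2, (h b hb).1.1.1.natDegree_eq_zero.mp (h b hb).2]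
  · refine (card_selfdual_le hK m (fun c => c ^ (q + 1) = 1) t fun f hf =>
      ⟨(h f hf).1.1, (h f hf).1.2, (h f hf).2, ?_⟩).trans ?_
    · rw [pow_succ]; exact conj_coeff_zero hK (h f hf).1.1 (h f hf).1.2
    · simp only [NU, Nat.succ_ne_zero, if_false, Nat.add_sub_cancel]
      rw [H10.card_norm_eq hK one_ne_zero (one_pow _)]

omit [Finite K] in
lemma card_pow_eq_le2 {c₀ : K} {r j : ℕ} (hr : 0 < r) (h0 : c₀ ^ r = 1) :
    Nat.card {c : K // c ^ r = 1 ∧ c ^ j = c₀ ^ j} ≤ Nat.gcd r j := by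
  classical
  have hc0 : c₀ ≠ 0 := by rintro rfl; rw [zero_pow hr.ne'] at h0; exact zero_ne_one h0
  refine le_trans ?_ ((Multiset.toFinset_card_le _).trans (card_nthRoots (Nat.gcd r j) (1 : K)))
  rw [← Nat.card_eq_finsetCard]
  refine Nat.card_le_card_of_injective (fun c => ⟨c.1 / c₀, ?_⟩) fun a b hab => Subtype.ext ?_
  · rw [Multiset.mem_toFinset, mem_nthRoots (Nat.gcd_pos_of_pos_left _ hr)]
    refine pow_gcd_eq_one.mpr ⟨?_, ?_⟩
    · rw [div_pow, c.2.1, h0, div_one]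
    · rw [div_pow, c.2.2, div_self (pow_ne_zero _ hc0)]
  · simpa [hc0] using hab

/-- the bound for the number of classes of `SU_n(q)` -/
def BSU (q n : ℕ) : ℕ := Cnt.K (WW (q + 1) q) (NU q) n 1 n

include hK in
theorem card_SU_le (hn : 0 < n) : Nat.card (ConjClasses (SU n K q)) ≤ BSU q n := by
  classical
  haveI : Fintype (ConjClasses (SU n K q)) := Fintype.ofFinite _
  rw [Nat.card_eq_fintype_card]
  let φ : ConjClasses (SU n K q) → ℕ → K[X] := fun C i => hs (typ (rp C).1.1) i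
  have hmc : ∀ C i, MC (φ C i) := fun C i => mc_hs (isUnit_SL _) i
  have hdu : ∀ C i, dual (H10.conj hK) (φ C i) = φ C i := fun C i =>
    hs_dual (H10.conj_conj hK) (isUnit_SL _) (mul_eq_one_comm.mp ((mem_SU_iff hK _).mp (rp C).2))
      (IsConj.refl _) i
  refine card_le_K _ _ natDegree (fun _ a => MC a ∧ dual (H10.conj hK) a = a) (card_NU hK) φ 1 hn n 1 univ
    one_pos (fun C _ i _ => ⟨hmc C i, hdu C i⟩) (fun C _ => sum_deg_hs _)
    (fun C _ i hi => hs_typ_eq_one _ (by omega)) (fun _ _ i h1 h2 => by omega) ?_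
  intro j m t hj _ h1 h2 h3
  rcases t.eq_empty_or_nonempty with rfl | ⟨C₀, h0⟩
  · simp
  have hlow : ∀ C ∈ t, ∀ i, 0 < i → i < j → φ C i = 1 := fun C hC i hi hij =>
    (hmc C i).1.natDegree_eq_zero.mp (h1 C hC i hi hij)
  have hoth : ∀ C ∈ t, ∀ C' ∈ t, ∀ i, 0 < i → i ≠ j → φ C i = φ C' i := by
    intro C hC C' hC' i hi hij
    rcases lt_or_gt_of_ne hij with h | h
    · rw [hlow C hC i hi h, hlow C' hC' i hi h]
    · exact h3 C hC C' hC' i h
  have hjn : j ≤ n := by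
    have := mul_deg_hs_le (rp C₀).1.1 j
    rw [h2 C₀ h0] at this
    have : j * 1 ≤ j * (m + 1) := Nat.mul_le_mul_left _ (by omega)
    omega
  simp only [WW, Nat.add_sub_cancel, sq, mul_assoc]
  refine (card_le_mul_card_image (f := fun C => φ C j) _ _ ?_).trans (Nat.mul_le_mul_left _ ?_)
  · intro a ha
    obtain ⟨C₁, hC₁, rfl⟩ := mem_image.mp ha
    refine card_SU_fiber hK hn _ (M := typ (rp C₁).1.1) ?_ hj ?_
    · intro C hC
      rw [mem_filter] at hC
      refine eq_of_hs (isTyp_typ _) (isTyp_typ _) fun i hi => ?_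
      by_cases hij : i = j
      · rw [hij]; exact hC.2
      · exact hoth C hC.1 C₁ hC₁ i hi hij
    · rw [h2 C₁ hC₁]; positivity
  · have hp : ∀ C, (φ C j).coeff 0 ^ (q + 1) = 1 := fun C => by
      rw [pow_succ]; exact conj_coeff_zero hK (hmc C j) (hdu C j)
    refine (card_selfdual_le hK m (fun c => c ^ (q + 1) = 1 ∧ c ^ j = (φ C₀ j).coeff 0 ^ j) _ ?_).trans
      (Nat.mul_le_mul_right _ (card_pow_eq_le2 (by omega) (hp C₀)))
    intro f hf
    obtain ⟨C, hC, rfl⟩ := mem_image.mp hf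
    refine ⟨hmc C j, hdu C j, h2 C hC, hp C, ?_⟩
    exact coeff_pow_eq (isUnit_SL _) ((rp C).1.2.trans (rp C₀).1.2.symm) hj
      (fun i hi hij => congrArg (coeff · 0) (hoth C hC C₀ h0 i hi hij)) hjn

include hK in
theorem le_card_SU (hn : 0 < n) : q ^ (n - 1) ≤ Nat.card (ConjClasses (SU n K q)) := by
  classical
  obtain ⟨m, rfl⟩ : ∃ m, n = m + 1 := ⟨n - 1, by omega⟩
  obtain ⟨θ, -, hθ⟩ := exists_theta hK
  set σ := H10.conj hK with hσd
  have hσ : ∀ a, σ (σ a) = a := H10.conj_conj hK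
  set c : K := (-1) ^ (m + 1) with hc
  have hcσ : σ c = c := by simp [hc]
  have hcc : c * c = 1 := by rw [hc, ← mul_pow]; simp
  have hc0 : c ≠ 0 := left_ne_zero_of_mul_eq_one hcc
  let S := {v : Fin m → K // ∀ k, v k = c * σ (v k.rev)}
  let sym : (Fin m → K) → S := fun x => ⟨fun k => x k + c * σ (x k.rev), fun k => by
    simp only [Fin.rev_rev, map_add, map_mul, hσ, hcσ]
    linear_combination (-(x k)) * hcc⟩
  haveI := Fintype.ofFinite K
  have h1 : Nat.card (Fin m → K) ≤ Nat.card (S × S) := by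
    refine Nat.card_le_card_of_injective (fun x => (sym x, sym (θ • x))) fun x y h => ?_
    funext k
    have e1 := congrFun (congrArg (fun p : S × S => p.1.1) h) k
    have e2 := congrFun (congrArg (fun p : S × S => p.2.1) h) k
    simp only [sym, Pi.smul_apply, smul_eq_mul, map_mul] at e1 e2
    refine mul_left_cancel₀ hθ ?_
    linear_combination e2 - σ θ * e1
  rw [Nat.card_prod, Nat.card_fun, Nat.card_eq_fintype_card (α := Fin m), Fintype.card_fin, hK,
    ← pow_mul, mul_comm 2, pow_mul, sq] at h1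
  refine (Nat.mul_self_le_mul_self_iff.mp h1).trans ?_
  let P : (Fin m → K) → K[X] := fun v => X ^ (m + 1) + (C c + ∑ k : Fin m, monomial (k + 1) (v k))
  have hP0 : ∀ v, (P v).coeff 0 = c := by
    intro v; simp [P, finset_sum_coeff, coeff_monomial]
  have hP1 : ∀ v (k : Fin m), (P v).coeff (k + 1) = v k := by
    intro v k
    have := k.2
    simp only [P, coeff_add, coeff_X_pow, finset_sum_coeff, coeff_monomial, coeff_C_succ]
    rw [if_neg (by omega), sum_eq_single k]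
    · simp
    · intro b _ hb
      rw [if_neg (fun h => hb (Fin.ext (by omega)))]
    · simp
  have hdeg : ∀ v : Fin m → K, (C c + ∑ k : Fin m, monomial (k + 1) (v k) : K[X]).degree < (m + 1 : ℕ) := by
    intro v
    refine (degree_add_le _ _).trans_lt (max_lt (degree_C_le.trans_lt (by exact_mod_cast Nat.succ_pos m)) ?_)
    refine (degree_sum_le _ _).trans_lt ((Finset.sup_lt_iff (by exact WithBot.bot_lt_coe _)).mpr fun k _ => ?_)
    refine (degree_monomial_le _ _).trans_lt ?_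
    exact_mod_cast Nat.succ_lt_succ k.2
  have hPm : ∀ v, (P v).Monic := fun v => monic_X_pow_add (hdeg v)
  have hPd : ∀ v, (P v).natDegree = m + 1 := fun v => by
    simp only [P]
    rw [natDegree_add_eq_left_of_degree_lt (by rw [degree_X_pow]; exact hdeg v), natDegree_X_pow]
  have hPc : ∀ v, MC (P v) := fun v => ⟨hPm v, by rw [hP0]; exact hc0⟩
  have hPu : ∀ v : S, dual σ (P v.1) = P v.1 := by
    intro v
    have hci : (σ c)⁻¹ = c := by rw [hcσ]; exact inv_eq_of_mul_eq_one_right hcc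
    have htop : (P v.1).coeff (m + 1) = 1 := by rw [← hPd v.1]; exact (hPm _).coeff_natDegree
    ext k
    by_cases hk : k ≤ m + 1
    · rw [coeff_dual σ (by rw [hPd]; exact hk), hP0, hPd, hci]
      rcases k with _ | k
      · rw [Nat.sub_zero, htop, hP0, map_one, mul_one]
      rcases (show k < m ∨ k = m by omega) with h | rfl
      · have e1 := hP1 v.1 ⟨k, h⟩
        have e2 := hP1 v.1 (Fin.rev ⟨k, h⟩)
        rw [show ((Fin.rev ⟨k, h⟩ : Fin m) : ℕ) + 1 = m + 1 - (k + 1) by rw [Fin.val_rev]; simp only; omega]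
          at e2
        rw [e2, e1]; exact (v.2 _).symm
      · rw [Nat.sub_self, hP0, htop, hcσ, hcc]
    · rw [coeff_eq_zero_of_natDegree_lt (by rw [natDegree_dual σ (hPc _), hPd]; omega),
        coeff_eq_zero_of_natDegree_lt (by rw [hPd]; omega)]
  have h2 : ∀ v : S, ∃ a : SU (m + 1) K q, a.1.1.charpoly = P v.1 := by
    intro v
    let T := UniqueFactorizationMonoid.normalizedFactors (P v.1)
    have hT : ∀ p ∈ T, p.Monic ∧ Irreducible p := fun p hp =>
      ⟨(Polynomial.mem_normalizedFactors_iff (hPm _).ne_zero).mp hp |>.2.1,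
        UniqueFactorizationMonoid.irreducible_of_normalized_factor p hp⟩
    have hTp : T.prod = P v.1 := by
      rw [UniqueFactorizationMonoid.prod_normalizedFactors_eq (hPm _).ne_zero, (hPm _).normalize_eq_self]
    have hTc : ∀ p ∈ T, MC p := fun p hp => ⟨(hT p hp).1, fun h => (hPc v.1).2 (X_dvd_iff.mp
      ((X_dvd_iff.mpr h).trans (hTp ▸ Multiset.dvd_prod hp)))⟩
    obtain ⟨b, hb⟩ := exists_GU_typ hK (n := m + 1) (S := T)
      (fun p hp => ⟨p, 1, (hT p hp).1, (hT p hp).2, one_pos, (pow_one p).symm⟩) hTc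
      (eq_of_prod_eq (fun p hp => by
        obtain ⟨r, hr, rfl⟩ := Multiset.mem_map.mp hp
        exact ⟨((tw_dual σ).mc r (hTc r hr)).1, irreducible_dual hσ (hTc r hr) (hT r hr).2⟩) hT
        (by rw [← (tw_dual σ).prod hTc, hTp, hPu]))
      (by rw [← natDegree_multiset_prod_of_monic _ fun p hp => (hT p hp).1, hTp, hPd])
    have hch : b.1.1.charpoly = P v.1 := by rw [← prod_typ, hb, hTp]
    refine ⟨⟨⟨b.1.1, ?_⟩, (mem_SU_iff hK _).mpr ((mem_GU_iff hK _).mp b.2)⟩, hch⟩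
    rw [Matrix.det_eq_sign_charpoly_coeff, hch, hP0, Fintype.card_fin, ← hc, hcc]
  choose a ha using h2
  refine Nat.card_le_card_of_injective (fun v => ConjClasses.mk (a v)) fun v w h => ?_
  have h3 := (typ_eq_iff _ _).mpr (isConj_of_SL
    ((SU (m + 1) K q).subtype.map_isConj (ConjClasses.mk_eq_mk_iff_isConj.mp h)))
  have h4 : P v.1 = P w.1 := by
    rw [← ha, ← ha, ← prod_typ, ← prod_typ]; exact congrArg _ h3
  exact Subtype.ext (funext fun k => by rw [← hP1 v.1, ← hP1 w.1, h4])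

/-! ### numerical estimates -/

lemma GB_NU (q : ℕ) {u : ℝ} (hu : 0 ≤ u) {i : ℕ} (h1 : q * u ^ i < 1) :
    GB (NU q) u i (1 + (q + 1) * u ^ i / (1 - q * u ^ i)) :=
  GB_geom _ (by positivity) (by positivity) hu h1 (by simp [NU]) (fun m => by simp [NU])

lemma WW_le (r q : ℕ) {u : ℝ} (hu : 0 ≤ u) {j : ℕ} (h1 : q * u ^ j ≤ 1) (m : ℕ) :
    (WW r q j (m + 1) : ℝ) * u ^ (j * (m + 1)) ≤ (Nat.gcd r j : ℝ) ^ 2 * u ^ j := by
  simp only [WW, Nat.add_sub_cancel]
  push_cast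
  calc _ = (Nat.gcd r j : ℝ) ^ 2 * u ^ j * (q * u ^ j) ^ m := by ring
    _ ≤ (Nat.gcd r j : ℝ) ^ 2 * u ^ j * 1 := by
        gcongr; exact pow_le_one₀ (by positivity) h1
    _ = _ := mul_one _

lemma BSU_le_three {q : ℕ} (hq : 3 ≤ q) {n : ℕ} (hn : 1 ≤ n) : 100 * BSU q n ≤ 826 * q ^ (n - 1) := by
  have hq' : (3 : ℝ) ≤ q := by exact_mod_cast hq
  set u : ℝ := (q : ℝ)⁻¹ with hu
  have hu0 : 0 < u := by positivity
  have hqu : q * u = 1 := by rw [hu]; field_simp
  have hu3 : u ≤ 1 / 3 := by nlinarith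
  have hpow : ∀ i, u ^ i ≤ (1 / 3) ^ i := fun i => pow_le_pow_left₀ hu0.le hu3 i
  have hq1 : ∀ i, q * u ^ (i + 1) = u ^ i := fun i => by rw [pow_succ', ← mul_assoc, hqu, one_mul]
  have hG : ∀ i, 2 ≤ i → GB (NU q) u i (1 + 6 * (1 / 3) ^ i) := by
    intro i hi
    obtain ⟨i, rfl⟩ : ∃ i', i = i' + 1 := ⟨i - 1, by omega⟩
    have h1 : u ^ i ≤ 1 / 3 := (pow_le_of_le_one hu0.le (by linarith) (by omega)).trans hu3
    refine (GB_NU q hu0.le (by rw [hq1]; linarith)).mono ?_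
    rw [add_mul, hq1, add_le_add_iff_left, div_le_iff₀ (by linarith), pow_succ, pow_succ]
    have h2 := hpow i
    have h3 : 0 < u ^ i := by positivity
    nlinarith
  have hT : ∀ j, 2 ≤ j → RB (NU q) u j (1 + 27 / 2 * (1 / 3) ^ j) := fun j hj =>
    RB.tail hu0.le (by norm_num) (by norm_num) (by norm_num) (by norm_num) hG (by norm_num) hj
  have hR : RK (WW (q + 1) q) (NU q) u n 2 (3 / 2 * u * ((3 / 2 * (2 : ℕ) ^ 2 + 3 / 2 * (2 : ℕ) + 3 / 2) *
      (1 / 3) ^ (2 - 1))) := by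
    refine RK.tail hu0.le (J := 2) (B := 3 / 2) two_pos (fun j => (j : ℝ) ^ 2 * (u * (1 / 3) ^ (j - 1)))
      (fun j => 3 / 2 * u * ((3 / 2 * (j : ℝ) ^ 2 + 3 / 2 * j + 3 / 2) * (1 / 3) ^ (j - 1))) ?_ ?_ ?_ ?_ le_rfl
    · intro j hj
      refine (hT (j + 1) (by omega)).mono ?_
      have : ((1 : ℝ) / 3) ^ (j + 1) ≤ (1 / 3) ^ 3 := pow_le_pow_of_le_one (by norm_num) (by norm_num) (by omega)
      linarith
    · intro j hj m
      obtain ⟨i, rfl⟩ : ∃ i', j = i' + 1 := ⟨j - 1, by omega⟩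
      refine (WW_le _ q hu0.le (by rw [hq1]; exact pow_le_one₀ hu0.le (by linarith)) m).trans ?_
      rw [Nat.add_sub_cancel, pow_succ' u]
      gcongr
      · exact Nat.gcd_le_right _ (by omega)
    · intro j _; positivity
    · intro j hj
      obtain ⟨i, rfl⟩ : ∃ i', j = i' + 1 := ⟨j - 1, by omega⟩
      simp only [Nat.add_sub_cancel]
      push_cast
      apply le_of_eq; ring
  have h1 := (hR.step hu0.le one_pos (hT 2 le_rfl) (WW_le _ q hu0.le (by rw [pow_one, hqu])) le_rfl) n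
  simp only [Nat.gcd_one_right] at h1
  obtain ⟨k, rfl⟩ : ∃ k, n = k + 1 := ⟨n - 1, by omega⟩
  have h2 : (100 * BSU q (k + 1) : ℝ) ≤ 826 * q ^ k := by
    have h3 : (BSU q (k + 1) : ℝ) * u ^ (k + 1) ≤ 31 / 4 * u := h1.trans (le_of_eq (by push_cast; ring))
    have h4 : u ^ (k + 1) * q ^ (k + 1) = 1 := by rw [← mul_pow, mul_comm, hqu, one_pow]
    have h5 : (BSU q (k + 1) : ℝ) ≤ 31 / 4 * q ^ k := by
      calc (BSU q (k + 1) : ℝ) = BSU q (k + 1) * u ^ (k + 1) * q ^ (k + 1) := by rw [mul_assoc, h4, mul_one]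
        _ ≤ 31 / 4 * u * q ^ (k + 1) := by gcongr
        _ = 31 / 4 * q ^ k * (q * u) := by ring
        _ = _ := by rw [hqu, mul_one]
    have : (0 : ℝ) ≤ q ^ k := by positivity
    linarith
  exact_mod_cast h2

lemma RB_NU_half : RB (NU 2) (1 / 2) 2 (553 / 100) := by
  have hG : ∀ i, 2 ≤ i → GB (NU 2) (1 / 2) i (1 + 3 * (1 / 2) ^ i / (1 - 2 * (1 / 2) ^ i)) := by
    intro i hi
    have : ((1 : ℝ) / 2) ^ i ≤ (1 / 2) ^ 2 := pow_le_pow_of_le_one (by norm_num) (by norm_num) hi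
    have := GB_NU 2 (u := 1 / 2) (by norm_num) (i := i) (by push_cast; linarith)
    norm_num at this ⊢
    exact this
  have h6 : RB (NU 2) (1 / 2) 6 (1 + 66 / 10 * (1 / 2) ^ 6) := by
    refine RB.tail (by norm_num) (J := 6) (C := 31 / 10) (by norm_num) (by norm_num) (by norm_num) (by norm_num)
      (fun i hi => (hG i (by omega)).mono ?_) (by norm_num) le_rfl
    have h1 : ((1 : ℝ) / 2) ^ i ≤ (1 / 2) ^ 6 := pow_le_pow_of_le_one (by norm_num) (by norm_num) hi
    have h2 : (0 : ℝ) < (1 / 2) ^ i := by positivity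
    rw [add_le_add_iff_left, div_le_iff₀ (by linarith)]
    nlinarith
  have h5 := h6.step (by norm_num) (hG 5 (by norm_num)) (B' := 12135 / 10000) (by norm_num) (by norm_num)
  have h4 := h5.step (by norm_num) (hG 4 (by norm_num)) (B' := 14736 / 10000) (by norm_num) (by norm_num)
  have h3 := h4.step (by norm_num) (hG 3 (by norm_num)) (B' := 22104 / 10000) (by norm_num) (by norm_num)
  exact h3.step (by norm_num) (hG 2 (by norm_num)) (by norm_num) (by norm_num)

lemma RK_NU_two (n : ℕ) : RK (WW 3 2) (NU 2) (3 / 5) n 2 10 := by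
  have hG : ∀ i, 2 ≤ i → GB (NU 2) (3 / 5) i (1 + 3 * (3 / 5) ^ i / (1 - 2 * (3 / 5) ^ i)) := by
    intro i hi
    have : ((3 : ℝ) / 5) ^ i ≤ (3 / 5) ^ 2 := pow_le_pow_of_le_one (by norm_num) (by norm_num) hi
    have := GB_NU 2 (u := 3 / 5) (by norm_num) (i := i) (by push_cast; linarith)
    norm_num at this ⊢
    exact this
  have hT : ∀ j, 7 ≤ j → RB (NU 2) (3 / 5) j (1 + 92 / 10 * (3 / 5) ^ j) := by
    intro j hj
    refine RB.tail (by norm_num) (J := 7) (C := 318 / 100) (by norm_num) (by norm_num) (by norm_num)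
      (by norm_num) (fun i hi => (hG i (by omega)).mono ?_) (by norm_num) hj
    have h1 : ((3 : ℝ) / 5) ^ i ≤ (3 / 5) ^ 7 := pow_le_pow_of_le_one (by norm_num) (by norm_num) hi
    have h2 : (0 : ℝ) < (3 / 5) ^ i := by positivity
    rw [add_le_add_iff_left, div_le_iff₀ (by linarith)]
    nlinarith
  have hW : ∀ j, 2 ≤ j → ∀ m, (WW 3 2 j (m + 1) : ℝ) * (3 / 5) ^ (j * (m + 1)) ≤
      (Nat.gcd 3 j : ℝ) ^ 2 * (3 / 5) ^ j := by
    intro j hj
    have : ((3 : ℝ) / 5) ^ j ≤ (3 / 5) ^ 2 := pow_le_pow_of_le_one (by norm_num) (by norm_num) hj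
    exact WW_le 3 2 (by norm_num) (by push_cast; linarith)
  have r7 : RK (WW 3 2) (NU 2) (3 / 5) n 7 (27 * (3 / 5) ^ 7) := by
    refine RK.tail (by norm_num) (J := 7) (B := 6 / 5) (by norm_num) (fun j => 9 * (3 / 5) ^ j)
      (fun j => 27 * (3 / 5) ^ j) ?_ ?_ ?_ ?_ le_rfl
    · intro j hj
      refine (hT (j + 1) (by omega)).mono ?_
      have : ((3 : ℝ) / 5) ^ (j + 1) ≤ (3 / 5) ^ 8 :=
        pow_le_pow_of_le_one (by norm_num) (by norm_num) (by omega)
      linarith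
    · intro j hj m
      refine (hW j (by omega) m).trans ?_
      have : (Nat.gcd 3 j : ℝ) ≤ 3 := by exact_mod_cast Nat.gcd_le_left _ (by norm_num)
      have h2 : (Nat.gcd 3 j : ℝ) ^ 2 ≤ 3 ^ 2 := by gcongr
      gcongr; linarith
    · intro j _; positivity
    · intro j _; apply le_of_eq; ring
  have t7 := (hT 7 le_rfl).mono (B' := 126 / 100) (by norm_num)
  have t6 := t7.step (by norm_num) (hG 6 (by norm_num)) (B' := 146 / 100) (by norm_num) (by norm_num)
  have t5 := t6.step (by norm_num) (hG 5 (by norm_num)) (B' := 187 / 100) (by norm_num) (by norm_num)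
  have t4 := t5.step (by norm_num) (hG 4 (by norm_num)) (B' := 286 / 100) (by norm_num) (by norm_num)
  have t3 := t4.step (by norm_num) (hG 3 (by norm_num)) (B' := 613 / 100) (by norm_num) (by norm_num)
  have r6 := r7.step (by norm_num) (by norm_num) t7 (hW 6 (by norm_num)) (R' := 129 / 100) (by norm_num)
  have r5 := r6.step (by norm_num) (by norm_num) t6 (hW 5 (by norm_num)) (R' := 141 / 100) (by norm_num)
  have r4 := r5.step (by norm_num) (by norm_num) t5 (hW 4 (by norm_num)) (R' := 166 / 100) (by norm_num)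
  have r3 := r4.step (by norm_num) (by norm_num) t4 (hW 3 (by norm_num)) (R' := 723 / 100) (by norm_num)
  exact r3.step (by norm_num) (by norm_num) t3 (hW 2 (by norm_num)) (by norm_num)

lemma BSU_small : ∀ n < 13, 100 * BSU 2 n ≤ 826 * 2 ^ (n - 1) := by decide +kernel

lemma BSU_le_two {n : ℕ} : 100 * BSU 2 n ≤ 826 * 2 ^ (n - 1) := by
  rcases lt_or_ge n 13 with h | h
  · exact BSU_small n h
  obtain ⟨k, rfl⟩ : ∃ k, n = k + 13 := ⟨n - 13, by omega⟩
  have h1 := RK_NU_two (k + 13) (k + 12)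
  have h2 := level_K (W := WW 3 2) (by norm_num) one_pos RB_NU_half
    (WW_le 3 2 (by norm_num) (by norm_num)) (k + 12) (k + 13)
  have h3 : (100 * BSU 2 (k + 13) : ℝ) ≤ 826 * 2 ^ (k + 12) := by
    rw [BSU, show k + 13 = (k + 12) + 1 by ring, Cnt.K, Nat.cast_add]
    rw [show k + 13 = (k + 12) + 1 by ring] at h1 h2
    generalize ((Cnt.K (WW (2 + 1) 2) (NU 2) (k + 12) (1 + 1) (k + 12 + 1) : ℕ) : ℝ) = a at *
    generalize ((∑ m ∈ range (k + 12 + 1), _ : ℕ) : ℝ) = b at *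
    have e1 : ((1 : ℝ) / 2) ^ (k + 12 + 1) * 2 ^ (k + 12) = 1 / 2 := by
      rw [pow_succ, mul_right_comm, ← mul_pow]; norm_num
    have e2 : (4 : ℝ) ≤ (3 / 5) ^ (k + 12 + 1) * 2 ^ (k + 12) := by
      have : ((3 : ℝ) / 5) ^ (k + 12 + 1) * 2 ^ (k + 12) = (6 / 5) ^ k * ((3 / 5) ^ 13 * 2 ^ 12) := by
        rw [show (6 / 5 : ℝ) = 3 / 5 * 2 by norm_num, mul_pow]; ring
      rw [this]
      have h4 : (1 : ℝ) ≤ (6 / 5) ^ k := one_le_pow₀ (by norm_num)
      nlinarith
    have p1 : (0 : ℝ) < 2 ^ (k + 12) := by positivity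
    have p2 : (0 : ℝ) < (3 / 5) ^ (k + 12 + 1) := by positivity
    have b1 : b * (1 / 2) ≤ 553 / 200 * 2 ^ (k + 12) := by
      rw [← e1, ← mul_assoc]
      refine mul_le_mul_of_nonneg_right (h2.trans (le_of_eq ?_)) p1.le
      norm_num
    have a1 : a ≤ 5 / 2 * 2 ^ (k + 12) := by
      refine le_of_mul_le_mul_right ?_ p2
      nlinarith
    linarith
  exact_mod_cast h3

theorem BSU_le {q : ℕ} (hq : 2 ≤ q) {n : ℕ} (hn : 1 ≤ n) : 100 * BSU q n ≤ 826 * q ^ (n - 1) := by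
  rcases (show q = 2 ∨ 3 ≤ q by omega) with rfl | h
  · exact BSU_le_two
  · exact BSU_le_three h hn

end Cnt
end H16
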