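import Mathlib
import Cfsg.Agent.BG.Api4
import Cfsg.Agent.BG.Quo3
import Cfsg.Agent.H04.Aut

/-!
# Subnormal chains and the composition length

* `Ch A X l`: a chain `A = X₀ < X₁ < ⋯ < X_l = X`, each term normal in the next; `Ch.split`, `Ch.inf_of_sup`,
  `Ch.map`, `Ch.comap`, `Ch.omega`.
* `SS 𝒯`: a finite set of pairwise commuting non-abelian simple subgroups; `exists_ss`: a non-solvable minimal
  normal subgroup is generated by such a set, a conjugacy class of subgroups.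
-/

namespace H16

open Subgroup Cfsg BG
open scoped commutatorElement ArithmeticFunction.Omega

variable {G : Type*} [Group G] {A B X N H : Subgroup G} {l : ℕ}

/-- subnormal chains of length `l` -/
inductive Ch (A : Subgroup G) : Subgroup G → ℕ → Prop
  | refl : Ch A A 0
  | step {B C : Subgroup G} {l : ℕ} : Ch A B l → B < C → C ≤ N_(B) → Ch A C (l + 1)

theorem Ch.le (h : Ch A X l) : A ≤ X := by
  induction h with
  | refl => exact le_rfl
  | step _ h _ ih => exact ih.trans h.le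

theorem Ch.trans {m : ℕ} (h : Ch A B l) (h' : Ch B X m) : Ch A X (l + m) := by
  induction h' with
  | refl => exact h
  | step _ h1 h2 ih => exact ih.step h1 h2

theorem Ch.weak (h : Ch A B l) (h1 : B ≤ X) (h2 : X ≤ N_(B)) : ∃ m, l ≤ m ∧ (B ≠ X → l < m) ∧ Ch A X m := by
  rcases h1.eq_or_lt with rfl | h3
  · exact ⟨l, le_rfl, fun h => absurd rfl h, h⟩
  · exact ⟨l + 1, by omega, fun _ => by omega, h.step h3 h2⟩

theorem Ch.split (h : Ch A X l) (hN : X ≤ N_(N)) :
    ∃ a b, l ≤ a + b ∧ Ch (A ⊓ N) (X ⊓ N) a ∧ Ch (N ⊔ A) (N ⊔ X) b := by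
  induction h with
  | refl => exact ⟨0, 0, le_rfl, .refl, .refl⟩
  | @step B C l _ h1 h2 ih =>
    obtain ⟨a, b, e, ha, hb⟩ := ih (h1.le.trans hN)
    obtain ⟨a', e1, e1', ha'⟩ := ha.weak (inf_le_inf_right N h1.le) (inf_le_left.trans (norm_inf h2 hN))
    obtain ⟨b', e2, e2', hb'⟩ := hb.weak (sup_le_sup_left h1.le N)
      (sup_le (norm_of_le le_sup_left) (norm_sup hN h2))
    refine ⟨a', b', ?_, ha', hb'⟩
    by_cases e3 : B ⊓ N = C ⊓ N
    · have := e2' fun e4 => h1.not_ge fun c hc => by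
        obtain ⟨n, hn, x, hx, rfl⟩ := (mem_sup_norm (h1.le.trans hN)).1 (e4.ge (mem_sup_right hc))
        exact mul_mem (e3.ge ⟨(mul_mem_cancel_right (h1.le hx)).1 hc, hn⟩).1 hx
      omega
    · have := e1' e3
      omega

theorem Ch.inf_of_sup (h : Ch N X l) (hH : H ≤ N_(N)) (hX : X ≤ N ⊔ H) : Ch (N ⊓ H) (X ⊓ H) l := by
  induction h with
  | refl => exact .refl
  | @step B C l h0 h1 h2 ih =>
    refine (ih (h1.le.trans hX)).step (lt_of_le_of_ne (inf_le_inf_right H h1.le) fun e => h1.not_ge fun c hc => ?_)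
      (norm_inf (inf_le_left.trans h2) (norm_of_le inf_le_right))
    obtain ⟨n, hn, x, hx, rfl⟩ := (mem_sup_norm hH).1 (hX hc)
    exact mul_mem (h0.le hn) (e.ge ⟨(mul_mem_cancel_left (h1.le (h0.le hn))).1 hc, hx⟩).1

theorem Ch.map {G' : Type*} [Group G'] (f : G →* G') (h : Ch A X l) (hk : f.ker ≤ A) : Ch (A.map f) (X.map f) l := by
  induction h with
  | refl => exact .refl
  | @step B C l h0 h1 h2 ih =>
    refine ih.step (lt_of_le_of_ne (map_mono h1.le) fun e => h1.ne ?_) ((map_mono h2).trans (le_normalizer_map _))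
    exact map_injective_of_ker_le f (hk.trans h0.le) (hk.trans (h0.le.trans h1.le)) e

theorem Ch.comap {G' : Type*} [Group G'] (f : G' →* G) (h : Ch A X l) (hk : X ≤ f.range) :
    Ch (A.comap f) (X.comap f) l := by
  induction h with
  | refl => exact .refl
  | @step B C l h0 h1 h2 ih =>
    refine (ih (h1.le.trans hk)).step (lt_of_le_of_ne (comap_mono h1.le) fun e => h1.ne ?_)
      ((comap_mono h2).trans (le_normalizer_comap _))
    rw [← map_comap_eq_self hk, ← e, map_comap_eq_self (h1.le.trans hk)]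

theorem Ch.subgroupOf (h : Ch ⊥ X l) : Ch (⊥ : Subgroup X) ⊤ l := by
  have := h.comap X.subtype (by rw [range_subtype])
  rwa [comap_subtype, comap_subtype, bot_subgroupOf, subgroupOf_self] at this

theorem Ch.omega [Finite G] (h : Ch A X l) : l + Ω (Nat.card A) ≤ Ω (Nat.card X) := by
  induction h with
  | refl => simp
  | @step B C l h0 h1 h2 ih =>
    have h3 : B.relIndex C ≠ 1 := fun e => h1.not_ge (relIndex_eq_one.1 e)
    rw [← card_mul_relIndex h1.le, ArithmeticFunction.cardFactors_mul (card_ne_zero _) (BG.relIndex_ne_zero _ _)]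
    have : Ω (B.relIndex C) ≠ 0 := fun e => by
      rcases ArithmeticFunction.cardFactors_eq_zero_iff_eq_zero_or_one.1 e with e | e
      exacts [BG.relIndex_ne_zero _ _ e, h3 e]
    omega

theorem Ch.eq_zero (h : Ch A X l) (hX : X ≤ A) : l = 0 := by
  cases h with
  | refl => rfl
  | step h0 h1 _ => exact absurd (hX.trans h0.le) h1.not_ge

/-- pairwise commuting non-abelian simple subgroups -/
structure SS (𝒯 : Finset (Subgroup G)) : Prop where
  simple : ∀ T ∈ 𝒯, ∀ U ≤ T, T ≤ N_(U) → U = ⊥ ∨ U = T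
  nonab : ∀ T ∈ 𝒯, ¬ T ≤ C_(T)
  comm : ∀ T ∈ 𝒯, ∀ T' ∈ 𝒯, T ≠ T' → T ≤ C_(T')

namespace SS

variable {𝒯 J : Finset (Subgroup G)} {T : Subgroup G}

theorem mono (h : SS 𝒯) (hJ : J ⊆ 𝒯) : SS J :=
  ⟨fun T hT => h.simple T (hJ hT), fun T hT => h.nonab T (hJ hT), fun T hT T' hT' => h.comm T (hJ hT) T' (hJ hT')⟩

theorem center (h : SS 𝒯) (hT : T ∈ 𝒯) : T ⊓ C_(T) = ⊥ :=
  (h.simple T hT _ inf_le_left (le_norm_inf_cent le_normalizer)).resolve_right fun e => h.nonab T hT (e.ge.trans inf_le_right)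

theorem sup_le_cent (h : SS 𝒯) (hT : T ∈ 𝒯) (hJ : J ⊆ 𝒯) (h1 : T ∉ J) : J.sup id ≤ C_(T) :=
  Finset.sup_le fun U hU => h.comm U (hJ hU) T hT fun e => h1 (e ▸ hU)

theorem norm (h : SS 𝒯) (hT : T ∈ 𝒯) : 𝒯.sup id ≤ N_(T) :=
  Finset.sup_le fun U hU => by
    by_cases e : U = T
    · exact e ▸ le_normalizer
    · exact le_norm_of_cent (h.comm U hU T hT e)

theorem norm_sup (h : SS 𝒯) (hJ : J ⊆ 𝒯) : 𝒯.sup id ≤ N_(J.sup id) := by
  classical
  induction J using Finset.induction_on with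
  | empty => exact le_top.trans norm_bot.ge
  | insert T J _ ih =>
    rw [Finset.sup_insert]
    exact BG.norm_sup (h.norm (hJ (by simp))) (ih fun x hx => hJ (by simp [hx]))

theorem disj (h : SS 𝒯) (hT : T ∈ 𝒯) (hJ : J ⊆ 𝒯) (h1 : T ∉ J) : T ⊓ J.sup id = ⊥ :=
  eq_bot_mono (h.center hT) (inf_le_inf_left _ (h.sup_le_cent hT hJ h1))

theorem ch_le_one (h : SS 𝒯) (hT : T ∈ 𝒯) (hc : Ch A T l) : l ≤ 1 := by
  cases hc with
  | refl => omega
  | step h0 h1 h2 => rw [h0.eq_zero (((h.simple T hT _ h1.le h2).resolve_right h1.ne).le.trans bot_le)]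

theorem ch_le (h : SS 𝒯) (hc : Ch ⊥ (𝒯.sup id) l) : l ≤ 𝒯.card := by
  classical
  induction 𝒯 using Finset.induction_on generalizing l with
  | empty => exact (hc.eq_zero le_rfl).le
  | insert T J hT ih =>
    have hJ : J ⊆ insert T J := Finset.subset_insert T J
    obtain ⟨a, b, e, ha, hb⟩ := hc.split (h.norm_sup hJ)
    rw [bot_inf_eq, inf_eq_right.2 (Finset.sup_mono hJ)] at ha
    have h1 := ih (h.mono hJ) ha
    have h2 : T ≤ (insert T J).sup id := Finset.le_sup (f := id) (by simp)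
    rw [sup_bot_eq] at hb
    have h3 := hb.inf_of_sup (H := T) (h2.trans (h.norm_sup hJ)) (by rw [Finset.sup_insert, id, sup_comm T]; simp)
    rw [inf_eq_right.2 (h2.trans le_sup_right)] at h3
    have := h.ch_le_one (by simp) h3
    rw [Finset.card_insert_of_notMem hT]
    omega

theorem card_sup [Finite G] (h : SS 𝒯) {t : ℕ} (ht : ∀ T ∈ 𝒯, Nat.card T = t) :
    Nat.card (𝒯.sup id : Subgroup G) = t ^ 𝒯.card := by
  classical
  induction 𝒯 using Finset.induction_on with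
  | empty => simp
  | insert T J hT ih =>
    have hJ : J ⊆ insert T J := Finset.subset_insert T J
    rw [Finset.sup_insert, id, card_sup_of_disj (le_norm_of_cent (h.sup_le_cent (by simp) hJ hT))
      (h.disj (by simp) hJ hT), ih (h.mono hJ) fun U hU => ht U (hJ hU), ht T (by simp),
      Finset.card_insert_of_notMem hT, pow_succ']

theorem six_le [Finite G] (h : SS 𝒯) (hT : T ∈ 𝒯) : 6 ≤ Nat.card T := by
  have h0 : T ≠ ⊥ := fun e => h.nonab T hT (e.le.trans bot_le)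
  have h1 := one_lt_card h0
  by_contra h2
  have key : ∀ p k : ℕ, p.Prime → Nat.card T ≠ p ^ k := fun p k hp e => by
    have : Fact p.Prime := ⟨hp⟩
    exact pg_center_ne_bot hp (IsPGroup.of_card e) h0 (h.center hT)
  have h3 : Nat.card T = 2 ∨ Nat.card T = 3 ∨ Nat.card T = 4 ∨ Nat.card T = 5 := by omega
  rcases h3 with e | e | e | e
  exacts [key 2 1 Nat.prime_two e, key 3 1 Nat.prime_three e, key 2 2 Nat.prime_two e, key 5 1 Nat.prime_five e]

theorem three_le [Finite G] (h : SS 𝒯) (hT : T ∈ 𝒯) {W : Subgroup G} (hW : ¬ T ≤ W) : 3 ≤ W.relIndex T := by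
  have h1 : W.relIndex T ≠ 1 := fun e => hW (relIndex_eq_one.1 e)
  have h2 := BG.relIndex_ne_zero W T
  have h3 : W.relIndex T ≠ 2 := fun e => by
    have h4 : (W.subgroupOf T).Normal := normal_of_index_eq_two e
    have h5 : T ≤ N_(W ⊓ T) := by
      rw [← normal_subgroupOf_iff_le_normalizer inf_le_right, inf_subgroupOf_right]; exact h4
    have h6 := (h.simple T hT _ inf_le_right h5).resolve_right fun e => hW (e.ge.trans inf_le_left)
    have h7 := card_inf_mul_relIndex W T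
    rw [h6, card_bot, e] at h7
    have := h.six_le hT
    omega
  omega

end SS

theorem exists_ss [Finite G] [hN : N.Normal] (hs : ¬ Group.IsSolvable N)
    (hmin : ∀ U ≤ N, ⊤ ≤ N_(U) → U = ⊥ ∨ U = N) :
    ∃ (T : Subgroup G) (𝒯 : Finset (Subgroup G)), SS 𝒯 ∧ 𝒯.sup id = N ∧ ∀ U, U ∈ 𝒯 ↔ ∃ g, cj g T = U := by
  classical
  have := Fintype.ofFinite G
  have h0 : N ≠ ⊥ := by rintro rfl; exact hs inferInstance
  obtain ⟨T, hT, hT0, hTn, hTm⟩ := exists_minnormal (K := N) (A := N) h0 le_normalizer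
  have hcj : ∀ g, cj g N = N := fun g => cj_of_mem_norm (le_normalizer_of_normal (mem_top g))
  let 𝒯 : Finset (Subgroup G) := Finset.univ.image fun g => cj g T
  have hm : ∀ U, U ∈ 𝒯 ↔ ∃ g, cj g T = U := fun U => by simp [𝒯]
  have h1 : ∀ U ∈ 𝒯, U ≤ N ∧ U ≠ ⊥ ∧ N ≤ N_(U) ∧ ∀ V ≤ U, N ≤ N_(V) → V = ⊥ ∨ V = U := fun U hU => by
    obtain ⟨g, rfl⟩ := (hm U).1 hU
    refine ⟨hcj g ▸ cj_mono g hT, by rwa [Ne, cj_eq_bot_iff], by rw [← cj_norm, ← hcj g]; exact cj_mono g hTn,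
      fun V hV hn => ?_⟩
    rcases hTm (cj g⁻¹ V) (le_cj_iff.1 hV) (by rw [← cj_norm, ← hcj g⁻¹]; exact cj_mono _ hn) with e | e
    exacts [Or.inl (cj_eq_bot_iff.1 e), Or.inr (eq_cj_iff.2 e)]
  have h2 : ∀ U ∈ 𝒯, ∀ V ∈ 𝒯, U ≠ V → U ≤ C_(V) := fun U hU V hV hne => by
    obtain ⟨a1, a2, a3, a4⟩ := h1 U hU
    obtain ⟨b1, b2, b3, b4⟩ := h1 V hV
    refine le_cent_of_disj (a1.trans b3) (b1.trans a3) ?_
    refine (a4 _ inf_le_left (norm_inf a3 b3)).resolve_right fun e => hne ?_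
    exact (b4 U (e.ge.trans inf_le_right) a3).resolve_left a2
  have h3 : 𝒯.sup id = N := by
    refine (hmin _ (Finset.sup_le fun U hU => (h1 U hU).1) (le_norm_of_cj_le fun g _ => cj_le_iff.2 ?_)).resolve_left
      (ne_bot_mono hT0 (Finset.le_sup (f := id) ((hm T).2 ⟨1, cj_one T⟩)))
    refine Finset.sup_le fun U hU => cj_le_iff.1 (Finset.le_sup (f := id) ?_)
    obtain ⟨x, rfl⟩ := (hm U).1 hU
    exact (hm _).2 ⟨g * x, (cj_cj _ _ _).symm⟩
  refine ⟨T, 𝒯, ⟨fun U hU V hV hn => (h1 U hU).2.2.2 V hV ?_, fun U hU hc => hs (sol_of_abelian (abelian_iff.2 ?_)), h2⟩,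
    h3, hm⟩
  · rw [← h3]
    refine Finset.sup_le fun W hW => ?_
    by_cases e : W = U
    · exact e ▸ hn
    · exact le_norm_of_cent (le_cent_mono (h2 W hW U hU e) le_rfl hV)
  · have h4 : ∀ V ∈ 𝒯, V ≤ C_(V) := fun V hV => by
      obtain ⟨x, rfl⟩ := (hm U).1 hU
      obtain ⟨y, rfl⟩ := (hm V).1 hV
      rw [← cj_cent, cj_le_cj_iff] at hc ⊢
      exact hc
    rw [← h3]
    refine Finset.sup_le fun V hV => cent_symm (Finset.sup_le fun W hW => ?_)
    by_cases e : W = V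
    · exact e ▸ h4 W hW
    · exact h2 W hW V hV e

end H16
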