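import Mathlib
import Cfsg.Agent.H08.BaerSuzuki
import Cfsg.Agent.H02.PCore

/-!
# Counting fixed points in 2-transitive groups

`ph Ω g` is the number of fixed points of `g`, `LL a b` the two point stabiliser as a finset.
Counting lemmas (`sum_ph`, `sum_pairs`), Steiner systems of fixed point sets (`line`, `line_bound`)
and a bound for the number of fixed points of an involution.
-/

set_option autoImplicit false

namespace H16.Der
open Finset
open scoped Classical

variable {G : Type*} [Group G] [Fintype G]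

/-- fixed points -/
noncomputable def fx (Ω : Type*) [MulAction G Ω] [Fintype Ω] (g : G) : Finset Ω :=
  univ.filter (fun x => g • x = x)

/-- number of fixed points -/
noncomputable def ph (Ω : Type*) [MulAction G Ω] [Fintype Ω] (g : G) : ℕ := (fx Ω g).card

variable {Ω : Type*} [MulAction G Ω] [Fintype Ω]

/-- two point stabiliser -/
noncomputable def LL (G : Type*) [Group G] [Fintype G] [MulAction G Ω] (a b : Ω) : Finset G :=
  univ.filter (fun g => g • a = a ∧ g • b = b)

omit [Fintype G] in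
@[simp] theorem mem_fx {g : G} {x : Ω} : x ∈ fx Ω g ↔ g • x = x := by simp [fx]

omit [Fintype Ω] in
@[simp] theorem mem_LL {a b : Ω} {g : G} : g ∈ LL G a b ↔ g • a = a ∧ g • b = b := by simp [LL]

omit [Fintype G] in
theorem ph_eq (g : G) : ph Ω g = Nat.card (MulAction.fixedBy Ω g) := by
  rw [ph, ← Fintype.card_coe, ← Nat.card_eq_fintype_card]
  exact Nat.card_congr (Equiv.subtypeEquivRight (by simp))

omit [Fintype G] in
theorem ph_le (g : G) : ph Ω g ≤ Fintype.card Ω := card_le_univ _

omit [Fintype G] in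
theorem ph_one : ph Ω (1 : G) = Fintype.card Ω := by simp [ph, fx]

omit [Fintype G] in
theorem ph_conj (h g : G) : ph Ω (h * g * h⁻¹) = ph Ω g := by
  unfold ph
  symm
  refine card_bij (fun x _ => h • x) ?_ ?_ ?_
  · intro x hx
    simp only [mem_fx] at hx ⊢
    rw [smul_smul, inv_mul_cancel_right, mul_smul, hx]
  · intro x _ y _ hxy
    exact smul_left_cancel h hxy
  · intro y hy
    refine ⟨h⁻¹ • y, ?_, by simp⟩
    simp only [mem_fx] at hy ⊢
    rw [mul_smul, mul_smul] at hy
    rw [eq_inv_smul_iff, hy]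

/-- Burnside -/
theorem sum_ph (H : Type*) [Group H] [Fintype H] [MulAction H Ω] :
    ∑ g : H, ph Ω g = Nat.card (MulAction.orbitRel.Quotient H Ω) * Fintype.card H := by
  have := MulAction.sum_card_fixedBy_eq_card_orbits_mul_card_group H Ω
  rw [Nat.card_eq_fintype_card, ← this]
  refine sum_congr rfl fun g _ => ?_
  rw [ph_eq, Nat.card_eq_fintype_card]

theorem sum_ph_trans [MulAction.IsPretransitive G Ω] [Nonempty Ω] :
    ∑ g : G, ph Ω g = Fintype.card G := by
  rw [sum_ph]
  have : Nat.card (MulAction.orbitRel.Quotient G Ω) = 1 := by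
    rw [Nat.card_eq_one_iff_unique]
    refine ⟨⟨fun x y => ?_⟩, ⟨Quotient.mk _ (Classical.arbitrary Ω)⟩⟩
    induction x using Quotient.inductionOn with | h x => ?_
    induction y using Quotient.inductionOn with | h y => ?_
    apply Quotient.sound
    obtain ⟨g, hg⟩ := MulAction.exists_smul_eq G y x
    exact ⟨g, hg⟩
  rw [this, one_mul]

omit [Fintype G] in
theorem ph_prod (g : G) : ph (Ω × Ω) g = ph Ω g ^ 2 := by
  unfold ph
  rw [sq, ← card_product]
  congr 1
  ext ⟨x, y⟩
  simp [Prod.ext_iff]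

/-- 2-transitivity -/
def Two (G Ω : Type*) [Group G] [MulAction G Ω] : Prop :=
  ∀ a b c d : Ω, a ≠ b → c ≠ d → ∃ g : G, g • a = c ∧ g • b = d

theorem sum_sq_of_not_two (h : ¬ Two G Ω) : 3 * Fintype.card G ≤ ∑ g : G, ph Ω g ^ 2 := by
  simp only [← ph_prod]
  rw [sum_ph]
  refine Nat.mul_le_mul_right _ ?_
  unfold Two at h
  push Not at h
  obtain ⟨a, b, c, d, hab, hcd, h⟩ := h
  rw [Nat.card_eq_fintype_card]
  have h3 : ({Quotient.mk _ (a, a), Quotient.mk _ (a, b), Quotient.mk _ (c, d)} :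
      Finset (MulAction.orbitRel.Quotient G (Ω × Ω))).card = 3 := by
    rw [card_eq_three]
    refine ⟨_, _, _, ?_, ?_, ?_, rfl⟩
    · intro e
      obtain ⟨g, hg⟩ := Quotient.exact e
      simp only [Prod.smul_mk, Prod.mk.injEq] at hg
      exact hab (smul_left_cancel g (hg.1.trans hg.2.symm))
    · intro e
      obtain ⟨g, hg⟩ := Quotient.exact e
      simp only [Prod.smul_mk, Prod.mk.injEq] at hg
      exact hcd (smul_left_cancel g (hg.1.trans hg.2.symm))
    · intro e
      obtain ⟨g, hg⟩ := Quotient.exact e.symm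
      simp only [Prod.smul_mk, Prod.mk.injEq] at hg
      exact h g hg.1 hg.2
  rw [← h3]
  exact card_le_univ _

omit [Fintype Ω] in
theorem sum_LL_conj (h : G) (a b : Ω) (F : G → ℚ) (hF : ∀ h g, F (h * g * h⁻¹) = F g) :
    ∑ g ∈ LL G (h • a) (h • b), F g = ∑ g ∈ LL G a b, F g := by
  symm
  refine sum_bij (fun g _ => h * g * h⁻¹) ?_ ?_ ?_ ?_
  · intro g hg
    simp only [mem_LL] at hg ⊢
    simp only [mul_smul, inv_smul_smul, hg.1, hg.2, and_self]
  · intro g _ g' _ e
    simpa using e
  · intro g hg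
    refine ⟨h⁻¹ * g * h, ?_, by group⟩
    simp only [mem_LL] at hg ⊢
    simp only [mul_smul, hg.1, hg.2, inv_smul_smul, and_self]
  · intro g _
    rw [hF]

/-- double counting over ordered pairs of distinct points -/
theorem sum_pairs (h2 : Two G Ω) {a b : Ω} (hab : a ≠ b) (F : G → ℚ)
    (hF : ∀ h g, F (h * g * h⁻¹) = F g) :
    ∑ g : G, ((ph Ω g : ℚ) * (ph Ω g - 1)) * F g =
      (Fintype.card Ω : ℚ) * (Fintype.card Ω - 1) * ∑ g ∈ LL G a b, F g := by
  have h1 : ∀ g : G, ((ph Ω g : ℚ) * (ph Ω g - 1)) * F g =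
      ∑ p ∈ (univ : Finset Ω).offDiag, if g • p.1 = p.1 ∧ g • p.2 = p.2 then F g else 0 := by
    intro g
    rw [← sum_filter, sum_const, nsmul_eq_mul]
    congr 1
    have : (univ : Finset Ω).offDiag.filter (fun p => g • p.1 = p.1 ∧ g • p.2 = p.2) =
        (fx Ω g).offDiag := by
      ext p; simp [mem_offDiag]; tauto
    rw [this, offDiag_card, Nat.cast_sub (Nat.le_mul_self _)]
    simp only [ph]
    push_cast; ring
  simp only [h1]
  rw [sum_comm]
  have h3 : ∀ p ∈ (univ : Finset Ω).offDiag,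
      (∑ g : G, if g • p.1 = p.1 ∧ g • p.2 = p.2 then F g else 0) = ∑ g ∈ LL G a b, F g := by
    intro p hp
    rw [← sum_filter]
    obtain ⟨h, h1, h2⟩ := h2 a b p.1 p.2 hab (mem_offDiag.1 hp).2.2
    rw [← sum_LL_conj h a b F hF, h1, h2]
    rfl
  rw [sum_congr rfl h3, sum_const, nsmul_eq_mul, offDiag_card, Nat.cast_sub (Nat.le_mul_self _)]
  simp only [card_univ]
  push_cast; ring

theorem card_eq_of_two (h2 : Two G Ω) {a b : Ω} (hab : a ≠ b) :
    Fintype.card G = Fintype.card Ω * (Fintype.card Ω - 1) * (LL G a b).card := by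
  have h1 : (univ : Finset G).card = ∑ p ∈ (univ : Finset Ω).offDiag,
      (univ.filter (fun g : G => (g • a, g • b) = p)).card := by
    apply card_eq_sum_card_fiberwise
    intro g _
    simp only [coe_offDiag, coe_univ, Set.mem_offDiag, Set.mem_univ, true_and]
    exact fun e => hab (smul_left_cancel g e)
  have h3 : ∀ p ∈ (univ : Finset Ω).offDiag,
      (univ.filter (fun g : G => (g • a, g • b) = p)).card = (LL G a b).card := by
    intro p hp
    obtain ⟨h, h1, h2⟩ := h2 a b p.1 p.2 hab (mem_offDiag.1 hp).2.2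
    symm
    refine card_bij (fun g _ => h * g) ?_ ?_ ?_
    · intro g hg
      simp only [mem_LL] at hg
      simp [mul_smul, hg.1, hg.2, h1, h2]
    · intro g _ g' _ e
      simpa using e
    · intro g hg
      simp only [mem_filter, mem_univ, true_and, Prod.ext_iff] at hg
      refine ⟨h⁻¹ * g, ?_, by group⟩
      simp only [mem_LL, mul_smul, hg.1, hg.2, ← h1, ← h2, inv_smul_smul, and_self]
  rw [card_univ, sum_congr rfl h3, sum_const, smul_eq_mul, offDiag_card, card_univ] at h1
  rw [h1, Nat.mul_sub_one]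

/-- the two point stabiliser as a subgroup -/
def Ls (G : Type*) [Group G] [MulAction G Ω] (a b : Ω) : Subgroup G :=
  MulAction.stabilizer G a ⊓ MulAction.stabilizer G b

omit [Fintype Ω] in
theorem card_Ls (a b : Ω) : Nat.card (Ls G a b) = (LL G a b).card := by
  rw [← Fintype.card_coe, ← Nat.card_eq_fintype_card]
  exact Nat.card_congr (Equiv.subtypeEquivRight (by simp [Ls]))

theorem exists_sum_LL (a b : Ω) : ∃ s : ℕ, ∑ g ∈ LL G a b, ph Ω g = s * (LL G a b).card := by
  refine ⟨Nat.card (MulAction.orbitRel.Quotient (Ls G a b) Ω), ?_⟩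
  rw [← card_Ls, Nat.card_eq_fintype_card (α := Ls G a b), ← sum_ph]
  rw [sum_subtype (LL G a b) (p := fun g => g ∈ Ls G a b) (by simp [Ls])]
  rfl

theorem sum_LL_eq (a b : Ω) :
    ∑ g ∈ LL G a b, ph Ω g = ∑ x : Ω, ((LL G a b).filter (fun g => g • x = x)).card := by
  simp only [ph, fx, card_filter]
  exact sum_comm

omit [Fintype Ω] in
theorem card_trans (a b x : Ω) {g : G} (hg : g ∈ LL G a b) :
    ((LL G a b).filter (fun h => h • x = g • x)).card =
      ((LL G a b).filter (fun h => h • x = x)).card := by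
  symm
  simp only [mem_LL] at hg
  refine card_bij (fun h _ => g * h) ?_ ?_ ?_
  · intro h hh
    simp only [mem_filter, mem_LL] at hh ⊢
    simp [mul_smul, hh.1.1, hh.1.2, hh.2, hg.1, hg.2]
  · intro h _ h' _ e
    simpa using e
  · intro h hh
    simp only [mem_filter, mem_LL] at hh
    refine ⟨g⁻¹ * h, ?_, by group⟩
    simp only [mem_filter, mem_LL, mul_smul, hh.1.1, hh.1.2, hh.2, inv_smul_smul, and_true]
    exact ⟨inv_smul_eq_iff.2 hg.1.symm, inv_smul_eq_iff.2 hg.2.symm⟩

omit [Fintype Ω] in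
theorem two_mul_stab (a b x : Ω) {g : G} (hg : g ∈ LL G a b) (hx : g • x ≠ x) :
    2 * ((LL G a b).filter (fun h => h • x = x)).card ≤ (LL G a b).card := by
  have hd : Disjoint ((LL G a b).filter (fun h => h • x = x))
      ((LL G a b).filter (fun h => h • x = g • x)) := by
    rw [disjoint_filter]
    intro h _ h1 h2
    exact hx (h2.symm.trans h1)
  have := card_le_card (union_subset (filter_subset (fun h => h • x = x) (LL G a b))
    (filter_subset (fun h => h • x = g • x) (LL G a b)))
  rw [card_union_of_disjoint hd, card_trans a b x hg] at this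
  omega

omit [Fintype G] [Fintype Ω] in
theorem fix_of_sq {g : G} (ho : Odd (orderOf g)) {x : Ω} (h : (g * g) • x = x) : g • x = x := by
  obtain ⟨j, hj⟩ := ho
  have h1 : g = (g * g) ^ (j + 1) := by
    rw [← sq, ← pow_mul, show 2 * (j + 1) = orderOf g + 1 by omega, pow_succ, pow_orderOf_eq_one,
      one_mul]
  have : (g * g) ^ (j + 1) ∈ MulAction.stabilizer G x := pow_mem h _
  rw [← h1] at this
  exact this

omit [Fintype Ω] in
theorem three_mul_stab (a b x : Ω) {g : G} (hg : g ∈ LL G a b) (ho : Odd (orderOf g))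
    (hx : g • x ≠ x) :
    3 * ((LL G a b).filter (fun h => h • x = x)).card ≤ (LL G a b).card := by
  have hg2 : g * g ∈ LL G a b := by
    simp only [mem_LL] at hg ⊢
    simp [mul_smul, hg.1, hg.2]
  have hx2 : (g * g) • x ≠ x := fun h => hx (fix_of_sq ho h)
  have hx3 : (g * g) • x ≠ g • x := fun h => hx (smul_left_cancel g (by rw [← mul_smul, h]))
  have hd : Disjoint ((LL G a b).filter (fun h => h • x = x))
      ((LL G a b).filter (fun h => h • x = g • x)) := by
    rw [disjoint_filter]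
    intro h _ h1 h2
    exact hx (h2.symm.trans h1)
  have hd2 : Disjoint ((LL G a b).filter (fun h => h • x = x) ∪
      (LL G a b).filter (fun h => h • x = g • x))
      ((LL G a b).filter (fun h => h • x = (g * g) • x)) := by
    rw [disjoint_union_left, disjoint_filter, disjoint_filter]
    exact ⟨fun h _ h1 h2 => hx2 (h2.symm.trans h1), fun h _ h1 h2 => hx3 (h2.symm.trans h1)⟩
  have := card_le_card (union_subset (union_subset (filter_subset (fun h => h • x = x) (LL G a b))
    (filter_subset (fun h => h • x = g • x) (LL G a b)))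
    (filter_subset (fun h => h • x = (g * g) • x) (LL G a b)))
  rw [card_union_of_disjoint hd2, card_union_of_disjoint hd, card_trans a b x hg,
    card_trans a b x hg2] at this
  omega

/-- the points fixed by all elements of the stabiliser of `x`, `y` with property `P` -/
noncomputable def line (P : G → Prop) (x y : Ω) : Finset Ω :=
  univ.filter (fun z => ∀ g ∈ (LL G x y).filter P, g • z = z)

theorem mem_line {P : G → Prop} {x y z : Ω} :
    z ∈ line P x y ↔ ∀ g : G, g • x = x → g • y = y → P g → g • z = z := by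
  simp [line]

theorem left_mem_line (P : G → Prop) (x y : Ω) : x ∈ line P x y :=
  mem_line.2 fun _ h _ _ => h

theorem right_mem_line (P : G → Prop) (x y : Ω) : y ∈ line P x y :=
  mem_line.2 fun _ _ h _ => h

omit [Fintype Ω] in
theorem card_filter_conj {P : G → Prop} (hP : ∀ h g, P (h * g * h⁻¹) ↔ P g) (h : G) (a b : Ω) :
    ((LL G (h • a) (h • b)).filter P).card = ((LL G a b).filter P).card := by
  have := sum_LL_conj h a b (fun g => if P g then 1 else 0) (fun h g => by simp only [hP])
  simp only [sum_boole] at this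
  exact_mod_cast this

theorem line_eq (h2 : Two G Ω) {P : G → Prop} (hP : ∀ h g, P (h * g * h⁻¹) ↔ P g) {x y u v : Ω}
    (hxy : x ≠ y) (huv : u ≠ v) (hu : u ∈ line P x y) (hv : v ∈ line P x y) :
    line P u v = line P x y := by
  have : (LL G x y).filter P = (LL G u v).filter P := by
    apply eq_of_subset_of_card_le
    · intro g hg
      simp only [mem_filter, mem_LL] at hg ⊢
      exact ⟨⟨mem_line.1 hu g hg.1.1 hg.1.2 hg.2, mem_line.1 hv g hg.1.1 hg.1.2 hg.2⟩, hg.2⟩
    · obtain ⟨h, rfl, rfl⟩ := h2 x y u v hxy huv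
      rw [card_filter_conj hP]
  unfold line
  rw [this]

theorem card_line (h2 : Two G Ω) {P : G → Prop} (hP : ∀ h g, P (h * g * h⁻¹) ↔ P g) {x y u v : Ω}
    (hxy : x ≠ y) (huv : u ≠ v) : (line P u v).card = (line P x y).card := by
  obtain ⟨h, rfl, rfl⟩ := h2 x y u v hxy huv
  symm
  refine card_bij (fun z _ => h • z) ?_ ?_ ?_
  · intro z hz
    rw [mem_line] at hz ⊢
    intro g h1 h2 h3
    have := hz (h⁻¹ * g * h) (by simp [mul_smul, h1]) (by simp [mul_smul, h2])
      (by rw [← hP h]; simpa [mul_assoc] using h3)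
    rw [mul_smul, mul_smul, inv_smul_eq_iff] at this
    exact this
  · intro z _ w _ e
    exact smul_left_cancel h e
  · intro z hz
    refine ⟨h⁻¹ • z, ?_, by simp⟩
    rw [mem_line] at hz ⊢
    intro g h1 h2 h3
    have := hz (h * g * h⁻¹) (by simp [mul_smul, h1]) (by simp [mul_smul, h2]) ((hP h g).2 h3)
    rw [mul_smul, mul_smul] at this
    rw [eq_inv_smul_iff, this]

/-- a proper subspace is small -/
theorem line_bound (h2 : Two G Ω) {P : G → Prop} (hP : ∀ h g, P (h * g * h⁻¹) ↔ P g) {a b : Ω}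
    (hab : a ≠ b) {X : Finset Ω} (hX : ∀ u ∈ X, ∀ v ∈ X, u ≠ v → line P u v ⊆ X) {z : Ω}
    (hz : z ∉ X) : 1 + X.card * ((line P a b).card - 1) ≤ Fintype.card Ω := by
  have hne : ∀ x ∈ X, z ≠ x := fun x hx e => hz (e ▸ hx)
  have hd : (X : Set Ω).PairwiseDisjoint (fun x => (line P z x).erase z) := by
    intro x hx y hy hxy
    rw [Function.onFun, disjoint_left]
    intro w hw1 hw2
    rw [mem_erase] at hw1 hw2
    have e1 := line_eq h2 hP (hne x hx) hw1.1.symm (left_mem_line P z x) hw1.2
    have e2 := line_eq h2 hP (hne y hy) hw2.1.symm (left_mem_line P z y) hw2.2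
    have e3 := line_eq h2 hP (hne x hx) hxy (right_mem_line P z x)
      (by rw [← e1, e2]; exact right_mem_line P z y)
    exact hz (hX x hx y hy hxy (by rw [e3]; exact left_mem_line P z x))
  have h1 := card_biUnion hd
  have h3 : ∀ x ∈ X, ((line P z x).erase z).card = (line P a b).card - 1 := by
    intro x hx
    rw [card_erase_of_mem (left_mem_line P z x), card_line h2 hP hab (hne x hx)]
  rw [sum_congr rfl h3, sum_const, smul_eq_mul] at h1
  have h4 : X.biUnion (fun x => (line P z x).erase z) ⊆ univ.erase z := by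
    intro w hw
    obtain ⟨x, _, hw⟩ := mem_biUnion.1 hw
    exact mem_erase.2 ⟨(mem_erase.1 hw).1, mem_univ _⟩
  have h5 := card_le_card h4
  rw [card_erase_of_mem (mem_univ _), card_univ, h1] at h5
  have : 0 < Fintype.card Ω := Fintype.card_pos_iff.2 ⟨z⟩
  omega

theorem line_self_bound (h2 : Two G Ω) {P : G → Prop} (hP : ∀ h g, P (h * g * h⁻¹) ↔ P g) {a b : Ω}
    (hab : a ≠ b) {z : Ω} (hz : z ∉ line P a b) :
    1 + (line P a b).card * ((line P a b).card - 1) ≤ Fintype.card Ω :=
  line_bound h2 hP hab (fun _ hu _ hv huv => (line_eq h2 hP hab huv hu hv).subset) hz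

omit [Fintype G] [Fintype Ω] in
theorem exists_moved [FaithfulSMul G Ω] {g : G} (hg : g ≠ 1) : ∃ x : Ω, g • x ≠ x := by
  by_contra h
  push Not at h
  exact hg (eq_of_smul_eq_smul (M := G) (α := Ω) (by simpa using h))

omit [Fintype Ω] in
theorem notMem_pCore [FaithfulSMul G Ω] (h2 : Two G Ω) {p : ℕ} [Fact p.Prime] {t : G} (ht : t ≠ 1)
    {a : Ω} (ha : t • a = a) : t ∉ Cfsg.pCore p G := by
  intro htm
  have hp := H02.pCore_isPGroup p G
  haveI : Nontrivial (Cfsg.pCore p G) := ⟨⟨⟨t, htm⟩, 1, fun e => ht (congrArg Subtype.val e)⟩⟩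
  haveI := hp.center_nontrivial
  obtain ⟨z, hz⟩ := exists_ne (1 : Subgroup.center (Cfsg.pCore p G))
  have hz1 : (z.1.1 : G) ≠ 1 := fun e => hz (Subtype.ext (Subtype.ext e))
  obtain ⟨x, hx⟩ := exists_moved (Ω := Ω) hz1
  obtain ⟨w, hw⟩ := exists_moved (Ω := Ω) ht
  have hwa : a ≠ w := fun e => hw (e ▸ ha)
  obtain ⟨h, h1, h3⟩ := h2 x (z.1.1 • x) a w hx.symm hwa
  have hn : (Cfsg.pCore p G).Normal := inferInstance
  have hm : h⁻¹ * t * h ∈ Cfsg.pCore p G := by
    simpa using hn.conj_mem t htm h⁻¹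
  have hc := congrArg Subtype.val (Subgroup.mem_center_iff.1 z.2 ⟨_, hm⟩)
  simp only [Subgroup.coe_mul] at hc
  apply hw
  have e : t * (h * z.1.1) = h * z.1.1 * h⁻¹ * t * h := by
    have : h * ((h⁻¹ * t * h) * z.1.1) = h * (z.1.1 * (h⁻¹ * t * h)) := by rw [hc]
    calc t * (h * z.1.1) = h * ((h⁻¹ * t * h) * z.1.1) := by group
      _ = _ := by rw [this]; group
  calc t • w = (t * (h * z.1.1)) • x := by rw [mul_smul, mul_smul, h3]
    _ = w := by
      rw [e]
      simp only [mul_smul, h1, ha]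
      rw [← h1, inv_smul_smul, h3]

/-- involutions fix few points when odd order elements fix at most one point -/
theorem invol_bound [FaithfulSMul G Ω] (h2 : Two G Ω)
    (hodd : ∀ u : G, u ≠ 1 → Odd (orderOf u) → ∀ x y : Ω, u • x = x → u • y = y → x = y)
    {t : G} (ht : t ≠ 1) (htt : t * t = 1) {a : Ω} (ha : t • a = a) :
    3 * ph Ω t ≤ Fintype.card Ω + 2 := by
  obtain ⟨u, hu1, huo, hu⟩ := H08.exists_inverted_odd_of_notMem_pCore htt (notMem_pCore h2 ht ha)
  have hti : t⁻¹ = t := inv_eq_of_mul_eq_one_right htt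
  have htu : t * u = u⁻¹ * t := by rw [← hu]; group
  have htu' : t * u⁻¹ = u * t := by
    have : t * u⁻¹ * t⁻¹ = u := by
      rw [show t * u⁻¹ * t⁻¹ = (t * u * t⁻¹)⁻¹ by group, hu, inv_inv]
    exact mul_inv_eq_iff_eq_mul.1 this
  have e2 : u * t * u⁻¹ = u * u * t := by rw [mul_assoc, htu']; group
  have e3 : (u * u) * t * (u * u)⁻¹ = (u * u) * (u * u) * t := by
    rw [mul_inv_rev, show u * u * t * (u⁻¹ * u⁻¹) = u * u * (t * u⁻¹) * u⁻¹ by group, htu',
      show u * u * (u * t) * u⁻¹ = u * u * u * (t * u⁻¹) by group, htu']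
    group
  have huo2 : Odd (orderOf (u * u)) := by
    refine Odd.of_dvd_nat huo ?_
    rw [← sq]; exact orderOf_pow_dvd 2
  obtain ⟨p, hp⟩ : ∃ p : Ω, ∀ x, u • x = x → x = p := by
    by_cases h : ∃ x : Ω, u • x = x
    · obtain ⟨x, hx⟩ := h
      exact ⟨x, fun y hy => hodd u hu1 huo y x hy hx⟩
    · exact ⟨a, fun x hx => absurd ⟨x, hx⟩ h⟩
  set A := (fx Ω t).erase p
  set B := (fx Ω (u * t * u⁻¹)).erase p
  set C := (fx Ω ((u * u) * t * (u * u)⁻¹)).erase p
  have hAB : Disjoint A B := by
    rw [disjoint_left]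
    intro x h1 h3
    simp only [A, B, mem_erase, mem_fx, e2] at h1 h3
    refine h1.1 (hp x (fix_of_sq huo ?_))
    have := h3.2
    rwa [mul_smul, h1.2] at this
  have hAC : Disjoint A C := by
    rw [disjoint_left]
    intro x h1 h3
    simp only [A, C, mem_erase, mem_fx, e3] at h1 h3
    refine h1.1 (hp x (fix_of_sq huo (fix_of_sq huo2 ?_)))
    have := h3.2
    rwa [mul_smul, h1.2] at this
  have hBC : Disjoint B C := by
    rw [disjoint_left]
    intro x h1 h3
    simp only [B, C, mem_erase, mem_fx, e2, e3] at h1 h3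
    refine h1.1 (hp x (fix_of_sq huo ?_))
    have := h3.2
    rwa [mul_assoc (u * u), mul_smul, h1.2] at this
  have h1 : A ∪ B ∪ C ⊆ univ.erase p := by
    refine union_subset (union_subset ?_ ?_) ?_ <;> exact erase_subset_erase _ (subset_univ _)
  have h3 := card_le_card h1
  rw [card_union_of_disjoint (disjoint_union_left.2 ⟨hAC, hBC⟩), card_union_of_disjoint hAB,
    card_erase_of_mem (mem_univ _), card_univ] at h3
  have hA : ph Ω t - 1 ≤ A.card := pred_card_le_card_erase
  have hB : ph Ω (u * t * u⁻¹) - 1 ≤ B.card := pred_card_le_card_erase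
  have hC : ph Ω ((u * u) * t * (u * u)⁻¹) - 1 ≤ C.card := pred_card_le_card_erase
  rw [ph_conj] at hB hC
  have : 0 < Fintype.card Ω := Fintype.card_pos_iff.2 ⟨a⟩
  omega

end H16.Der
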