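import Mathlib
import Cfsg.Agent.H05.RepEquiv

/-!
# The permutation character of `SL_n(q)` on the non-zero vectors
-/

open Module Matrix Cfsg H05 MulAction ComplexConjugate

namespace H16.Pc

section
variable {G A : Type*} [Group G] [Fintype G]

theorem irr_of_sum {ι : Type*} [Fintype ι] (f : ι → G → ℂ) (hf : ∀ i, IsCharacter G (f i)) (h0 : ∀ i, f i ≠ 0)
    (h : classInner (∑ i, f i) (∑ i, f i) = Fintype.card ι) :
    (∀ i, IsIrrCharacter G (f i)) ∧ Function.Injective f := by
  classical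
  choose m hm using fun i j => (hf i).exists_classInner_eq_nat (hf j)
  simp only [classInner_sum_left, classInner_sum_right, hm] at h
  have h1 : ∑ j, ∑ i, m i j = ∑ j : ι, 1 := by simpa using (by exact_mod_cast h : ∑ j, ∑ i, m i j = Fintype.card ι)
  have h2 : ∀ i, 1 ≤ m i i := fun i => Nat.one_le_iff_ne_zero.2 fun e =>
    h0 i ((classInner_self_eq_zero _).1 (by rw [hm, e, Nat.cast_zero]))
  have h3 : ∀ j, m j j ≤ ∑ i, m i j := fun j =>
    Finset.single_le_sum (f := fun i => m i j) (fun _ _ => Nat.zero_le _) (Finset.mem_univ j)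
  have h4 := fun j => (Finset.sum_eq_sum_iff_of_le fun j _ => (h2 j).trans (h3 j)).1 h1.symm j (Finset.mem_univ j)
  refine ⟨fun i => (hf i).isIrr_of_norm_one (by rw [hm, le_antisymm (h4 i ▸ h3 i) (h2 i), Nat.cast_one]),
    fun i j e => by_contra fun hne => ?_⟩
  have h5 : m i j = m j j := by
    have := hm i j; rw [e, hm] at this; exact_mod_cast this.symm
  have h6 := Finset.add_le_sum (f := fun i => m i j) (s := Finset.univ) (fun _ _ => Nat.zero_le _)
    (Finset.mem_univ i) (Finset.mem_univ j) hne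
  have := h2 j; have := h4 j
  omega

variable [CommGroup A] [Fintype A]

/-- the `l`-component of a character of `G × A` -/
noncomputable def cmp (P : G × A → ℂ) (l : A → ℂ) : G → ℂ := fun g => classInner (fun a => P (g, a)) l

theorem inner_cmp (P : G × A → ℂ) (l : A → ℂ) (ψ : G → ℂ) :
    classInner (cmp P l) ψ = classInner P (fun x => ψ x.1 * l x.2) := by
  simp only [cmp, classInner, Fintype.sum_prod_type, Nat.card_prod, Nat.cast_mul, mul_inv, Finset.mul_sum,
    Finset.sum_mul, map_mul]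
  exact Finset.sum_congr rfl fun _ _ => Finset.sum_congr rfl fun _ _ => by ring

theorem cmp_char {P : G × A → ℂ} (hP : IsCharacter _ P) {l : A → ℂ} (hl : IsCharacter _ l) :
    IsCharacter G (cmp P l) := by
  refine isCharacter_of_classInner (isClassFunction_iff.2 fun x y h => ?_) fun ψ hψ => ?_
  · obtain ⟨c, rfl⟩ := isConj_iff.1 h
    unfold cmp; congr 1; funext a
    exact hP.isClassFunction.isConj (isConj_iff.2 ⟨(c, 1), by simp⟩)
  · rw [inner_cmp]
    exact hP.exists_classInner_eq_nat ((hψ.isCharacter.comp (MonoidHom.fst G A)).mul (hl.comp (MonoidHom.snd G A)))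

theorem sum_cmp (P : G × A → ℂ) (g : G) : ∑ l : IrrCharacter A, cmp P l g = P (g, 1) := by
  have h : IsClassFunction A fun a => P (g, a) := isClassFunction_iff.2 fun x y h => by rw [isConj_iff_eq.1 h]
  rw [h.apply_eq_sum 1]
  exact Finset.sum_congr rfl fun l _ => by rw [l.2.apply_one_of_comm, mul_one]; rfl

theorem card_irr_comm : Fintype.card (IrrCharacter A) = Nat.card A := by
  have := sum_degree_sq (G := A)
  simp only [fun l : IrrCharacter A => l.2.apply_one_of_comm] at this
  simpa using this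
end

variable {F : Type*} [Field F] {n : ℕ}

theorem sl_trans {k : ℕ} (hk : k < n) {v w : Fin k → Fin n → F} (hv : LinearIndependent F v)
    (hw : LinearIndependent F w) : ∃ g : SpecialLinearGroup (Fin n) F, ∀ i, g.1 *ᵥ v i = w i := by
  obtain ⟨g, hg⟩ := Submodule.exists_linearEquiv_restrict_eq
    (hv.linearCombinationEquiv.symm ≪≫ₗ hw.linearCombinationEquiv)
  have h1 : ∀ i, g (v i) = w i := fun i => by
    have : hv.linearCombinationEquiv (Finsupp.single i 1) = v i := by simp
    rw [← this, ← hg]; simp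
  obtain ⟨f, hf, h2⟩ := Submodule.exists_le_ker_of_lt_top (Submodule.span F (Set.range v)) (lt_top_iff_ne_top.2
    fun e => by have := finrank_span_eq_card hv; rw [e] at this; simp at this; omega)
  obtain ⟨u, hu⟩ := LinearMap.surjective_iff_ne_zero.2 hf 1
  have h3 : LinearMap.det (g : (Fin n → F) →ₗ[F] (Fin n → F)) ≠ 0 := (LinearEquiv.isUnit_det' g).ne_zero
  refine ⟨⟨LinearMap.toMatrix' (g.toLinearMap ∘ₗ LinearMap.transvection f
    (((LinearMap.det (g : (Fin n → F) →ₗ[F] (Fin n → F)))⁻¹ - 1) • u)), ?_⟩, fun i => ?_⟩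
  · rw [LinearMap.det_toMatrix', LinearMap.det_comp, LinearMap.transvection.det]; simp [hu, h3]
  · have : f (v i) = 0 := h2 (Submodule.subset_span ⟨i, rfl⟩)
    simp [LinearMap.toMatrix'_mulVec, LinearMap.transvection.apply, this, h1]

variable (F n) in
/-- non-zero vectors -/
def NZ : Type _ := {v : Fin n → F // v ≠ 0}

instance [Finite F] : Finite (NZ F n) := by unfold NZ; infer_instance

instance : MulAction (SpecialLinearGroup (Fin n) F) (NZ F n) where
  smul g v := ⟨g • v.1, (smul_ne_zero_iff_ne g).2 v.2⟩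
  one_smul v := Subtype.ext (one_smul _ v.1)
  mul_smul g h v := Subtype.ext (mul_smul g h v.1)

instance : MulAction (SpecialLinearGroup (Fin n) F × Fˣ) (NZ F n) where
  smul g v := ⟨g.1 • g.2 • v.1, (smul_ne_zero_iff_ne _).2 ((smul_ne_zero_iff_ne _).2 v.2)⟩
  one_smul v := Subtype.ext (show (1 : SpecialLinearGroup (Fin n) F) • (1 : Fˣ) • v.1 = v.1 by simp)
  mul_smul g h v := Subtype.ext (show (g.1 * h.1) • (g.2 * h.2) • v.1 = g.1 • g.2 • h.1 • h.2 • v.1 by
    simp only [mul_smul, Units.smul_def, smul_comm h.1 (g.2 : F)])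

theorem smul_val (g : SpecialLinearGroup (Fin n) F) (v : NZ F n) : (g • v).1 = g • v.1 := rfl

theorem smul_val' (g : SpecialLinearGroup (Fin n) F × Fˣ) (v : NZ F n) : (g • v).1 = g.1 • (g.2 : F) • v.1 := rfl

open Classical in
/-- orbital invariant -/
noncomputable def inv2 (x : NZ F n × NZ F n) : F := if h : ∃ c : F, c • x.1.1 = x.2.1 then h.choose else 0

theorem inv2_eq {x : NZ F n × NZ F n} {c : F} (h : c • x.1.1 = x.2.1) : inv2 x = c := by
  have h1 : ∃ c : F, c • x.1.1 = x.2.1 := ⟨c, h⟩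
  rw [inv2, dif_pos h1]
  exact smul_left_injective F x.1.2 (h1.choose_spec.trans h.symm)

theorem inv2_cases (x : NZ F n × NZ F n) :
    (inv2 x ≠ 0 ∧ inv2 x • x.1.1 = x.2.1) ∨ (inv2 x = 0 ∧ LinearIndependent F ![x.1.1, x.2.1]) := by
  by_cases h : ∃ c : F, c • x.1.1 = x.2.1
  · obtain ⟨c, h⟩ := h
    rw [inv2_eq h]
    exact .inl ⟨by rintro rfl; exact x.2.2 (by rw [← h, zero_smul]), h⟩
  · exact .inr ⟨dif_neg h, (LinearIndependent.pair_iff' x.1.2).2 fun c e => h ⟨c, e⟩⟩

theorem inv2_smul (g : SpecialLinearGroup (Fin n) F) (x : NZ F n × NZ F n) : inv2 (g • x) = inv2 x := by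
  have h : ∀ c : F, c • (g • x).1.1 = (g • x).2.1 ↔ c • x.1.1 = x.2.1 := fun c => by
    show c • g • x.1.1 = g • x.2.1 ↔ _
    rw [← smul_comm g c, smul_left_cancel_iff]
  by_cases h1 : ∃ c : F, c • x.1.1 = x.2.1
  · obtain ⟨c, h1⟩ := h1
    rw [inv2_eq h1, inv2_eq ((h c).2 h1)]
  · rw [inv2, inv2, dif_neg h1, dif_neg (by simpa only [h] using h1)]

theorem card_orb (hn : 3 ≤ n) :
    Nat.card (orbitRel.Quotient (SpecialLinearGroup (Fin n) F) (NZ F n × NZ F n)) = Nat.card F := by
  refine Nat.card_congr (Equiv.ofBijective (Quotient.lift inv2 ?_) ⟨?_, fun c => ?_⟩)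
  · rintro x y ⟨g, rfl⟩; exact inv2_smul g y
  · rintro ⟨x⟩ ⟨y⟩ h
    replace h : inv2 x = inv2 y := h
    refine Quotient.sound ?_
    rcases inv2_cases x with ⟨h1, h2⟩ | ⟨h1, h2⟩ <;> rcases inv2_cases y with ⟨h3, h4⟩ | ⟨h3, h4⟩
    · obtain ⟨g, hg⟩ := sl_trans (k := 1) (by omega) (v := ![y.1.1]) (w := ![x.1.1])
        (linearIndependent_unique_iff.2 y.1.2) (linearIndependent_unique_iff.2 x.1.2)
      refine ⟨g, Prod.ext (Subtype.ext (hg 0)) (Subtype.ext ?_)⟩
      show g.1 *ᵥ y.2.1 = x.2.1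
      rw [← h4, ← h2, mulVec_smul, h]; exact congrArg _ (hg 0)
    · exact absurd (h.trans h3) h1
    · exact absurd (h.symm.trans h1) h3
    · obtain ⟨g, hg⟩ := sl_trans (k := 2) (by omega) h4 h2
      exact ⟨g, Prod.ext (Subtype.ext (hg 0)) (Subtype.ext (hg 1))⟩
  · let e0 : NZ F n := ⟨Pi.single ⟨0, by omega⟩ 1, by simp⟩
    let e1 : NZ F n := ⟨Pi.single ⟨1, by omega⟩ 1, by simp⟩
    by_cases hc : c = 0
    · refine ⟨Quotient.mk _ (e0, e1), hc ▸ dif_neg ?_⟩
      rintro ⟨c, h⟩
      have := congrFun h ⟨1, by omega⟩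
      simp [e0, e1, Pi.single_apply] at this
    · exact ⟨Quotient.mk _ (e0, ⟨c • e0.1, smul_ne_zero hc e0.2⟩), inv2_eq rfl⟩

theorem perm_SL [Fintype F] [DecidableEq F] (hn : 3 ≤ n) :
    ∃ χ : Fin (Fintype.card F - 1) → (SpecialLinearGroup (Fin n) F → ℂ),
      (∀ i, IsIrrCharacter (SpecialLinearGroup (Fin n) F) (χ i)) ∧ Function.Injective χ ∧
      ∀ g : SpecialLinearGroup (Fin n) F,
        (Nat.card {v : Fin n → F // v ≠ 0 ∧ (g : Matrix (Fin n) (Fin n) F).mulVec v = v} : ℂ) = 1 + ∑ i, χ i g := by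
  classical
  let P : SpecialLinearGroup (Fin n) F × Fˣ → ℂ := fun g => Nat.card (fixedBy (NZ F n) g)
  have hP : IsCharacter _ P := isCharacter_perm _
  have hq : Nat.card Fˣ = Fintype.card F - 1 := by rw [Nat.card_units, Nat.card_eq_fintype_card]
  have hq1 : 1 < Fintype.card F := Fintype.one_lt_card
  have hN : Nat.card (NZ F n) = Fintype.card F ^ n - 1 := by
    unfold NZ; simp [Fintype.card_subtype_compl]
  have hlt : Nat.card Fˣ < Nat.card (NZ F n) := by
    have := Nat.pow_lt_pow_right hq1 (show 1 < n by omega)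
    rw [pow_one] at this; omega
  have h1 : ∀ l : IrrCharacter Fˣ, cmp P l 1 = (Nat.card Fˣ : ℂ)⁻¹ * Nat.card (NZ F n) := fun l => by
    unfold cmp classInner
    rw [Finset.sum_eq_single 1 (fun a _ ha => ?_) (by simp), l.2.apply_one_of_comm]
    · simp [P, show ((1, 1) : SpecialLinearGroup (Fin n) F × Fˣ) = 1 from rfl]
    · have : fixedBy (NZ F n) ((1, a) : SpecialLinearGroup (Fin n) F × Fˣ) = ∅ := by
        refine Set.eq_empty_of_forall_notMem fun v hv => ha (Units.ext (smul_left_injective F v.2 ?_))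
        simpa [smul_val'] using congrArg Subtype.val hv
      simp [P, this]
  have hc : (Nat.card Fˣ : ℂ) ≠ 0 := card_ne_zero_complex
  have h2 : ∀ g, P (g, 1) = Nat.card (fixedBy (NZ F n) g) := fun g => by
    simp only [P]; congr 3; ext v
    rw [mem_fixedBy, mem_fixedBy, show ((g, 1) : _ × Fˣ) • v = g • v from
      Subtype.ext (by simp [smul_val, smul_val'])]
  let o : IrrCharacter Fˣ := ⟨1, isIrrCharacter_one⟩
  let f : Option (IrrCharacter Fˣ) → SpecialLinearGroup (Fin n) F → ℂ := fun i =>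
    i.elim 1 fun l => cmp P l - if l = o then 1 else 0
  have h3 : ∑ i, f i = fun g => (Nat.card (fixedBy (NZ F n) g) : ℂ) := by
    funext g
    rw [← h2, ← sum_cmp P, Fintype.sum_option]
    simp [f]
  obtain ⟨h4, h5⟩ := irr_of_sum f (by
    rintro (_ | l)
    · exact isCharacter_one
    · simp only [f, Option.elim]
      split_ifs with h
      · subst h
        refine (cmp_char hP o.2.isCharacter).sub_constituent isIrrCharacter_one ?_
        rw [inner_cmp, show (fun x : SpecialLinearGroup (Fin n) F × Fˣ =>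
          (1 : SpecialLinearGroup (Fin n) F → ℂ) x.1 * o.1 x.2) = 1 by funext; simp [o], classInner_perm_one]
        have : Nonempty (orbitRel.Quotient (SpecialLinearGroup (Fin n) F × Fˣ) (NZ F n)) :=
          ⟨Quotient.mk _ ⟨Pi.single ⟨0, by omega⟩ 1, by simp⟩⟩
        exact Nat.cast_ne_zero.2 Nat.card_pos.ne'
      · rw [sub_zero]; exact cmp_char hP l.2.isCharacter) (by
    rintro (_ | l) e
    · exact one_ne_zero e
    · have := congrFun e 1
      simp only [f, Option.elim, Pi.sub_apply, h1, Pi.zero_apply, sub_eq_zero, inv_mul_eq_iff_eq_mul₀ hc] at this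
      split_ifs at this
      · simp only [Pi.one_apply, mul_one, Nat.cast_inj] at this; omega
      · simp only [Pi.zero_apply, mul_zero, Nat.cast_eq_zero] at this; omega) (by
    rw [h3, classInner_perm_perm, card_orb hn, Fintype.card_option, card_irr_comm, hq, Nat.card_eq_fintype_card,
      Nat.sub_add_cancel hq1.le])
  let e : Fin (Fintype.card F - 1) ≃ IrrCharacter Fˣ := (Fintype.equivFinOfCardEq (card_irr_comm.trans hq)).symm
  refine ⟨fun i => f (e i), fun i => h4 _, fun i j h => e.injective (Option.some_injective _ (h5 h)), fun g => ?_⟩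
  have := congrFun h3 g
  rw [Finset.sum_apply, Fintype.sum_option] at this
  rw [e.sum_comp fun l => f l g]
  refine Eq.trans ?_ this.symm
  exact congrArg _ (Nat.card_congr ⟨fun v => ⟨⟨v.1, v.2.1⟩, Subtype.ext v.2.2⟩,
    fun v => ⟨v.1.1, v.1.2, congrArg Subtype.val v.2⟩, fun _ => rfl, fun _ => rfl⟩)

end H16.Pc
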