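import Mathlib
import Cfsg.Agent.H09.SpStab
import Cfsg.Agent.H09.SpOrder
import Cfsg.Agent.H09.Invol
import Cfsg.Agent.H28.El20
import Cfsg.Agent.H16.SpecPG

/-!
# Homocyclic Sylow subgroups of `GL_n(q)`, `SL_n(q)`, `Sp_{2n}(q)` for large primes
-/

open Module Matrix Polynomial

namespace H16.Sy

theorem ne_zero_of_not_dvd {r a : ℕ} (h : ¬ r ∣ a) : a ≠ 0 := by rintro rfl; simp at h

theorem val_pow {r Q s : ℕ} [hr : Fact r.Prime] (hQ : 1 < Q) (h : r ∣ Q - 1) (hs : ¬ r ∣ s) :
    padicValNat r (Q ^ s - 1) = padicValNat r (Q - 1) := by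
  obtain ⟨x, rfl⟩ : ∃ x, Q = x + 1 := ⟨Q - 1, by omega⟩
  rw [Nat.add_sub_cancel] at h ⊢
  have h1 : ¬ r ∣ ∑ i ∈ Finset.range s, (x + 1) ^ i := by
    rw [← ZMod.natCast_eq_zero_iff] at h hs ⊢
    simpa [h] using hs
  rw [← geom_sum_mul_add, Nat.add_sub_cancel, padicValNat.mul (ne_zero_of_not_dvd h1) (by omega),
    padicValNat.eq_zero_of_not_dvd h1, zero_add]

theorem ord_pos {r q : ℕ} [hr : Fact r.Prime] (hrq : ¬ r ∣ q) : 0 < orderOf (q : ZMod r) :=
  (isOfFinOrder_iff_pow_eq_one.2 ⟨r - 1, by have := hr.out.two_le; omega,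
    ZMod.pow_card_sub_one_eq_one (mt (ZMod.natCast_eq_zero_iff _ _).1 hrq)⟩).orderOf_pos

theorem val_prod {r q : ℕ} [hr : Fact r.Prime] (hq : 1 < q) (hrq : ¬ r ∣ q) (s : Finset ℕ) (f : ℕ → ℕ)
    (h0 : ∀ i ∈ s, 0 < f i) (h1 : ∀ i ∈ s, ¬ r * orderOf (q : ZMod r) ∣ f i) :
    padicValNat r (∏ i ∈ s, (q ^ f i - 1)) =
      padicValNat r (q ^ orderOf (q : ZMod r) - 1) * (s.filter fun i => orderOf (q : ZMod r) ∣ f i).card := by
  have hp : ∀ i ∈ s, q ^ f i - 1 ≠ 0 := fun i hi => by
    have := Nat.one_lt_pow (h0 i hi).ne' hq; omega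
  induction s using Finset.induction_on with
  | empty => simp
  | insert a s ha ih =>
    rw [Finset.prod_insert ha, padicValNat.mul (hp a (by simp))
      (Finset.prod_ne_zero_iff.2 fun i hi => hp i (by simp [hi])),
      ih (fun i hi => h0 i (by simp [hi])) (fun i hi => h1 i (by simp [hi])) fun i hi => hp i (by simp [hi]),
      Finset.filter_insert]
    split_ifs with h
    · obtain ⟨t, ht⟩ := h
      rw [Finset.card_insert_of_notMem (by simp [ha]), ht, pow_mul,
        val_pow (Nat.one_lt_pow (ord_pos hrq).ne' hq) ((dvd_pow_sub_one_iff (by omega)).2 dvd_rfl)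
        fun h => h1 a (by simp) (by rw [ht, mul_comm]; exact mul_dvd_mul_left _ h)]
      ring
    · rw [padicValNat.eq_zero_of_not_dvd (mt (dvd_pow_sub_one_iff (by omega)).1 h), zero_add]

theorem val_cyc {r q : ℕ} [hr : Fact r.Prime] (hq : 1 < q) (hrq : ¬ r ∣ q) :
    padicValNat r ((cyclotomic (orderOf (q : ZMod r)) ℤ).eval (q : ℤ)).natAbs =
      padicValNat r (q ^ orderOf (q : ZMod r) - 1) := by
  have hd := ord_pos hrq
  set d := orderOf (q : ZMod r) with hdd
  have h0 : ∀ e : ℕ, ((q : ℤ) ^ e - 1).natAbs = q ^ e - 1 := fun e => by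
    have : 1 ≤ q ^ e := Nat.one_le_pow _ _ (by omega)
    rw [← Nat.cast_pow, ← Nat.cast_one (R := ℤ), ← Nat.cast_sub this, Int.natAbs_natCast]
  have h1 := congrArg (fun P => (eval (q : ℤ) P).natAbs) (prod_cyclotomic_eq_X_pow_sub_one hd ℤ)
  simp only [eval_sub, eval_pow, eval_X, eval_one, h0] at h1
  rw [← Nat.insert_self_properDivisors hd.ne', Finset.prod_insert (by simp), eval_mul, Int.natAbs_mul] at h1
  have h2 : ¬ r ∣ (eval (q : ℤ) (∏ i ∈ d.properDivisors, cyclotomic i ℤ)).natAbs := by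
    rw [eval_prod, ← Int.natCast_dvd, (Nat.prime_iff_prime_int.1 hr.out).dvd_finsetProd_iff]
    rintro ⟨e, he, h⟩
    have h3 := h.trans (eval_dvd (x := (q : ℤ)) (cyclotomic.dvd_X_pow_sub_one e ℤ))
    simp only [eval_sub, eval_pow, eval_X, eval_one] at h3
    rw [Int.natCast_dvd, h0, dvd_pow_sub_one_iff (by omega)] at h3
    have h4 := Nat.mem_properDivisors.1 he
    exact absurd (Nat.le_of_dvd (Nat.pos_of_dvd_of_pos h4.1 hd) h3) (by omega)
  have h3 : q ^ d - 1 ≠ 0 := by have := Nat.one_lt_pow hd.ne' hq; omega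
  rw [← h1] at h3 ⊢
  rw [padicValNat.mul (left_ne_zero_of_mul h3) (right_ne_zero_of_mul h3), padicValNat.eq_zero_of_not_dvd h2, add_zero]

theorem sylow_of_emb {H G : Type*} [Group H] [Group G] [Finite G] {r : ℕ} [Fact r.Prime] (f : H →* G)
    (hf : Function.Injective f) (hc : Nat.card H = r ^ padicValNat r (Nat.card G)) (P : Sylow r G) :
    Nonempty (P ≃* H) :=
  ⟨(Sylow.equiv P (Sylow.ofCard f.range (by
    rw [← Nat.card_congr (MonoidHom.ofInjective hf).toEquiv, hc, Nat.factorization_def _ Fact.out]))).trans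
      (MonoidHom.ofInjective hf).symm⟩

theorem sylow_emb {H G : Type*} [Group H] [Group G] [Finite G] {r : ℕ} [Fact r.Prime] (f : H →* G)
    (hf : Function.Injective f) (hc : padicValNat r (Nat.card H) = padicValNat r (Nat.card G))
    (P : Sylow r G) (Q : Sylow r H) : Nonempty (P ≃* Q) := by
  haveI := Finite.of_injective f hf
  exact sylow_of_emb (f.comp (Q : Subgroup H).subtype) (hf.comp Subtype.val_injective)
    (by rw [Q.card_eq_multiplicity, Nat.factorization_def _ Fact.out, hc]) P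

variable {F : Type*} [Field F] [Fintype F] {ι : Type*} [Fintype ι] [DecidableEq ι]

theorem exists_torus {d a t : ℕ} (hd : 0 < d) (ht : t ∣ Fintype.card F ^ d - 1) (ha : a * d ≤ Fintype.card ι) :
    ∃ f : (Fin a → Multiplicative (ZMod t)) →* GL ι F, Function.Injective f := by
  obtain ⟨K, _, _, _, hK1, hK⟩ := exists_field_ext F hd
  obtain ⟨γ, h0, hγ⟩ := exists_orderOf_field K (d := t) (by rwa [hK, Nat.card_eq_fintype_card])
  let e : Multiplicative (ZMod t) ≃* Subgroup.zpowers (Units.mk0 γ h0) :=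
    mulEquivOfCyclicCardEq (by rw [Nat.card_zpowers, ← orderOf_units, Units.val_mk0, hγ]; exact Nat.card_zmod t)
  let z : Multiplicative (ZMod t) →* K := (Units.coeHom K).comp ((Subgroup.subtype _).comp e.toMonoidHom)
  have hz : Function.Injective z := Units.val_injective.comp (Subtype.val_injective.comp e.injective)
  let W := Fin (Fintype.card ι - a * d) → F
  let b : Basis ι F ((Fin a → K) × W) := (finBasisOfFinrankEq F _ (n := Fintype.card ι) (by
    simp [W, finrank_pi_fintype, hK1]; omega)).reindex (Fintype.equivFin ι).symm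
  let φ : (Fin a → K) →* Matrix ι ι F := (LinearMap.toMatrixAlgEquiv b).toMonoidHom.comp
    ((LinearMap.prodMapRingHom F (Fin a → K) W).toMonoidHom.comp ((Algebra.lmul F (Fin a → K)).toMonoidHom.prod 1))
  have hφ : Function.Injective φ := fun x y h => by
    have := congrArg (fun g : End F ((Fin a → K) × W) => (g (1, 0)).1) ((LinearMap.toMatrixAlgEquiv b).injective h)
    simpa using this
  refine ⟨(φ.comp (z.compLeft (Fin a))).toHomUnits, fun x y h => funext fun i => hz ?_⟩
  exact congrFun (hφ (congrArg Units.val h)) i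

theorem card_filter (n d : ℕ) : ((Finset.range n).filter fun i => d ∣ i + 1).card = n / d :=
  Nat.card_multiples n d

theorem val_GL {r : ℕ} [hr : Fact r.Prime] (hrq : ¬ r ∣ Fintype.card F)
    (hn : Fintype.card ι < r * orderOf (Fintype.card F : ZMod r)) :
    padicValNat r (Nat.card (GL ι F)) = padicValNat r (Fintype.card F ^ orderOf (Fintype.card F : ZMod r) - 1) *
      (Fintype.card ι / orderOf (Fintype.card F : ZMod r)) := by
  have hq : 1 < Fintype.card F := Fintype.one_lt_card
  have h0 : Nat.card (GL ι F) ≠ 0 := Nat.card_pos.ne'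
  rw [H09.card_GL, H28.El.prod_gl] at h0 ⊢
  rw [padicValNat.mul (left_ne_zero_of_mul h0) (right_ne_zero_of_mul h0),
    padicValNat.eq_zero_of_not_dvd (n := _ ^ _) fun h => hrq (hr.out.dvd_of_dvd_pow h), add_zero,
    val_prod hq hrq _ (· + 1) (by simp) fun i hi h => by
      have := Nat.le_of_dvd (by omega) h; have := Finset.mem_range.1 hi; omega, card_filter]

theorem sylow_GL {r : ℕ} [hr : Fact r.Prime] (hrq : ¬ r ∣ Fintype.card F)
    (hn : Fintype.card ι < r * orderOf (Fintype.card F : ZMod r)) (P : Sylow r (GL ι F)) :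
    Nonempty (P ≃* (Fin (Fintype.card ι / orderOf (Fintype.card F : ZMod r)) → Multiplicative (ZMod (r ^ padicValNat r
      ((cyclotomic (orderOf (Fintype.card F : ZMod r)) ℤ).eval (Fintype.card F : ℤ)).natAbs)))) := by
  rw [val_cyc Fintype.one_lt_card hrq]
  obtain ⟨f, hf⟩ := exists_torus (F := F) (ι := ι) (ord_pos hrq) pow_padicValNat_dvd (Nat.div_mul_le_self _ _)
  exact sylow_of_emb f hf (by rw [val_GL hrq hn, pow_mul]; simp [Nat.card_pi]) P

theorem gl_to_sl (n : ℕ) : ∃ f : GL (Fin n) F →* SpecialLinearGroup (Fin (n + 1)) F, Function.Injective f := by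
  let f : GL (Fin n) F →* Matrix (Fin (n + 1)) (Fin (n + 1)) F :=
    (reindexAlgEquiv F F finSumFinEquiv).toMonoidHom.comp ((Units.coeHom _).comp (H09.glBlk.comp ((MonoidHom.id _).prod
      ((GeneralLinearGroup.scalar (Fin 1)).comp GeneralLinearGroup.det⁻¹))))
  have h1 : ∀ g, f g = reindex finSumFinEquiv finSumFinEquiv
    (H09.glBlk (g, GeneralLinearGroup.scalar (Fin 1) (GeneralLinearGroup.det g)⁻¹)).1 := fun _ => rfl
  have h0 : ∀ c : Fˣ, GeneralLinearGroup.det (GeneralLinearGroup.scalar (Fin 1) c) = c := fun c =>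
    Units.ext (by simp)
  refine ⟨MonoidHom.mk' (fun g => ⟨f g, ?_⟩) fun g k => Subtype.ext (map_mul f g k), fun g k h => ?_⟩
  · rw [h1, det_reindex_self, ← GeneralLinearGroup.val_det_apply, H09.det_glBlk, h0, mul_inv_cancel, Units.val_one]
  · have : f g = f k := congrArg Subtype.val h
    rw [h1, h1] at this
    exact (Prod.mk.inj (H09.glBlk_injective (Units.ext ((reindex _ _).injective this)))).1

theorem sylow_SL (n : ℕ) {r : ℕ} [hr : Fact r.Prime] (hn : n < r) (hrq : ¬ r ∣ Fintype.card F)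
    (P : Sylow r (SpecialLinearGroup (Fin n) F)) :
    Nonempty (P ≃* (Fin ((Finset.Icc 2 n).filter (fun i => orderOf (Fintype.card F : ZMod r) ∣ i)).card →
      Multiplicative (ZMod (r ^ padicValNat r
        ((cyclotomic (orderOf (Fintype.card F : ZMod r)) ℤ).eval (Fintype.card F : ℤ)).natAbs)))) := by
  have hd := ord_pos hrq
  have hq : 1 < Fintype.card F := Fintype.one_lt_card
  have hn' : ∀ m ≤ n, Fintype.card (Fin m) < r * orderOf (Fintype.card F : ZMod r) := fun m hm => by
    rw [Fintype.card_fin]; nlinarith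
  rcases n with _ | n
  · haveI : Unique P := uniqueOfSubsingleton 1
    rw [show ((Finset.Icc 2 0).filter (fun i => orderOf (Fintype.card F : ZMod r) ∣ i)).card = 0 by simp]
    exact ⟨MulEquiv.ofUnique⟩
  have h1 := congrArg (padicValNat r) (H09.card_SL_mul (ι := Fin (n + 1)) (F := F))
  rw [padicValNat.mul (by omega) Nat.card_pos.ne'] at h1
  by_cases h : orderOf (Fintype.card F : ZMod r) = 1
  · obtain ⟨f, hf⟩ := gl_to_sl (F := F) n
    obtain ⟨Q⟩ : Nonempty (Sylow r (GL (Fin n) F)) := inferInstance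
    obtain ⟨e⟩ := sylow_emb f hf (by
      rw [val_GL hrq (hn' _ le_rfl), h] at h1
      rw [val_GL hrq (hn' _ (by omega)), h]
      simp only [pow_one, Fintype.card_fin, Nat.div_one, mul_add] at h1 ⊢; omega) P Q
    obtain ⟨e'⟩ := sylow_GL hrq (hn' _ (by omega)) Q
    rw [show ((Finset.Icc 2 (n + 1)).filter (fun i => orderOf (Fintype.card F : ZMod r) ∣ i)).card =
      Fintype.card (Fin n) / orderOf (Fintype.card F : ZMod r) by simp [h]]
    exact ⟨e.trans e'⟩
  · obtain ⟨Q⟩ : Nonempty (Sylow r (GL (Fin (n + 1)) F)) := inferInstance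
    obtain ⟨e⟩ := sylow_emb SpecialLinearGroup.toGL SpecialLinearGroup.toGL_injective (by
      rw [← h1, padicValNat.eq_zero_of_not_dvd (n := _ - 1), zero_add]
      intro h2
      rw [← pow_one (Fintype.card F), dvd_pow_sub_one_iff (by omega)] at h2
      exact h (Nat.dvd_one.1 h2)) Q P
    obtain ⟨e'⟩ := sylow_GL hrq (hn' _ le_rfl) Q
    rw [show ((Finset.Icc 2 (n + 1)).filter (fun i => orderOf (Fintype.card F : ZMod r) ∣ i)).card =
      Fintype.card (Fin (n + 1)) / orderOf (Fintype.card F : ZMod r) by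
        rw [Fintype.card_fin, ← Nat.Ioc_filter_dvd_card_eq_div]
        congr 1; ext i
        simp only [Finset.mem_filter, Finset.mem_Icc, Finset.mem_Ioc, and_congr_left_iff]
        intro h2
        have : i ≠ 1 := by rintro rfl; exact h (Nat.dvd_one.1 h2)
        omega]
    exact ⟨e.symm.trans e'⟩

theorem sylow_Sp (n : ℕ) {r : ℕ} [hr : Fact r.Prime] (h2 : r ≠ 2) (hn : n < r) (hrq : ¬ r ∣ Fintype.card F)
    (P : Sylow r (symplecticGroup (Fin n) F)) :
    Nonempty (P ≃* (Fin ((Finset.Icc 1 n).filter (fun i => orderOf (Fintype.card F : ZMod r) ∣ 2 * i)).card →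
      Multiplicative (ZMod (r ^ padicValNat r
        ((cyclotomic (orderOf (Fintype.card F : ZMod r)) ℤ).eval (Fintype.card F : ℤ)).natAbs)))) := by
  have hd := ord_pos hrq
  have hq : 1 < Fintype.card F := Fintype.one_lt_card
  have hc : ((Finset.Icc 1 n).filter (fun i => orderOf (Fintype.card F : ZMod r) ∣ 2 * i)).card =
      ((Finset.range n).filter (fun i => orderOf (Fintype.card F : ZMod r) ∣ 2 * (i + 1))).card := by
    rw [show Finset.Icc 1 n = (Finset.range n).image (· + 1) by
      rw [Finset.range_eq_Ico, Finset.image_add_right_Ico]; rfl, Finset.filter_image,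
      Finset.card_image_of_injective _ (add_left_injective 1)]
  have h0 : Nat.card (symplecticGroup (Fin n) F) ≠ 0 := Nat.card_pos.ne'
  have h1 : (∀ i ∈ Finset.range n, ¬ r * orderOf (Fintype.card F : ZMod r) ∣ 2 * (i + 1)) →
      padicValNat r (Nat.card (symplecticGroup (Fin n) F)) =
        padicValNat r (Fintype.card F ^ orderOf (Fintype.card F : ZMod r) - 1) *
          ((Finset.range n).filter (fun i => orderOf (Fintype.card F : ZMod r) ∣ 2 * (i + 1))).card := fun h => by
    rw [H09.card_sp_fin] at h0 ⊢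
    rw [padicValNat.mul (left_ne_zero_of_mul h0) (right_ne_zero_of_mul h0),
      padicValNat.eq_zero_of_not_dvd (n := _ ^ _) fun h => hrq (hr.out.dvd_of_dvd_pow h), zero_add,
      val_prod hq hrq _ (fun i => 2 * (i + 1)) (by simp) h]
  replace h1 := h1 fun i hi h => by
    have h3 := ((Nat.coprime_primes hr.out Nat.prime_two).2 h2).dvd_of_dvd_mul_left ((dvd_mul_right _ _).trans h)
    have := Nat.le_of_dvd (by omega) h3; have := Finset.mem_range.1 hi; omega
  rw [hc]
  rcases Nat.even_or_odd (orderOf (Fintype.card F : ZMod r)) with ⟨c, h⟩ | h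
  · have h3 : ((Finset.range n).filter (fun i => orderOf (Fintype.card F : ZMod r) ∣ 2 * (i + 1))).card =
        Fintype.card (Fin n ⊕ Fin n) / orderOf (Fintype.card F : ZMod r) := by
      simp only [h, ← two_mul, Fintype.card_sum, Fintype.card_fin, Nat.mul_div_mul_left _ _ two_pos,
        Nat.mul_dvd_mul_iff_left two_pos, card_filter]
    have h4 : Fintype.card (Fin n ⊕ Fin n) < r * orderOf (Fintype.card F : ZMod r) := by
      simp only [Fintype.card_sum, Fintype.card_fin]
      have : 1 ≤ c := by omega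
      rw [h]; nlinarith
    obtain ⟨Q⟩ : Nonempty (Sylow r (GL (Fin n ⊕ Fin n) F)) := inferInstance
    obtain ⟨e⟩ := sylow_emb (symplecticGroup (Fin n) F).subtype.toHomUnits
      (fun x y h => Subtype.ext (congrArg Units.val h)) (by rw [h1, h3, val_GL hrq h4]) Q P
    obtain ⟨e'⟩ := sylow_GL hrq h4 Q
    rw [h3]
    exact ⟨e.symm.trans e'⟩
  · have h3 : ((Finset.range n).filter (fun i => orderOf (Fintype.card F : ZMod r) ∣ 2 * (i + 1))).card =
        Fintype.card (Fin n) / orderOf (Fintype.card F : ZMod r) := by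
      simp only [Fintype.card_fin, (Nat.coprime_two_right.2 h).dvd_mul_left, card_filter]
    have h4 : Fintype.card (Fin n) < r * orderOf (Fintype.card F : ZMod r) := by
      rw [Fintype.card_fin]; nlinarith
    obtain ⟨Q⟩ : Nonempty (Sylow r (GL (Fin n) F)) := inferInstance
    obtain ⟨e⟩ := sylow_emb H09.spLevi H09.spLevi_injective (by rw [h1, h3, val_GL hrq h4]) P Q
    obtain ⟨e'⟩ := sylow_GL hrq h4 Q
    rw [h3]
    exact ⟨e.trans e'⟩

end H16.Sy
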