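import Mathlib
import Cfsg.Agent.H16.Sy1
import Cfsg.Agent.H08.Dihedral
import Cfsg.Agent.S0288

/-!
# Wreath products `B ≀ C₂`; Sylow 2-subgroups of `A₈`, `PSp₄(3)`, `S₈`, `O₆⁻(2)`
-/

open Equiv Matrix Cfsg

namespace H16.Sw

/-- the swap action -/
def sw (B : Type*) [Group B] : Multiplicative (ZMod 2) →* MulAut (B × B) :=
  MonoidHom.mk' (fun e => if e = 1 then 1 else MulEquiv.prodComm) (by
    intro a b
    have : ∀ a : Multiplicative (ZMod 2), a = 1 ∨ a = .ofAdd 1 := by decide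
    rcases this a with rfl | rfl <;> rcases this b with rfl | rfl <;> rfl)

/-- `B ≀ C₂` -/
abbrev W (B : Type*) [Group B] := (B × B) ⋊[sw B] Multiplicative (ZMod 2)

theorem card_W (B : Type*) [Group B] : Nat.card (W B) = Nat.card B * Nat.card B * 2 := by
  simp [SemidirectProduct.card]

theorem exists_wr {B G : Type*} [Group B] [Group G] (q : B →* G) {t : G} (ht : t * t = 1)
    (hc : ∀ u v, Commute (q u) (t * q v * t⁻¹)) :
    ∃ f : W B →* G, ∀ u v, f (.inl (u, v)) = q u * (t * q v * t⁻¹) := by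
  have h2 : ∀ a : Multiplicative (ZMod 2), a = 1 ∨ a = .ofAdd 1 := by decide
  refine ⟨SemidirectProduct.lift (q.noncommCoprod ((MulAut.conj t).toMonoidHom.comp q) hc)
    (MonoidHom.mk' (fun e => if e = 1 then 1 else t) fun a b => ?_) fun e => ?_, fun u v => by simp⟩
  · rcases h2 a with rfl | rfl <;> rcases h2 b with rfl | rfl <;> first | exact ht.symm | simp
  · refine MonoidHom.ext fun ⟨u, v⟩ => ?_
    rcases h2 e with rfl | rfl
    · simp
    · show q v * (t * q u * t⁻¹) = t * (q u * (t * q v * t⁻¹)) * t⁻¹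
      rw [(hc v u).eq, inv_eq_of_mul_eq_one_right ht]
      simp only [mul_assoc, ht, mul_one]

theorem reach {G : Type*} [Group G] (N : Subgroup G) [hN : N.Normal] {w : G} (hw : w ∈ N) (g : G) :
    w * (g * w⁻¹ * g⁻¹) ∈ N := mul_mem hw (hN.conj_mem _ (inv_mem hw) g)

open QuaternionGroup in
theorem keyQ : ∀ (u v : QuaternionGroup 2) (e : Multiplicative (ZMod 2)),
    let c := fun w g : W (QuaternionGroup 2) => w * (g * w⁻¹ * g⁻¹)
    let P := fun w : W (QuaternionGroup 2) => w = .inl (a 2, 1) ∨ w = .inl (1, a 2)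
    let L : List (W (QuaternionGroup 2)) := [.inl (a 1, 1), .inl (xa 0, 1), .inr (.ofAdd 1)]
    let w : W (QuaternionGroup 2) := ⟨(u, v), e⟩
    w = 1 ∨ w = .inl (a 2, a 2) ∨ P w ∨ ∃ g ∈ L, P (c w g) ∨ ∃ h ∈ L, P (c (c w g) h) := by
  decide +kernel

open DihedralGroup in
theorem keyD : ∀ (u v : DihedralGroup 4) (e : Multiplicative (ZMod 2)),
    let c := fun w g : W (DihedralGroup 4) => w * (g * w⁻¹ * g⁻¹)
    let P := fun w : W (DihedralGroup 4) => w = .inl (r 2, r 2)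
    let L : List (W (DihedralGroup 4)) := [.inl (r 1, 1), .inl (sr 0, 1), .inr (.ofAdd 1)]
    let w : W (DihedralGroup 4) := ⟨(u, v), e⟩
    w = 1 ∨ P w ∨ ∃ g ∈ L, P (c w g) ∨ ∃ h ∈ L, P (c (c w g) h) ∨ ∃ k ∈ L, P (c (c (c w g) h) k) := by
  decide +kernel

theorem embD {G : Type*} [Group G] {A X t : G} (hA : A ^ 4 = 1) (hX : X * X = 1) (h : X * A * X⁻¹ = A⁻¹)
    (ht : t * t = 1) (h1 : Commute A (t * A * t⁻¹)) (h2 : Commute A (t * X * t⁻¹)) (h3 : Commute X (t * A * t⁻¹))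
    (h4 : Commute X (t * X * t⁻¹)) (h5 : A ^ 2 * (t * A ^ 2 * t⁻¹) ≠ 1) :
    ∃ f : W (DihedralGroup 4) →* G, Function.Injective f := by
  have k : ∀ g, Commute A g → Commute X g → ∀ u, Commute (H08.dihedralHom hA hX h u) g := by
    rintro g h1 h2 (i | i)
    exacts [h1.pow_left _, h2.mul_left (h1.pow_left _)]
  obtain ⟨f, hf⟩ := exists_wr (H08.dihedralHom hA hX h) ht fun u v => k _
    ((k (t⁻¹ * A * t) (by simpa [mul_assoc] using (h1.symm.conj t⁻¹)) (by simpa [mul_assoc] using (h2.symm.conj t⁻¹))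
      v).conj t |>.symm |> fun e => by simpa [mul_assoc] using e)
    ((k (t⁻¹ * X * t) (by simpa [mul_assoc] using (h3.symm.conj t⁻¹)) (by simpa [mul_assoc] using (h4.symm.conj t⁻¹))
      v).conj t |>.symm |> fun e => by simpa [mul_assoc] using e) u
  have h6 : (SemidirectProduct.inl (.r 2, .r 2) : W (DihedralGroup 4)) ∉ f.ker := fun e => h5 ((hf _ _).symm.trans e)
  refine ⟨f, (injective_iff_map_eq_one f).2 fun ⟨⟨u, v⟩, e⟩ hw => ?_⟩
  rcases keyD u v e with h | h | ⟨g, -, h | ⟨g', -, h | ⟨g'', -, h⟩⟩⟩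
  · exact h
  · exact absurd (h ▸ hw) h6
  · exact absurd (h ▸ reach f.ker hw g) h6
  · exact absurd (h ▸ reach f.ker (reach f.ker hw g) g') h6
  · exact absurd (h ▸ reach f.ker (reach f.ker (reach f.ker hw g) g') g'') h6

/-- the centre of `Q₈ ≀ C₂` -/
def zQ : Subgroup (W (QuaternionGroup 2)) := Subgroup.zpowers (.inl (.a 2, .a 2))

instance : zQ.Normal := ⟨by
  rintro _ ⟨i, rfl⟩ ⟨⟨u, v⟩, e⟩
  refine ⟨i, ?_⟩
  have : ∀ (u v : QuaternionGroup 2) (e : Multiplicative (ZMod 2)), (⟨(u, v), e⟩ : W (QuaternionGroup 2)) *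
    .inl (.a 2, .a 2) * (⟨(u, v), e⟩ : W (QuaternionGroup 2))⁻¹ = .inl (.a 2, .a 2) := by decide +kernel
  simp only [← conj_zpow, this]⟩

theorem card_zQ : Nat.card (W (QuaternionGroup 2) ⧸ zQ) = 64 := by
  have := Subgroup.card_eq_card_quotient_mul_card_subgroup zQ
  rw [card_W, zQ, Nat.card_zpowers, orderOf_eq_prime (p := 2) (by decide +kernel) (by decide +kernel),
    Nat.card_eq_fintype_card, QuaternionGroup.card] at this
  unfold zQ; omega

theorem embQ {G : Type*} [Group G] {A X t : G} (hA : A ^ (2 * 2) = 1) (hX : X * X = A ^ 2) (h : X * A * X⁻¹ = A⁻¹)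
    (ht : t * t = 1) (h1 : Commute A (t * A * t⁻¹)) (h2 : Commute A (t * X * t⁻¹)) (h3 : Commute X (t * A * t⁻¹))
    (h4 : Commute X (t * X * t⁻¹)) (h5 : A ^ 2 * (t * A ^ 2 * t⁻¹) = 1) (h6 : A ^ 2 ≠ 1) :
    ∃ f : W (QuaternionGroup 2) ⧸ zQ →* G, Function.Injective f := by
  have k : ∀ g, Commute A g → Commute X g → ∀ u, Commute (H08.quaternionHom hA hX h u) g := by
    rintro g h1 h2 (i | i)
    exacts [h1.pow_left _, h2.mul_left (h1.pow_left _)]
  obtain ⟨f, hf⟩ := exists_wr (H08.quaternionHom hA hX h) ht fun u v => k _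
    ((k (t⁻¹ * A * t) (by simpa [mul_assoc] using (h1.symm.conj t⁻¹)) (by simpa [mul_assoc] using (h2.symm.conj t⁻¹))
      v).conj t |>.symm |> fun e => by simpa [mul_assoc] using e)
    ((k (t⁻¹ * X * t) (by simpa [mul_assoc] using (h3.symm.conj t⁻¹)) (by simpa [mul_assoc] using (h4.symm.conj t⁻¹))
      v).conj t |>.symm |> fun e => by simpa [mul_assoc] using e) u
  have h7 : zQ ≤ f.ker := Subgroup.zpowers_le.2 ((hf _ _).trans h5)
  have h8 : ∀ w ∈ f.ker, ¬ (w = .inl (.a 2, 1) ∨ w = .inl (1, .a 2)) := by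
    rintro _ hw (rfl | rfl) <;> rw [MonoidHom.mem_ker, hf, map_one] at hw
    · exact h6 (show H08.quaternionHom hA hX h (.a 2) = 1 by simpa using hw)
    · exact h6 (show H08.quaternionHom hA hX h (.a 2) = 1 by simpa using hw)
  refine ⟨QuotientGroup.lift zQ f h7, (QuotientGroup.injective_lift_iff _ _ _).2 (le_antisymm h7 ?_)⟩
  rintro ⟨⟨u, v⟩, e⟩ hw
  rcases keyQ u v e with h | h | h | ⟨g, -, h | ⟨g', -, h⟩⟩
  · exact h ▸ one_mem _
  · exact h ▸ Subgroup.mem_zpowers _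
  · exact absurd h (h8 _ hw)
  · exact absurd h (h8 _ (reach f.ker hw g))
  · exact absurd h (h8 _ (reach f.ker (reach f.ker hw g) g'))

theorem embA8 : ∃ f : W (QuaternionGroup 2) ⧸ zQ →* alternatingGroup (Fin 8), Function.Injective f :=
  embQ (A := ⟨⟨![2, 3, 1, 0, 6, 7, 5, 4], ![3, 2, 0, 1, 7, 6, 4, 5], by decide, by decide⟩,
      Perm.mem_alternatingGroup.2 (by decide +kernel)⟩)
    (X := ⟨⟨![4, 5, 7, 6, 1, 0, 2, 3], ![5, 4, 6, 7, 0, 1, 3, 2], by decide, by decide⟩,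
      Perm.mem_alternatingGroup.2 (by decide +kernel)⟩)
    (t := ⟨⟨![0, 1, 5, 4, 3, 2, 6, 7], ![0, 1, 5, 4, 3, 2, 6, 7], by decide, by decide⟩,
      Perm.mem_alternatingGroup.2 (by decide +kernel)⟩)
    (by decide +kernel) (by decide +kernel) (by decide +kernel) (by decide +kernel) (by unfold Commute SemiconjBy; decide +kernel)
    (by unfold Commute SemiconjBy; decide +kernel) (by unfold Commute SemiconjBy; decide +kernel)
    (by unfold Commute SemiconjBy; decide +kernel) (by decide +kernel) (by decide +kernel)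

theorem embS8 : ∃ f : W (DihedralGroup 4) →* Perm (Fin 8), Function.Injective f :=
  embD (A := ⟨![1, 2, 3, 0, 4, 5, 6, 7], ![3, 0, 1, 2, 4, 5, 6, 7], by decide, by decide⟩) (X := swap 0 2)
    (t := ⟨![4, 5, 6, 7, 0, 1, 2, 3], ![4, 5, 6, 7, 0, 1, 2, 3], by decide, by decide⟩)
    (by decide +kernel) (by decide +kernel) (by decide +kernel) (by decide +kernel) (by unfold Commute SemiconjBy; decide +kernel)
    (by unfold Commute SemiconjBy; decide +kernel) (by unfold Commute SemiconjBy; decide +kernel)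
    (by unfold Commute SemiconjBy; decide +kernel) (by decide +kernel)

theorem embSp : ∃ f : W (QuaternionGroup 2) ⧸ zQ →* PSp 2 (ZMod 3), Function.Injective f := by
  let A : symplecticGroup (Fin 2) (ZMod 3) := ⟨fromBlocks !![0, 0; 0, 1] !![2, 0; 0, 0] !![1, 0; 0, 0] !![0, 0; 0, 1],
    SymplecticGroup.mem_iff.2 (by decide +kernel)⟩
  let X : symplecticGroup (Fin 2) (ZMod 3) := ⟨fromBlocks !![1, 0; 0, 1] !![1, 0; 0, 0] !![1, 0; 0, 0] !![2, 0; 0, 1],
    SymplecticGroup.mem_iff.2 (by decide +kernel)⟩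
  let t : symplecticGroup (Fin 2) (ZMod 3) := ⟨fromBlocks !![0, 1; 1, 0] 0 0 !![0, 1; 1, 0],
    SymplecticGroup.mem_iff.2 (by decide +kernel)⟩
  let π := QuotientGroup.mk' (Subgroup.center (symplecticGroup (Fin 2) (ZMod 3)))
  have hc : ∀ g, π g = 1 ↔ g = 1 ∨ g = -1 := fun g => (QuotientGroup.eq_one_iff g).trans H09.sp_mem_center_iff
  refine embQ (A := π A) (X := π X) (t := π t) ?_ ?_ ?_ ?_ ?_ ?_ ?_ ?_ ?_ ?_ <;>
    simp only [← map_pow, ← map_inv, ← map_mul, Commute, SemiconjBy, Ne, hc] <;>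
    first | (refine congrArg π ?_; decide +kernel) | decide +kernel

/-- index set -/
abbrev I6 := (Fin 2 ⊕ Fin 2) ⊕ Fin 2

/-- numbering of the index set -/
def ix : I6 → Fin 6 := Sum.elim (Sum.elim ![0, 1] ![2, 3]) ![4, 5]

/-- an isometry from a matrix -/
def mkO (M N : Matrix (Fin 6) (Fin 6) (ZMod 2)) (h1 : M.submatrix ix ix * N.submatrix ix ix = 1)
    (h2 : N.submatrix ix ix * M.submatrix ix ix = 1)
    (h3 : ∀ u, quadFormMinus 2 (ZMod 2) 1 1 (M.submatrix ix ix *ᵥ u) = quadFormMinus 2 (ZMod 2) 1 1 u) :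
    isometryGroup (ZMod 2) (quadFormMinus 2 (ZMod 2) 1 1) := ⟨⟨_, _, h1, h2⟩, fun u _ => h3 u⟩

theorem embO : ∃ f : W (DihedralGroup 4) →* isometryGroup (ZMod 2) (quadFormMinus 2 (ZMod 2) 1 1),
    Function.Injective f :=
  embD (A := mkO !![1,0,1,0,1,0; 0,1,0,0,0,0; 0,0,1,0,0,0; 0,0,0,1,0,0; 0,0,1,0,0,1; 0,0,0,0,1,0]
      !![1,0,1,0,0,1; 0,1,0,0,0,0; 0,0,1,0,0,0; 0,0,0,1,0,0; 0,0,0,0,0,1; 0,0,1,0,1,0]
      (by decide +kernel) (by decide +kernel) (by decide +kernel))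
    (X := mkO !![1,0,1,0,0,1; 0,1,0,0,0,0; 0,0,1,0,0,0; 0,0,0,1,0,0; 0,0,1,0,1,0; 0,0,0,0,0,1]
      !![1,0,1,0,0,1; 0,1,0,0,0,0; 0,0,1,0,0,0; 0,0,0,1,0,0; 0,0,1,0,1,0; 0,0,0,0,0,1]
      (by decide +kernel) (by decide +kernel) (by decide +kernel))
    (t := mkO !![1,0,0,0,0,0; 0,1,0,1,1,0; 0,0,1,0,0,0; 0,1,0,1,0,1; 0,1,0,0,1,1; 0,0,0,1,1,1]
      !![1,0,0,0,0,0; 0,1,0,1,1,0; 0,0,1,0,0,0; 0,1,0,1,0,1; 0,1,0,0,1,1; 0,0,0,1,1,1]
      (by decide +kernel) (by decide +kernel) (by decide +kernel))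
    (by decide +kernel) (by decide +kernel) (by decide +kernel) (by decide +kernel) (by unfold Commute SemiconjBy; decide +kernel)
    (by unfold Commute SemiconjBy; decide +kernel) (by unfold Commute SemiconjBy; decide +kernel)
    (by unfold Commute SemiconjBy; decide +kernel) (by decide +kernel)

theorem syl_A8 (F : Type) [Field F] [Fintype F] (hF : Fintype.card F = 3) (P : Sylow 2 (alternatingGroup (Fin 8)))
    (Q : Sylow 2 (PSp 2 F)) : Nonempty (P ≃* Q) := by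
  obtain ⟨f, hf⟩ := embA8
  obtain ⟨g, hg⟩ := embSp
  obtain ⟨e⟩ := H09.nonempty_psp_equiv_of_card_eq 2 (F := ZMod 3) (K := F) (by simp [hF])
  obtain ⟨e1⟩ := Sy.sylow_of_emb f hf (by
    rw [card_zQ, nat_card_alternatingGroup, Nat.card_eq_fintype_card, Fintype.card_fin]; decide +kernel) P
  obtain ⟨e2⟩ := Sy.sylow_of_emb (e.toMonoidHom.comp g) (e.injective.comp hg) (by
    have := H09.card_PSp_mul (m := 2) (by omega) F
    rw [H09.card_sp_fin, hF] at this
    rw [card_zQ, show Nat.card (PSp 2 F) = 25920 by simp [Finset.prod_range_succ] at this; omega]; decide +kernel) Q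
  exact ⟨e1.trans e2.symm⟩

theorem syl_S8 (K : Type) [Field K] [Fintype K] (hK : Fintype.card K = 2) (a b : K)
    (hab : ∀ z₁ z₂ : K, z₁ ^ 2 + a * z₁ * z₂ + b * z₂ ^ 2 = 0 → z₁ = 0 ∧ z₂ = 0) (P : Sylow 2 (Perm (Fin 8)))
    (Q : Sylow 2 (isometryGroup K (quadFormMinus 2 K a b))) : Nonempty (P ≃* Q) := by
  obtain ⟨f, hf⟩ := embS8
  obtain ⟨g, hg⟩ := embO
  let e : ZMod 2 ≃+* K := ZMod.ringEquivOfPrime K Nat.prime_two hK
  obtain ⟨a, rfl⟩ := e.surjective a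
  obtain ⟨b, rfl⟩ := e.surjective b
  obtain ⟨rfl, rfl⟩ : a = 1 ∧ b = 1 := by
    have : ∀ a b : ZMod 2, (∀ z₁ z₂ : ZMod 2, z₁ ^ 2 + a * z₁ * z₂ + b * z₂ ^ 2 = 0 → z₁ = 0 ∧ z₂ = 0) →
      a = 1 ∧ b = 1 := by decide
    exact this a b fun x y h => by
      simpa using hab (e x) (e y) (by simpa only [map_add, map_mul, map_pow, map_zero] using congrArg e h)
  let ψ : isometryGroup (ZMod 2) (quadFormMinus 2 (ZMod 2) 1 1) →* isometryGroup K (quadFormMinus 2 K (e 1) (e 1)) :=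
    ((H09.glMapEquiv e).toMonoidHom.comp (Subgroup.subtype _)).codRestrict _ fun x u _ => by
      obtain ⟨v, rfl⟩ : ∃ v : I6 → ZMod 2, e ∘ v = u := ⟨e.symm ∘ u, by ext; simp⟩
      have h1 : ∀ v : I6 → ZMod 2, quadFormMinus 2 K (e 1) (e 1) (e ∘ v) = e (quadFormMinus 2 (ZMod 2) 1 1 v) :=
        fun v => by simp only [quadFormMinus, map_add, map_mul, map_pow, map_sum, Function.comp]
      have h2 : (x.1.1.map e) *ᵥ (e ∘ v) = e ∘ (x.1.1 *ᵥ v) := funext fun i => (e.toRingHom.map_mulVec _ _ i).symm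
      show quadFormMinus 2 K (e 1) (e 1) ((x.1.1.map e) *ᵥ (e ∘ v)) = quadFormMinus 2 K (e 1) (e 1) (e ∘ v)
      rw [h2, h1, h1]; exact congrArg e (x.2 v v)
  have hψ : Function.Injective ψ := fun x y h => Subtype.ext ((H09.glMapEquiv e).injective (congrArg Subtype.val h))
  have hc : Nat.card (W (DihedralGroup 4)) = 128 := by rw [card_W, DihedralGroup.nat_card]
  obtain ⟨e1⟩ := Sy.sylow_of_emb f hf (by
    rw [hc, Nat.card_eq_fintype_card, Fintype.card_perm, Fintype.card_fin]; decide +kernel) P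
  obtain ⟨e2⟩ := Sy.sylow_of_emb (ψ.comp g) (hψ.comp hg) (by
    rw [hc, Cfsg.Agent.S0288.result hK 3 (by omega) _ _ hab]; decide +kernel) Q
  exact ⟨e1.trans e2.symm⟩

end H16.Sw
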