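import Mathlib
import Cfsg.Agent.H03.OreB

/-!
# Squares of semisimple classes in `SL₃(q)` (namespace `H16.Th`)
-/

open Polynomial Module LinearMap H03.Ore

set_option autoImplicit false

namespace H16.Th

theorem not_dvd_orderOf {F V : Type*} [Field F] [AddCommGroup V] [Module F V] [FiniteDimensional F V] (p : ℕ)
    [hp : Fact p.Prime] [CharP F p] [PerfectField F] {G : Type*} [Group G] (ρ : G →* End F V)
    (hρ : Function.Injective ρ) {x : G} (h0 : IsOfFinOrder x) {P : F[X]} (hP : Squarefree P) (h : aeval (ρ x) P = 0) :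
    ¬ p ∣ orderOf x := by
  rintro ⟨k, hk⟩
  have h1 := (End.isSemisimple_of_squarefree_aeval_eq_zero hP h).pow k
  have h2 : (ρ x ^ k - 1) ^ p = 0 := by
    rcases subsingleton_or_nontrivial V with h | h
    · exact Subsingleton.elim _ _
    haveI : CharP (End F V) p := charP_of_injective_algebraMap (algebraMap F _).injective p
    rw [sub_pow_char_of_commute p (Commute.one_right _), one_pow, ← pow_mul, mul_comm, ← hk, ← map_pow,
      pow_orderOf_eq_one, map_one, sub_self]
  have h3 := End.eq_zero_of_isNilpotent_isSemisimple ⟨p, h2⟩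
    (End.IsSemisimple.sub_of_commute (Commute.one_right _) h1 End.isSemisimple_id)
  have h4 : x ^ k = 1 := hρ (by rw [map_pow, map_one]; exact sub_eq_zero.1 h3)
  have h5 := Nat.le_of_dvd (Nat.pos_of_mul_pos_left (hk ▸ h0.orderOf_pos)) (orderOf_dvd_of_pow_eq_one h4)
  have := hp.out.two_le
  have := h0.orderOf_pos
  nlinarith

theorem not_dvd_orderOf' {F n : Type*} [Field F] [Finite F] [Fintype n] [DecidableEq n] (p : ℕ) [Fact p.Prime] [CharP F p]
    {G : Type*} [Group G] [Finite G] (ρ : G →* Matrix n n F) (hρ : Function.Injective ρ) {x : G} {P : F[X]}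
    (hP : P.Separable) (h : aeval (ρ x) P = 0) : ¬ p ∣ orderOf x :=
  not_dvd_orderOf p ((Matrix.toLinAlgEquiv' : Matrix n n F ≃ₐ[F] _).toMulEquiv.toMonoidHom.comp ρ)
    (Matrix.toLinAlgEquiv'.injective.comp hρ) (isOfFinOrder_of_finite x) hP.squarefree (by
      change aeval (Matrix.toLinAlgEquiv' (ρ x)) P = 0
      rw [aeval_algHom_apply, h, map_zero])

section
variable {F V W : Type*} [Field F] [AddCommGroup V] [Module F V] [AddCommGroup W] [Module F W]
  [FiniteDimensional F V] [FiniteDimensional F W]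

/-- maps conjugate to `a ⊕ G` are conjugate by a map of determinant one -/
theorem conj_det {a : F} {G : End F W} {X Y : End F V} (Q R : V ≃ₗ[F] F × W) (hQ : ∀ x, Q (X x) = pm a G (Q x))
    (hR : ∀ x, R (Y x) = pm a G (R x)) (d : F) : ∃ S : End F V, S.det = d ∧ S * X = Y * S := by
  let S := Q ≪≫ₗ R.symm
  have h5 : (S : End F V).det ≠ 0 := (LinearEquiv.isUnit_det' S).ne_zero
  let D : End F V := Q.symm.conj (pm ((S : End F V).det⁻¹ * d) 1)
  refine ⟨S * D, ?_, LinearMap.ext fun x => R.injective ?_⟩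
  · rw [map_mul, show D.det = _ from det_conj (pm ((S : End F V).det⁻¹ * d) (1 : End F W)) Q.symm, det_pm, map_one,
      mul_one, mul_inv_cancel_left₀ h5]
  · simp [S, D, LinearEquiv.conj_apply, hQ, hR, mul_left_comm]

/-- a non-scalar map is a product of a conjugate of `(a ⊕ G)⁻¹` and a conjugate of `b ⊕ H` -/
theorem two_cls [Finite F] {M : End F V} (hM : M.det ≠ 0) (h : ¬ ∃ c : F, M = c • 1) {a b : F} {G H : End F W}
    {w w' : W} (h0 : a ≠ 0) (hG : Cyc G w) (hH : Cyc H w') (hd : G.det ≠ 0)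
    (ha : Function.Surjective (G - a • (1 : End F W))) (hb : Function.Surjective (H - b • (1 : End F W)))
    (hd' : b * H.det = a * G.det * M.det) {X Y : End F V} (Q R : V ≃ₗ[F] F × W) (hQ : ∀ x, Q (X x) = pm a G (Q x))
    (hR : ∀ x, R (Y x) = pm b H (R x)) :
    ∃ S T : End F V, S.det = 1 ∧ T.det = 1 ∧ ∃ Z, S * X = Z * S ∧ T * Y = Z * M * T := by
  obtain ⟨U, e, h1, h2⟩ := coords hM h
  have h3 : (e.conj M).det = M.det := det_conj M e
  have h4 : finrank F U = finrank F W := by
    have := e.finrank_eq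
    have := Q.finrank_eq
    simp at *
    omega
  obtain ⟨Z, Q', P, q1, q2⟩ := core (h3 ▸ hM) h1 h2 h0 hG hd ha h4 (cyc_prod hH hb) (by simp [h4])
    (by rw [det_pm, h3, hd'])
  obtain ⟨S, s1, s2⟩ := conj_det (Y := e.symm.conj Z) Q (e ≪≫ₗ Q') hQ (fun x => by simp [q1]) 1
  obtain ⟨T, t1, t2⟩ := conj_det (Y := e.symm.conj Z * M) R (e ≪≫ₗ P) hR (fun x => by simpa using q2 (e x)) 1
  exact ⟨S, T, s1, t1, _, s2, t2⟩

end

theorem sep_quad {F : Type*} [Field F] {t d : F} (h : t ^ 2 - 4 * d ≠ 0) : (X ^ 2 - C t * X + C d).Separable := by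
  refine ⟨-C (4 * (t ^ 2 - 4 * d)⁻¹), C (t ^ 2 - 4 * d)⁻¹ * (2 * X - C t), ?_⟩
  have h1 := congrArg C (inv_mul_cancel₀ h)
  simp only [map_mul, map_sub, map_pow, map_one, map_ofNat] at h1
  simp only [derivative_add, derivative_sub, derivative_X_pow, derivative_mul, derivative_C, derivative_X, map_mul,
    map_ofNat, Nat.cast_ofNat]
  linear_combination h1

theorem cyc_two {F : Type*} [Field F] (A : Matrix (Fin 2) (Fin 2) F) (h : A 1 0 ≠ 0) :
    Cyc (Matrix.toLin' A) ![1, 0] := fun U h1 h2 => eq_top_iff.2 fun x _ => by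
  convert U.add_mem (U.smul_mem (x 0 - x 1 / A 1 0 * A 0 0) h1) (U.smul_mem (x 1 / A 1 0) (h2 _ h1))
  ext i
  fin_cases i <;> simp [Matrix.mulVec, dotProduct, h]

theorem sl3 {F : Type*} [Field F] [Fintype F] {t : F} (ht : 2 - t ≠ 0) {x : Matrix.SpecialLinearGroup (Fin 3) F}
    (hx : x.1 = !![1, 0, 0; 0, 0, -1; 0, 1, t]) (g : Matrix.SpecialLinearGroup (Fin 3) F)
    (hg : g ∉ Subgroup.center _) : ∃ u v, g = (u * x * u⁻¹) * (v * x * v⁻¹) := by
  have h1 : (x⁻¹).1 = !![1, 0, 0; 0, t, 1; 0, -1, 0] := by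
    rw [Matrix.SpecialLinearGroup.coe_inv, hx, Matrix.adjugate_fin_three]; simp
  have h2 : ∀ A : Matrix (Fin 2) (Fin 2) F, (A - 1).det ≠ 0 →
      Function.Surjective (Matrix.toLin' A - (1 : F) • (1 : End F (Fin 2 → F))) := fun A h => surj_of_det (by
    rwa [← det_toLin', map_sub, Matrix.toLin'_one, ← one_smul F LinearMap.id] at h)
  obtain ⟨S, T, s, t, Z, h3, h4⟩ := two_cls (M := Matrix.toLin' g.1) (by simp) (fun ⟨c, hc⟩ => hg (by
      have : g.1 = Matrix.scalar _ c := Matrix.toLin'.injective (by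
        rw [hc]; ext i j; simp [Pi.single_apply])
      exact Subgroup.mem_center_iff.2 fun y => Subtype.ext (by
        simp only [Matrix.SpecialLinearGroup.coe_mul, this]
        exact (Matrix.scalar_commute c (fun _ => Commute.all _ _) _).symm)))
    one_ne_zero (cyc_two !![t, 1; -1, 0] (by simp)) (cyc_two !![0, -1; 1, t] (by simp)) (by simp)
    (h2 _ (by simp [Matrix.det_fin_two]; exact fun h => ht (by linear_combination h)))
    (h2 _ (by simp [Matrix.det_fin_two]; exact fun h => ht (by linear_combination h))) (by simp)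
    (X := Matrix.toLin' (x⁻¹).1) (Y := Matrix.toLin' x.1) (Fin.consLinearEquiv F fun _ => F).symm
    (Fin.consLinearEquiv F fun _ => F).symm
    (fun y => by
      rw [h1]; ext i
      · simp [Matrix.vecHead]
      · fin_cases i <;> simp [Matrix.vecHead, Matrix.vecTail, Fin.tail])
    (fun y => by
      rw [hx]; ext i
      · simp [Matrix.vecHead]
      · fin_cases i <;> simp [Matrix.vecHead, Matrix.vecTail, Fin.tail])
  let u : Matrix.SpecialLinearGroup (Fin 3) F := ⟨toMatrix' S, by simpa using s⟩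
  let v : Matrix.SpecialLinearGroup (Fin 3) F := ⟨toMatrix' T, by simpa using t⟩
  have h5 : toMatrix' Z = (u * x⁻¹ * u⁻¹).1 := by
    have : toMatrix' Z * u.1 = (u * x⁻¹).1 := by simpa [toMatrix'_mul] using (congrArg toMatrix' h3).symm
    rw [Matrix.SpecialLinearGroup.coe_mul, ← this, mul_assoc, ← Matrix.SpecialLinearGroup.coe_mul, mul_inv_cancel]
    simp
  have h6 : v * x = u * x⁻¹ * u⁻¹ * g * v := Subtype.ext (by
    rw [Matrix.SpecialLinearGroup.coe_mul _ v, Matrix.SpecialLinearGroup.coe_mul _ g, ← h5]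
    simpa [toMatrix'_mul] using congrArg toMatrix' h4)
  exact ⟨u, v, by rw [h6]; group⟩

end H16.Th
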