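import Mathlib
import Cfsg.Agent.H09.Sp
import Cfsg.Agent.H16.Th1

/-!
# The big cell of the Siegel parabolic of `Sp₂ₘ(q)` and products of two classes (namespace `H16.Th`)
-/

open Matrix H09

set_option autoImplicit false
set_option linter.unusedSectionVars false

namespace H16.Th

variable {l F : Type*} [Fintype l] [DecidableEq l] [Field F]

/-- Levi elements -/
def lv : GL l F →* symplecticGroup l F where
  toFun y := ⟨fromBlocks y.1 0 0 (y⁻¹).1ᵀ, SymplecticGroup.fromBlocks_mem_iff.2 (by simp [← transpose_mul])⟩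
  map_one' := Subtype.ext (by simp)
  map_mul' y z := Subtype.ext (by simp [fromBlocks_multiply, Matrix.mul_inv_rev])

/-- lower unipotent elements -/
def lo (S : Matrix l l F) (h : Sᵀ = S) : symplecticGroup l F :=
  ⟨fromBlocks 1 0 S 1, SymplecticGroup.fromBlocks_mem_iff.2 (by simp [h])⟩

/-- upper unipotent elements -/
def up (S : Matrix l l F) (h : Sᵀ = S) : symplecticGroup l F :=
  ⟨fromBlocks 1 S 0 1, SymplecticGroup.fromBlocks_mem_iff.2 (by simp [h])⟩

/-- no invariant bilinear form -/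
def Fp (y : Matrix l l F) : Prop := ∀ S : Matrix l l F, yᵀ * S * y = S → S = 0

theorem Fp.surj [Finite F] {y : Matrix l l F} (h : Fp y) {T : Matrix l l F} (hT : Tᵀ = T) :
    ∃ S : Matrix l l F, Sᵀ = S ∧ yᵀ * S * y - S = T := by
  let f : {S : Matrix l l F // Sᵀ = S} → {S : Matrix l l F // Sᵀ = S} := fun S =>
    ⟨yᵀ * S.1 * y - S.1, by simp [S.2, Matrix.mul_assoc]⟩
  obtain ⟨S, hS⟩ := Finite.injective_iff_surjective.1 (fun S S' e => Subtype.ext (sub_eq_zero.1 (h _ (by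
    have : yᵀ * S.1 * y - S.1 = yᵀ * S'.1 * y - S'.1 := congrArg Subtype.val e
    rw [Matrix.mul_sub, Matrix.sub_mul]
    linear_combination (norm := abel) this))) : Function.Injective f) ⟨T, hT⟩
  exact ⟨S.1, S.2, congrArg Subtype.val hS⟩

theorem conj_lo [Finite F] {y : GL l F} (h : Fp y.1) {T : Matrix l l F} (hT : Tᵀ = T) :
    IsConj (lv y) (lo T hT * lv y) := by
  obtain ⟨S, h1, h2⟩ := h.surj (T := y.1ᵀ * T * y.1) (by simp [hT, Matrix.mul_assoc])
  refine isConj_iff.2 ⟨lo S h1, mul_inv_eq_iff_eq_mul.2 (Subtype.ext ?_)⟩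
  have h3 : (y⁻¹).1ᵀ * y.1ᵀ = 1 := by rw [← transpose_mul]; simp
  have h4 := congrArg ((y⁻¹).1ᵀ * ·) h2
  simp only [Matrix.mul_sub, ← Matrix.mul_assoc, h3, Matrix.one_mul] at h4
  simp only [Submonoid.coe_mul, lo, lv, MonoidHom.coe_mk, OneHom.coe_mk, fromBlocks_multiply]
  simp [← h4]

theorem conj_up [Finite F] {y : GL l F} (h : Fp y.1ᵀ) {T : Matrix l l F} (hT : Tᵀ = T) :
    IsConj (lv y) (lv y * up T hT) := by
  obtain ⟨S, h1, h2⟩ := h.surj (T := -(y.1 * T * y.1ᵀ)) (by simp [hT, Matrix.mul_assoc])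
  refine isConj_iff.2 ⟨up S h1, mul_inv_eq_iff_eq_mul.2 (Subtype.ext ?_)⟩
  have h3 : y.1ᵀ * (y⁻¹).1ᵀ = 1 := by rw [← transpose_mul]; simp
  have h4 := congrArg (· * (y⁻¹).1ᵀ) h2
  simp only [Matrix.sub_mul, Matrix.mul_assoc, h3, Matrix.mul_one, transpose_transpose, Matrix.neg_mul,
    sub_eq_iff_eq_add] at h4
  simp only [Submonoid.coe_mul, up, lv, MonoidHom.coe_mk, OneHom.coe_mk, fromBlocks_multiply]
  simp [h4]

theorem conj_tr {y z : GL l F} (h : z.1 = y.1ᵀ) : IsConj (lv y) (lv z⁻¹) := by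
  refine isConj_iff.2 ⟨SymplecticGroup.symJ l F, mul_inv_eq_iff_eq_mul.2 (Subtype.ext ?_)⟩
  simp [lv, J, fromBlocks_multiply, h, transpose_nonsing_inv]

theorem big_cell [Finite F] {g : symplecticGroup l F} {y z : GL l F} (hy : Fp y.1) (hz : Fp z.1ᵀ)
    (h : g.1.toBlocks₁₁ = (y * z).1) : ∃ c d, IsConj (lv y) c ∧ IsConj (lv z) d ∧ g = c * d := by
  have hg := g.2
  rw [← fromBlocks_toBlocks g.1, h] at hg
  obtain ⟨h1, -, h2⟩ := SymplecticGroup.fromBlocks_mem_iff.1 hg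
  have h3 := SymplecticGroup.transpose_mem hg
  rw [fromBlocks_transpose] at h3
  replace h3 := (SymplecticGroup.fromBlocks_mem_iff.1 h3).1
  set A := y * z with hA
  have a1 : (A⁻¹).1ᵀ * A.1ᵀ = 1 := by rw [← transpose_mul]; simp
  have a2 : A.1ᵀ * (A⁻¹).1ᵀ = 1 := by rw [← transpose_mul]; simp
  have b1 : (g.1.toBlocks₂₁ * (A⁻¹).1)ᵀ = g.1.toBlocks₂₁ * (A⁻¹).1 := by
    have := congrArg (fun X => (A⁻¹).1ᵀ * X * (A⁻¹).1) h1
    simp only [← Matrix.mul_assoc, a1, Matrix.one_mul, Units.mul_inv_cancel_right] at this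
    rw [transpose_mul, this]
  have b2 : ((A⁻¹).1 * g.1.toBlocks₁₂)ᵀ = (A⁻¹).1 * g.1.toBlocks₁₂ := by
    have := congrArg (fun X => (A⁻¹).1 * X * (A⁻¹).1ᵀ) h3
    simp only [Matrix.mul_assoc, a2, Matrix.mul_one, Units.inv_mul_cancel_left, transpose_transpose] at this
    rw [transpose_mul, this]
  refine ⟨_, _, conj_lo hy b1, conj_up hz b2, ?_⟩
  rw [mul_assoc, ← mul_assoc (lv y), ← map_mul, ← hA]
  have b3 := congrArg ((A⁻¹).1ᵀ * ·) h2
  simp only [Matrix.mul_sub, ← Matrix.mul_assoc, a1, Matrix.one_mul, Matrix.mul_one, ← transpose_mul, b1,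
    sub_eq_iff_eq_add] at b3
  refine Subtype.ext ((fromBlocks_toBlocks g.1).symm.trans ?_)
  simp only [Submonoid.coe_mul, up, lo, lv, MonoidHom.coe_mk, OneHom.coe_mk, fromBlocks_multiply, h]
  rw [b3]
  simp only [Matrix.mul_one, Matrix.mul_zero, Matrix.zero_mul, Matrix.one_mul, add_zero, zero_add,
    Units.mul_inv_cancel_left, Units.inv_mul_cancel_right, add_comm]

local notation "ω" => spB l F

theorem exists_basis (g : symplecticGroup l F) {a c : l → l ⊕ l → F} (ha : ∀ i j, ω (a i) (a j) = 0)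
    (hc : ∀ i j, ω (c i) (c j) = 0) (hM : (of fun i j => ω (c i) (a j)).det ≠ 0) {L : Matrix l l F}
    (h : (of fun i j => ω (c i) (g • a j)) = (of fun i j => ω (c i) (a j)) * L) :
    ∃ s : symplecticGroup l F, (s⁻¹ * g * s).1.toBlocks₁₁ = L := by
  set M := of fun i j => ω (c i) (a j) with hM'
  let f : l → l ⊕ l → F := fun i => ∑ k, M⁻¹ i k • c k
  have h1 : ∀ (b : l → l ⊕ l → F) i j, ω (f i) (b j) = (M⁻¹ * of fun i j => ω (c i) (b j)) i j := fun b i j => by
    simp [f, mul_apply]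
  have h2 : ∀ i j, ω (f i) (a j) = (1 : Matrix l l F) i j := fun i j => by
    rw [h1, ← hM', nonsing_inv_mul _ hM.isUnit]
  have h3 : ∀ i j, ω (f i) (f j) = 0 := fun i j => by simp [f, hc]
  let s : symplecticGroup l F := ⟨(of (Sum.elim a f))ᵀ, SymplecticGroup.mem_iff'.2 (by
    ext i j
    rw [transpose_transpose, Matrix.mul_assoc, mul_apply']
    change _ ⬝ᵥ J l F *ᵥ Sum.elim a f j = _
    rw [← spB_apply]
    rcases i with i | i <;> rcases j with j | j
    · exact ha i j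
    · exact (spB_alt.neg_eq _ _).symm.trans ((congrArg Neg.neg (h2 j i)).trans (by simp [J, one_apply, eq_comm]))
    · exact h2 i j
    · exact h3 i j)⟩
  have h4 : ∀ (t : symplecticGroup l F) i, t • (Pi.single i (1 : F) : l ⊕ l → F) = fun j => t.1 j i := fun t i => by
    ext j; simp [sp_smul_def]
  refine ⟨s, ext fun i j => ?_⟩
  have h5 := h1 (fun j => g • a j) i j
  rw [h, ← Matrix.mul_assoc, nonsing_inv_mul _ hM.isUnit, Matrix.one_mul] at h5
  rw [← h5]
  refine (congrFun (h4 (s⁻¹ * g * s) (.inl j)) (.inl i)).symm.trans ?_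
  refine (spB_single_inr _ _).symm.trans ?_
  rw [← sp_pres s, mul_smul, mul_smul, smul_inv_smul, h4, h4]
  rfl

end H16.Th
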