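import Mathlib
import Cfsg.Prelude.Def_Classical
import Cfsg.Agent.H16.Th2

/-!
# Non-central classes of `Sp₄(q)` meet the big cell in a prescribed way (namespace `H16.Th`)
-/

open Matrix H09

set_option autoImplicit false

namespace H16.Th

variable {F : Type*} [Field F] {g : symplecticGroup (Fin 2) F} {a b c d v : Fin 2 ⊕ Fin 2 → F}

local notation "ω" => spB (Fin 2) F

theorem pf_zero (h1 : ω v a = 0) (h2 : ω v b = 0) (h3 : ω v c = 0) (h4 : ω v d = 0)
    (h : ω a b * ω c d - ω a c * ω b d + ω a d * ω b c ≠ 0) : v = 0 := by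
  have key : (ω a b * ω c d - ω a c * ω b d + ω a d * ω b c) • v = (ω v b * ω c d - ω v c * ω b d + ω v d * ω b c) • a -
      (ω v a * ω c d - ω v c * ω a d + ω v d * ω a c) • b + (ω v a * ω b d - ω v b * ω a d + ω v d * ω a b) • c -
      (ω v a * ω b c - ω v b * ω a c + ω v c * ω a b) • d := by
    ext (i | i) <;> fin_cases i <;>
      simp only [spB_apply', Fin.sum_univ_two, Pi.smul_apply, Pi.sub_apply, Pi.add_apply, smul_eq_mul, Fin.zero_eta,
        Fin.mk_one, Fin.isValue] <;> ring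
  simpa [h1, h2, h3, h4, h] using key

theorem exists_perp (a b c : Fin 2 ⊕ Fin 2 → F) : ∃ v ≠ 0, ω v a = 0 ∧ ω v b = 0 ∧ ω v c = 0 := by
  obtain ⟨v, h1, h2⟩ := (Submodule.ne_bot_iff _).1 (LinearMap.ker_ne_bot_of_finrank_lt
    (f := LinearMap.pi fun i => (ω).flip (![a, b, c] i)) (by simp))
  exact ⟨v, h2, congrFun h1 0, congrFun h1 1, congrFun h1 2⟩

theorem exists_ne (h : b ≠ 0) : ∃ y, ω y b ≠ 0 := by
  by_contra! e
  exact h (spB_nondeg.2 _ e)

/-- a conjugate has the prescribed upper left block -/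
def Gd (g : symplecticGroup (Fin 2) F) (L : Matrix (Fin 2) (Fin 2) F) : Prop :=
  ∃ s : symplecticGroup (Fin 2) F, (s⁻¹ * g * s).1.toBlocks₁₁ = L

theorem skew (a b : Fin 2 ⊕ Fin 2 → F) : ω a b = -ω b a := (spB_alt.neg_eq _ _).symm

theorem gd1 (h1 : ω a b = 0) (h2 : ω (g • a) b = ω (g • b) a) (h3 : ω (g • a) a * ω (g • b) b ≠ ω (g • a) b ^ 2) :
    Gd g 1 := by
  have h4 := skew b a
  refine exists_basis g (a := ![a, b]) (c := ![g • a - a, g • b - b]) ?_ ?_ ?_ ?_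
  · simp [Fin.forall_fin_two, spB_alt.self_eq_zero, h1, h4]
  · simp [Fin.forall_fin_two, spB_alt.self_eq_zero, h1, h4, sp_pres, skew a (g • _), skew b (g • _), h2]
  · simpa [det_fin_two, spB_alt.self_eq_zero, h1, h4, ← h2, sub_eq_zero, sq] using h3
  · ext i j
    fin_cases i <;> fin_cases j <;>
      simp [spB_alt.self_eq_zero, h1, h4, sp_pres, skew a (g • _), skew b (g • _), h2]

theorem gd2 (h0 : b ≠ 0) (hb : g • b = b) (h1 : ω a b = 0) (h3 : ω (g • a) a ≠ 0) : Gd g 1 := by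
  obtain ⟨y, hy⟩ := exists_ne h0
  have h4 := skew b a
  have h5 : ω (g • a) b = 0 := by rw [← hb, sp_pres, h1]
  obtain ⟨d, d1, d2⟩ : ∃ d, ω d (g • a) = ω d a ∧ ω d b ≠ 0 := ⟨y + ((ω y (g • a) - ω y a) / ω (g • a) a) • a, by
    simp [spB_alt.self_eq_zero, skew a (g • a), h3], by simpa [h1] using hy⟩
  refine exists_basis g (a := ![a, b]) (c := ![g • a - a, d]) ?_ ?_ ?_ ?_
  · simp [Fin.forall_fin_two, spB_alt.self_eq_zero, h1, h4]
  · simp [Fin.forall_fin_two, spB_alt.self_eq_zero, skew _ d, d1, skew a (g • a)]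
  · simp [det_fin_two, spB_alt.self_eq_zero, h1, h5, h3, d2]
  · ext i j
    fin_cases i <;> fin_cases j <;> simp [spB_alt.self_eq_zero, hb, d1, skew a (g • a)]

theorem gd3 (h : ∀ a, ω (g • a) a = 0) (hg : g ∉ Subgroup.center _) {L : Matrix (Fin 2) (Fin 2) F}
    (hL : L 1 1 = -L 0 0) : Gd g L := by
  obtain ⟨a, ha⟩ : ∃ a : Fin 2 ⊕ Fin 2 → F, ∀ c : F, g • a ≠ c • a := by
    by_contra! e
    exact hg (sp_mem_center_iff.2 (sp_eq_of_fix_points e))
  obtain ⟨b, h1, h2⟩ : ∃ b, ω a b = 0 ∧ ω (g • a) b ≠ 0 := by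
    by_contra! e
    obtain ⟨y, hy⟩ := exists_ne (b := a) fun h => ha 0 (by simp [h])
    refine ha (ω y (g • a) / ω y a) (sub_eq_zero.1 (spB_nondeg.2 _ fun z => ?_))
    have := e (z - (ω z a / ω y a) • y) (by simp [skew a, hy])
    rw [skew] at this
    simp only [map_sub, map_smul, smul_eq_mul, LinearMap.sub_apply, LinearMap.smul_apply] at this ⊢
    linear_combination -this
  have h3 : ω (g • b) a = -ω (g • a) b := by
    have := h (a + b)
    simp only [smul_add, map_add, LinearMap.add_apply, h] at this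
    linear_combination this
  have h4 := skew b a
  refine exists_basis g (a := ![a, b]) (c := ![g • a - L 0 0 • a - L 1 0 • b, g • b - L 0 1 • a - L 1 1 • b]) ?_ ?_ ?_ ?_
  · simp [Fin.forall_fin_two, spB_alt.self_eq_zero, h1, h4]
  · simp [Fin.forall_fin_two, spB_alt.self_eq_zero, h1, h4, sp_pres, skew a (g • _), skew b (g • _), h3, h, hL]
  · simp [det_fin_two, spB_alt.self_eq_zero, h1, h4, h, h2, h3]
  · ext i j
    fin_cases i <;> fin_cases j <;>
      simp [spB_alt.self_eq_zero, h1, h4, sp_pres, skew a (g • _), skew b (g • _), h3, h, mul_apply, hL, mul_comm]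

theorem gd4 {t : F} (h0 : b ≠ 0) (hb : g • b = t • b) (ht : t ^ 2 ≠ 1) (h1 : ω a b = 0) (h3 : ω (g • a) a ≠ 0) :
    Gd g 1 := by
  have t0 : t ≠ 0 := by
    rintro rfl
    exact h0 (by simpa using congrArg (g⁻¹ • ·) hb)
  have e1 : ∀ y, ω (g • y) b = t⁻¹ * ω y b := fun y => by
    rw [← sp_pres g y b, hb, (ω (g • y)).map_smul, smul_eq_mul, inv_mul_cancel_left₀ t0]
  obtain ⟨w, w0, hw⟩ : ∃ w : Fin 2 ⊕ Fin 2 → F, w ≠ 0 ∧ g • w = t⁻¹ • w := by
    by_contra! e
    obtain ⟨y, hy⟩ := exists_ne h0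
    obtain ⟨z, rfl⟩ := LinearMap.injective_iff_surjective.1 ((injective_iff_map_eq_zero
      (toLin' g.1 - t⁻¹ • LinearMap.id)).2 fun w hw => by_contra fun h => e w h (sub_eq_zero.1 hw)) y
    exact hy (by simpa [sub_eq_zero, sp_smul_def] using e1 z)
  have e2 : ∀ y, ω (g • y) w = t * ω y w := fun y => by
    rw [← sp_pres g y w, hw, (ω (g • y)).map_smul, smul_eq_mul, mul_inv_cancel_left₀ t0]
  have t1 : t - t⁻¹ ≠ 0 := fun h => ht (by field_simp at h; linear_combination h)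
  by_cases h : ω b w = 0
  · obtain ⟨y, y1, y2⟩ : ∃ y, ω y b ≠ 0 ∧ ω y w ≠ 0 := by
      by_contra! e
      obtain ⟨y, hy⟩ := exists_ne h0
      obtain ⟨z, hz⟩ := exists_ne w0
      have h2 : ω z b = 0 := by_contra fun h => hz (e z h)
      exact hz (by simpa [e y hy] using e (y + z) (by simpa [h2] using hy))
    refine gd1 (a := y) (b := ω y w • b - ω y b • w) (by simp [mul_comm]) ?_ ?_
    · simp only [smul_sub, smul_comm g, hb, hw, map_sub, map_smul, e1, e2, LinearMap.sub_apply, LinearMap.smul_apply,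
        smul_eq_mul, skew _ y]
      ring
    · simp only [smul_sub, smul_comm g, hb, hw, map_sub, map_smul, e1, e2, LinearMap.sub_apply, LinearMap.smul_apply,
        smul_eq_mul, spB_alt.self_eq_zero, h, skew w b]
      exact fun e => pow_ne_zero 2 (mul_ne_zero (mul_ne_zero y1 y2) t1) (by linear_combination -e)
  · obtain ⟨y, y1, y2, y3⟩ : ∃ y, ω y b = 0 ∧ ω y w = 0 ∧ ω (g • y) y ≠ 0 := ⟨a - (ω a w / ω b w) • b, by
      simp [h1, spB_alt.self_eq_zero], by simp [h], by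
      simpa [smul_sub, smul_comm g, hb, e1, h1, spB_alt.self_eq_zero, skew b a] using h3⟩
    refine gd1 (a := y) (b := b + w) (by simp [y1, y2]) (by simp [e1, e2, hb, hw, skew _ y, y1, y2]) ?_
    simp only [smul_add, hb, hw, map_add, map_smul, e1, e2, LinearMap.add_apply, LinearMap.smul_apply,
      smul_eq_mul, spB_alt.self_eq_zero, y1, y2, skew w b]
    exact fun e => mul_ne_zero y3 (mul_ne_zero h t1) (by linear_combination e)

theorem gd (hg : g ∉ Subgroup.center _) {L : Matrix (Fin 2) (Fin 2) F} (hL : L 1 1 = -L 0 0) :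
    Gd g 1 ∨ Gd (-g) 1 ∨ Gd g L := by
  by_cases h : ∀ a, ω (g • a) a = 0
  · exact .inr (.inr (gd3 h hg hL))
  obtain ⟨a, ha⟩ := not_forall.1 h
  obtain ⟨b, h0, h1, h2, h3⟩ := exists_perp a (g • a) (g⁻¹ • a)
  rw [← sp_pres g, smul_inv_smul] at h3
  have h4 : ω a b = 0 := by rw [skew, h1, neg_zero]
  have h5 : ω (g • a) b = 0 := by rw [skew, h2, neg_zero]
  by_cases hb : ω (g • b) b = 0
  swap
  · exact .inl (gd1 h4 (h5.trans h3.symm) (by simp [h5, ha, hb]))
  obtain ⟨y, hy⟩ := exists_ne h0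
  obtain ⟨t, ht⟩ : ∃ t : F, g • b = t • b := ⟨ω y (g • b) / ω y b, sub_eq_zero.1 (pf_zero (a := g • a) (b := a) (c := y) (d := b)
    (by simp [sp_pres, h1, h2]) (by simp [h1, h3]) (by simp [skew _ y, hy]) (by simp [hb, spB_alt.self_eq_zero])
    (by simp [h4, h5, ha, hy]))⟩
  by_cases h6 : t ^ 2 = 1
  swap
  · exact .inl (gd4 h0 ht h6 h4 ha)
  have h7 : ∀ v : Fin 2 ⊕ Fin 2 → F, (-g) • v = -(g • v) := fun v => neg_mulVec _ _
  rcases sq_eq_one_iff.1 h6 with rfl | rfl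
  · exact .inl (gd2 h0 (by simpa using ht) h4 ha)
  · exact .inr (.inl (gd2 h0 (by simp [h7, ht]) h4 (by simpa [h7] using ha)))

theorem fp_two {y : Matrix (Fin 2) (Fin 2) F} (h1 : y.det ≠ 1) (h2 : (1 + y.det) ^ 2 ≠ y.trace ^ 2) : Fp y := fun S h => by
  have c : ∀ z : Matrix (Fin 2) (Fin 2) F, z * z = z.trace • z - z.det • 1 := fun z => by
    ext i j; fin_cases i <;> fin_cases j <;> simp [mul_apply, det_fin_two, trace_fin_two] <;> ring
  have h3 : yᵀ * yᵀ * S * (y * y) = S := by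
    rw [Matrix.mul_assoc yᵀ, ← Matrix.mul_assoc _ y, Matrix.mul_assoc yᵀ _ y, h, h]
  rw [c yᵀ, Matrix.sub_mul, Matrix.sub_mul, smul_mul_assoc, smul_mul_assoc, ← Matrix.mul_assoc, h, c y] at h3
  have h4 : (1 - y.det) • (S * (y.trace • y - (1 + y.det) • 1)) = 0 := by
    simp only [trace_transpose, det_transpose, Matrix.mul_sub, smul_mul_assoc, mul_smul_comm, Matrix.one_mul,
      Matrix.mul_one] at h3 ⊢
    linear_combination (norm := module) h3
  have h5 := congrArg (· * (y.trace • y - (1 + y.det) • 1)⁻¹) ((smul_eq_zero.1 h4).resolve_left (sub_ne_zero.2 h1.symm))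
  refine (mul_nonsing_inv_cancel_right _ _ (Ne.isUnit fun e => h2 ?_)).symm.trans (h5.trans (Matrix.zero_mul _))
  simp only [det_fin_two, trace_fin_two, Matrix.sub_apply, Matrix.smul_apply, one_apply_eq, smul_eq_mul, ne_eq, zero_ne_one,
    not_false_eq_true, one_apply_ne, one_ne_zero] at e ⊢
  linear_combination e

theorem sp4_main [Finite F] {x y : GL (Fin 2) F} (h0 : x.1 = x.1ᵀ) (h1 : Fp x.1) (h2 : Fp (x⁻¹).1ᵀ) (h3 : Fp y.1ᵀ)
    (h4 : IsConj (lv x) (lv y)) (h5 : (x * y).1 1 1 = -(x * y).1 0 0) (g : Cfsg.PSp 2 F) (hg : g ≠ 1) :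
    ∃ u v : Cfsg.PSp 2 F, g = (u * QuotientGroup.mk (lv x) * u⁻¹) * (v * QuotientGroup.mk (lv x) * v⁻¹) := by
  have key : ∀ (g : symplecticGroup (Fin 2) F) (z : GL (Fin 2) F), Fp z.1ᵀ → IsConj (lv x) (lv z) → Gd g (x * z).1 →
      ∃ u v : Cfsg.PSp 2 F, QuotientGroup.mk g = (u * QuotientGroup.mk (lv x) * u⁻¹) * (v * QuotientGroup.mk (lv x) * v⁻¹) := by
    rintro g z a1 a2 ⟨s, hs⟩
    obtain ⟨c, d, b1, b2, b3⟩ := big_cell h1 a1 hs
    obtain ⟨u, rfl⟩ := isConj_iff.1 b1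
    obtain ⟨v, rfl⟩ := isConj_iff.1 (a2.trans b2)
    refine ⟨QuotientGroup.mk (s * u), QuotientGroup.mk (s * v), congrArg QuotientGroup.mk (?_ : g = _)⟩
    rw [show g = s * (s⁻¹ * g * s) * s⁻¹ by group, b3]
    group
  obtain ⟨g, rfl⟩ := QuotientGroup.mk_surjective g
  rcases gd (fun h => hg ((QuotientGroup.eq_one_iff _).2 h)) h5 with h | h | h
  · exact key g _ h2 (conj_tr h0) (by simpa using h)
  · have : (QuotientGroup.mk g : Cfsg.PSp 2 F) = QuotientGroup.mk (-g) :=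
      QuotientGroup.eq.2 (sp_mem_center_iff.2 (.inr (Subtype.ext (by
        rw [Submonoid.coe_mul, sp_coe_neg, mul_neg, ← Submonoid.coe_mul, inv_mul_cancel]; rfl))))
    exact this ▸ key _ _ h2 (conj_tr h0) (by simpa using h)
  · exact key g _ h3 h4 h

end H16.Th
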