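import Mathlib
import Cfsg.Agent.S0713
import Cfsg.Agent.S4702
import Cfsg.Agent.H14.Sharp
import Cfsg.Agent.H03.NatSL2
import Cfsg.Agent.H08.Counting

/-!
# Primitive groups of degree `p + 2` containing a `p`-cycle, `p = 5, 11`

`deg7`, `deg13`: such a group of even permutations is the alternating group; `deg6`: primitive
subgroups of `A₆` containing a 5-cycle.
-/

set_option autoImplicit false

namespace H16.Twin
open Equiv Equiv.Perm MulAction SubMulAction

variable {α : Type*} [Fintype α] [DecidableEq α] {G : Subgroup (Perm α)}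

theorem card_ofFix (G : Subgroup (Perm α)) (g : Perm α) :
    Nat.card (ofFixingSubgroup G (g.support : Set α)ᶜ) = g.support.card := by
  rw [← Set.ncard_coe_finset, ← Nat.card_coe_set_eq]
  exact Nat.card_congr (Equiv.subtypeEquivRight fun z => by simp [mem_ofFixingSubgroup_iff])

theorem prim_ofFix {g : Perm α} (hgc : g.IsCycle) (hp : g.support.card.Prime) (hg : g ∈ G) :
    IsPreprimitive (fixingSubgroup G (g.support : Set α)ᶜ)
      (ofFixingSubgroup G (g.support : Set α)ᶜ) :=
  have := isPretransitive_of_isCycle_mem hgc hg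
  IsPreprimitive.of_prime_card (card_ofFix G g ▸ hp)

theorem prim_of_cycle [IsPretransitive G α] {g : Perm α} (hgc : g.IsCycle)
    (hp : g.support.card.Prime) (hg : g ∈ G) (hn : Fintype.card α < 2 * g.support.card) :
    IsPreprimitive G α := by
  have := prim_ofFix hgc hp hg
  refine IsPreprimitive.of_card_lt (f := ofFixingSubgroup_equivariantMap G (g.support : Set α)ᶜ) ?_
  rw [← Set.image_univ, Set.ncard_image_of_injective _ ofFixingSubgroup_equivariantMap_injective,
    Set.ncard_univ, card_ofFix, Nat.card_eq_fintype_card]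
  exact hn

theorem mult_trans (hG : IsPreprimitive G α) {g : Perm α} (hgc : g.IsCycle)
    (hp : g.support.card.Prime) (hg : g ∈ G) {k : ℕ} (hk : Fintype.card α = g.support.card + k + 1) :
    IsMultiplyPretransitive G α (k + 2) := by
  have h2 := hp.two_le
  refine (hG.isMultiplyPreprimitive (n := k) ?_ ?_ (prim_ofFix hgc hp hg)).isMultiplyPretransitive
  · rw [Set.ncard_compl, Set.ncard_coe_finset, Nat.card_eq_fintype_card]; omega
  · rw [Nat.card_eq_fintype_card]; omega

theorem exists_support_prime {g : Perm α} {p : ℕ} (hp : p.Prime) (hg : orderOf g = p) :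
    ∃ k, g.support.card = (k + 1) * p ∧ sign g = (-1) ^ ((k + 1) * p + (k + 1)) := by
  obtain ⟨k, hk⟩ := cycleType_prime_order (hg ▸ hp)
  refine ⟨k, ?_, ?_⟩
  · rw [← sum_cycleType, hk, hg, Multiset.sum_replicate, smul_eq_mul]
  · rw [sign_of_cycleType, hk, hg, Multiset.sum_replicate, smul_eq_mul, Multiset.card_replicate]

theorem four_dvd_support {t : Perm α} (ht : orderOf t = 2) (hs : t ∈ alternatingGroup α) :
    4 ∣ t.support.card := by
  obtain ⟨k, h1, h2⟩ := exists_support_prime Nat.prime_two ht
  rw [mem_alternatingGroup] at hs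
  rw [hs] at h2
  have := (neg_one_pow_eq_one_iff_even (R := ℤˣ) (by decide)).1 h2.symm
  rw [h1]
  obtain ⟨j, hj⟩ := this
  omega

theorem fix_eq_one {k : ℕ} (hk : IsMultiplyPretransitive G α k)
    (hc : Nat.card G * (Fintype.card α - k).factorial = (Fintype.card α).factorial) {g : Perm α}
    (hg : g ∈ G) (h : g.support.card + k ≤ Fintype.card α) : g = 1 := by
  obtain ⟨s, hs, hsc⟩ := Finset.exists_subset_card_eq (s := g.supportᶜ) (n := k)
    (by rw [Finset.card_compl]; omega)
  have h1 := hk.index_of_fixingSubgroup_mul (s := (s : Set α)) (by rw [Set.ncard_coe_finset, hsc])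
  rw [Nat.card_eq_fintype_card (α := α), ← hc] at h1
  have h2 := Nat.eq_of_mul_eq_mul_right (Nat.factorial_pos _) h1
  have h3 := (fixingSubgroup G (s : Set α)).card_mul_index
  rw [h2] at h3
  have h4 : fixingSubgroup G (s : Set α) = ⊥ :=
    Subgroup.card_eq_one.1 (Nat.eq_of_mul_eq_mul_right Nat.card_pos (h3.trans (one_mul _).symm))
  have : (⟨g, hg⟩ : G) ∈ fixingSubgroup G (s : Set α) := by
    rw [mem_fixingSubgroup_iff]
    intro y hy
    have := hs hy
    simpa using this
  rw [h4, Subgroup.mem_bot] at this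
  exact congrArg Subtype.val this

omit [DecidableEq α] in
theorem dvd_card_of_mult {k : ℕ} (hk : IsMultiplyPretransitive G α k) (hkn : k ≤ Fintype.card α)
    {c : ℕ} (hc : c * (Fintype.card α - k).factorial = (Fintype.card α).factorial) :
    c ∣ Nat.card G := by
  obtain ⟨s, -, hsc⟩ := Finset.exists_subset_card_eq (s := (Finset.univ : Finset α)) (n := k) hkn
  have h1 := hk.index_of_fixingSubgroup_mul (s := (s : Set α)) (by rw [Set.ncard_coe_finset, hsc])
  rw [Nat.card_eq_fintype_card (α := α), ← hc] at h1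
  rw [← Nat.eq_of_mul_eq_mul_right (Nat.factorial_pos _) h1]
  exact Subgroup.index_dvd_card _

omit [DecidableEq α] in
theorem exists_invol (h : 2 ∣ Nat.card G) : ∃ t ∈ G, orderOf t = 2 := by
  obtain ⟨t, ht⟩ := exists_prime_orderOf_dvd_card' (G := G) 2 h
  exact ⟨t, t.2, by rw [Subgroup.orderOf_coe, ht]⟩

theorem index_facts (hA : G ≤ alternatingGroup α) (h5 : 5 ≤ Fintype.card α) :
    2 * (Nat.card G * (G.subgroupOf (alternatingGroup α)).index) = (Fintype.card α).factorial ∧
      (alternatingGroup α ≤ G ∨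
        (Fintype.card α).factorial ∣ 2 * (G.subgroupOf (alternatingGroup α)).index.factorial) := by
  haveI : Nontrivial α := Fintype.one_lt_card_iff_nontrivial.1 (by omega)
  have h1 := two_mul_nat_card_alternatingGroup (α := α)
  rw [Nat.card_perm, Nat.card_eq_fintype_card (α := α)] at h1
  constructor
  · rw [← h1, ← (G.subgroupOf (alternatingGroup α)).card_mul_index,
      Nat.card_congr (Subgroup.subgroupOfEquivOfLe hA).toEquiv]
  · haveI := alternatingGroup.isSimpleGroup (α := α) (by rwa [Nat.card_eq_fintype_card])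
    by_cases h : G.subgroupOf (alternatingGroup α) = ⊤
    · exact Or.inl (Subgroup.subgroupOf_eq_top.1 h)
    · right
      rw [← h1]
      exact Nat.mul_dvd_mul_left 2 (H08.card_dvd_factorial_index h)

theorem deg7 (hn : Fintype.card α = 7) (hA : G ≤ alternatingGroup α) (hG : IsPreprimitive G α)
    {g : Perm α} (hgc : g.IsCycle) (hp : g.support.card = 5) (hg : g ∈ G) :
    alternatingGroup α ≤ G := by
  have h3 := mult_trans hG hgc (by rw [hp]; norm_num) hg (k := 1) (by omega)
  obtain ⟨c, hc⟩ := dvd_card_of_mult h3 (by omega) (c := 210) (by rw [hn]; rfl)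
  obtain ⟨h1, h2⟩ := index_facts hA (by omega)
  refine h2.resolve_right fun h2 => ?_
  rw [hn, hc, show Nat.factorial 7 = 5040 from rfl] at h1
  rw [hn, show Nat.factorial 7 = 5040 from rfl] at h2
  generalize (G.subgroupOf (alternatingGroup α)).index = i at h1 h2
  have h4 : c * i = 12 := by nlinarith
  have h5 : i ≤ 12 := Nat.le_of_dvd (by norm_num) (Dvd.intro_left _ h4)
  have h6 : i ∣ 12 := Dvd.intro_left _ h4
  have h7 : i = 12 := by
    interval_cases i <;> first | rfl | (exfalso; revert h2 h6; decide)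
  have h8 : c = 1 := by rw [h7] at h4; omega
  obtain ⟨t, ht, hto⟩ := exists_invol (G := G) (by rw [hc, h8]; norm_num)
  have h9 := four_dvd_support hto (hA ht)
  have h10 := t.support.card_le_univ
  have := fix_eq_one h3 (by rw [hc, h8, hn]; rfl) ht (by omega)
  rw [this] at hto
  simp at hto

theorem deg6 (hn : Fintype.card α = 6) (hA : G ≤ alternatingGroup α) (hG : IsPreprimitive G α)
    {g : Perm α} (hgc : g.IsCycle) (hp : g.support.card = 5) (hg : g ∈ G) :
    alternatingGroup α ≤ G ∨ Nonempty (G ≃* alternatingGroup (Fin 5)) := by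
  have h3 := mult_trans hG hgc (by rw [hp]; norm_num) hg (k := 0) (by omega)
  obtain ⟨c, hc⟩ := dvd_card_of_mult h3 (by omega) (c := 30) (by rw [hn]; rfl)
  obtain ⟨h1, h2⟩ := index_facts hA (by omega)
  refine h2.imp_right fun h2 => ?_
  rw [hn, hc, show Nat.factorial 6 = 720 from rfl] at h1
  rw [hn, show Nat.factorial 6 = 720 from rfl] at h2
  set i := (G.subgroupOf (alternatingGroup α)).index with hi
  have h4 : c * i = 12 := by nlinarith
  have h5 : i ≤ 12 := Nat.le_of_dvd (by norm_num) (Dvd.intro_left _ h4)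
  have h6 : i ∣ 12 := Dvd.intro_left _ h4
  have h7 : i = 6 ∨ i = 12 := by
    generalize i = j at *
    interval_cases j <;> first | omega | (exfalso; revert h2 h6; decide)
  rcases h7 with h7 | h7
  · have h8 : c = 2 := by rw [h7] at h4; omega
    haveI := alternatingGroup.isSimpleGroup (α := α) (by rw [Nat.card_eq_fintype_card]; omega)
    have hcore : (G.subgroupOf (alternatingGroup α)).normalCore = ⊥ := by
      refine (Subgroup.Normal.eq_bot_or_eq_top inferInstance).resolve_right fun h => ?_
      have := (G.subgroupOf (alternatingGroup α)).normalCore_le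
      rw [h, top_le_iff, ← Subgroup.index_eq_one] at this
      omega
    obtain ⟨e⟩ := H03.alt_of_index (G.subgroupOf (alternatingGroup α)) (n := 5) (by norm_num)
      (by omega) hcore (by
        rw [Nat.card_congr (Subgroup.subgroupOfEquivOfLe hA).toEquiv, hc, h8]; rfl)
    exact ⟨(Subgroup.subgroupOfEquivOfLe hA).symm.trans e⟩
  · exfalso
    have h8 : c = 1 := by rw [h7] at h4; omega
    obtain ⟨t, ht, hto⟩ := exists_invol (G := G) (by rw [hc, h8]; norm_num)
    have h9 := four_dvd_support hto (hA ht)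
    have h10 := t.support.card_le_univ
    have := fix_eq_one h3 (by rw [hc, h8, hn]; rfl) ht (by omega)
    rw [this] at hto
    simp at hto

omit [Fintype α] [DecidableEq α] in
theorem faithful_ofFix (s : Set α) : FaithfulSMul (fixingSubgroup G s) (ofFixingSubgroup G s) :=
  ⟨fun {u v} h => by
    ext y
    by_cases hy : y ∈ s
    · exact (u.2 ⟨y, hy⟩).trans (v.2 ⟨y, hy⟩).symm
    · exact congrArg Subtype.val (h ⟨y, hy⟩)⟩

theorem five_dvd_13 (hn : Fintype.card α = 13) (hA : G ≤ alternatingGroup α)
    (hG : IsPreprimitive G α) {g : Perm α} (hgc : g.IsCycle) (hp : g.support.card = 11)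
    (hg : g ∈ G) : 5 ∣ Nat.card G := by
  by_contra h5
  have h3 := mult_trans hG hgc (by rw [hp]; norm_num) hg (k := 1) (by omega)
  have h2 : IsMultiplyPretransitive G α 2 :=
    isMultiplyPretransitive_of_le (n := 3) (by norm_num) (by rw [Nat.card_eq_fintype_card]; omega)
  set s : Set α := (g.support : Set α)ᶜ with hs
  have hsc : s.ncard = 2 := by
    rw [hs, Set.ncard_compl, Set.ncard_coe_finset, Nat.card_eq_fintype_card]; omega
  haveI : Fact (Nat.Prime 11) := ⟨by norm_num⟩
  haveI := faithful_ofFix (G := G) s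
  haveI := isPretransitive_of_isCycle_mem hgc hg
  haveI := Fintype.ofFinite (ofFixingSubgroup G s)
  have hX : Fintype.card (ofFixingSubgroup G s) = 11 := by
    rw [← Nat.card_eq_fintype_card, hs, card_ofFix, hp]
  obtain ⟨m, hm⟩ := H18.exists_orderOf_eq_prime_degree (G := fixingSubgroup G s) hX
  obtain ⟨P⟩ : Nonempty (Sylow 11 (fixingSubgroup G s)) := inferInstance
  obtain ⟨h6, h7, h8⟩ := H14.prime_degree (by norm_num) hX hm P
  have hdv : 11 * (m % 11) ∣ Nat.card G :=
    h7 ▸ (Subgroup.card_subgroup_dvd_card _).trans (Subgroup.card_subgroup_dvd_card _)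
  have hr : m % 11 = 1 ∨ m % 11 = 2 := by
    have h9 : ¬ 5 ∣ m % 11 := fun h => h5 ((h.mul_left 11).trans hdv)
    have : m % 11 < 11 := Nat.mod_lt _ (by norm_num)
    generalize m % 11 = r at *
    interval_cases r <;> omega
  rcases hr with hr | hr
  · have hi := h2.index_of_fixingSubgroup_mul hsc
    rw [Nat.card_eq_fintype_card, hn, show Nat.factorial 13 = 156 * Nat.factorial (13 - 2) from rfl]
      at hi
    have hi' := Nat.eq_of_mul_eq_mul_right (Nat.factorial_pos _) hi
    have hc := (fixingSubgroup G s).card_mul_index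
    rw [hm, h8 hr, hi'] at hc
    obtain ⟨a, -, ha, -⟩ := Cfsg.Agent.S4702.result (by omega) (by rw [hn]; decide) G h3 (by
      intro u hu
      refine Subtype.ext (fix_eq_one h3 (by rw [← hc, hn]; rfl) u.2 ?_)
      have : Nat.card (fixedBy α u) = (u : Perm α).supportᶜ.card := by
        rw [← Set.ncard_coe_finset, ← Nat.card_coe_set_eq]
        exact Nat.card_congr (Equiv.subtypeEquivRight fun z => by simp [Subgroup.smul_def])
      rw [this, Finset.card_compl] at hu
      have := (u : Perm α).support.card_le_univ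
      omega)
    rw [hn] at ha
    have h12 : 2 ^ a = 12 := by omega
    have : 3 ∣ 2 ^ a := by rw [h12]; norm_num
    exact absurd (Nat.prime_three.dvd_of_dvd_pow this) (by norm_num)
  · obtain ⟨t, ht⟩ := exists_prime_orderOf_dvd_card'
      (G := Subgroup.normalizer ((P : Subgroup (fixingSubgroup G s)) : Set (fixingSubgroup G s))) 2
      (by rw [h7, hr]; norm_num)
    obtain ⟨x, hx, hPx⟩ := H18.sylow_eq_zpowers (p := 11) ⟨m, hm⟩
      (H18.not_sq_dvd_card_of_faithful (α := ofFixingSubgroup G s) (by norm_num) (by omega)) P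
    obtain ⟨e, he⟩ := H18.exists_coords hX hx
    obtain ⟨u, v, huv⟩ := H18.affine_of_normalizes he (t := t.1) (by
      rw [← hPx]
      exact (Subgroup.mem_normalizer_iff.1 t.2 x).1 (hPx ▸ Subgroup.mem_zpowers x))
    let τ : Perm α := t.1.1.1
    have hτ : orderOf τ = 2 := by
      rw [← ht, Subgroup.orderOf_coe, Subgroup.orderOf_coe, Subgroup.orderOf_coe]
    have h4 := four_dvd_support hτ (hA t.1.1.2)
    have hsub : τ.support ⊆ g.support := by
      intro y hy
      by_contra h
      exact mem_support.1 hy (t.1.2 ⟨y, h⟩)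
    have hle : (g.support \ τ.support).card ≤ 1 := by
      rw [Finset.card_le_one]
      intro y hy z hz
      by_contra hyz
      rw [Finset.mem_sdiff] at hy hz
      have hy' : y ∈ ofFixingSubgroup G s := by simp [mem_ofFixingSubgroup_iff, hs, mem_support.1 hy.1]
      have hz' : z ∈ ofFixingSubgroup G s := by simp [mem_ofFixingSubgroup_iff, hs, mem_support.1 hz.1]
      have e1 : t.1 • (⟨y, hy'⟩ : ofFixingSubgroup G s) = ⟨y, hy'⟩ :=
        Subtype.ext (notMem_support.1 hy.2)
      have e2 : t.1 • (⟨z, hz'⟩ : ofFixingSubgroup G s) = ⟨z, hz'⟩ :=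
        Subtype.ext (notMem_support.1 hz.2)
      have a1 := huv ⟨y, hy'⟩
      have a2 := huv ⟨z, hz'⟩
      rw [e1] at a1
      rw [e2] at a2
      have hne : e ⟨y, hy'⟩ - e ⟨z, hz'⟩ ≠ 0 := fun h =>
        hyz (congrArg Subtype.val (e.injective (sub_eq_zero.1 h)))
      have hu : u = 1 := by
        apply mul_right_cancel₀ hne
        linear_combination a2 - a1
      have hv : v = 0 := by rw [hu] at a1; linear_combination -a1
      have : t.1 = 1 := eq_of_smul_eq_smul (α := ofFixingSubgroup G s) fun w => by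
        apply e.injective
        rw [huv, hu, hv, one_smul]; ring
      have : t = 1 := Subtype.ext this
      rw [this] at ht
      simp at ht
    have := Finset.card_sdiff_add_card_eq_card hsub
    omega

omit [DecidableEq α] in
theorem pow_ten_fix {v z : Perm α} (hc : Commute v z) (hz : z ^ 5 = 1) {S : Set α}
    (hS : S.ncard ≤ 10) (hSz : ∀ u, u ∈ S ↔ z u ≠ u) {u : α} (hu : u ∈ S) : (v ^ 10) u = u := by
  let A : Subgroup (Perm α) := Subgroup.closure {v, z}
  haveI : IsMulCommutative A := Subgroup.isMulCommutative_closure (by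
    intro x hx y hy
    simp only [Set.mem_insert_iff, Set.mem_singleton_iff] at hx hy
    rcases hx with rfl | rfl <;> rcases hy with rfl | rfl
    · rfl
    · exact hc.eq
    · exact hc.eq.symm
    · rfl)
  let v' : A := ⟨v, Subgroup.subset_closure (by simp)⟩
  let z' : A := ⟨z, Subgroup.subset_closure (by simp)⟩
  haveI : (stabilizer A u).Normal := ⟨fun n hn g => by
    rwa [mul_comm' g n, mul_inv_cancel_right]⟩
  have h1 : (stabilizer A u).index = (orbit A u).ncard := index_stabilizer A u
  have h2 : orbit A u ⊆ S := by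
    rintro _ ⟨a, rfl⟩
    rw [hSz]
    intro h
    apply (hSz u).1 hu
    have : (z' * a) • u = (a * z') • u := by rw [mul_comm' z' a]
    rw [mul_smul, mul_smul] at this
    have h3 : z' • a • u = a • u := h
    rw [h3] at this
    exact (smul_left_cancel a this).symm
  have h3 : (stabilizer A u).index ≤ 10 := h1 ▸ (Set.ncard_le_ncard h2).trans hS
  have h4 : 5 ∣ (stabilizer A u).index := by
    by_contra h
    have hco : Nat.Coprime (stabilizer A u).index 5 :=
      ((Nat.Prime.coprime_iff_not_dvd (by norm_num)).2 h).symm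
    obtain ⟨j, -, hj⟩ := Nat.exists_mul_mod_eq_one_of_coprime hco (by norm_num)
    have h5 := pow_mem ((stabilizer A u).pow_index_mem z') j
    have h6 : z' ^ 5 = 1 := Subtype.ext hz
    rw [← pow_mul, pow_eq_pow_mod _ h6, hj, pow_one] at h5
    exact (hSz u).1 hu h5
  have h5 : (stabilizer A u).index ≠ 0 := Subgroup.index_ne_zero_of_finite
  obtain ⟨j, hj⟩ : (stabilizer A u).index ∣ 10 := by
    have : (stabilizer A u).index = 5 ∨ (stabilizer A u).index = 10 := by omega
    rcases this with h | h <;> simp [h]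
  have h6 := pow_mem ((stabilizer A u).pow_index_mem v') j
  rw [← pow_mul, ← hj] at h6
  exact h6

theorem deg13 (hn : Fintype.card α = 13) (hA : G ≤ alternatingGroup α) (hG : IsPreprimitive G α)
    {g : Perm α} (hgc : g.IsCycle) (hp : g.support.card = 11) (hg : g ∈ G) :
    alternatingGroup α ≤ G := by
  by_contra hno
  have h3 := mult_trans hG hgc (by rw [hp]; norm_num) hg (k := 1) (by omega)
  haveI : Fact (Nat.Prime 5) := ⟨by norm_num⟩
  have h10 : ∀ z ∈ G, orderOf z = 5 → z.support.card = 10 := by
    intro z hz ho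
    obtain ⟨k, hk, -⟩ := exists_support_prime (by norm_num) ho
    have := z.support.card_le_univ
    by_contra h
    have h5 : z.support.card = 5 := by omega
    exact hno (Cfsg.Agent.S0713.result G hG (p := 5) (by norm_num) (by omega) (by omega)
      (isCycle_of_prime_order (by rw [ho]; norm_num) (by omega)) h5 hz)
  obtain ⟨z, hz⟩ := exists_prime_orderOf_dvd_card' (G := G) 5 (five_dvd_13 hn hA hG hgc hp hg)
  have hz' : orderOf (z : Perm α) = 5 := by rw [Subgroup.orderOf_coe, hz]
  have hzs := h10 z z.2 hz'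
  set F : Finset α := (z : Perm α).supportᶜ with hF
  have hFc : F.card = 3 := by rw [hF, Finset.card_compl]; omega
  have hFm : ∀ y, y ∈ F ↔ (z : Perm α) y = y := fun y => by simp [hF]
  let H := fixingSubgroup G (F : Set α)
  have hH : ∀ u : G, u ∈ H ↔ ∀ y ∈ F, (u : Perm α) y = y := fun u => by
    simp [H, mem_fixingSubgroup_iff, Subgroup.smul_def]
  have hsq : ¬ 5 ^ 2 ∣ Nat.card H := by
    intro h
    obtain ⟨Q, hQ⟩ := Sylow.exists_subgroup_card_pow_prime 5 h
    obtain ⟨u, hu⟩ : (z : Perm α).support.Nonempty := by rw [← Finset.card_pos]; omega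
    have h1 := (stabilizer Q u).card_mul_index
    have h2 : (stabilizer Q u).index ≤ 13 := by
      rw [index_stabilizer, ← hn, ← Nat.card_eq_fintype_card, ← Set.ncard_univ]
      exact Set.ncard_le_ncard (Set.subset_univ _)
    have h4 : 5 ∣ Nat.card (stabilizer Q u) := by
      have h5 : Nat.card (stabilizer Q u) ∣ 5 ^ 2 := hQ ▸ Subgroup.card_subgroup_dvd_card _
      obtain ⟨i, hi, h6⟩ := (Nat.dvd_prime_pow (by norm_num)).1 h5
      rcases i with _ | i
      · rw [h6, hQ] at h1; omega
      · rw [h6, pow_succ]; exact Dvd.intro_left _ rfl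
    obtain ⟨w, hw⟩ := exists_prime_orderOf_dvd_card' 5 h4
    let ω : Perm α := w.1.1.1.1
    have hω : orderOf ω = 5 := by
      rw [← hw, Subgroup.orderOf_coe, Subgroup.orderOf_coe, Subgroup.orderOf_coe,
        Subgroup.orderOf_coe]
    have h6 := h10 ω w.1.1.1.2 hω
    have h7 : insert u F ⊆ ω.supportᶜ := by
      intro y hy
      rw [Finset.mem_compl, notMem_support]
      rcases Finset.mem_insert.1 hy with rfl | hy
      · exact w.2
      · exact (hH _).1 w.1.1.2 y hy
    have h8 := Finset.card_le_card h7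
    rw [Finset.card_insert_of_notMem (by simpa [hF] using hu), hFc, Finset.card_compl] at h8
    omega
  obtain ⟨a, b, c, hab, hac, hbc, hFe⟩ := Finset.card_eq_three.1 hFc
  let σ : Perm α := swap a c * swap a b
  have hσa : σ a = b := by simp [σ, swap_apply_of_ne_of_ne hab.symm hbc]
  have hσb : σ b = c := by simp [σ]
  have hσc : σ c = a := by simp [σ, swap_apply_of_ne_of_ne hac.symm hbc.symm]
  obtain ⟨x, hx⟩ := H18.exists_smul_of_injOn_eq h3 F hFc σ σ.injective.injOn
  have haF : a ∈ F := by simp [hFe]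
  have hbF : b ∈ F := by simp [hFe]
  have hcF : c ∈ F := by simp [hFe]
  have hxa : (x : Perm α) a = b := (hx a haF).trans hσa
  have hxb : (x : Perm α) b = c := (hx b hbF).trans hσb
  have hxc : (x : Perm α) c = a := (hx c hcF).trans hσc
  have hzH : z ∈ H := (hH z).2 fun y hy => (hFm y).1 hy
  have hzx : x * z * x⁻¹ ∈ H := (hH _).2 fun y hy => by
    have : ∃ y' ∈ F, (x : Perm α) y' = y := by
      rw [hFe] at hy
      simp only [Finset.mem_insert, Finset.mem_singleton] at hy
      rcases hy with rfl | rfl | rfl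
      · exact ⟨c, hcF, hxc⟩
      · exact ⟨a, haF, hxa⟩
      · exact ⟨b, hbF, hxb⟩
    obtain ⟨y', h1, rfl⟩ := this
    simp [(hFm y').1 h1]
  obtain ⟨h, hh⟩ := H18.exists_conj_mem_zpowers (G := H) (p := 5) hsq (x := ⟨z, hzH⟩)
    (y := ⟨_, hzx⟩) (by rw [← Subgroup.orderOf_coe, hz]) (by
      rw [← Subgroup.orderOf_coe, ← hz]; exact (MulAut.conj x).orderOf_eq z)
  let w : Perm α := h.1.1 * x.1
  have hwG : w ∈ G := G.mul_mem h.1.2 x.2
  have hwa : w a = b := by simp only [w, Perm.mul_apply, hxa]; exact (hH _).1 h.2 b hbF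
  have hwb : w b = c := by simp only [w, Perm.mul_apply, hxb]; exact (hH _).1 h.2 c hcF
  have hwc : w c = a := by simp only [w, Perm.mul_apply, hxc]; exact (hH _).1 h.2 a haF
  obtain ⟨i, hi⟩ : ∃ i : ℕ, (z : Perm α) ^ i = w * z * w⁻¹ := by
    rw [← mem_powers_iff_mem_zpowers] at hh
    obtain ⟨i, hi⟩ := hh
    refine ⟨i, ?_⟩
    have := congrArg (fun t : H => ((t : G) : Perm α)) hi
    simpa [w, mul_assoc] using this
  have hz5 : (z : Perm α) ^ 5 = 1 := by rw [← hz', pow_orderOf_eq_one]
  have hwn : ∀ n : ℕ, w ^ n * z * (w ^ n)⁻¹ = (z : Perm α) ^ (i ^ n) := by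
    intro n
    induction n with
    | zero => simp
    | succ n ih =>
      rw [pow_succ', mul_inv_rev, show w * w ^ n * z * ((w ^ n)⁻¹ * w⁻¹) =
        w * (w ^ n * z * (w ^ n)⁻¹) * w⁻¹ by group, ih, ← conj_pow, ← hi, ← pow_mul, pow_succ']
  have hi5 : i % 5 ≠ 0 := by
    intro h0
    rw [pow_eq_pow_mod _ hz5, h0, pow_zero] at hi
    have : (z : Perm α) = 1 := by
      have e : (z : Perm α) = w⁻¹ * (w * z * w⁻¹) * w := by group
      rw [e, ← hi]; group
    rw [this] at hz'
    simp at hz'
  have hi4 : i ^ 4 % 5 = 1 := by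
    rw [Nat.pow_mod]
    have : i % 5 < 5 := Nat.mod_lt _ (by norm_num)
    generalize i % 5 = r at *
    interval_cases r <;> simp_all
  have hcm : Commute (w ^ 4) (z : Perm α) := by
    have := hwn 4
    rw [pow_eq_pow_mod _ hz5, hi4, pow_one, mul_inv_eq_iff_eq_mul] at this
    exact this
  have hw3 : ∀ y ∈ F, (w ^ 3) y = y := by
    intro y hy
    rw [hFe] at hy
    simp only [Finset.mem_insert, Finset.mem_singleton] at hy
    rcases hy with rfl | rfl | rfl <;> simp [pow_succ, hwa, hwb, hwc]
  have hw40 : ∀ y ∈ F, ((w ^ 4) ^ 10) y = w y := by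
    intro y hy
    rw [← pow_mul, show 4 * 10 = 1 + 3 * 13 from rfl, pow_add, pow_one, Perm.mul_apply, pow_mul,
      pow_apply_eq_self_of_apply_eq_self (hw3 y hy)]
  have hsup : ((w ^ 4) ^ 10).support = F := by
    ext y
    rw [mem_support]
    constructor
    · intro hy
      by_contra hyF
      exact hy (pow_ten_fix hcm hz5 (S := ((z : Perm α).support : Set α))
        (by rw [Set.ncard_coe_finset, hzs]) (by simp) (by simpa [hF] using hyF))
    · intro hy
      rw [hw40 y hy]
      rw [hFe] at hy
      simp only [Finset.mem_insert, Finset.mem_singleton] at hy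
      rcases hy with rfl | rfl | rfl
      · rw [hwa]; exact hab.symm
      · rw [hwb]; exact hbc.symm
      · rw [hwc]; exact hac
  exact hno (alternatingGroup_le_of_isPreprimitive_of_isThreeCycle_mem hG
    (card_support_eq_three_iff.1 (by rw [hsup, hFc])) (G.pow_mem (G.pow_mem hwG 4) 10))

end H16.Twin
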