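import Mathlib
import Cfsg.Agent.H16.Wal2
import Cfsg.Agent.H16.CntInv
import Cfsg.Agent.H16.CntSL

/-!
# Wall's classification, odd characteristic: the data of an isometry

`exists_data` : every isometry of a symplectic or orthogonal space has level data (self-dual polynomial without
roots `±1`, two multiplicities, two bits) which determine its class; one bit at an odd level is redundant.
-/

open Matrix Module H10 H24.Wall Polynomial H24.Sim

set_option linter.unusedSectionVars false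

namespace H16
namespace Wal

open Cnt

variable {F V : Type*} [Field F] [AddCommGroup V] [Module F V] {φ : Form F V} [φ.Nondeg] [FiniteDimensional F V]

/-- `g` or `-g` -/
def sg (s : Bool) (g : φ.Isom) : φ.Isom := cond s (H24.Adj.neg g) g

theorem sg_true (g : φ.Isom) (x : V) : (sg true g).1 x = -g.1 x := rfl
theorem sg_false (g : φ.Isom) : sg false g = g := rfl

theorem stab_sg {g : φ.Isom} {W : Submodule F V} (s : Bool) : sg s g ∈ φ.stab W ↔ g ∈ φ.stab W := by
  cases s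
  · rfl
  · simp only [Form.mem_stab, sg_true, neg_mem_iff]

theorem Eqv.of_sg {g g' : φ.Isom} {s : Bool} {A A' : Submodule F V}
    (h : Eqv φ ((sg s g).1 : V →ₗ[F] V) ((sg s g').1 : V →ₗ[F] V) A A') :
    Eqv φ (g.1 : V →ₗ[F] V) (g'.1 : V →ₗ[F] V) A A' := by
  cases s
  · exact h
  · exact Eqv.neg h

theorem B_plus_minus (h2 : (2 : F) ≠ 0) (g : φ.Isom) (a b : ℕ) : ∀ x y, (N g ^ a) x = 0 →
    (N (sg true g) ^ b) y = 0 → φ.B x y = 0 := by
  induction a with
  | zero => intro x y hx _; simp at hx; simp [hx]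
  | succ a iha =>
    intro x y hx
    rw [pow_succ, End.mul_apply] at hx
    have ih1 : ∀ y, (N (sg true g) ^ b) y = 0 → φ.B (N g x) y = 0 := fun y hy => iha _ y hx hy
    clear iha
    induction b generalizing y with
    | zero => intro hy; simp at hy; simp [hy]
    | succ b ihb =>
      intro hy
      have e0 : (N (sg true g) ^ (b + 1)) (N (sg true g) y) = 0 := by
        rw [← End.mul_apply, ← pow_succ, pow_succ', End.mul_apply, hy, map_zero]
      have e1 := ih1 y hy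
      have e2 := ih1 _ e0
      rw [pow_succ, End.mul_apply] at hy
      have e3 := ihb _ (fun y hy => ih1 y (by rw [pow_succ', End.mul_apply, hy, map_zero])) hy
      have e4 := g.2.B x y
      rw [apply_eq g x, show g.1 y = -(y + N (sg true g) y) by rw [← apply_eq, sg_true, neg_neg]] at e4
      simp only [map_neg, map_add, LinearMap.add_apply, e1, e2, e3] at e4
      apply mul_left_cancel₀ h2
      linear_combination -e4

theorem nondegOn_ker (g : φ.Isom) {n : ℕ} (hn : finrank F V ≤ n) : φ.NondegOn (LinearMap.ker (N g ^ n)) := by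
  intro x hx h
  have e1 : φ.perp (LinearMap.range (N g ^ n)) ≤ LinearMap.ker (N g ^ n) := fun y hy =>
    N_pow_eq_zero g (W := ⊤) (φ.mem_stab_of_le fun _ _ => trivial)
      (fun z _ hz => φ.eq_zero_of_B_left fun y => hz y trivial) trivial fun z _ => hy _ ⟨z, rfl⟩
  have e2 := φ.perp_anti e1 (φ.mem_perp'.2 h)
  rw [Form.perp_perp] at e2
  obtain ⟨z, rfl⟩ := e2
  rw [LinearMap.mem_ker, ← End.mul_apply, ← pow_add, ← LinearMap.mem_ker,
    End.ker_pow_eq_ker_pow_finrank_of_le (by omega), ← End.ker_pow_eq_ker_pow_finrank_of_le hn] at hx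
  exact hx

/-- the positions of the decomposition -/
def pos (n : ℕ) : Finset (Option (Bool × ℕ)) := Finset.insertNone (Finset.univ ×ˢ Finset.range n)

/-- the pieces of the decomposition -/
def pc (g : φ.Isom) (V₀ : Submodule F V) (v : Bool → ℕ → Σ m, (Fin m → V)) : Option (Bool × ℕ) → Submodule F V :=
  fun p => p.elim V₀ fun p => bsp (sg p.1 g) p.2 (v p.1 p.2).2

/-- an orthogonal decomposition adapted to `g` -/
structure Dec (g : φ.Isom) (n : ℕ) where
  v : Bool → ℕ → Σ m, (Fin m → V)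
  V₀ : Submodule F V
  blk : ∀ s, ∀ i < n, Blk (sg s g) i (v s i).2
  od : OD φ (pos n) (pc g V₀ v)
  top : (pos n).sup (pc g V₀ v) = ⊤
  stab : g ∈ φ.stab V₀
  inj : ∀ s, ∀ x ∈ V₀, N (sg s g) x = 0 → x = 0

theorem mem_pos {n : ℕ} {s : Bool} {i : ℕ} : some (s, i) ∈ pos n ↔ i < n := by simp [pos]

theorem nonempty_dec (h2 : (2 : F) ≠ 0) (hσ : ∀ a, φ.σ a = a) (g : φ.Isom) {n : ℕ} (hn : finrank F V < n) :
    Nonempty (Dec g n) := by
  let W : Bool → Submodule F V := fun s => LinearMap.ker (N (sg s g) ^ n)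
  have w1 : ∀ s, sg s g ∈ φ.stab (W s) := fun s => φ.mem_stab_of_le fun x hx => by
    rw [LinearMap.mem_ker, ← N_pow_comm, show (N (sg s g) ^ n) x = 0 from hx, map_zero]
  have w2 : ∀ s, φ.NondegOn (W s) := fun s => nondegOn_ker _ hn.le
  have w3 : W true ≤ φ.perp (W false) := fun y hy x hx => B_plus_minus h2 g n n x y hx hy
  have w4 : φ.NondegOn (W false ⊔ W true) := fun x hx h => by
    obtain ⟨a, ha, b, hb, rfl⟩ := Submodule.mem_sup.1 hx
    rw [w2 false a ha fun y hy => by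
      simpa [φ.B_symm_zero (w3 hb y hy)] using h y (Submodule.mem_sup_left hy),
      w2 true b hb fun y hy => by simpa [w3 hy a ha] using h y (Submodule.mem_sup_right hy), add_zero]
  choose v v1 v2 v3 using fun s => exists_blks hσ n (w1 s) (w2 s) fun x hx => hx
  have v4 : ∀ s, ∀ i < n, bsp (sg s g) i (v s i).2 ≤ W s := fun s i hi =>
    (Finset.le_sup (f := fun i => bsp (sg s g) i (v s i).2) (Finset.mem_range.2 hi)).trans (v3 s).le
  have w5 : ∀ s, W s ≤ W false ⊔ W true := fun s => by cases s <;> simp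
  refine ⟨⟨v, φ.perp (W false ⊔ W true), v1, ⟨?_, ?_⟩, ?_, ?_, ?_⟩⟩
  · rintro (_ | ⟨s, i⟩) hp
    · exact w4.perp
    · exact (v1 s i (mem_pos.1 hp)).nondeg
  · rintro (_ | ⟨s, i⟩) hp (_ | ⟨t, j⟩) hq hpq
    · exact absurd rfl hpq
    · exact ((v4 t j (mem_pos.1 hq)).trans (w5 t)).trans (φ.le_perp_perp _)
    · exact φ.perp_anti ((v4 s i (mem_pos.1 hp)).trans (w5 s))
    · by_cases hst : s = t
      · subst hst
        exact v2 s i (mem_pos.1 hp) j (mem_pos.1 hq) fun e => hpq (by rw [e])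
      · refine (v4 t j (mem_pos.1 hq)).trans (le_trans ?_ (φ.perp_anti (v4 s i (mem_pos.1 hp))))
        cases s <;> cases t
        · exact absurd rfl hst
        · exact w3
        · exact φ.le_perp_comm.1 w3
        · exact absurd rfl hst
  · rw [eq_top_iff, ← w4.isCompl_perp.sup_eq_top]
    refine sup_le (sup_le ?_ ?_) (Finset.le_sup (f := pc g _ v) (b := none) (by simp [pos]))
    · rw [← v3]
      exact Finset.sup_le fun i hi => Finset.le_sup (f := pc g _ v) (b := some (false, i)) (mem_pos.2 (by simpa using hi))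
    · rw [← v3]
      exact Finset.sup_le fun i hi => Finset.le_sup (f := pc g _ v) (b := some (true, i)) (mem_pos.2 (by simpa using hi))
  · refine φ.stab_le_stab_perp _ (φ.mem_stab_of_le fun x hx => ?_)
    obtain ⟨a, ha, b, hb, rfl⟩ := Submodule.mem_sup.1 hx
    rw [map_add]
    exact Submodule.add_mem_sup ((φ.mem_stab.1 ((stab_sg _).1 (w1 false)) _).1 ha)
      ((φ.mem_stab.1 ((stab_sg _).1 (w1 true)) _).1 hb)
  · intro s x hx h
    refine w4 x (w5 s ?_) (φ.mem_perp'.1 hx)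
    obtain ⟨t, rfl⟩ : ∃ t, n = t + 1 := ⟨n - 1, by omega⟩
    rw [LinearMap.mem_ker, pow_succ, End.mul_apply, h, map_zero]

theorem hs_dvd_charpoly {n : ℕ} (A : Matrix (Fin n) (Fin n) F) (i : ℕ) : hs (typ A) i ∣ A.charpoly := by
  by_cases h : i ∈ Finset.Ico 1 (1 + n)
  · have h1 := prod_hs (isTyp_typ A) (k := n) fun f hf => by
      have := be_le_deg (isTyp_typ A) hf
      rwa [deg_typ, Fintype.card_fin] at this
    rw [← prod_typ, ← h1]
    exact (dvd_pow_self _ (by rw [Finset.mem_Ico] at h; omega)).trans (Finset.dvd_prod_of_mem _ h)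
  · rw [Finset.mem_Ico] at h
    rcases Nat.eq_zero_or_pos i with rfl | hi
    · rw [hs_eq_one fun f hf => (be_spec (isTyp_typ A) hf).2.2.1.ne']; exact one_dvd _
    · rw [hs_typ_eq_one A (by omega)]; exact one_dvd _

namespace Dec
variable {g g' : φ.Isom} {n : ℕ} (d : Dec g n) (d' : Dec g' n)

/-- the restriction to the part without eigenvalues `±1` -/
def g₀ : End F d.V₀ := (g.1 : V →ₗ[F] V).restrict fun x hx => (φ.mem_stab.1 d.stab x).1 hx

theorem g₀_apply (x : d.V₀) : (d.g₀ x : V) = g.1 x := rfl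

/-- its matrix -/
noncomputable def A₀ : Matrix (Fin (finrank F d.V₀)) (Fin (finrank F d.V₀)) F :=
  LinearMap.toMatrix (finBasis F d.V₀) (finBasis F d.V₀) d.g₀

theorem nd₀ : φ.NondegOn d.V₀ := d.od.nd none (by simp [pos])

theorem inv (p) (hp : p ∈ pos n) (x) (hx : x ∈ pc g d.V₀ d.v p) : g.1 x ∈ pc g d.V₀ d.v p := by
  rcases p with _ | ⟨s, i⟩
  · exact (φ.mem_stab.1 d.stab x).1 hx
  · exact (φ.mem_stab.1 ((stab_sg s).1 (d.blk s i (mem_pos.1 hp)).stab) x).1 hx

theorem cong (hσ : ∀ a, φ.σ a = a) : ∃ J, J.det ≠ 0 ∧ d.A₀ᵀ * J * d.A₀ = J := by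
  set b := finBasis F d.V₀
  have e1 : ∀ x, Fintype.linearCombination F (fun i => (b i : V)) x = (b.equivFun.symm x : V) := fun x => by
    simp [Fintype.linearCombination_apply]
  refine ⟨H09.gram φ fun i => (b i : V), fun e => ?_, matrix_ext_dot fun x y => ?_⟩
  · obtain ⟨c, hc0, hc⟩ := exists_mulVec_eq_zero_iff.2 e
    apply hc0
    have : (b.equivFun.symm c : V) = 0 := d.nd₀ _ (b.equivFun.symm c).2 fun y hy => φ.B_symm_zero (by
      obtain ⟨z, hz⟩ := b.equivFun.symm.surjective ⟨y, hy⟩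
      rw [show y = (b.equivFun.symm z : V) by rw [hz], ← e1, ← e1, B_lc hσ, hc, dotProduct_zero])
    exact b.equivFun.symm.map_eq_zero_iff.1 (Subtype.ext this)
  · have e2 : ∀ x, b.equivFun.symm (d.A₀ *ᵥ x) = d.g₀ (b.equivFun.symm x) := fun x => by
      rw [LinearEquiv.symm_apply_eq, b.equivFun_apply, ← LinearMap.toMatrix_mulVec_repr b b, ← b.equivFun_apply,
        LinearEquiv.apply_symm_apply]
      rfl
    rw [dot_cong, ← B_lc hσ, ← B_lc hσ, e1, e1, e1, e1, e2, e2, g₀_apply, g₀_apply, g.2.B]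

theorem isUnit_A₀ (hσ : ∀ a, φ.σ a = a) : IsUnit d.A₀ := by
  obtain ⟨J, h1, h2⟩ := d.cong hσ
  refine (isUnit_iff_isUnit_det _).2 (Ne.isUnit fun e => h1 ?_)
  rw [← h2, det_mul, e, mul_zero]

theorem dual_hs (hσ : ∀ a, φ.σ a = a) (i : ℕ) : dual (RingHom.id F) (hs (typ d.A₀) i) = hs (typ d.A₀) i := by
  obtain ⟨J, h1, h2⟩ := d.cong hσ
  have hu := (isUnit_iff_isUnit_det _).2 (Ne.isUnit h1)
  refine hs_dual (B := J * d.A₀ * J⁻¹) (fun _ => rfl) (d.isUnit_A₀ hσ) (mul_eq_one_comm.1 ?_) ⟨hu.unit, ?_⟩ i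
  · rw [RingHom.coe_id, Matrix.map_id, ← mul_assoc, ← mul_assoc, h2, mul_nonsing_inv _ (Ne.isUnit h1)]
  · change J * d.A₀ = J * d.A₀ * J⁻¹ * J
    rw [mul_assoc _ J⁻¹, nonsing_inv_mul _ (Ne.isUnit h1), mul_one]

theorem eval_hs (s : Bool) (i : ℕ) : (hs (typ d.A₀) i).eval (cond s (-1) 1) ≠ 0 := fun e => by
  have e1 : d.A₀.charpoly.IsRoot (cond s (-1) 1) := IsRoot.dvd e (hs_dvd_charpoly _ i)
  rw [A₀, LinearMap.charpoly_toMatrix, ← End.hasEigenvalue_iff_isRoot_charpoly] at e1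
  obtain ⟨x, hx⟩ := e1.exists_hasEigenvector
  refine hx.2 (Subtype.ext (d.inj s x x.2 ?_))
  have := congrArg Subtype.val hx.apply_eq_smul
  rw [g₀_apply] at this
  cases s
  · rw [N_apply, sg_false, this]; simp
  · rw [N_apply, sg_true, this]; simp

theorem eqv₀ [Finite F] (h2 : (2 : F) ≠ 0) (h : typ d.A₀ = typ d'.A₀) :
    Eqv φ (g.1 : V →ₗ[F] V) (g'.1 : V →ₗ[F] V) d.V₀ d'.V₀ := by
  obtain ⟨k, hk⟩ : Iso d.g₀ d'.g₀ := ((iso_toMatrix _ _).trans
    ((hasTyp_typ d.A₀).iso (h ▸ hasTyp_typ d'.A₀))).trans (iso_toMatrix _ _).symm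
  haveI := d.nd₀.nondeg
  haveI := d'.nd₀.nondeg
  obtain ⟨e, e1, e2⟩ := H24.Adj.exists_equiv_of_conj (φ := φ.restrict d.V₀) (ψ := φ.restrict d'.V₀)
    (fun _ => rfl) rfl (g := d.g₀) (h := d'.g₀) (fun x y => g.2.B x y) (fun x y => g'.2.B x y) k hk
    ((LinearMap.isUnit_iff_ker_eq_bot _).2 (LinearMap.ker_eq_bot'.2 fun x hx => Subtype.ext (d.inj false x x.2 (by
      have := congrArg Subtype.val hx
      change (x : V) - g.1 x = 0 at this
      rw [N_apply, sg_false, ← neg_sub, this, neg_zero]))))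
    ((LinearMap.isUnit_iff_ker_eq_bot _).2 (LinearMap.ker_eq_bot'.2 fun x hx => Subtype.ext (d.inj true x x.2 (by
      have := congrArg Subtype.val hx
      change (x : V) + g.1 x = 0 at this
      rw [N_apply, sg_true, ← neg_add', add_comm, this, neg_zero]))))
  have := eqv_of_maps (φ := φ) h2 (g := (g.1 : V →ₗ[F] V)) (g' := (g'.1 : V →ₗ[F] V)) d.V₀.subtype
    (d'.V₀.subtype ∘ₗ e.toLinearMap) Subtype.val_injective (Subtype.val_injective.comp e.injective) e1 d.g₀
    (fun _ => rfl) (fun x => congrArg Subtype.val (e2 x).symm)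
  rwa [Submodule.range_subtype, LinearMap.range_comp_of_range_eq_top _ e.range, Submodule.range_subtype] at this

theorem sum_deg (hn : finrank F V < n) : ∑ i ∈ Finset.Ico 1 (1 + n),
    i * ((hs (typ d.A₀) i).natDegree + (d.v false (i - 1)).1 + (d.v true (i - 1)).1) = finrank F V := by
  have h1 := deg_hs (isTyp_typ d.A₀) (k := n) fun f hf => by
    have := be_le_deg (isTyp_typ d.A₀) hf
    rw [deg_typ, Fintype.card_fin] at this
    exact this.trans (d.V₀.finrank_le.trans hn.le)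
  rw [deg_typ, Fintype.card_fin] at h1
  have h3 := d.od.finrank_sup
  rw [d.top, finrank_top, pos, Finset.sum_insertNone, Finset.sum_product, Fintype.sum_bool] at h3
  simp only [mul_add, Finset.sum_add_distrib]
  rw [h1, h3, add_assoc, add_comm (∑ _ ∈ _, _)]
  congr 2 <;>
  · rw [Finset.sum_Ico_eq_sum_range, Nat.add_sub_cancel_left]
    refine Finset.sum_congr rfl fun i hi => ?_
    rw [Nat.add_sub_cancel_left, add_comm 1 i]
    exact (d.blk _ i (Finset.mem_range.1 hi)).finrank_bsp.symm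

end Dec

theorem Blk.eqv' [Finite F] (h2 : (2 : F) ≠ 0) (hσ : ∀ a, φ.σ a = a) {g g' : φ.Isom} {k : ℕ}
    {v v' : Σ m, (Fin m → V)} (h : Blk g k v.2) (h' : Blk g' k v'.2) (hm : v.1 = v'.1)
    (he : φ.ε * (-1) ^ k = 1 → chi (lead g k v.2).det = chi (lead g' k v'.2).det) :
    Eqv φ (g.1 : V →ₗ[F] V) (g'.1 : V →ₗ[F] V) (bsp g k v.2) (bsp g' k v'.2) := by
  obtain ⟨m, v⟩ := v
  obtain ⟨m', v'⟩ := v'
  obtain rfl : m = m' := hm
  exact h.eqv h2 hσ h' he

theorem Blk.chi_eq' [Finite F] (hσ : ∀ a, φ.σ a = a) {g g' : φ.Isom} {k : ℕ}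
    {v v' : Σ m, (Fin m → V)} (h : Blk g k v.2) (h' : Blk g' k v'.2) (hm : v.1 = v'.1) (hk : Even k) {e : φ.Isom}
    (he : (bsp g k v.2).map (e.1 : V →ₗ[F] V) = bsp g' k v'.2) :
    chi (lead g k v.2).det = chi (lead g' k v'.2).det := by
  obtain ⟨m, v⟩ := v
  obtain ⟨m', v'⟩ := v'
  obtain rfl : m = m' := hm
  exact h.chi_eq hσ h' hk he

/-- level data -/
structure Lv (F : Type*) [Field F] where
  h : F[X]
  m : Bool → ℕ
  δ : Bool → Bool

/-- the degree of level data -/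
def Lv.deg (a : Lv F) : ℕ := a.h.natDegree + a.m false + a.m true

/-- admissible level data; `γ` tells whether the forms at this level are symmetric -/
structure Lv.Adm (γ : Prop) (a : Lv F) : Prop where
  mc : MC a.h
  dual : dual (RingHom.id F) a.h = a.h
  ev : ∀ s : Bool, a.h.eval (cond s (-1) 1) ≠ 0
  pos : ∀ s, a.δ s = true → 0 < a.m s ∧ γ
  even : ¬ γ → ∀ s, Even (a.m s)

theorem exists_data [Finite F] (h2 : (2 : F) ≠ 0) (hσ : ∀ a, φ.σ a = a) {n : ℕ} (hn : finrank F V < n) :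
    ∃ D : φ.Isom → ℕ → Lv F, (∀ g, ∀ i ∈ Finset.Ico 1 (1 + n), (D g i).Adm (φ.ε * (-1) ^ (i - 1) = 1)) ∧
      (∀ g, ∑ i ∈ Finset.Ico 1 (1 + n), i * (D g i).deg = finrank F V) ∧
      (∀ g g' (s₀ : Bool) (i₀ : ℕ), Odd i₀ → (∀ i ∈ Finset.Ico 1 (1 + n), (D g i).h = (D g' i).h ∧
        (D g i).m = (D g' i).m ∧ ∀ s, (s, i) ≠ (s₀, i₀) → (D g i).δ s = (D g' i).δ s) → IsConj g g') ∧
      ∀ g s, ∃ W, φ.NondegOn W ∧ finrank F W = (D g 1).m s ∧ ∀ x ∈ W, (sg s g).1 x = x := by
  classical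
  let d : ∀ g : φ.Isom, Dec g n := fun g => (nonempty_dec h2 hσ g hn).some
  refine ⟨fun g i => ⟨hs (typ (d g).A₀) i, fun s => ((d g).v s (i - 1)).1, fun s =>
    decide (φ.ε * (-1) ^ (i - 1) = 1 ∧ chi (lead (sg s g) (i - 1) ((d g).v s (i - 1)).2).det = -1)⟩,
    fun g i hi => ⟨mc_hs ((d g).isUnit_A₀ hσ) i, (d g).dual_hs hσ i, fun s => (d g).eval_hs s i, fun s hs => ?_,
      fun hγ s => ?_⟩, fun g => (d g).sum_deg hn, fun g g' s₀ i₀ hi₀ h => ?_, fun g s => ?_⟩
  · simp only [decide_eq_true_eq] at hs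
    refine ⟨Nat.pos_of_ne_zero fun e => ?_, hs.1⟩
    haveI : IsEmpty (Fin ((d g).v s (i - 1)).1) := by
      change ((d g).v s (i - 1)).1 = 0 at e
      rw [e]; infer_instance
    rw [det_isEmpty, chi_eq_one_iff.2 IsSquare.one] at hs
    exact absurd hs.2 (by decide)
  · rw [Finset.mem_Ico] at hi
    have hb := (d g).blk s (i - 1) (by omega)
    refine even_of_skew h2 ?_ hb.det
    rw [hb.lead_transpose hσ]
    congr 1
    revert hγ
    rcases φ.ε_cases with e | e <;> rcases neg_one_pow_eq_or F (i - 1) with e' | e' <;> simp [e, e']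
  · have e0 : typ (d g).A₀ = typ (d g').A₀ := eq_of_hs (isTyp_typ _) (isTyp_typ _) fun i hi => by
      by_cases h3 : i < 1 + n
      · exact (h i (Finset.mem_Ico.2 ⟨hi, h3⟩)).1
      · rw [hs_typ_eq_one _ (((d g).V₀.finrank_le.trans_lt hn).trans_le (by omega)),
          hs_typ_eq_one _ (((d g').V₀.finrank_le.trans_lt hn).trans_le (by omega))]
    have e1 : ∀ s, ∀ i < n, ((d g).v s i).1 = ((d g').v s i).1 := fun s i hi =>
      congrFun (h (i + 1) (Finset.mem_Ico.2 ⟨by omega, by omega⟩)).2.1 s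
    have e2 : ∀ p ∈ pos n, p ≠ some (s₀, i₀ - 1) → Eqv φ (g.1 : V →ₗ[F] V) (g'.1 : V →ₗ[F] V)
        (pc g (d g).V₀ (d g).v p) (pc g' (d g').V₀ (d g').v p) := by
      rintro (_ | ⟨s, i⟩) hp hp'
      · exact (d g).eqv₀ (d g') h2 e0
      · have hi := mem_pos.1 hp
        refine (Blk.eqv' h2 hσ ((d g).blk s i hi) ((d g').blk s i hi) (e1 s i hi) fun hγ => ?_).of_sg
        have := (h (i + 1) (Finset.mem_Ico.2 ⟨by omega, by omega⟩)).2.2 s fun e => hp' (by
          rw [Prod.mk.injEq] at e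
          rw [e.1, ← e.2]; rfl)
        simp only [Nat.add_sub_cancel, hγ, true_and, decide_eq_decide] at this
        rcases Int.units_eq_one_or (chi (lead (sg s g) i ((d g).v s i).2).det) with e | e <;>
          rcases Int.units_eq_one_or (chi (lead (sg s g') i ((d g').v s i).2).det) with e' | e' <;>
          simp_all
    have e3 := eqv_sup h2 (d g).od (d g').od (d g).inv (g' := (g'.1 : V →ₗ[F] V)) fun p hp => by
      by_cases hp' : p = some (s₀, i₀ - 1)
      · subst hp'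
        obtain ⟨e, he⟩ := exists_map_of_miss h2 (d g).od (d g').od (d g).top (d g').top (d g).inv hp e2
        have hi := mem_pos.1 hp
        refine (Blk.eqv' h2 hσ ((d g).blk _ _ hi) ((d g').blk _ _ hi) (e1 _ _ hi) fun _ => ?_).of_sg
        exact Blk.chi_eq' hσ ((d g).blk _ _ hi) ((d g').blk _ _ hi) (e1 _ _ hi) (Nat.Odd.sub_odd hi₀ odd_one) he
      · exact e2 p hp hp'
    rw [(d g).top, (d g').top] at e3
    exact e3.isConj
  · have hb := (d g).blk s 0 (by omega)
    refine ⟨_, hb.nondeg, by rw [hb.finrank_bsp]; simp, fun x hx => ?_⟩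
    have : bsp (sg s g) 0 ((d g).v s 0).2 ≤ LinearMap.ker (N (sg s g)) := bsp_le fun y => by
      have := hb.nil y.2
      rw [bf, show y.1.1 = 0 by omega]
      simpa using this
    rw [apply_eq, show N (sg s g) x = 0 from this hx, add_zero]

end Wal
end H16
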