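import Mathlib
import Cfsg.Agent.H16.Wal3
import Cfsg.Agent.H16.CntZ2

/-!
# Counting level data and conjugacy classes of symplectic and orthogonal groups (odd characteristic)

* `nn`, `cc`, `n0`, `cr` : the weights; `card_lv`, `card_lv_res`, `card_lv_zero`
* `card_le_all`, `card_le_half`
-/

open Module H10 Polynomial Finset

set_option linter.unusedSectionVars false

namespace H16
namespace Wal

open Cnt

variable {F : Type*} [Field F]

/-- palindromic monic polynomials of even degree -/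
structure Pal (f : F[X]) : Prop where
  mc : MC f
  dual : dual (RingHom.id F) f = f
  zero : f.coeff 0 = 1
  even : Even f.natDegree

theorem Pal.mul {f g : F[X]} (hf : Pal f) (hg : Pal g) : Pal (f * g) :=
  ⟨hf.mc.mul hg.mc, by rw [(tw_dual _).mul _ _ hf.mc hg.mc, hf.dual, hg.dual], by simp [hf.zero, hg.zero],
    by rw [hf.mc.1.natDegree_mul hg.mc.1]; exact hf.even.add hg.even⟩

theorem Pal.pow {f : F[X]} (hf : Pal f) (k : ℕ) : Pal (f ^ k) := by
  induction k with
  | zero => exact ⟨by simpa using MC.one, by simpa using (tw_dual _).one, by simp, by simp⟩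
  | succ k ih => rw [pow_succ]; exact ih.mul hf

theorem pal_sq {c : F} (hc : c * c = 1) : Pal ((X - C c) ^ 2) := by
  have h0 : c ≠ 0 := left_ne_zero_of_mul_eq_one hc
  have h1 : MC (X - C c) := ⟨monic_X_sub_C c, by simpa using h0⟩
  have h2 : Cnt.dual (RingHom.id F) (X - C c) = X - C c := by
    have e1 := ((tw_dual (RingHom.id F)).mc _ h1).1.eq_X_add_C (by rw [(tw_dual _).deg _ h1, natDegree_X_sub_C])
    rw [e1, coeff_dual _ (Nat.zero_le _), sub_eq_add_neg X, ← C_neg]
    congr 2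
    have e2 : (X + C (-c)).coeff 1 = 1 := by simp
    rw [natDegree_X_add_C, Nat.sub_zero, e2]
    simp [inv_eq_of_mul_eq_one_right hc]
  exact ⟨h1.pow 2, by rw [(tw_dual _).pow h1, h2], by simp [sq, hc],
    by rw [natDegree_pow, natDegree_X_sub_C]; simp⟩

theorem pal_of_ev (h2 : (2 : F) ≠ 0) {f : F[X]} (hf : MC f) (hd : Cnt.dual (RingHom.id F) f = f)
    (h1 : f.eval 1 ≠ 0) (h3 : f.eval (-1) ≠ 0) : Pal f := by
  have e0 : ∀ x, f.eval x = (f.coeff 0)⁻¹ * f.reverse.eval x := fun x => by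
    conv_lhs => rw [← hd, Cnt.dual]
    simp
  have e1 := aeval_reverse_mul (F := F) (x := (1 : F)) (y := 1) (by simp) f
  have e2 := aeval_reverse_mul (F := F) (x := (-1 : F)) (y := -1) (by simp) f
  simp only [coe_aeval_eq_eval, one_pow, mul_one] at e1 e2
  have e3 : f.coeff 0 = 1 := by
    have := e0 1
    rw [e1] at this
    exact inv_eq_one.1 (mul_right_cancel₀ h1 (by rw [← this, one_mul]))
  refine ⟨hf, hd, e3, ?_⟩
  by_contra ho
  rw [Nat.not_even_iff_odd] at ho
  have := e0 (-1)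
  rw [e3, inv_one, one_mul] at this
  rw [ho.neg_one_pow, ← this] at e2
  apply h3
  apply mul_left_cancel₀ h2
  linear_combination -e2

theorem Pal.coeff_eq {f : F[X]} (hf : Pal f) {k : ℕ} (hk : k ≤ f.natDegree) :
    f.coeff k = f.coeff (f.natDegree - k) := by
  have := coeff_dual (RingHom.id F) hk
  rwa [hf.dual, hf.zero, map_one, inv_one, one_mul] at this

theorem Pal.ext {f g : F[X]} (hf : Pal f) (hg : Pal g) {k : ℕ} (h1 : f.natDegree = 2 * k) (h2 : g.natDegree = 2 * k)
    (h : ∀ j, 0 < j → j ≤ k → f.coeff j = g.coeff j) : f = g := by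
  have h' : ∀ j, j ≤ k → f.coeff j = g.coeff j := fun j hj => by
    rcases Nat.eq_zero_or_pos j with rfl | h0
    · rw [hf.zero, hg.zero]
    · exact h j h0 hj
  ext j
  by_cases h3 : j ≤ k
  · exact h' j h3
  by_cases h4 : j ≤ 2 * k
  · rw [hf.coeff_eq (by omega), hg.coeff_eq (by omega), h1, h2, h' _ (by omega)]
  · rw [coeff_eq_zero_of_natDegree_lt (by omega), coeff_eq_zero_of_natDegree_lt (by omega)]

/-- number of palindromic polynomials -/
def nn (q m : ℕ) : ℕ := if m % 2 = 0 then q ^ (m / 2) else 0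

/-- number of palindromic polynomials without roots `±1` -/
def n0 (q m : ℕ) : ℕ :=
  if m % 2 = 0 then (if m = 0 then 1 else if m = 2 then q - 2 else (q - 1) ^ 2 * q ^ (m / 2 - 2)) else 0

theorem card_pal [Fintype F] (m : ℕ) (t : Finset F[X]) (h : ∀ f ∈ t, Pal f ∧ f.natDegree = m) :
    t.card ≤ nn (Fintype.card F) m := by
  classical
  rw [nn]
  split_ifs with hm
  · have : t.card ≤ (univ : Finset (Fin (m / 2) → F)).card :=
      card_le_card_of_injOn (fun f j => f.coeff (j + 1)) (fun _ _ => mem_univ _) fun f hf g hg e =>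
        (h f hf).1.ext (h g hg).1 (k := m / 2) (by rw [(h f hf).2]; omega) (by rw [(h g hg).2]; omega)
          fun j h0 hj => by
            have := congrFun e ⟨j - 1, by omega⟩
            simpa [show j - 1 + 1 = j by omega] using this
    simpa using this
  · rw [Nat.le_zero, card_eq_zero, eq_empty_iff_forall_notMem]
    intro f hf
    have := (h f hf).1.even
    rw [(h f hf).2, Nat.even_iff] at this
    exact hm this

theorem Pal.sub_eq {f g : F[X]} (hf : Pal f) (hg : Pal g) {k : ℕ} (h1 : f.natDegree = 2 * (k + 1))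
    (h2 : g.natDegree = 2 * (k + 1)) (h : ∀ j, 0 < j → j < k → f.coeff j = g.coeff j) :
    f - g = X ^ k * (C (f.coeff k - g.coeff k) * (1 + X ^ 2) + C (f.coeff (k + 1) - g.coeff (k + 1)) * X) := by
  have h' : ∀ j, j < k → f.coeff j = g.coeff j := fun j hj => by
    rcases Nat.eq_zero_or_pos j with rfl | h0
    · rw [hf.zero, hg.zero]
    · exact h j h0 hj
  have e : X ^ k * (C (f.coeff k - g.coeff k) * (1 + X ^ 2) + C (f.coeff (k + 1) - g.coeff (k + 1)) * X) =
      monomial k (f.coeff k - g.coeff k) + monomial (k + 2) (f.coeff k - g.coeff k) +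
        monomial (k + 1) (f.coeff (k + 1) - g.coeff (k + 1)) := by
    simp only [← C_mul_X_pow_eq_monomial]; ring
  rw [e]
  ext j
  simp only [coeff_sub, coeff_add, coeff_monomial]
  by_cases h3 : j < k
  · rw [h' j h3, if_neg (by omega), if_neg (by omega), if_neg (by omega)]; simp
  by_cases h4 : j = k
  · rw [if_pos h4.symm, if_neg (by omega), if_neg (by omega), h4]; simp
  by_cases h5 : j = k + 1
  · rw [if_pos h5.symm, if_neg (by omega), if_neg (by omega), h5]; simp
  by_cases h6 : j = k + 2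
  · rw [if_pos h6.symm, if_neg (by omega), if_neg (by omega), hf.coeff_eq (by omega), hg.coeff_eq (by omega),
      h1, h2, show 2 * (k + 1) - j = k by omega]; simp
  rw [if_neg (by omega), if_neg (by omega), if_neg (by omega)]
  by_cases h7 : j ≤ 2 * (k + 1)
  · rw [hf.coeff_eq (by omega), hg.coeff_eq (by omega), h1, h2, h' _ (by omega)]; simp
  · rw [coeff_eq_zero_of_natDegree_lt (by omega), coeff_eq_zero_of_natDegree_lt (by omega)]; simp

theorem card_pal0 [Fintype F] (h2 : (2 : F) ≠ 0) (m : ℕ) (t : Finset F[X])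
    (h : ∀ f ∈ t, (Pal f ∧ f.eval 1 ≠ 0 ∧ f.eval (-1) ≠ 0) ∧ f.natDegree = m) :
    t.card ≤ n0 (Fintype.card F) m := by
  classical
  have h0 := card_pal m t fun f hf => ⟨(h f hf).1.1, (h f hf).2⟩
  rw [n0]
  rw [nn] at h0
  split_ifs at h0 ⊢ with hm h3 h4
  · simpa [h3] using h0
  · have e1 : ∀ f ∈ t, f = X ^ 2 + C (f.coeff 1) * X + 1 := fun f hf => by
      have := (h f hf).1.1.mc.1.as_sum
      rw [(h f hf).2, h4] at this
      conv_lhs => rw [this]
      simp [sum_range_succ, (h f hf).1.1.zero]; ring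
    have : t.card ≤ ((univ : Finset F) \ {2, -2}).card :=
      card_le_card_of_injOn (fun f => f.coeff 1) (fun f hf => by
        have a1 := (h f hf).1.2.1
        have a2 := (h f hf).1.2.2
        rw [e1 f hf] at a1 a2
        simp only [coe_sdiff, coe_univ, coe_insert, coe_singleton, Set.mem_sdiff, Set.mem_univ, true_and,
          Set.mem_insert_iff, Set.mem_singleton_iff, not_or]
        constructor <;> intro e <;> rw [e] at a1 a2 <;> simp at a1 a2
        · exact a2 (by ring)
        · exact a1 (by ring)) fun f hf g hg e => by rw [e1 f hf, e1 g hg]; exact congrArg (fun c => X ^ 2 + C c * X + 1) e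
    rwa [card_sdiff_of_subset (subset_univ _), card_pair (fun e => h2 (by
      have : (2 : F) * 2 = 0 := by linear_combination e
      exact (mul_self_eq_zero.1 this))), card_univ] at this
  · obtain ⟨k, hk⟩ : ∃ k, m = 2 * (k + 1 + 1) := ⟨m / 2 - 2, by omega⟩
    have : t.card ≤ ((univ.erase (0 : F) ×ˢ univ.erase (0 : F)) ×ˢ (univ : Finset (Fin k → F))).card :=
      card_le_card_of_injOn (fun f => ((f.eval 1, f.eval (-1)), fun j => f.coeff (j + 1)))
        (fun f hf => by simpa using (h f hf).1.2) fun f hf g hg e => by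
          simp only [Prod.mk.injEq] at e
          have e1 := (h f hf).1.1.sub_eq (h g hg).1.1 (k := k + 1) (by rw [(h f hf).2, hk]) (by rw [(h g hg).2, hk])
            fun j h0 hj => by
              have := congrFun e.2 ⟨j - 1, by omega⟩
              simpa [show j - 1 + 1 = j by omega] using this
          have e2 := congrArg (eval 1) e1
          have e3 := congrArg (eval (-1)) e1
          simp only [eval_sub, e.1.1, e.1.2, sub_self, eval_mul, eval_pow, eval_X, eval_add, eval_C, eval_one] at e2 e3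
          have e4 := (mul_eq_zero.1 e3.symm).resolve_left (pow_ne_zero _ (by simp))
          have e5 : f.coeff (k + 1 + 1) - g.coeff (k + 1 + 1) = 0 := by
            apply mul_left_cancel₀ h2
            linear_combination -e2 - e4
          have e6 : f.coeff (k + 1) - g.coeff (k + 1) = 0 := by
            apply mul_left_cancel₀ h2
            linear_combination e4 + e5
          rw [e5, e6] at e1
          exact sub_eq_zero.1 (by simpa using e1)
    rw [show m / 2 - 2 = k by omega]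
    simpa [card_erase_of_mem, sq] using this
  · exact h0

theorem eq_of_mul_pow_eq (h2 : (2 : F) ≠ 0) {f g : F[X]} {a b c d : ℕ} (f1 : f.eval 1 ≠ 0) (f2 : f.eval (-1) ≠ 0)
    (g1 : g.eval 1 ≠ 0) (g2 : g.eval (-1) ≠ 0)
    (h : f * ((X - C 1) ^ 2) ^ a * ((X - C (-1)) ^ 2) ^ b = g * ((X - C 1) ^ 2) ^ c * ((X - C (-1)) ^ 2) ^ d) :
    f = g ∧ a = c ∧ b = d := by
  have key : ∀ (x y : F) (f : F[X]) (a b : ℕ), x ≠ y → f.eval x ≠ 0 →
      (f * ((X - C x) ^ 2) ^ a * ((X - C y) ^ 2) ^ b).rootMultiplicity x = 2 * a := by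
    intro x y f a b hxy hf
    have h0 : f * ((X - C y) ^ 2) ^ b ≠ 0 :=
      mul_ne_zero (by rintro rfl; simp at hf) (pow_ne_zero _ (pow_ne_zero _ (X_sub_C_ne_zero _)))
    rw [mul_right_comm, ← pow_mul _ 2 a, rootMultiplicity_mul_X_sub_C_pow h0, rootMultiplicity_eq_zero, zero_add]
    simp [hf, sub_eq_zero, hxy]
  have h1 : (1 : F) ≠ -1 := fun e => h2 (by linear_combination e)
  have e1 := congrArg (rootMultiplicity 1) h
  rw [key _ _ _ _ _ h1 f1, key _ _ _ _ _ h1 g1] at e1
  have e2 := congrArg (rootMultiplicity (-1)) h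
  rw [mul_right_comm f, mul_right_comm g, key _ _ _ _ _ h1.symm f2, key _ _ _ _ _ h1.symm g2] at e2
  obtain rfl : a = c := by omega
  obtain rfl : b = d := by omega
  exact ⟨mul_right_cancel₀ (pow_ne_zero _ (pow_ne_zero _ (X_sub_C_ne_zero _)))
    (mul_right_cancel₀ (pow_ne_zero _ (pow_ne_zero _ (X_sub_C_ne_zero _))) h), rfl, rfl⟩

/-- the two bits of a multiplicity with sign -/
def bt (m : ℕ) (δ : Bool) : Bool × Bool := (δ, xor δ (m % 2 == 1))

/-- weight of two bits -/
def wt (e : Bool × Bool) : ℕ := e.1.toNat + e.2.toNat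

theorem bt_spec {m : ℕ} {δ : Bool} (h : δ = true → 0 < m) : 2 * ((m - wt (bt m δ)) / 2) + wt (bt m δ) = m := by
  rcases Nat.mod_two_eq_zero_or_one m with e | e <;> cases δ <;> simp [bt, wt, e] at h ⊢ <;> omega

/-- the palindromic polynomial of level data -/
noncomputable def Lv.H (a : Lv F) : F[X] :=
  a.h * ((X - C 1) ^ 2) ^ ((a.m false - wt (bt (a.m false) (a.δ false))) / 2) *
    ((X - C (-1)) ^ 2) ^ ((a.m true - wt (bt (a.m true) (a.δ true))) / 2)

/-- the four bits of level data -/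
def Lv.e (a : Lv F) : (Bool × Bool) × (Bool × Bool) := (bt (a.m false) (a.δ false), bt (a.m true) (a.δ true))

theorem Lv.Adm.pal (h2 : (2 : F) ≠ 0) {γ : Prop} {a : Lv F} (h : a.Adm γ) : Pal a.H :=
  ((pal_of_ev h2 h.mc h.dual (h.ev false) (h.ev true)).mul ((pal_sq (by simp)).pow _)).mul ((pal_sq (by simp)).pow _)

theorem Lv.Adm.deg_H {γ : Prop} {a : Lv F} (h : a.Adm γ) : a.H.natDegree + (wt a.e.1 + wt a.e.2) = a.deg := by
  have e1 := bt_spec fun e => (h.pos false e).1
  have e2 := bt_spec fun e => (h.pos true e).1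
  rw [Lv.H, (h.mc.1.mul (((monic_X_sub_C _).pow _).pow _)).natDegree_mul (((monic_X_sub_C _).pow _).pow _),
    h.mc.1.natDegree_mul (((monic_X_sub_C _).pow _).pow _)]
  simp only [natDegree_pow, natDegree_X_sub_C, Lv.deg, Lv.e]
  omega

theorem card_lv_gen (h2 : (2 : F) ≠ 0) {γ : Prop} (P : F[X] → Prop) (ν : ℕ → ℕ)
    (hν : ∀ m (t : Finset F[X]), (∀ f ∈ t, P f ∧ f.natDegree = m) → t.card ≤ ν m)
    (E : Finset ((Bool × Bool) × (Bool × Bool))) (m : ℕ) (t : Finset (Lv F))
    (h : ∀ a ∈ t, a.Adm γ ∧ a.deg = m ∧ P a.H ∧ a.e ∈ E) :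
    t.card ≤ ∑ e ∈ E, if wt e.1 + wt e.2 ≤ m then ν (m - (wt e.1 + wt e.2)) else 0 := by
  classical
  rw [card_eq_sum_card_fiberwise (f := Lv.e) (t := E) fun a ha => (h a ha).2.2.2]
  refine sum_le_sum fun e _ => ?_
  have h3 : ∀ a ∈ t.filter fun a => a.e = e, a.H.natDegree + (wt e.1 + wt e.2) = m := fun a ha => by
    rw [mem_filter] at ha
    rw [← ha.2, (h a ha.1).1.deg_H, (h a ha.1).2.1]
  split_ifs with he
  · rw [← card_image_of_injOn (f := Lv.H)]
    · refine hν _ _ fun f hf => ?_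
      obtain ⟨a, ha, rfl⟩ := mem_image.1 hf
      exact ⟨(h a (mem_filter.1 ha).1).2.2.1, by have := h3 a ha; omega⟩
    · intro a ha b hb hab
      rw [mem_coe, mem_filter] at ha hb
      have a1 := (h a ha.1).1
      have b1 := (h b hb.1).1
      obtain ⟨c1, c2, c3⟩ := eq_of_mul_pow_eq h2 (a1.ev false) (a1.ev true) (b1.ev false) (b1.ev true) hab
      have c4 := ha.2.trans hb.2.symm
      simp only [Lv.e, Prod.mk.injEq] at c4
      have c5 : ∀ s, bt (a.m s) (a.δ s) = bt (b.m s) (b.δ s) := fun s => by cases s; exacts [c4.1, c4.2]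
      have c6 : a.m = b.m := funext fun s => by
        rw [← bt_spec fun e => (a1.pos s e).1, ← bt_spec fun e => (b1.pos s e).1]
        cases s
        · rw [c2, c5]
        · rw [c3, c5]
      have c7 : a.δ = b.δ := funext fun s => congrArg Prod.fst (c5 s)
      cases a; cases b
      simp only at c1 c6 c7
      rw [c1, c6, c7]
  · rw [Nat.le_zero, card_eq_zero, eq_empty_iff_forall_notMem]
    intro a ha
    have := h3 a ha
    omega

/-- shifted sequence -/
def sf (ν : ℕ → ℕ) (j m : ℕ) : ℕ := if j ≤ m then ν (m - j) else 0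

theorem sf_zero (ν : ℕ → ℕ) (m : ℕ) : sf ν 0 m = ν m := by simp [sf]

/-- number of level data at a symmetric level -/
def cc (q m : ℕ) : ℕ := nn q m + 4 * sf (nn q) 1 m + 6 * sf (nn q) 2 m + 4 * sf (nn q) 3 m + sf (nn q) 4 m

/-- number of level data with multiplicities at most one -/
def cr (q m : ℕ) : ℕ := n0 q m + 4 * sf (n0 q) 1 m + 4 * sf (n0 q) 2 m

variable [Fintype F] (h2 : (2 : F) ≠ 0)
include h2

theorem card_lv_cc {γ : Prop} (m : ℕ) (t : Finset (Lv F)) (h : ∀ a ∈ t, a.Adm γ ∧ a.deg = m) :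
    t.card ≤ cc (Fintype.card F) m := by
  refine (card_lv_gen h2 Pal _ card_pal univ m t fun a ha =>
    ⟨(h a ha).1, (h a ha).2, (h a ha).1.pal h2, mem_univ _⟩).trans (le_of_eq ?_)
  change ∑ e : (Bool × Bool) × (Bool × Bool), sf (nn _) (wt e.1 + wt e.2) m = _
  simp only [Fintype.sum_prod_type, Fintype.sum_bool, wt, cc, Bool.toNat_true, Bool.toNat_false]
  simp [sf_zero]
  ring

theorem card_lv_nn {γ : Prop} (m : ℕ) (t : Finset (Lv F))
    (h : ∀ a ∈ t, a.Adm γ ∧ a.deg = m ∧ (γ → ∀ s, a.m s = 0)) : t.card ≤ nn (Fintype.card F) m := by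
  refine (card_lv_gen h2 Pal _ card_pal {((false, false), (false, false))} m t fun a ha =>
    ⟨(h a ha).1, (h a ha).2.1, (h a ha).1.pal h2, ?_⟩).trans (by simp [wt])
  have e : ∀ s, bt (a.m s) (a.δ s) = (false, false) := fun s => by
    have e1 : a.δ s = false := by
      by_contra e
      have := (h a ha).1.pos s (by simpa using e)
      rw [(h a ha).2.2 this.2] at this
      exact lt_irrefl _ this.1
    have e2 : a.m s % 2 = 0 := by
      by_cases hγ : γ
      · rw [(h a ha).2.2 hγ]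
      · exact Nat.even_iff.1 ((h a ha).1.even hγ s)
    simp [bt, e1, e2]
  simp [Lv.e, e]

theorem card_lv_cr {γ : Prop} (m : ℕ) (t : Finset (Lv F))
    (h : ∀ a ∈ t, a.Adm γ ∧ a.deg = m ∧ ∀ s, a.m s ≤ 1) : t.card ≤ cr (Fintype.card F) m := by
  refine (card_lv_gen h2 _ _ (card_pal0 h2) (univ.erase (true, true) ×ˢ univ.erase (true, true)) m t fun a ha =>
    ⟨(h a ha).1, (h a ha).2.1, ⟨(h a ha).1.pal h2, ?_⟩, ?_⟩).trans (le_of_eq ?_)
  · have e : ∀ s, (a.m s - wt (bt (a.m s) (a.δ s))) / 2 = 0 := fun s => by have := (h a ha).2.2 s; omega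
    rw [Lv.H, e, e]
    simpa using ⟨(h a ha).1.ev false, (h a ha).1.ev true⟩
  · have e : ∀ s, bt (a.m s) (a.δ s) ≠ (true, true) := fun s e => by
      have e1 := bt_spec fun e => ((h a ha).1.pos s e).1
      have := (h a ha).2.2 s
      rw [e] at e1
      simp [wt] at e1
      omega
    simp [Lv.e, e]
  · have e : (univ : Finset (Bool × Bool)).erase (true, true) = {(false, false), (true, false), (false, true)} := by
      decide
    change ∑ e ∈ _, (fun e : (Bool × Bool) × (Bool × Bool) => sf (n0 _) (wt e.1 + wt e.2) m) e = _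
    rw [e, sum_product]
    simp [wt, cr, sf_zero]
    ring

/-- the weights: `γ = 0` symplectic, `γ = 1` orthogonal -/
def ww (q γ i m : ℕ) : ℕ := if i % 2 = γ then cc q m else nn q m

theorem card_lv_ww (γ i m : ℕ) (t : Finset (Lv F)) (h : ∀ a ∈ t, a.Adm (i % 2 = γ) ∧ a.deg = m) :
    t.card ≤ ww (Fintype.card F) γ i m := by
  rw [ww]
  split_ifs with hγ
  · exact card_lv_cc h2 m t h
  · exact card_lv_nn h2 m t fun a ha => ⟨(h a ha).1, (h a ha).2, fun e => absurd e hγ⟩

omit [Fintype F] h2 in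
theorem Lv.Adm.congr {γ γ' : Prop} {a : Lv F} (h : a.Adm γ) (e : γ ↔ γ') : a.Adm γ' := propext e ▸ h

variable {V : Type*} [AddCommGroup V] [Module F V] {φ : Form F V} [φ.Nondeg] [FiniteDimensional F V]

theorem card_le_sp (hσ : ∀ a, φ.σ a = a) (hε : φ.ε = -1) :
    Nat.card (ConjClasses φ.Isom) ≤ Z (ww (Fintype.card F) 0) (finrank F V + 1) 1 (finrank F V) := by
  classical
  haveI : Finite V := Module.finite_of_finite F
  haveI : Finite (V ≃ₗ[F] V) := Finite.of_injective _ DFunLike.coe_injective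
  haveI := Fintype.ofFinite (ConjClasses φ.Isom)
  obtain ⟨D, d1, d2, d3, -⟩ := exists_data (φ := φ) h2 hσ (Nat.lt_succ_self _)
  rw [Nat.card_eq_fintype_card, ← card_univ]
  refine card_le_Z _ Lv.deg (fun i a => a.Adm (i % 2 = 0)) (card_lv_ww h2 0) (fun C => D (rp C)) _ 1 _ _ one_pos
    (fun C _ i hi => (d1 _ i hi).congr ?_) (fun C _ => d2 _) fun C _ C' _ h => ?_
  · rw [mem_Ico] at hi
    obtain ⟨j, rfl⟩ : ∃ j, i = j + 1 := ⟨i - 1, by omega⟩
    rw [hε, Nat.add_sub_cancel, ← pow_succ', neg_one_pow_eq_one_iff_even (fun e => h2 (by linear_combination -e)),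
      Nat.even_iff]
  · rw [← mk_rp C, ← mk_rp C', ConjClasses.mk_eq_mk_iff_isConj]
    exact d3 _ _ false 1 odd_one fun i hi => by rw [h i hi]; simp

theorem card_le_half (hQ : φ.IsQuad) (T : Finset (ConjClasses φ.Isom)) (r : Prop) (w : ℕ → ℕ → ℕ)
    (hw : ∀ i m (t : Finset (Lv F)), (∀ a ∈ t, (a.Adm (i % 2 = 1) ∧ (r → i = 1 → ∀ s, a.m s ≤ 1)) ∧ a.deg = m) →
      t.card ≤ w i m)
    (hT : r → ∀ C ∈ T, ∀ s W, φ.NondegOn W → (∀ x ∈ W, (sg s (rp C)).1 x = x) → finrank F W ≤ 1) :
    2 * T.card ≤ Z w (finrank F V + 1) 1 (finrank F V) +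
      Z (fun _ => nn (Fintype.card F)) (finrank F V + 1) 1 (finrank F V) := by
  classical
  obtain ⟨D, d1, d2, d3, d4⟩ := exists_data (φ := φ) h2 hQ.σ_eq (Nat.lt_succ_self _)
  set I := Ico 1 (1 + (finrank F V).succ) with hI
  have d5 : ∀ g, ∀ i ∈ I, (D g i).Adm (i % 2 = 1) := fun g i hi => (d1 g i hi).congr (by
    rw [hI, mem_Ico] at hi
    rw [hQ.ε_eq, one_mul, neg_one_pow_eq_one_iff_even (fun e => h2 (by linear_combination -e)), Nat.even_iff]
    omega)
  let R : ConjClasses φ.Isom → Bool × ℕ → Prop := fun C p => p.2 % 2 = 1 ∧ p.2 ∈ I ∧ 0 < (D (rp C) p.2).m p.1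
  let p : ConjClasses φ.Isom → Bool × ℕ := fun C => Classical.epsilon (R C)
  have hp : ∀ C, (∃ x, R C x) → R C (p C) := fun C h => Classical.epsilon_spec h
  let ψ : ConjClasses φ.Isom × Bool → ℕ → Lv F := fun x i =>
    ⟨(D (rp x.1) i).h, (D (rp x.1) i).m, fun s =>
      if (∃ y, R x.1 y) ∧ (s, i) = p x.1 then x.2 else (D (rp x.1) i).δ s⟩
  have h1 : ((T ×ˢ univ).filter fun x : ConjClasses φ.Isom × Bool => x.2 = false ∨ ∃ y, R x.1 y).card ≤
      Z w (finrank F V + 1) 1 (finrank F V) := by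
    refine card_le_Z w Lv.deg (fun i a => a.Adm (i % 2 = 1) ∧ (r → i = 1 → ∀ s, a.m s ≤ 1)) hw ψ _ 1 _ _ one_pos
      (fun x hx i hi => ⟨?_, ?_⟩) (fun x _ => d2 _) fun x hx y hy h => ?_
    · have := d5 (rp x.1) i hi
      refine ⟨this.mc, this.dual, this.ev, fun s hs => ?_, this.even⟩
      by_cases e : (∃ y, R x.1 y) ∧ (s, i) = p x.1
      · have := hp _ e.1
        rw [← e.2] at this
        exact ⟨this.2.2, this.1⟩
      · exact this.pos s (by simpa only [ψ, if_neg e] using hs)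
    · rintro hr rfl s
      obtain ⟨W, w1, w2, w3⟩ := d4 (rp x.1) s
      exact w2 ▸ hT hr x.1 (mem_product.1 (mem_filter.1 hx).1).1 s W w1 w3
    · have e1 : ∀ i ∈ I, (D (rp x.1) i).m = (D (rp y.1) i).m := fun i hi => (congrArg Lv.m (h i hi) :)
      have e2 : R x.1 = R y.1 := funext fun z => propext (and_congr_right fun _ => and_congr_right fun hz => by
        rw [e1 _ hz])
      have e3 : p x.1 = p y.1 := congrArg Classical.epsilon e2
      have e4 : ∀ i ∈ I, ∀ s, (ψ x i).δ s = (ψ y i).δ s := fun i hi s => by rw [h i hi]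
      have e5 : x.1 = y.1 := by
        rw [← mk_rp x.1, ← mk_rp y.1, ConjClasses.mk_eq_mk_iff_isConj]
        by_cases e : ∃ z, R x.1 z
        · refine d3 _ _ (p x.1).1 (p x.1).2 (Nat.odd_iff.2 (hp _ e).1) fun i hi =>
            ⟨(congrArg Lv.h (h i hi) :), e1 i hi, fun s hs => ?_⟩
          have := e4 i hi s
          simp only [ψ] at this
          rwa [if_neg fun c => hs c.2, if_neg fun c => hs (c.2.trans e3.symm)] at this
        · refine d3 _ _ false 1 odd_one fun i hi => ⟨(congrArg Lv.h (h i hi) :), e1 i hi, fun s _ => ?_⟩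
          have := e4 i hi s
          simp only [ψ] at this
          rwa [if_neg fun c => e c.1, if_neg fun c => e (e2 ▸ c.1)] at this
      refine Prod.ext e5 ?_
      by_cases e : ∃ z, R x.1 z
      · have := e4 _ (hp _ e).2.1 (p x.1).1
        dsimp only [ψ] at this
        rwa [if_pos ⟨e, rfl⟩, if_pos ⟨e2 ▸ e, e3⟩] at this
      · rw [(mem_filter.1 hx).2.resolve_right e, (mem_filter.1 hy).2.resolve_right (e2 ▸ e)]
  have h3 : (T.filter fun C => ¬ ∃ y, R C y).card ≤
      Z (fun _ => nn (Fintype.card F)) (finrank F V + 1) 1 (finrank F V) := by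
    refine card_le_Z _ Lv.deg (fun i a => a.Adm (i % 2 = 1) ∧ (i % 2 = 1 → ∀ s, a.m s = 0))
      (fun i m t ht => card_lv_nn h2 m t fun a ha => ⟨(ht a ha).1.1, (ht a ha).2, (ht a ha).1.2⟩)
      (fun C => D (rp C)) _ 1 _ _ one_pos
      (fun C hC i hi => ⟨d5 _ i hi, fun hi' s => ?_⟩) (fun x _ => d2 _) fun C _ C' _ h => ?_
    · by_contra e
      exact (mem_filter.1 hC).2 ⟨(s, i), hi', hi, Nat.pos_of_ne_zero e⟩
    · rw [← mk_rp C, ← mk_rp C', ConjClasses.mk_eq_mk_iff_isConj]
      exact d3 _ _ false 1 odd_one fun i hi => by rw [h i hi]; simp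
  refine le_trans (le_of_eq ?_) (add_le_add h1 h3)
  rw [card_filter, sum_product, card_filter, ← sum_add_distrib, mul_comm, ← smul_eq_mul, ← sum_const]
  refine sum_congr rfl fun C _ => ?_
  by_cases e : ∃ y, R C y <;> simp [e]

end Wal
end H16
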