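import Mathlib
import Cfsg.Agent.H16.Wal4

/-!
# Numerical bounds for the class numbers of symplectic and orthogonal groups (odd characteristic)

`Z_sp_le`, `Z_o_le`, `Z_odd_le`, `Z_three_le`, `Z_nn_odd`
-/

open Finset

namespace H16
namespace Wal

open Cnt

theorem sum_nn_le (q : ℕ) {y z : ℝ} (hy : 0 ≤ y) (hz : q * y ^ 2 ≤ z) (h1 : z < 1) (M : ℕ) :
    ∑ m ∈ range M, (nn q m : ℝ) * y ^ m ≤ 1 / (1 - z) := by
  have e : ∀ M, ∑ m ∈ range (2 * M), (nn q m : ℝ) * y ^ m = ∑ j ∈ range M, (q * y ^ 2) ^ j := fun M => by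
    induction M with
    | zero => simp
    | succ M ih =>
      rw [show 2 * (M + 1) = 2 * M + 1 + 1 by ring, sum_range_succ, sum_range_succ, ih, sum_range_succ, nn, nn,
        if_pos (by omega), if_neg (by omega), show 2 * M / 2 = M by omega, pow_mul, mul_pow]
      simp
  refine (sum_le_sum_of_subset_of_nonneg (range_subset_range.2 (by omega : M ≤ 2 * M))
    fun _ _ _ => by positivity).trans ?_
  rw [e]
  refine le_trans (sum_le_sum fun j _ => pow_le_pow_left₀ (by positivity) hz j) ?_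
  exact geom_le (le_trans (by positivity) hz) h1 M

theorem sf_mul (ν : ℕ → ℕ) (j m : ℕ) (y : ℝ) :
    (sf ν j m : ℝ) * y ^ m = y ^ j * if j ≤ m then (ν (m - j) : ℝ) * y ^ (m - j) else 0 := by
  rw [sf]
  split_ifs with h
  · rw [show y ^ m = y ^ j * y ^ (m - j) by rw [← pow_add]; congr 1; omega]; ring
  · simp

theorem sum_sf_le (ν : ℕ → ℕ) (j : ℕ) {y G : ℝ} (hy : 0 ≤ y) {M : ℕ} (h : ∑ m ∈ range M, (ν m : ℝ) * y ^ m ≤ G) :
    ∑ m ∈ range M, (sf ν j m : ℝ) * y ^ m ≤ y ^ j * G := by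
  simp only [sf_mul, ← mul_sum]
  exact mul_le_mul_of_nonneg_left
    ((sum_shift_le (fun t => (ν t : ℝ) * y ^ t) (fun _ => by positivity) j M).trans h) (by positivity)

theorem GB_ww (q γ i : ℕ) {u y z : ℝ} (hu : 0 ≤ u) (hy : u ^ i ≤ y) (hz : q * (u ^ i) ^ 2 ≤ z) (h1 : z < 1) :
    GB (ww q γ) u i ((if i % 2 = γ then (1 + y) ^ 4 else 1) / (1 - z)) := by
  intro M
  have h0 : 0 ≤ u ^ i := by positivity
  have h2 := sum_nn_le q h0 hz h1 M
  simp only [ww, pow_mul]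
  split_ifs with h
  · simp only [cc, Nat.cast_add, Nat.cast_mul, add_mul, sum_add_distrib, mul_assoc, ← mul_sum]
    have a1 := sum_sf_le _ 1 h0 h2
    have a2 := sum_sf_le _ 2 h0 h2
    have a3 := sum_sf_le _ 3 h0 h2
    have a4 := sum_sf_le _ 4 h0 h2
    have h3 : 0 < 1 - z := by linarith
    calc _ ≤ (1 + u ^ i) ^ 4 * (1 / (1 - z)) := by push_cast; linarith
      _ ≤ (1 + y) ^ 4 * (1 / (1 - z)) := by gcongr
      _ = _ := by ring
  · exact h2

theorem RB.prod {w : ℕ → ℕ → ℕ} {u : ℝ} (hu : 0 ≤ u) {j J : ℕ} (hj : j ≤ J) {B : ℝ} (h : RB w u J B) (G : ℕ → ℝ)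
    (hG : ∀ i, j ≤ i → i < J → GB w u i (G i) ∧ 1 ≤ G i) : RB w u j (B * ∏ i ∈ Ico j J, G i) := by
  induction J, hj using Nat.le_induction generalizing B with
  | base => simpa using h
  | succ J hj ih =>
    have h1 := h.one_le
    obtain ⟨h2, h3⟩ := hG J hj (by omega)
    have := ih (h.step hu h2 (B' := G J * B) (by nlinarith) le_rfl) fun i a b => hG i a (by omega)
    rwa [prod_Ico_succ_top hj, mul_comm _ (G J), ← mul_assoc, mul_comm B]

theorem RB_num (q γ : ℕ) {u ρ A : ℝ} (hu : 0 ≤ u) (h1 : u ≤ ρ) (h2 : ρ ≤ 1) (h3 : 3 * ρ ^ 4 < 1)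
    (hq : ∀ i, 2 ≤ i → q * (u ^ i) ^ 2 ≤ 3 * (ρ ^ i) ^ 2) {J : ℕ} (hJ : 2 ≤ J) (h4 : ρ ^ J ≤ 1 / 100) (hA : 0 ≤ A)
    (h5 : 41 / 10 + A * ρ + 41 / 10 * A * ρ ^ (J + 1) ≤ A) :
    RB (ww q γ) u 2 ((1 + A * ρ ^ J) *
      ∏ i ∈ Ico 2 J, (if i % 2 = γ then (1 + ρ ^ i) ^ 4 else 1) / (1 - 3 * (ρ ^ i) ^ 2)) := by
  have h0 : 0 ≤ ρ := hu.trans h1
  have e1 : ∀ i, 2 ≤ i → 3 * (ρ ^ i) ^ 2 < 1 := fun i hi => lt_of_le_of_lt (by
    rw [← pow_mul]
    exact mul_le_mul_of_nonneg_left (pow_le_pow_of_le_one h0 h2 (by omega)) (by norm_num)) h3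
  have e2 : ∀ i, 2 ≤ i → GB (ww q γ) u i ((if i % 2 = γ then (1 + ρ ^ i) ^ 4 else 1) / (1 - 3 * (ρ ^ i) ^ 2)) :=
    fun i hi => GB_ww q γ i hu (pow_le_pow_left₀ hu h1 i) (hq i hi) (e1 i hi)
  have e3 : ∀ i, (if i % 2 = γ then (1 + ρ ^ i) ^ 4 else 1) ≤ (1 + ρ ^ i) ^ 4 ∧
      1 ≤ (if i % 2 = γ then (1 + ρ ^ i) ^ 4 else 1) := fun i => by
    have : 1 ≤ (1 + ρ ^ i) ^ 4 := one_le_pow₀ (by have := pow_nonneg h0 i; linarith)
    split_ifs <;> simp [this]
  refine RB.prod hu hJ (RB.tail hu h0 h2 (C := 41 / 10) (by norm_num) hA (fun i hi => (e2 i (by omega)).mono ?_) h5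
    le_rfl) _ fun i hi _ => ⟨e2 i hi, ?_⟩
  · have a1 := e1 i (by omega)
    have a2 : ρ ^ i ≤ 1 / 100 := (pow_le_pow_of_le_one h0 h2 hi).trans h4
    have a3 := pow_nonneg h0 i
    rw [div_le_iff₀ (by linarith)]
    refine (e3 i).1.trans ?_
    generalize ρ ^ i = y at *
    have a4 : y ^ 2 ≤ y / 100 := by nlinarith
    have a5 : y ^ 3 ≤ y / 10000 := by nlinarith
    have a6 : y ^ 4 ≤ y / 10000 := by nlinarith
    nlinarith
  · have a1 := e1 i hi
    rw [le_div_iff₀ (by linarith)]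
    have := (e3 i).2
    have a3 := sq_nonneg (ρ ^ i)
    linarith

theorem exists_u {q : ℕ} (hq : 0 < q) : ∃ u : ℝ, 0 < u ∧ q * u ^ 2 = 1 := by
  have h : (0 : ℝ) < q := by exact_mod_cast hq
  refine ⟨(√q)⁻¹, by positivity, ?_⟩
  rw [inv_pow, Real.sq_sqrt h.le, mul_inv_cancel₀ h.ne']

section
variable {q : ℕ} {u : ℝ} (hu : 0 < u) (hqu : q * u ^ 2 = 1)
include hu hqu

theorem u_le {c : ℕ} {ρ : ℝ} (hq : c ≤ q) (h0 : 0 ≤ ρ) (h : 1 ≤ c * ρ ^ 2) : u ≤ ρ := by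
  have h1 : (c : ℝ) ≤ q := by exact_mod_cast hq
  refine abs_le_of_sq_le_sq' ?_ h0 |>.2
  by_contra h2
  push Not at h2
  have h3 : (0 : ℝ) ≤ c := by positivity
  have h4 : (c : ℝ) * ρ ^ 2 ≤ q * ρ ^ 2 := by gcongr
  have h5 : (0 : ℝ) < q := by
    by_contra h6
    have : (q : ℝ) = 0 := le_antisymm (not_lt.1 h6) (by positivity)
    rw [this] at hqu; simp at hqu
  have h6 : (q : ℝ) * ρ ^ 2 < q * u ^ 2 := by gcongr
  linarith

theorem q_mul_pow (i : ℕ) : q * (u ^ (i + 1)) ^ 2 = (u ^ i) ^ 2 := by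
  rw [pow_succ u, mul_pow, mul_left_comm, hqu, mul_one]

theorem hq_of {ρ : ℝ} (h1 : u ≤ ρ) (h2 : 1 ≤ 3 * ρ ^ 2) (i : ℕ) (hi : 2 ≤ i) : q * (u ^ i) ^ 2 ≤ 3 * (ρ ^ i) ^ 2 := by
  obtain ⟨j, rfl⟩ : ∃ j, i = j + 1 := ⟨i - 1, by omega⟩
  rw [q_mul_pow hu hqu, pow_succ ρ j, mul_pow]
  have : (u ^ j) ^ 2 ≤ (ρ ^ j) ^ 2 := by gcongr
  nlinarith [sq_nonneg (ρ ^ j)]

theorem nn_mul (m : ℕ) : (nn q m : ℝ) * u ^ m = if m % 2 = 0 then 1 else 0 := by
  rw [nn]
  split_ifs with h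
  · conv_lhs => rw [show u ^ m = (u ^ 2) ^ (m / 2) by rw [← pow_mul]; congr 1; omega]
    push_cast
    rw [← mul_pow, hqu, one_pow]
  · simp

theorem sf_nn_le (j m : ℕ) : (sf (nn q) j m : ℝ) * u ^ m ≤ if m % 2 = j % 2 then u ^ j else 0 := by
  rw [sf_mul, nn_mul hu hqu]
  split_ifs <;> first | omega | simp [hu.le]

theorem cc_le (m : ℕ) : (cc q m : ℝ) * u ^ m ≤ if m % 2 = 0 then 1 + 6 * u ^ 2 + u ^ 4 else 4 * u + 4 * u ^ 3 := by
  have a0 := nn_mul hu hqu m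
  have a1 := sf_nn_le hu hqu 1 m
  have a2 := sf_nn_le hu hqu 2 m
  have a3 := sf_nn_le hu hqu 3 m
  have a4 := sf_nn_le hu hqu 4 m
  simp only [cc, Nat.cast_add, Nat.cast_mul, add_mul, mul_assoc]
  push_cast
  generalize (nn q m : ℝ) * u ^ m = x at *
  rcases Nat.mod_two_eq_zero_or_one m with e | e <;> simp [e] at a0 a1 a2 a3 a4 ⊢ <;> linarith

theorem le_of_mul_u {a : ℕ} {c : ℝ} (n : ℕ) (h : (a : ℝ) * u ^ (2 * n) ≤ c) : (a : ℝ) ≤ c * q ^ n := by
  have e : (q : ℝ) ^ n * u ^ (2 * n) = 1 := by rw [pow_mul, ← mul_pow, hqu, one_pow]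
  calc (a : ℝ) = a * u ^ (2 * n) * q ^ n := by rw [mul_assoc, mul_comm (u ^ _), e, mul_one]
    _ ≤ _ := by gcongr

theorem RB_three (hq : 3 ≤ q) : RB (ww q 0) u 2 (108 / 10) ∧ RB (ww q 1) u 2 (528 / 100) ∧
    RB (ww q 2) u 2 (182 / 100) := by
  have h1 := u_le hu hqu hq (ρ := 5774 / 10000) (by norm_num) (by norm_num)
  have h2 := fun γ => RB_num q γ hu.le h1 (by norm_num) (by norm_num) (hq_of hu hqu h1 (by norm_num)) (J := 14)
    (by norm_num) (by norm_num) (A := 98 / 10) (by norm_num) (by norm_num)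
  refine ⟨(h2 0).mono ?_, (h2 1).mono ?_, (h2 2).mono ?_⟩ <;>
  · simp only [prod_Ico_eq_prod_range, Nat.reduceSub, prod_range_succ, prod_range_zero]
    norm_num

theorem RB_five (hq : 5 ≤ q) : RB (ww q 1) u 2 (1 + 36 / 10 * u) := by
  have h1 := u_le hu hqu hq (ρ := 4473 / 10000) (by norm_num) (by norm_num)
  have h2 : u ^ 2 ≤ 2001 / 10000 := by nlinarith
  have h3 : u ^ 4 ≤ 401 / 10000 := by nlinarith
  have h0 : u ≤ 1 := by linarith
  have e : ∀ i, 1 ≤ i → GB (ww q 1) u (i + 1)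
      ((if (i + 1) % 2 = 1 then (1 + u ^ (i + 1)) ^ 4 else 1) / (1 - (u ^ i) ^ 2)) := fun i hi =>
    GB_ww q 1 _ hu.le le_rfl (q_mul_pow hu hqu i).le (by
      have : u ^ i ≤ u ^ 1 := pow_le_pow_of_le_one hu.le h0 hi
      have := pow_pos hu i
      nlinarith)
  have r4 : RB (ww q 1) u 4 (1 + 10 * u ^ 4) := by
    refine RB.tail hu.le hu.le h0 (C := 45 / 10) (by norm_num) (by norm_num) (J := 4) (fun i hi => ?_) ?_ le_rfl
    · obtain ⟨j, rfl⟩ : ∃ j, i = j + 1 := ⟨i - 1, by omega⟩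
      refine (e j (by omega)).mono ?_
      have a1 : (u ^ j) ^ 2 ≤ 2001 / 10000 * u ^ (j + 1) := by
        have : (u ^ j) ^ 2 ≤ u ^ 2 * u ^ (j + 1) := by
          rw [← pow_mul, ← pow_add]; exact pow_le_pow_of_le_one hu.le h0 (by omega)
        have := pow_pos hu (j + 1)
        nlinarith
      have a2 : u ^ (j + 1) ≤ 401 / 10000 := (pow_le_pow_of_le_one hu.le h0 hi).trans h3
      have a3 := (pow_pos hu (j + 1)).le
      have a4 : (if (j + 1) % 2 = 1 then (1 + u ^ (j + 1)) ^ 4 else 1) ≤ (1 + u ^ (j + 1)) ^ 4 := by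
        split_ifs
        · exact le_rfl
        · exact one_le_pow₀ (by linarith)
      rw [div_le_iff₀ (by linarith)]
      refine a4.trans ?_
      generalize u ^ (j + 1) = y at *
      generalize (u ^ j) ^ 2 = z at *
      have a5 : y ^ 2 ≤ 401 / 10000 * y := by nlinarith
      have a6 : y ^ 3 ≤ y / 500 := by nlinarith
      have a7 : y ^ 4 ≤ y / 500 := by nlinarith
      have a8 : y * z ≤ y * (2001 / 10000 * y) := by gcongr
      nlinarith
    · have : u ^ (4 + 1) ≤ 18 / 1000 := by rw [pow_succ]; nlinarith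
      linarith
  have g3 : GB (ww q 1) u 3 (1 + 24 / 10 * u ^ 2) := (e 2 (by norm_num)).mono (by
    rw [if_pos (by norm_num), div_le_iff₀ (by nlinarith)]
    have a1 : u ^ (2 + 1) ≤ 4473 / 10000 * u ^ 2 := by rw [pow_succ]; nlinarith [sq_nonneg u]
    have a2 := (pow_pos hu (2 + 1)).le
    have a3 := sq_nonneg u
    generalize u ^ (2 + 1) = y at *
    generalize u ^ 2 = r at *
    have a4 : y ≤ 9 / 100 := by linarith
    have a5 : y ^ 2 ≤ 9 / 100 * y := by nlinarith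
    have a6 : y ^ 3 ≤ 81 / 10000 * y := by nlinarith
    have a7 : y ^ 4 ≤ y / 1000 := by nlinarith
    have a8 : r ^ 2 ≤ 2001 / 10000 * r := by nlinarith
    have a9 : r ^ 3 ≤ 401 / 10000 * r := by nlinarith
    nlinarith)
  have g2 : GB (ww q 1) u 2 (1 + 126 / 100 * u ^ 2) := (e 1 (by norm_num)).mono (by
    rw [if_neg (by norm_num), pow_one, div_le_iff₀ (by nlinarith)]
    nlinarith [sq_nonneg u])
  have a3 := sq_nonneg u
  have r3 := (r4.mono (B' := 1 + 2001 / 1000 * u ^ 2) (by nlinarith)).step hu.le g3 (B' := 1 + 537 / 100 * u ^ 2)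
    (by linarith) (by nlinarith)
  exact r3.step hu.le g2 (by linarith) (by nlinarith)

end

theorem Z_one_eq (w : ℕ → ℕ → ℕ) (k n : ℕ) (u : ℝ) : (Z w (k + 1) 1 n : ℝ) * u ^ n =
    ∑ t ∈ range (n + 1), (w 1 (n - t) * u ^ (n - t)) * (Z w k 2 t * u ^ t) := by
  rw [Z, ← sum_range_reflect]
  push_cast
  rw [sum_mul]
  refine sum_congr rfl fun t ht => ?_
  rw [mem_range] at ht
  rw [if_pos (by omega), show n - 1 * (n - t) = t by omega,
    show u ^ n = u ^ (n - t) * u ^ t by rw [← pow_add]; congr 1; omega]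
  ring

theorem Z_congr {w w' : ℕ → ℕ → ℕ} {j₀ : ℕ} (h : ∀ i, j₀ ≤ i → w i = w' i) :
    ∀ k j n, j₀ ≤ j → Z w k j n = Z w' k j n := by
  intro k
  induction k with
  | zero => intro j n _; rfl
  | succ k ih => intro j n hj; simp only [Z, h j hj, ih (j + 1) _ (by omega)]

theorem ww_zero (q γ i : ℕ) : ww q γ i 0 = 1 := by simp [ww, cc, nn, sf]

theorem nn_eq_ww (q : ℕ) : (fun _ => nn q) = ww q 2 := by
  funext i m
  rw [ww, if_neg (by omega)]

theorem Z_nn_odd (q : ℕ) : ∀ k j n, Odd n → Z (fun _ => nn q) k j n = 0 := by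
  intro k
  induction k with
  | zero => intro j n hn; rw [Z, if_neg]; rintro rfl; simp at hn
  | succ k ih =>
    intro j n hn
    rw [Z]
    refine sum_eq_zero fun m _ => ?_
    split_ifs with h
    · by_cases hm : m % 2 = 0
      · rw [ih _ _ (Nat.Odd.sub_even h hn ((Nat.even_iff.2 hm).mul_left j)), mul_zero]
      · rw [nn, if_neg hm, zero_mul]
    · rfl

theorem Z_sp_le {q : ℕ} (hq : 3 ≤ q) (k n : ℕ) : 5 * Z (ww q 0) (k + 1) 1 (2 * n) ≤ 54 * q ^ n := by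
  obtain ⟨u, hu, hqu⟩ := exists_u (q := q) (by omega)
  have h1 := le_of_mul_u hu hqu n (Z_one_le hu.le (RB_three hu hqu hq).1 (C := 1) (fun m => by
    rw [ww, if_neg (by norm_num), nn_mul hu hqu]; split_ifs <;> norm_num) k (2 * n))
  have : (5 : ℝ) * Z (ww q 0) (k + 1) 1 (2 * n) ≤ 54 * q ^ n := by linarith
  exact_mod_cast this

theorem Z_o_le {q : ℕ} (hq : 3 ≤ q) (k n : ℕ) :
    Z (ww q 1) (k + 1) 1 (2 * n) + Z (fun _ => nn q) (k + 1) 1 (2 * n) ≤ 19 * q ^ n := by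
  obtain ⟨u, hu, hqu⟩ := exists_u (q := q) (by omega)
  have h0 := u_le hu hqu hq (ρ := 5774 / 10000) (by norm_num) (by norm_num)
  have h1 := le_of_mul_u hu hqu n (Z_one_le hu.le (RB_three hu hqu hq).2.1 (C := 32 / 10) (fun m => by
    rw [ww, if_pos (by norm_num)]
    refine (cc_le hu hqu m).trans ?_
    have a2 : u ^ 2 ≤ 3334 / 10000 := by nlinarith
    split_ifs <;> nlinarith) k (2 * n))
  have h2 := le_of_mul_u hu hqu n (Z_one_le hu.le (RB_three hu hqu hq).2.2 (C := 1) (fun m => by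
    rw [ww, if_neg (by norm_num), nn_mul hu hqu]; split_ifs <;> norm_num) k (2 * n))
  rw [nn_eq_ww]
  have h3 : (0 : ℝ) ≤ q ^ n := by positivity
  have : (Z (ww q 1) (k + 1) 1 (2 * n) : ℝ) + Z (ww q 2) (k + 1) 1 (2 * n) ≤ 19 * q ^ n := by linarith
  exact_mod_cast this

theorem Z_odd_le {q : ℕ} (hq : 5 ≤ q) (k n : ℕ) : 5 * Z (ww q 1) (k + 1) 1 (2 * n + 1) ≤ 73 * q ^ n := by
  obtain ⟨u, hu, hqu⟩ := exists_u (q := q) (by omega)
  have h0 := u_le hu hqu hq (ρ := 4473 / 10000) (by norm_num) (by norm_num)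
  have a2 : u ^ 2 ≤ 2001 / 10000 := by nlinarith
  have h1 := RB_five hu hqu hq k (2 * n + 1 + 1)
  have h2 := Z_one_eq (ww q 1) k (2 * n + 1) u
  rw [sum_range_succ'] at h1 h2
  rw [Z_zero_le _ (ww_zero q 1)] at h1 h2
  have h3 : ∀ m, (ww q 1 1 m : ℝ) * u ^ m ≤ 225 / 100 := fun m => by
    rw [ww, if_pos (by norm_num)]
    refine (cc_le hu hqu m).trans ?_
    split_ifs <;> nlinarith
  have h4 : (ww q 1 1 (2 * n + 1 - 0) : ℝ) * u ^ (2 * n + 1 - 0) ≤ 481 / 100 * u := by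
    rw [ww, if_pos (by norm_num)]
    refine (cc_le hu hqu _).trans ?_
    rw [if_neg (by omega)]
    nlinarith
  have h5 : ∑ t ∈ range (2 * n + 1), (ww q 1 1 (2 * n + 1 - (t + 1)) * u ^ (2 * n + 1 - (t + 1))) *
      (Z (ww q 1) k 2 (t + 1) * u ^ (t + 1)) ≤
      225 / 100 * ∑ t ∈ range (2 * n + 1), Z (ww q 1) k 2 (t + 1) * u ^ (t + 1) := by
    rw [mul_sum]
    exact sum_le_sum fun t _ => mul_le_mul_of_nonneg_right (h3 _) (by positivity)
  have h6 : (Z (ww q 1) (k + 1) 1 (2 * n + 1) : ℝ) * u ^ (2 * n) ≤ 73 / 5 := by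
    refine le_of_mul_le_mul_right ?_ hu
    rw [mul_assoc, ← pow_succ, h2]
    simp only [Nat.cast_one, pow_zero, mul_one] at h1 ⊢
    linarith
  have h7 := le_of_mul_u hu hqu n h6
  have : (5 : ℝ) * Z (ww q 1) (k + 1) 1 (2 * n + 1) ≤ 73 * q ^ n := by linarith
  exact_mod_cast this

/-- the weights with restricted first level -/
def wr (q i m : ℕ) : ℕ := if i = 1 then cr q m else ww q 1 i m

/-- table of values of `Z` -/
def dp (w : ℕ → ℕ → ℕ) (L : ℕ) : ℕ → List ℕ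
  | 0 => (List.range L).map fun t => if t = 0 then 1 else 0
  | r + 1 => (List.range L).map fun t => ∑ m ∈ range (t + 1),
      if (L - (r + 1)) * m ≤ t then w (L - (r + 1)) m * (dp w L r).getD (t - (L - (r + 1)) * m) 0 else 0

theorem Z_small {w : ℕ → ℕ → ℕ} (hw : ∀ i, w i 0 = 1) : ∀ k j t, t < j → Z w k j t = if t = 0 then 1 else 0 := by
  intro k
  induction k with
  | zero => intro j t _; rfl
  | succ k ih =>
    intro j t h
    rw [Z, sum_range_succ', sum_eq_zero fun m _ => if_neg (by nlinarith)]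
    simp [hw, ih (j + 1) t (by omega)]

theorem Z_le_dp {w : ℕ → ℕ → ℕ} (hw : ∀ i, w i 0 = 1) (L : ℕ) :
    ∀ r ≤ L, ∀ k, ∀ t < L, Z w k (L - r) t ≤ (dp w L r).getD t 0 := by
  intro r
  induction r with
  | zero => intro _ k t ht; rw [Z_small hw _ _ _ (by omega)]; simp [dp, ht]
  | succ r ih =>
    intro hr k t ht
    have e : (dp w L (r + 1)).getD t 0 = ∑ m ∈ range (t + 1), if (L - (r + 1)) * m ≤ t then
        w (L - (r + 1)) m * (dp w L r).getD (t - (L - (r + 1)) * m) 0 else 0 := by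
      rw [dp, List.getD_eq_getElem _ _ (by simpa using ht), List.getElem_map, List.getElem_range]
    rw [e]
    rcases k with _ | k
    · refine le_trans ?_ (single_le_sum (fun _ _ => Nat.zero_le _) (mem_range.2 (Nat.succ_pos t)))
      simpa [hw, Z] using ih (by omega) 0 t ht
    · rw [Z]
      refine sum_le_sum fun m _ => ?_
      split_ifs
      · exact Nat.mul_le_mul_left _ (by
          rw [show L - (r + 1) + 1 = L - r by omega]; exact ih (by omega) k _ (by omega))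
      · rfl

theorem three_small : ∀ n < 19, 5 * ∑ m ∈ range (2 * n + 1 + 1),
    (cc 3 m + 3 * cr 3 m) * (dp (ww 3 1) 38 36).getD (2 * n + 1 - m) 0 ≤ 292 * 3 ^ n := by decide +kernel

theorem Z_three_le (k n : ℕ) :
    5 * (Z (ww 3 1) (k + 1) 1 (2 * n + 1) + 3 * Z (wr 3) (k + 1) 1 (2 * n + 1)) ≤ 292 * 3 ^ n := by
  have hc := Z_congr (w := wr 3) (w' := ww 3 1) (j₀ := 2) fun i hi => funext fun m => if_neg (by omega)
  rcases lt_or_ge n 19 with h | h
  · refine le_trans (Nat.mul_le_mul_left _ ?_) (three_small n h)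
    rw [Z, Z, mul_sum, ← sum_add_distrib]
    refine sum_le_sum fun m hm => ?_
    rw [mem_range] at hm
    rw [if_pos (by omega), if_pos (by omega), hc _ _ _ le_rfl, one_mul, wr, if_pos rfl, ww, if_pos rfl, ← mul_assoc,
      ← add_mul]
    exact Nat.mul_le_mul_left _ (Z_le_dp (ww_zero 3 1) 38 36 (by norm_num) k _ (by omega))
  obtain ⟨u, hu, hqu⟩ := exists_u (q := 3) (by omega)
  have h0 := u_le hu hqu le_rfl (ρ := 5774 / 10000) (by norm_num) (by norm_num)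
  have a2 : u ^ 2 = 1 / 3 := by push_cast at hqu; linarith
  have a3 : u ^ 3 = u / 3 := by rw [pow_succ, a2]; ring
  have a4 : u ^ 4 = 1 / 9 := by rw [show u ^ 4 = (u ^ 2) ^ 2 by ring, a2]; norm_num
  have h0' : 5773 / 10000 ≤ u := by nlinarith
  have b1 : ∀ m, (n0 3 m : ℝ) * u ^ m ≤ if m % 2 = 0 then (if m = 0 then 1 else 4 / 9) else 0 := fun m => by
    rw [n0]
    split_ifs with c1 c2 c3
    · simp [c2]
    · rw [c3, a2]; norm_num
    · rw [show u ^ m = (u ^ 2) ^ (m / 2 - 2) * u ^ 4 by rw [← pow_mul, ← pow_add]; congr 1; omega, a2, a4]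
      push_cast
      have : (3 : ℝ) ^ (m / 2 - 2) * (1 / 3) ^ (m / 2 - 2) = 1 := by rw [← mul_pow]; norm_num
      nlinarith
    · simp
  have b2 : ∀ m, (ww 3 1 1 m : ℝ) * u ^ m + 3 * (wr 3 1 m * u ^ m) ≤
      56 / 9 + (if m = 1 then 38 / 10 else 0) + (if m = 2 then 23 / 10 else 0) := fun m => by
    have c0 := cc_le hu hqu m
    have c1 := b1 m
    have c2 := sf_mul (n0 3) 1 m u
    have c3 := sf_mul (n0 3) 2 m u
    have c4 := b1 (m - 1)
    have c5 := b1 (m - 2)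
    rw [ww, if_pos rfl, wr, if_pos rfl, cr]
    push_cast
    rw [add_mul, add_mul, mul_assoc, mul_assoc, c2, c3, a2, pow_one]
    rw [a2, a3, a4] at c0
    generalize (n0 3 (m - 1) : ℝ) * u ^ (m - 1) = x1 at *
    generalize (n0 3 (m - 2) : ℝ) * u ^ (m - 2) = x2 at *
    split_ifs at * <;> first | omega | nlinarith
  have r1 := (RB_three hu hqu le_rfl).2.1 k (2 * n + 1 + 1)
  have r2 : RB (ww 3 1) (68 / 100) 2 48 := (RB_num 3 1 (u := 68 / 100) (ρ := 68 / 100) (by norm_num) le_rfl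
    (by norm_num) (by norm_num) (fun i _ => by simp) (J := 12) (by norm_num) (by norm_num) (A := 15) (by norm_num)
    (by norm_num)).mono (by
      simp only [prod_Ico_eq_prod_range, Nat.reduceSub, prod_range_succ, prod_range_zero]
      norm_num)
  have r3 : ∀ t, 37 ≤ t → (Z (ww 3 1) k 2 t : ℝ) * u ^ t ≤ 114 / 1000 := fun t ht => by
    have c1 : (Z (ww 3 1) k 2 t : ℝ) * (68 / 100) ^ t ≤ 48 := le_trans
      (single_le_sum (f := fun t => (Z (ww 3 1) k 2 t : ℝ) * (68 / 100) ^ t) (fun _ _ => by positivity)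
        (mem_range.2 (Nat.lt_succ_self t))) (r2 k (t + 1))
    have c2 : u ^ t ≤ (68 / 100) ^ t * (5774 / 6800) ^ t := by
      rw [← mul_pow]; exact pow_le_pow_left₀ hu.le (by linarith) t
    have c3 : (5774 / 6800 : ℝ) ^ t ≤ (5774 / 6800) ^ 37 := pow_le_pow_of_le_one (by norm_num) (by norm_num) ht
    calc _ ≤ (Z (ww 3 1) k 2 t : ℝ) * ((68 / 100) ^ t * (5774 / 6800) ^ t) := by gcongr
      _ = (Z (ww 3 1) k 2 t : ℝ) * (68 / 100) ^ t * (5774 / 6800) ^ t := by ring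
      _ ≤ 48 * (5774 / 6800) ^ 37 := by gcongr
      _ ≤ _ := by norm_num
  have h6 : ((Z (ww 3 1) (k + 1) 1 (2 * n + 1) + 3 * Z (wr 3) (k + 1) 1 (2 * n + 1) : ℕ) : ℝ) * u ^ (2 * n)
      ≤ 292 / 5 := by
    refine le_of_mul_le_mul_right ?_ hu
    push_cast
    rw [mul_assoc, ← pow_succ, add_mul, mul_assoc, Z_one_eq, Z_one_eq, mul_sum, ← sum_add_distrib]
    calc _ ≤ ∑ t ∈ range (2 * n + 1 + 1), (56 / 9 * ((Z (ww 3 1) k 2 t : ℝ) * u ^ t) +
          (if 2 * n = t then 38 / 10 * (114 / 1000) else 0) + if 2 * n - 1 = t then 23 / 10 * (114 / 1000) else 0) := by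
          refine sum_le_sum fun t ht => ?_
          rw [hc _ _ _ le_rfl, ← mul_assoc 3, ← add_mul]
          refine (mul_le_mul_of_nonneg_right (b2 _) (by positivity)).trans ?_
          rw [mem_range] at ht
          have := r3 t
          split_ifs <;> first | omega | (have := this (by omega); linarith) | linarith
      _ ≤ _ := by
          rw [sum_add_distrib, sum_add_distrib, ← mul_sum, sum_ite_eq, sum_ite_eq, if_pos (mem_range.2 (by omega)),
            if_pos (mem_range.2 (by omega))]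
          linarith
  have h7 := le_of_mul_u hu hqu n h6
  generalize Z (ww 3 1) (k + 1) 1 (2 * n + 1) + 3 * Z (wr 3) (k + 1) 1 (2 * n + 1) = a at *
  have h8 := mul_le_mul_of_nonneg_left h7 (show (0 : ℝ) ≤ 5 by norm_num)
  rw [← mul_assoc, show (5 : ℝ) * (292 / 5) = 292 by norm_num] at h8
  exact_mod_cast h8

end Wal
end H16
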