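import Mathlib
import Cfsg.Agent.H16.Wal5
import Cfsg.Agent.H24.Cyc
import Cfsg.Agent.H04.Breadth

/-!
# Class numbers of symplectic and orthogonal groups in odd characteristic

* `card_classes_ker` : class number of a subgroup of index two
* `card_le_of_tr`, `transport`, `exists_orth_elt` : lower bounds
* `card_sp`, `card_orth_even`, `card_omega_odd`
-/

open Matrix Module H10 Polynomial Finset

set_option linter.unusedSectionVars false

namespace H16
namespace Wal

open Cnt

theorem card_cc_congr {G H : Type*} [Group G] [Group H] [Finite G] (e : G ≃* H) :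
    Nat.card (ConjClasses G) = Nat.card (ConjClasses H) := by
  haveI : Finite H := Finite.of_equiv _ e.toEquiv
  have h := Nat.card_congr (Equiv.subtypeEquiv (p := fun p : G × G => Commute p.1 p.2)
    (q := fun p : H × H => Commute p.1 p.2) (e.toEquiv.prodCongr e.toEquiv) (fun p =>
      ⟨fun h => h.map e, fun h => Commute.of_map e.injective h⟩))
  rw [card_comm_eq_card_conjClasses_mul_card, card_comm_eq_card_conjClasses_mul_card,
    ← Nat.card_congr e.toEquiv] at h
  exact Nat.eq_of_mul_eq_mul_right Nat.card_pos h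

theorem card_classes_ker {G : Type*} [Group G] [Finite G] (θ : G →* ℤˣ) (hθ : ∃ x, θ x ≠ 1) :
    2 * Nat.card (ConjClasses θ.ker) =
      Nat.card (ConjClasses G) + 3 * Nat.card {C : ConjClasses G // ∀ y, Commute y (rp C) → θ y = 1} := by
  classical
  haveI := Fintype.ofFinite G
  let S : Set G := {x | ∀ y, Commute y x → θ y = 1}
  have hS : ∀ x ∈ S, ∀ g, g * x * g⁻¹ ∈ S := fun x hx g y hy => by
    have := hx (g⁻¹ * y * g) (by
      have e := hy.map (MulAut.conj g⁻¹)
      simpa [mul_assoc] using e)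
    simpa [mul_right_comm] using this
  have h1 := H04.ncard_conj_pairs S hS
  have h2 : (ConjClasses.mk '' S).ncard = Nat.card {C : ConjClasses G // ∀ y, Commute y (rp C) → θ y = 1} := by
    rw [← Nat.card_coe_set_eq]
    refine Nat.card_congr (Equiv.subtypeEquivRight fun C => ⟨?_, fun h => ⟨rp C, h, mk_rp C⟩⟩)
    rintro ⟨x, hx, rfl⟩
    obtain ⟨g, hg⟩ := isConj_iff.1 (ConjClasses.mk_eq_mk_iff_isConj.1 (mk_rp (ConjClasses.mk x)).symm)
    exact hg ▸ hS x hx g
  set s := Nat.card {C : ConjClasses G // ∀ y, Commute y (rp C) → θ y = 1}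
  let P := univ.filter fun z : G × G => z.2 * z.1 = z.1 * z.2
  have h3 : ((P.filter fun z => z.1 ∈ S).card : ℤ) = s * Nat.card G := by
    rw [← h2, ← Nat.cast_mul, ← h1, ← Set.ncard_coe_finset]
    congr 2
    ext z
    simp [P, and_comm]
  have h4 : ∀ f : G → ℤ, (∀ x ∈ S, f x = 1) → ∑ z ∈ P, f z.1 * (θ z.2 : ℤ) = s * Nat.card G := fun f hf => by
    rw [← h3, card_filter, sum_filter, sum_filter]
    push_cast
    rw [Fintype.sum_prod_type, Fintype.sum_prod_type]
    refine sum_congr rfl fun x _ => ?_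
    by_cases hx : x ∈ S
    · refine sum_congr rfl fun y _ => ?_
      split_ifs with h
      · rw [hf x hx, hx y h]; simp
      · rfl
    · simp only [hx, if_false, ite_self, sum_const_zero]
      have := sum_hom_units_eq_zero
        (((Units.coeHom ℤ).comp θ).comp (Subgroup.centralizer ({x} : Set G)).subtype) fun e => hx fun y hy => by
          have := DFunLike.congr_fun e ⟨y, Subgroup.mem_centralizer_singleton_iff.2 hy.eq⟩
          simpa using this
      rw [← sum_filter, ← mul_sum, sum_subtype (p := fun y => y ∈ Subgroup.centralizer ({x} : Set G)) _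
        (fun y => by simp [Subgroup.mem_centralizer_singleton_iff])]
      exact mul_eq_zero_of_right _ this
  have h5 := h4 (fun _ => 1) fun _ _ => rfl
  have h6 := h4 (fun x => (θ x : ℤ)) fun x hx => by rw [hx x (Commute.refl x)]; rfl
  have h7 : ∑ z ∈ P, (θ z.1 : ℤ) = s * Nat.card G := by
    rw [← h5]
    exact sum_equiv (Equiv.prodComm G G) (fun z => by simp [P, eq_comm]) fun z _ => by simp
  have h8 : (P.card : ℤ) = Nat.card (ConjClasses G) * Nat.card G := by
    rw [← Nat.cast_mul, ← card_comm_eq_card_conjClasses_mul_card, Nat.card_eq_fintype_card, Fintype.card_subtype]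
    congr 2
    ext z
    simp [P, commute_iff_eq, eq_comm]
  have h9 : ((P.filter fun z => θ z.1 = 1 ∧ θ z.2 = 1).card : ℤ) = Nat.card (ConjClasses θ.ker) * Nat.card θ.ker := by
    rw [← Nat.cast_mul, ← card_comm_eq_card_conjClasses_mul_card, ← Nat.card_eq_finsetCard]
    congr 1
    exact Nat.card_congr ⟨fun z => ⟨(⟨z.1.1, (mem_filter.1 z.2).2.1⟩, ⟨z.1.2, (mem_filter.1 z.2).2.2⟩),
        Subtype.ext (mem_filter.1 (mem_filter.1 z.2).1).2.symm⟩,
      fun z => ⟨(z.1.1, z.1.2), mem_filter.2 ⟨mem_filter.2 ⟨mem_univ _, (congrArg Subtype.val z.2).symm⟩,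
        z.1.1.2, z.1.2.2⟩⟩, fun _ => rfl, fun _ => rfl⟩
  have h10 : ∑ z ∈ P, (1 + (θ z.1 : ℤ)) * (1 + (θ z.2 : ℤ)) =
      4 * ((P.filter fun z => θ z.1 = 1 ∧ θ z.2 = 1).card : ℤ) := by
    rw [card_filter]
    push_cast
    rw [mul_sum]
    refine sum_congr rfl fun z _ => ?_
    rcases Int.units_eq_one_or (θ z.1) with e | e <;> rcases Int.units_eq_one_or (θ z.2) with e' | e' <;>
      simp [e, e']
  have h11 : Nat.card G = Nat.card θ.ker * 2 := by
    obtain ⟨x, hx⟩ := hθ
    rw [← Subgroup.card_mul_index θ.ker, Subgroup.index_ker, MonoidHom.range_eq_top.2, Subgroup.card_top]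
    · simp
    · intro u
      rcases Int.units_eq_one_or u with rfl | rfl
      · exact ⟨1, map_one _⟩
      · exact ⟨x, (Int.units_eq_one_or _).resolve_left hx⟩
  simp only [add_mul, mul_add, one_mul, mul_one, sum_add_distrib, sum_const, nsmul_eq_mul] at h5 h10
  rw [h5, h6, h7, h8, h9, h11] at h10
  have h12 : (0 : ℤ) < Nat.card θ.ker := by exact_mod_cast Nat.card_pos
  push_cast at h10
  have : (2 : ℤ) * Nat.card (ConjClasses θ.ker) = Nat.card (ConjClasses G) + 3 * s := by
    apply mul_right_cancel₀ h12.ne'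
    linarith
  exact_mod_cast this

variable {F V : Type*} [Field F] [AddCommGroup V] [Module F V] {φ : Form F V} [φ.Nondeg] [FiniteDimensional F V]

/-- the characteristic polynomial of `g + g⁻¹` -/
noncomputable def tr (g : φ.Isom) : F[X] := LinearMap.charpoly ((g.1 : V →ₗ[F] V) + (g⁻¹.1 : V →ₗ[F] V))

theorem tr_conj {g h : φ.Isom} (e : IsConj g h) : tr g = tr h := by
  obtain ⟨k, rfl⟩ := isConj_iff.1 e
  rw [tr, tr, ← LinearEquiv.charpoly_conj k.1]
  congr 1
  ext x
  simp [LinearEquiv.conj_apply_apply, Form.Isom.mul_apply, Form.Isom.inv_apply]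

theorem finite_isom [Finite F] : Finite φ.Isom := by
  haveI : Finite V := Module.finite_of_finite F
  haveI : Finite (V ≃ₗ[F] V) := Finite.of_injective _ DFunLike.coe_injective
  infer_instance

theorem card_le_of_tr [Finite F] {α : Type*} (p : α → F[X]) (hp : Function.Injective p)
    (h : ∀ a, ∃ g : φ.Isom, tr g = p a) : Nat.card α ≤ Nat.card (ConjClasses φ.Isom) := by
  haveI := finite_isom (φ := φ)
  choose g hg using h
  exact Nat.card_le_card_of_injective (fun a => ConjClasses.mk (g a)) fun a b e =>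
    hp (by rw [← hg, ← hg, tr_conj (ConjClasses.mk_eq_mk_iff_isConj.1 e)])

variable (φ) in
/-- the determinant of a Gram matrix -/
noncomputable def gd : F := (H09.gram φ (finBasis F V)).det

theorem gd_ne_zero : gd φ ≠ 0 := fun e => by
  obtain ⟨c, hc0, hc⟩ := exists_mulVec_eq_zero_iff.2 e
  apply hc0
  have : Fintype.linearCombination F (finBasis F V) c = 0 := φ.eq_zero_of_B_right fun y => by
    have : φ.B.flip (Fintype.linearCombination F (finBasis F V) c) = 0 := (finBasis F V).ext fun i => by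
      rw [LinearMap.flip_apply, B_lc_right, hc]; rfl
    exact LinearMap.congr_fun this y
  ext i
  exact Fintype.linearIndependent_iff.1 (finBasis F V).linearIndependent c this i

theorem transport [Finite F] (h2 : (2 : F) ≠ 0) (hσ : ∀ a, φ.σ a = a) {ι : Type*} [Fintype ι] [DecidableEq ι]
    (hι : Fintype.card ι = finrank F V) {J A A' : Matrix ι ι F} (h1 : Jᵀ = φ.ε • J) (h3 : J.det ≠ 0)
    (h4 : Aᵀ * J * A = J) (h5 : A * A' = 1) (h6 : φ.ε = 1 → chi (gd φ) = chi J.det) :
    ∃ g : φ.Isom, tr g = (A + A').charpoly := by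
  let e := Fintype.equivFinOfCardEq hι
  obtain ⟨P, hP⟩ := cong_matrix h2 φ.ε_cases (G' := reindex e e J) (gram_transpose hσ (finBasis F V))
    (by rw [transpose_reindex, h1]; rfl) gd_ne_zero (by rwa [det_reindex_self]) (by rwa [det_reindex_self])
  let u : ι → V := fun j => Fintype.linearCombination F (finBasis F V) (P *ᵥ Pi.single (e j) 1)
  have e1 : H09.gram φ u = J := by
    ext i j
    rw [H09.gram, of_apply, B_lc hσ, ← dot_cong, hP]
    simp
  let ψ := LinearEquiv.ofInjectiveOfFinrankEq (Fintype.linearCombination F u) (lc_injective (φ := φ) (e1 ▸ h3))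
    (by simp [hι])
  have e2 : ∀ x y, φ.B (ψ x) (ψ y) = x ⬝ᵥ J *ᵥ y := fun x y => e1 ▸ B_lc hσ u x y
  have e3 : ∀ x y, φ.B (ψ.conj (toLin' A) x) (ψ.conj (toLin' A) y) = φ.B x y := fun x y => by
    rw [LinearEquiv.conj_apply_apply, LinearEquiv.conj_apply_apply, e2, toLin'_apply, toLin'_apply, ← dot_cong, h4,
      ← e2]
    simp
  have e4 : φ.IsIsom (ψ.conj (toLin' A)) := ⟨e3, fun x => Q_eq_of_B h2 (e3 x x)⟩
  refine ⟨φ.toIsom (ψ.conj (toLin' A)), ?_⟩
  rw [tr, ← charpoly_toLin', ← LinearEquiv.charpoly_conj ψ, map_add, map_add, φ.toIsom_coe e4]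
  congr 2
  ext x
  rw [LinearEquiv.coe_coe, Form.Isom.inv_apply_eq, φ.toIsom_apply e4]
  simp [LinearEquiv.conj_apply_apply, h5]

theorem exists_sym {f : F[X]} (hf : f.Monic) {d : ℕ} (hd : f.natDegree = d) :
    ∃ L M : Matrix (Fin d) (Fin d) F, Lᵀ = L ∧ L.det ≠ 0 ∧ Mᵀ * L = L * M ∧ M.charpoly = f := by
  obtain ⟨l, hl⟩ := H24.Adj.exists_lam hf
  haveI := H24.Sim.finite_adjoinRoot hf.ne_zero
  let β := finBasisOfFinrankEq F (AdjoinRoot f) ((H24.Sim.finrank_adjoinRoot f).trans hd)
  let L : Matrix (Fin d) (Fin d) F := of fun i j => l (β i * β j)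
  let M := LinearMap.toMatrix β β (Algebra.lmul F _ (AdjoinRoot.root f))
  have e1 : Lᵀ = L := by ext i j; simp [L, mul_comm]
  have e2 : ∀ i j, (L * M) i j = l (β i * (AdjoinRoot.root f * β j)) := fun i j => by
    conv_rhs => rw [← β.sum_repr (AdjoinRoot.root f * β j), Finset.mul_sum, map_sum]
    simp only [mul_smul_comm, map_smul]
    simp [L, M, mul_apply, LinearMap.toMatrix_apply, mul_comm]
  refine ⟨L, M, e1, fun e => ?_, ?_, by rw [LinearMap.charpoly_toMatrix, H24.Sim.charpoly_root hf]⟩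
  · obtain ⟨c, hc0, hc⟩ := exists_mulVec_eq_zero_iff.2 e
    apply hc0
    have : ∑ j, c j • β j = 0 := hl _ fun b => by
      have : l ∘ₗ LinearMap.mulLeft F (∑ j, c j • β j) = 0 := β.ext fun i => by
        have := congrFun hc i
        rw [LinearMap.comp_apply, LinearMap.mulLeft_apply, Finset.sum_mul, map_sum]
        simpa [L, mulVec, dotProduct, mul_comm] using this
      exact LinearMap.congr_fun this b
    ext i
    exact Fintype.linearIndependent_iff.1 β.linearIndependent c this i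
  · conv_lhs => rw [← e1, ← transpose_mul]
    ext i j
    rw [transpose_apply, e2, e2]
    congr 1; ring

theorem charpoly_cyc {d : ℕ} (M : Matrix (Fin d) (Fin d) F) :
    fromBlocks M (-1) 1 0 * fromBlocks 0 1 (-1) M = 1 ∧
      (fromBlocks M (-1) 1 0 + fromBlocks 0 1 (-1) M) = fromBlocks M 0 0 M := by
  constructor
  · simp [fromBlocks_multiply]
  · simp [fromBlocks_add]

theorem exists_sp_elt [Finite F] (h2 : (2 : F) ≠ 0) (hσ : ∀ a, φ.σ a = a) (hε : φ.ε = -1) {f : F[X]} (hf : f.Monic)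
    (hd : finrank F V = 2 * f.natDegree) : ∃ g : φ.Isom, tr g = f ^ 2 := by
  obtain ⟨L, M, h1, h3, h4, h5⟩ := exists_sym hf rfl
  obtain ⟨g, hg⟩ := transport (φ := φ) h2 hσ (J := fromBlocks 0 L (-L) 0) (A := fromBlocks M (-1) 1 0)
    (by simp [hd, two_mul]) (by simp [hε, fromBlocks_transpose, h1, fromBlocks_neg])
    (fun e => by
      have := congrArg det (show fromBlocks 0 L (-L) 0 * fromBlocks 0 (-1) 1 0 = fromBlocks L 0 0 L by
        simp [fromBlocks_multiply])
      rw [det_mul, e, zero_mul, det_fromBlocks_zero₂₁] at this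
      exact mul_ne_zero h3 h3 this.symm)
    (by simp [fromBlocks_transpose, fromBlocks_multiply, h4]) (charpoly_cyc M).1
    (fun e => absurd (hε ▸ e) fun e => h2 (by linear_combination -e))
  exact ⟨g, by rw [hg, (charpoly_cyc M).2, charpoly_fromBlocks_zero₂₁, h5, sq]⟩

theorem exists_orth_elt [Finite F] (h2 : (2 : F) ≠ 0) (hQ : φ.IsQuad) {f : F[X]} (hf : f.Monic)
    (f1 : f.eval 2 ≠ 0) (f2 : f.eval (-2) ≠ 0) {a b : ℕ} (hd : finrank F V = 2 * f.natDegree + (a + b))
    (hc : a + b = 0 → chi (gd φ) = chi (f.eval 2 * ((-1) ^ f.natDegree * f.eval (-2)))) :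
    ∃ g : φ.Isom, tr g = f ^ 2 * ((X - C 2) ^ a * (X - C (-2)) ^ b) := by
  obtain ⟨L, M, h1, h3, h4, h5⟩ := exists_sym hf rfl
  let Γ := fromBlocks (L * 2) (-(L * M)) (-(L * M)) (L * 2)
  have e1 : Γ.det = L.det * L.det * (f.eval 2 * ((-1) ^ f.natDegree * f.eval (-2))) := by
    have a1 : fromBlocks 1 1 0 1 * Γ * fromBlocks 1 (-1) 0 1 =
        fromBlocks (L * (2 - M)) 0 (-(L * M)) (L * (2 + M)) := by
      simp only [Γ, fromBlocks_multiply]
      congr 1 <;> noncomm_ring
    have a2 := congrArg det a1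
    rw [det_mul, det_mul, det_fromBlocks_zero₂₁, det_fromBlocks_zero₂₁, det_fromBlocks_zero₁₂, det_mul, det_mul] at a2
    have a3 : (2 - M).det = f.eval 2 := by
      conv_rhs => rw [← h5, eval_charpoly, map_ofNat]
    have a4 : (2 + M).det = (-1) ^ f.natDegree * f.eval (-2) := by
      have : (2 + M) = -(scalar _ (-2 : F) - M) := by rw [map_neg, map_ofNat]; abel
      rw [this, det_neg, ← eval_charpoly, h5, Fintype.card_fin]
    simp only [det_one, one_mul, mul_one] at a2
    rw [a2, a3, a4]; ring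
  have e0 : f.eval 2 * ((-1) ^ f.natDegree * f.eval (-2)) ≠ 0 :=
    mul_ne_zero f1 (mul_ne_zero (pow_ne_zero _ (by simp)) f2)
  have e2 : Γ.det ≠ 0 := e1 ▸ mul_ne_zero (mul_ne_zero h3 h3) e0
  obtain ⟨D, d1, d2⟩ : ∃ D : Fin a ⊕ Fin b → F, ∏ i, D i ≠ 0 ∧ chi (gd φ) = chi (Γ.det * ∏ i, D i) := by
    rcases isEmpty_or_nonempty (Fin a ⊕ Fin b) with h | ⟨⟨i₀⟩⟩
    · refine ⟨1, by simp, ?_⟩
      have := Fintype.card_eq_zero (α := Fin a ⊕ Fin b)
      simp only [Fintype.card_sum, Fintype.card_fin] at this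
      rw [hc this, e1]
      simp [chi_mul (mul_ne_zero h3 h3) e0, chi_mul_self]
    · refine ⟨Pi.mulSingle i₀ (gd φ / Γ.det), ?_⟩
      rw [Fintype.prod_pi_mulSingle', mul_div_cancel₀ _ e2]
      exact ⟨div_ne_zero gd_ne_zero e2, rfl⟩
  let E : Matrix (Fin a ⊕ Fin b) (Fin a ⊕ Fin b) F := diagonal (Sum.elim 1 (-1))
  have e3 : E * E = 1 := by
    rw [diagonal_mul_diagonal, ← diagonal_one]; congr 1; ext (i | i) <;> simp
  obtain ⟨g, hg⟩ := transport (φ := φ) h2 hQ.σ_eq (J := fromBlocks Γ 0 0 (diagonal D))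
    (A := fromBlocks (fromBlocks M (-1) 1 0) 0 0 E) (A' := fromBlocks (fromBlocks 0 1 (-1) M) 0 0 E)
    (by simp [hd, two_mul])
    (by simp [hQ.ε_eq, fromBlocks_transpose, Γ, h1, h4, (Commute.ofNat_left 2 L).eq])
    (by rw [det_fromBlocks_zero₂₁, det_diagonal]; exact mul_ne_zero e2 d1)
    (by
      have a1 : (fromBlocks M (-1) 1 0)ᵀ * Γ * fromBlocks M (-1) 1 0 = Γ := by
        have a2 : ∀ Y, Mᵀ * (L * Y) = L * (M * Y) := fun Y => by rw [← mul_assoc, h4, mul_assoc]
        simp only [Γ, fromBlocks_multiply, fromBlocks_transpose, transpose_neg, transpose_one, transpose_zero, mul_neg, a2]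
        congr 1 <;> noncomm_ring
      have a2 : Eᵀ * diagonal D * E = diagonal D := by
        rw [diagonal_transpose, diagonal_mul_diagonal, diagonal_mul_diagonal]; congr 1; ext (i | i) <;> simp
      rw [fromBlocks_transpose, fromBlocks_multiply, fromBlocks_multiply]
      simp [a1, a2])
    (by rw [fromBlocks_multiply]; simp [e3, (charpoly_cyc M).1])
    (fun _ => by rw [det_fromBlocks_zero₂₁, det_diagonal, d2])
  refine ⟨g, ?_⟩
  rw [hg, fromBlocks_add, add_zero, add_zero, charpoly_fromBlocks_zero₂₁, (charpoly_cyc M).2,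
    charpoly_fromBlocks_zero₂₁, h5, sq, diagonal_add, charpoly_diagonal, Fintype.prod_sum_type]
  simp [one_add_one_eq_two, ← neg_add]

theorem exists_fac (h2 : (2 : F) ≠ 0) {f : F[X]} (hf : f.Monic) : ∃ (f₀ : F[X]) (a b : ℕ), f₀.Monic ∧
    f₀.eval 2 ≠ 0 ∧ f₀.eval (-2) ≠ 0 ∧ f = f₀ * ((X - C 2) ^ a * (X - C (-2)) ^ b) ∧
      f.natDegree = f₀.natDegree + (a + b) := by
  obtain ⟨g, h1, h3⟩ := exists_eq_pow_rootMultiplicity_mul_and_not_dvd f hf.ne_zero 2
  have hg : g.Monic := ((monic_X_sub_C _).pow _).of_mul_monic_left (h1 ▸ hf)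
  obtain ⟨k, h4, h5⟩ := exists_eq_pow_rootMultiplicity_mul_and_not_dvd g hg.ne_zero (-2)
  have hk : k.Monic := ((monic_X_sub_C _).pow _).of_mul_monic_left (h4 ▸ hg)
  have e : f = k * ((X - C 2) ^ rootMultiplicity 2 f * (X - C (-2)) ^ rootMultiplicity (-2) g) := by
    conv_lhs => rw [h1, h4]
    ring
  refine ⟨k, _, _, hk, fun e => h3 (h4 ▸ (dvd_iff_isRoot.2 e).mul_left _), fun e => h5 (dvd_iff_isRoot.2 e), e, ?_⟩
  conv_lhs => rw [e]
  rw [hk.natDegree_mul (((monic_X_sub_C _).pow _).mul ((monic_X_sub_C _).pow _)),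
    ((monic_X_sub_C _).pow _).natDegree_mul ((monic_X_sub_C _).pow _)]
  simp

theorem card_monic_deg [Fintype F] (n : ℕ) : Nat.card {f : F[X] // f.Monic ∧ f.natDegree = n} = Fintype.card F ^ n := by
  rw [Nat.card_congr ((monicEquivDegreeLT (R := F) n).trans (degreeLTEquiv F n).toEquiv)]
  simp

theorem eq_of_sq_eq {f g : F[X]} (hf : f.Monic) (hg : g.Monic) (h : f ^ 2 = g ^ 2) : f = g :=
  eq_of_monic_of_associated hf hg (associated_of_dvd_dvd
    ((UniqueFactorizationMonoid.pow_dvd_pow_iff_dvd two_ne_zero).1 h.dvd)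
    ((UniqueFactorizationMonoid.pow_dvd_pow_iff_dvd two_ne_zero).1 h.symm.dvd))

variable [Fintype F] (hodd : Odd (Fintype.card F))
include hodd

theorem three_le_card : 3 ≤ Fintype.card F := by
  have := Fintype.one_lt_card (α := F)
  obtain ⟨k, hk⟩ := hodd
  omega

theorem card_sp (hσ : ∀ a, φ.σ a = a) (hε : φ.ε = -1) {n : ℕ} (hn : finrank F V = 2 * n) :
    Fintype.card F ^ n ≤ Nat.card (ConjClasses φ.Isom) ∧
      5 * Nat.card (ConjClasses φ.Isom) ≤ 54 * Fintype.card F ^ n := by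
  have h2 := two_ne_zero_of_odd_card hodd
  constructor
  · rw [← card_monic_deg]
    exact card_le_of_tr (fun f => f.1 ^ 2) (fun f g e => Subtype.ext (eq_of_sq_eq f.2.1 g.2.1 e))
      fun f => exists_sp_elt h2 hσ hε f.2.1 (by rw [hn, f.2.2])
  · have h1 := card_le_sp (φ := φ) h2 hσ hε
    have h3 := Z_sp_le (three_le_card hodd) (2 * n) n
    rw [hn] at h1
    omega

theorem two_mul_card_le (hQ : φ.IsQuad) :
    2 * Nat.card (ConjClasses φ.Isom) ≤ Z (ww (Fintype.card F) 1) (finrank F V + 1) 1 (finrank F V) +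
      Z (fun _ => nn (Fintype.card F)) (finrank F V + 1) 1 (finrank F V) := by
  have h2 := two_ne_zero_of_odd_card hodd
  haveI := finite_isom (φ := φ)
  haveI := Fintype.ofFinite (ConjClasses φ.Isom)
  rw [Nat.card_eq_fintype_card]
  exact card_le_half h2 hQ univ False _
    (fun i m t ht => card_lv_ww h2 1 i m t fun a ha => ⟨(ht a ha).1.1, (ht a ha).2⟩) False.elim

theorem card_orth_even (hQ : φ.IsQuad) {n : ℕ} (h : 2 ≤ n) (hn : finrank F V = 2 * n) :
    Fintype.card F ^ n ≤ 2 * Nat.card (ConjClasses φ.Isom) ∧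
      2 * Nat.card (ConjClasses φ.Isom) ≤ 19 * Fintype.card F ^ n := by
  classical
  have h2 := two_ne_zero_of_odd_card hodd
  constructor
  · let P : {f : F[X] // f.Monic ∧ f.natDegree = n} → Prop := fun f =>
      f.1.eval 2 ≠ 0 → f.1.eval (-2) ≠ 0 → chi (gd φ) = chi (f.1.eval 2 * ((-1) ^ n * f.1.eval (-2)))
    have h1 : Nat.card {f // P f} ≤ Nat.card (ConjClasses φ.Isom) :=
      card_le_of_tr (fun f => f.1.1 ^ 2) (fun f g e => Subtype.ext (Subtype.ext (eq_of_sq_eq f.1.2.1 g.1.2.1 e)))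
        fun f => by
          obtain ⟨f₀, a, b, c1, c2, c3, c4, c5⟩ := exists_fac h2 f.1.2.1
          obtain ⟨g, hg⟩ := exists_orth_elt h2 hQ c1 c2 c3 (a := 2 * a) (b := 2 * b) (by rw [hn, ← f.1.2.2, c5]; ring)
            fun e => by
              obtain rfl : a = 0 := by omega
              obtain rfl : b = 0 := by omega
              simp only [pow_zero, mul_one] at c4
              rw [← c4] at c2 c3 ⊢
              rw [f.1.2.2]
              exact f.2 c2 c3
          exact ⟨g, by rw [hg, c4]; ring⟩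
    haveI : Finite {f : F[X] // f.Monic ∧ f.natDegree = n} :=
      Nat.finite_of_card_ne_zero (by rw [card_monic_deg]; positivity)
    obtain ⟨ν, ν0, ν1⟩ := exists_chi_eq_neg_one h2
    have h4 : (4 : F) ≠ 0 := by rw [show (4 : F) = 2 * 2 by norm_num]; exact mul_ne_zero h2 h2
    let τ : F[X] → F[X] := fun f => f + C ((ν - 1) * f.eval 2 / 4) * (X + C 2)
    have t1 : ∀ f, (τ f).eval 2 = ν * f.eval 2 := fun f => by
      simp only [τ, eval_add, eval_mul, eval_C, eval_X]; field_simp; ring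
    have t2 : ∀ f, (τ f).eval (-2) = f.eval (-2) := fun f => by simp [τ]
    have t3 : ∀ f : F[X], f.Monic ∧ f.natDegree = n → (τ f).Monic ∧ (τ f).natDegree = n := fun f hf => by
      have : (C ((ν - 1) * f.eval 2 / 4) * (X + C 2)).natDegree < f.natDegree :=
        lt_of_le_of_lt (natDegree_C_mul_le _ _) (by rw [natDegree_X_add_C]; omega)
      exact ⟨hf.1.add_of_left (degree_lt_degree this), by rw [natDegree_add_eq_left_of_natDegree_lt this, hf.2]⟩
    have h5 : Nat.card {f // ¬ P f} ≤ Nat.card {f // P f} :=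
      Nat.card_le_card_of_injective (fun f => ⟨⟨τ f.1.1, t3 _ f.1.2⟩, fun _ _ => by
        have := f.2
        simp only [P, _root_.not_imp] at this
        rw [t1, t2, mul_assoc, chi_mul ν0 (mul_ne_zero this.1 (mul_ne_zero (pow_ne_zero _ (by simp)) this.2.1)), ν1,
          neg_one_mul]
        exact Int.units_ne_iff_eq_neg.1 this.2.2⟩) fun f g e => by
        have e1 : τ f.1.1 = τ g.1.1 := congrArg (fun x => x.1.1) e
        have e2 := congrArg (eval 2) e1
        rw [t1, t1] at e2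
        simp only [τ, mul_left_cancel₀ ν0 e2, add_left_inj] at e1
        exact Subtype.ext (Subtype.ext e1)
    have h6 := Nat.card_congr (Equiv.sumCompl P)
    rw [Nat.card_sum, card_monic_deg] at h6
    omega
  · have h1 := two_mul_card_le hodd hQ
    rw [hn] at h1
    exact h1.trans (Z_o_le (three_le_card hodd) _ n)

theorem le_card_orth_odd (hQ : φ.IsQuad) {n : ℕ} (hn : finrank F V = 2 * n + 1) :
    2 * Fintype.card F ^ n ≤ Nat.card (ConjClasses φ.Isom) := by
  have h2 := two_ne_zero_of_odd_card hodd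
  have h1 : Nat.card (Bool × {f : F[X] // f.Monic ∧ f.natDegree = n}) ≤ Nat.card (ConjClasses φ.Isom) := by
    refine card_le_of_tr (fun x => x.2.1 ^ 2 * (X - C (cond x.1 2 (-2)))) ?_ ?_
    · have key : ∀ f g : F[X], f.Monic → g.Monic → f ^ 2 * (X - C 2) ≠ g ^ 2 * (X - C (-2)) := fun f g hf hg e => by
        have := congrArg (rootMultiplicity 2) e
        rw [rootMultiplicity_mul (mul_ne_zero (pow_ne_zero _ hf.ne_zero) (X_sub_C_ne_zero _)),
          rootMultiplicity_mul (mul_ne_zero (pow_ne_zero _ hg.ne_zero) (X_sub_C_ne_zero _)), sq, sq,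
          rootMultiplicity_mul (mul_ne_zero hf.ne_zero hf.ne_zero), rootMultiplicity_mul (mul_ne_zero hg.ne_zero hg.ne_zero),
          rootMultiplicity_X_sub_C_self, rootMultiplicity_eq_zero (p := X - C (-2)) (by
            simp only [IsRoot.def, eval_sub, eval_X, eval_C]
            intro e; exact mul_ne_zero h2 h2 (by linear_combination e))] at this
        omega
      rintro ⟨s, f⟩ ⟨t, g⟩ e
      cases s <;> cases t
      · exact congrArg _ (Subtype.ext (eq_of_sq_eq f.2.1 g.2.1 (mul_right_cancel₀ (X_sub_C_ne_zero _) e)))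
      · exact absurd e.symm (key _ _ g.2.1 f.2.1)
      · exact absurd e (key _ _ f.2.1 g.2.1)
      · exact congrArg _ (Subtype.ext (eq_of_sq_eq f.2.1 g.2.1 (mul_right_cancel₀ (X_sub_C_ne_zero _) e)))
    · rintro ⟨s, f⟩
      obtain ⟨f₀, a, b, c1, c2, c3, c4, c5⟩ := exists_fac h2 f.2.1
      cases s
      · obtain ⟨g, hg⟩ := exists_orth_elt h2 hQ c1 c2 c3 (a := 2 * a) (b := 2 * b + 1)
          (by rw [hn, ← f.2.2, c5]; ring) (by omega)
        exact ⟨g, by rw [hg, c4, cond]; ring⟩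
      · obtain ⟨g, hg⟩ := exists_orth_elt h2 hQ c1 c2 c3 (a := 2 * a + 1) (b := 2 * b)
          (by rw [hn, ← f.2.2, c5]; ring) (by omega)
        exact ⟨g, by rw [hg, c4, cond]; ring⟩
  rwa [Nat.card_prod, card_monic_deg, Nat.card_eq_fintype_card, Fintype.card_bool] at h1

theorem card_omega_odd (hQ : φ.IsQuad) {n : ℕ} (h : 1 ≤ n) (hn : finrank F V = 2 * n + 1) :
    Fintype.card F ^ n ≤ 2 * Nat.card (ConjClasses (commutator φ.Isom)) ∧
      10 * Nat.card (ConjClasses (commutator φ.Isom)) ≤ 73 * Fintype.card F ^ n := by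
  classical
  have h2 := two_ne_zero_of_odd_card hodd
  haveI := finite_isom (φ := φ)
  haveI := Fintype.ofFinite (ConjClasses φ.Isom)
  have hg := hQ.good_of_two_ne_zero h2
  let z : φ.Isom := sg true 1
  have z1 : φ.dickson z = -1 := (Int.units_eq_one_or _).resolve_left fun e => by
    have := hQ.det_eq_dickson hg z
    rw [e, show (z.1 : V →ₗ[F] V) = (-1 : F) • LinearMap.id from LinearMap.ext fun x => by simp [z, sg_true],
      LinearMap.det_smul, hn, Odd.neg_one_pow ⟨n, rfl⟩] at this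
    apply h2
    simp at this
    linear_combination -this
  have z2 : ∀ y, Commute z y := fun y => Form.Isom.ext fun x => by simp [z, Form.Isom.mul_apply, sg_true]
  obtain ⟨f, hf⟩ := exists_hom_int_units (Int.units_mul_self (φ.spinor z))
  let θ : φ.Isom →* ℤˣ := φ.spinor * f.comp φ.dickson
  have θ1 : θ z = 1 := by simp [θ, z1, hf]
  have θ2 : ∀ g, φ.dickson g = 1 → θ g = φ.spinor g := fun g e => by simp [θ, e]
  obtain ⟨ν, ν0, ν1⟩ := exists_chi_eq_neg_one h2
  have θ3 : ∀ W, φ.NondegOn W → 2 ≤ finrank F W → ∃ v ∈ W, ∃ w ∈ W, θ (φ.refl v * φ.refl w) ≠ 1 := fun W h1 h3 => by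
    obtain ⟨v, v1, v2⟩ := hQ.exists_Q_eq h1 h3 1
    obtain ⟨w, w1, w2⟩ := hQ.exists_Q_eq h1 h3 ν
    refine ⟨v, v1, w, w1, ?_⟩
    have a1 : φ.Q v ≠ 0 := v2 ▸ one_ne_zero
    have a2 : φ.Q w ≠ 0 := w2 ▸ ν0
    rw [θ2 _ (by rw [map_mul, hQ.dickson_refl hg a1, hQ.dickson_refl hg a2]; simp), map_mul, hQ.spinor_refl hg a1,
      hQ.spinor_refl hg a2, v2, w2, ν1, chi_eq_one_iff.2 IsSquare.one]
    decide
  have k1 := card_classes_ker θ (by
    obtain ⟨v, -, w, -, h⟩ := θ3 ⊤ φ.nondegOn_top (by rw [finrank_top]; omega)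
    exact ⟨_, h⟩)
  have k2 := card_classes_ker (φ.dickson.comp θ.ker.subtype) ⟨⟨z, θ1⟩, by simp [z1]⟩
  haveI : IsEmpty {C : ConjClasses θ.ker // ∀ y, Commute y (rp C) → (φ.dickson.comp θ.ker.subtype) y = 1} :=
    ⟨fun C => by simpa [z1] using C.2 ⟨z, θ1⟩ (Subtype.ext (z2 _))⟩
  have k3 : commutator φ.Isom ≤ θ.ker := fun g e => by
    rw [hQ.mem_commutator_iff hg (by omega)] at e
    rw [MonoidHom.mem_ker, θ2 g e.1, e.2]
  have k4 : (φ.dickson.comp θ.ker.subtype).ker = (commutator φ.Isom).subgroupOf θ.ker := by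
    ext g
    rw [Subgroup.mem_subgroupOf, hQ.mem_commutator_iff hg (by omega)]
    exact ⟨fun e => ⟨e, (θ2 _ e).symm.trans g.2⟩, fun e => e.1⟩
  rw [Nat.card_of_isEmpty (α := Subtype _), k4, card_cc_congr (Subgroup.subgroupOfEquivOfLe k3)] at k2
  have k5 := le_card_orth_odd hodd hQ hn
  have k6 := two_mul_card_le hodd hQ
  rw [hn, Z_nn_odd _ _ _ _ ⟨n, rfl⟩] at k6
  refine ⟨by omega, ?_⟩
  by_cases hq : Fintype.card F = 3
  · have k7 := card_le_half h2 hQ (univ.filter fun C => ∀ y, Commute y (rp C) → θ y = 1) True (wr (Fintype.card F))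
      (fun i m t ht => by
        rw [wr]
        split_ifs with hi
        · exact card_lv_cr h2 m t fun a ha => ⟨(ht a ha).1.1, (ht a ha).2, (ht a ha).1.2 trivial hi⟩
        · exact card_lv_ww h2 1 i m t fun a ha => ⟨(ht a ha).1.1, (ht a ha).2⟩)
      fun _ C hC s W w1 w2 => by
        by_contra w3
        obtain ⟨v, v1, w, w4, h⟩ := θ3 W w1 (by omega)
        have key : ∀ v ∈ W, Commute (φ.refl v) (rp C) := fun v hv => by
          have e := hQ.refl_conj (rp C) v
          have e' : φ.refl ((rp C).1 v) = φ.refl v := by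
            have := w2 v hv
            cases s
            · exact congrArg _ this
            · rw [sg_true, neg_eq_iff_eq_neg] at this
              rw [this, ← neg_one_smul F, hQ.refl_smul (by simp)]
          rw [e', mul_inv_eq_iff_eq_mul] at e
          exact e.symm
        exact h ((mem_filter.1 hC).2 _ ((key v v1).mul_left (key w w4)))
    rw [hn, Z_nn_odd _ _ _ _ ⟨n, rfl⟩, ← Fintype.card_subtype, ← Nat.card_eq_fintype_card] at k7
    have k8 := Z_three_le (2 * n + 1) n
    rw [hq] at k6 k7 ⊢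
    omega
  · have k7 : Nat.card {C : ConjClasses φ.Isom // ∀ y, Commute y (rp C) → θ y = 1} ≤ Nat.card (ConjClasses φ.Isom) :=
      Nat.card_le_card_of_injective _ Subtype.val_injective
    have k8 := Z_odd_le (q := Fintype.card F) (by
      have := three_le_card hodd
      obtain ⟨k, hk⟩ := hodd
      omega) (2 * n + 1) n
    omega

end Wal
end H16
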