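import Mathlib
import Cfsg.Agent.H16.Wal6

/-!
# Unipotent isometries in characteristic two: normal forms of generators

* `Cx` : an isometry with an invariant quadratic function polarizing the form
* `IsV`, `IsW` : normalized generators of indecomposable pieces; `normV`, `normW`, `eqvV`, `eqvW`
-/

open Matrix Module H10 H24.Wall

set_option linter.unusedSectionVars false

namespace H16
namespace We

open Wal

variable {F V : Type*} [Field F] [AddCommGroup V] [Module F V] {φ : Form F V} [φ.Nondeg] [FiniteDimensional F V]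

theorem eqv_of_maps' {g g' : End F V} {M : Type*} [AddCommGroup M] [Module F M]
    (ψ ψ' : M →ₗ[F] V) (hψ : Function.Injective ψ) (hψ' : Function.Injective ψ')
    (hB : ∀ x y, φ.B (ψ' x) (ψ' y) = φ.B (ψ x) (ψ y)) (hQ : ∀ x, φ.Q (ψ' x) = φ.Q (ψ x)) (T : M → M)
    (h : ∀ x, g (ψ x) = ψ (T x))
    (h' : ∀ x, g' (ψ' x) = ψ' (T x)) : Eqv φ g g' (LinearMap.range ψ) (LinearMap.range ψ') := by
  obtain ⟨l, hl⟩ := LinearMap.exists_leftInverse_of_injective ψ (LinearMap.ker_eq_bot.2 hψ)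
  have e1 : ∀ x, (ψ' ∘ₗ l) (ψ x) = ψ' x := fun x => congrArg ψ' (LinearMap.congr_fun hl x)
  obtain ⟨k, -, hk⟩ := φ.witt φ.hasElem_top (LinearMap.range ψ) (ψ' ∘ₗ l)
    (by rintro _ ⟨x, rfl⟩ _ ⟨y, rfl⟩; rw [e1, e1, hB])
    (by rintro _ ⟨x, rfl⟩; rw [e1]; exact hQ x)
    (by rintro _ ⟨x, rfl⟩ hx; rw [e1, ← map_zero ψ'] at hx; rw [hψ' hx, map_zero])
  have e2 : ∀ x, k.1 (ψ x) = ψ' x := fun x => (hk _ ⟨x, rfl⟩).trans (e1 x)
  refine ⟨k, ?_, ?_⟩
  · rw [← LinearMap.range_comp]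
    congr 1
    exact LinearMap.ext e2
  · rintro _ ⟨x, rfl⟩
    rw [h, e2, e2, h']

theorem eqv_sup' {g g' : End F V} {A A' M M' : Submodule F V} (h₁ : Eqv φ g g' A A')
    (h₂ : Eqv φ g g' M M') (hA : φ.NondegOn A) (hA' : φ.NondegOn A') (hM : M ≤ φ.perp A) (hM' : M' ≤ φ.perp A')
    (iA : ∀ x ∈ A, g x ∈ A) (iM : ∀ x ∈ M, g x ∈ M) : Eqv φ g g' (A ⊔ M) (A' ⊔ M') := by
  obtain ⟨e₁, rfl, a2⟩ := h₁
  obtain ⟨e₂, rfl, b2⟩ := h₂
  have o1 : ∀ (a : A) (m : M), φ.B a m = 0 := fun a m => hM m.2 a a.2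
  have o2 : ∀ (a : A) (m : M), φ.B (e₁.1 a) (e₂.1 m) = 0 := fun a m => hM' ⟨m, m.2, rfl⟩ _ ⟨a, a.2, rfl⟩
  have := eqv_of_maps' (φ := φ) (g := g) (g' := g') (A.subtype.coprod M.subtype)
    (((e₁.1 : V →ₗ[F] V) ∘ₗ A.subtype).coprod ((e₂.1 : V →ₗ[F] V) ∘ₗ M.subtype))
    ((injective_iff_map_eq_zero _).2 ?_) ((injective_iff_map_eq_zero _).2 ?_) ?_ ?_
    (fun x => (⟨g x.1, iA _ x.1.2⟩, ⟨g x.2, iM _ x.2.2⟩)) ?_ ?_
  · simpa only [LinearMap.range_coprod, LinearMap.range_comp, Submodule.range_subtype] using this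
  · rintro ⟨a, m⟩ h
    change (a : V) + m = 0 at h
    have h3 : (a : V) = 0 := hA _ a.2 fun y hy => by
      rw [eq_neg_of_add_eq_zero_left h]; simp [φ.B_symm_zero (o1 ⟨y, hy⟩ _)]
    rw [h3, zero_add] at h
    exact Prod.ext (Subtype.ext h3) (Subtype.ext h)
  · rintro ⟨a, m⟩ h
    change e₁.1 a + e₂.1 m = 0 at h
    have h3 : e₁.1 a = 0 := hA' _ ⟨a, a.2, rfl⟩ (by
      rintro _ ⟨y, hy, rfl⟩
      rw [eq_neg_of_add_eq_zero_left h]; simp [φ.B_symm_zero (o2 ⟨y, hy⟩ _)])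
    rw [h3, zero_add] at h
    exact Prod.ext (Subtype.ext (e₁.1.map_eq_zero_iff.1 h3)) (Subtype.ext (e₂.1.map_eq_zero_iff.1 h))
  · rintro ⟨a, m⟩ ⟨b, n⟩
    change φ.B (e₁.1 a + e₂.1 m) (e₁.1 b + e₂.1 n) = φ.B ((a : V) + m) ((b : V) + n)
    simp only [map_add, LinearMap.add_apply, o1, o2, φ.B_symm_zero (o1 _ _), φ.B_symm_zero (o2 _ _), e₁.2.B, e₂.2.B]
  · rintro ⟨a, m⟩
    change φ.Q (e₁.1 a + e₂.1 m) = φ.Q ((a : V) + m)
    rw [φ.Q_add_of_orth (o1 _ _), φ.Q_add_of_orth (o2 _ _), e₁.2.Q, e₂.2.Q]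
  · rintro ⟨a, m⟩
    exact map_add g _ _
  · rintro ⟨a, m⟩
    change g' (e₁.1 a + e₂.1 m) = e₁.1 (g a) + e₂.1 (g m)
    rw [map_add, a2 _ a.2, b2 _ m.2]

theorem Q_lc_eq {ι : Type*} [Fintype ι] {u u' : ι → V} (hB : ∀ i j, φ.B (u' i) (u' j) = φ.B (u i) (u j))
    (hQ : ∀ i, φ.Q (u' i) = φ.Q (u i)) (x : ι → F) :
    φ.Q (Fintype.linearCombination F u' x) = φ.Q (Fintype.linearCombination F u x) := by
  classical
  simp only [Fintype.linearCombination_apply]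
  induction (Finset.univ : Finset ι) using Finset.induction_on with
  | empty => simp
  | insert i s hi ih =>
    rw [Finset.sum_insert hi, Finset.sum_insert hi, φ.Q_add, φ.Q_add, ih, φ.Q_smul, φ.Q_smul, hQ]
    simp only [map_sum, Form.B_smul_left, Form.B_smul_right, hB]

theorem blk_eqv (hσ : ∀ a, φ.σ a = a) {g g' : φ.Isom} {k m : ℕ} {v v' : Fin m → V} (h : Blk g k v)
    (h' : Blk g' k v') (hB : ∀ a b i j, φ.B ((N g' ^ a) (v' i)) ((N g' ^ b) (v' j)) =
      φ.B ((N g ^ a) (v i)) ((N g ^ b) (v j)))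
    (hQ : ∀ a i, φ.Q ((N g' ^ a) (v' i)) = φ.Q ((N g ^ a) (v i))) :
    Eqv φ (g.1 : V →ₗ[F] V) (g'.1 : V →ₗ[F] V) (bsp g k v) (bsp g' k v') := by
  have e : H09.gram φ (bf g' k v') = H09.gram φ (bf g k v) := by
    ext p r; exact hB _ _ _ _
  exact eqv_of_maps' _ _ (lc_injective h.det_gram) (lc_injective h'.det_gram)
    (fun x y => by rw [B_lc hσ, B_lc hσ, e]) (Q_lc_eq (fun p r => hB _ _ _ _) fun p => hQ _ _)
    (fun x => (1 + sh F k m) *ᵥ x) h.apply_lc h'.apply_lc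

theorem blk_finrank_map {g : φ.Isom} {k m : ℕ} {v : Fin m → V} (h : Blk g k v) {j r : ℕ} (hj : j + r = k + 1) :
    finrank F ((bsp g k v).map (N g ^ j)) = r * m := by
  let ι : Fin r × Fin m → Fin (k + 1) × Fin m := fun p => (⟨j + p.1.1, by have := p.1.2; omega⟩, p.2)
  have h1 : LinearIndependent F (bf g k v ∘ ι) :=
    (linearIndependent_iff_injective_fintypeLinearCombination.2 (lc_injective h.det_gram)).comp ι fun p r e => by
      simp only [ι, Prod.mk.injEq, Fin.mk.injEq, add_right_inj] at e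
      exact Prod.ext (Fin.ext e.1) e.2
  have h2 : (bsp g k v).map (N g ^ j) = Submodule.span F (Set.range (bf g k v ∘ ι)) := by
    rw [bsp, Fintype.range_linearCombination, Submodule.map_span]
    refine le_antisymm (Submodule.span_le.2 ?_) (Submodule.span_mono ?_)
    · rintro _ ⟨_, ⟨p, rfl⟩, rfl⟩
      rw [bf, ← End.mul_apply, ← pow_add]
      by_cases hp : p.1.1 < r
      · exact Submodule.subset_span ⟨(⟨p.1.1, hp⟩, p.2), rfl⟩
      · rw [show j + p.1.1 = (p.1.1 - r) + (k + 1) by omega, pow_add, End.mul_apply, h.nil, map_zero]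
        exact zero_mem _
    · rintro _ ⟨p, rfl⟩
      refine ⟨bf g k v (⟨p.1.1, by have := p.1.2; omega⟩, p.2), ⟨_, rfl⟩, ?_⟩
      rw [bf, ← End.mul_apply, ← pow_add]; rfl
  rw [h2, finrank_span_eq_card h1]; simp

/-- the constants of a finite field of characteristic two -/
structure Al (α : F) : Prop where
  two : (2 : F) = 0
  sq : ∀ a : F, ∃ b, b ^ 2 = a
  ne : ∀ d, d ^ 2 + d ≠ α
  ex : ∀ a, ∃ d, a = d ^ 2 + d ∨ a = d ^ 2 + d + α

variable (φ) in
/-- an isometry with an invariant quadratic function -/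
structure Cx (κ : F) where
  g : φ.Isom
  q : V → F
  two : (2 : F) = 0
  σ : ∀ a, φ.σ a = a
  add : ∀ x y, q (x + y) = q x + q y + φ.B x y
  smul : ∀ (c : F) x, q (c • x) = c ^ 2 * q x
  inv : ∀ x, q (g.1 x) = q x
  cmp : ∀ x, φ.Q x = κ * q x

namespace Cx
variable {κ : F} (c : Cx φ κ)

/-- powers of `g - 1` -/
def n (j : ℕ) : V →ₗ[F] V := N c.g ^ j

/-- the quadratic functions -/
def Q (J : ℕ) (x : V) : F := c.q (c.n J x)

theorem n_n (a b : ℕ) (x : V) : c.n a (c.n b x) = c.n (a + b) x := by rw [n, n, n, pow_add, End.mul_apply]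

theorem n_zero (x : V) : c.n 0 x = x := rfl

theorem n_succ (a : ℕ) (x : V) : c.n (a + 1) x = N c.g (c.n a x) := by rw [n, n, pow_succ', End.mul_apply]

theorem n_of_le {a b : ℕ} {x : V} (h : c.n a x = 0) (hab : a ≤ b) : c.n b x = 0 := by
  obtain ⟨d, rfl⟩ := Nat.exists_eq_add_of_le' hab
  rw [← n_n, h, map_zero]

theorem n_mem {W : Submodule F V} (hW : c.g ∈ φ.stab W) {x : V} (hx : x ∈ W) (j : ℕ) : c.n j x ∈ W :=
  N_mem c.g hW hx j

include c in
theorem symm (x y : V) : φ.B y x = φ.B x y := by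
  have h1 := c.add x y
  rw [add_comm x, c.add] at h1
  linear_combination h1

theorem q_zero : c.q 0 = 0 := by simpa using c.smul 0 0

include c in
theorem alt (x : V) : φ.B x x = 0 := by
  have h1 := c.add x x
  rw [← two_smul F, c.smul] at h1
  linear_combination -h1 + c.q x * c.two

include c in
theorem smul_left (a : F) (x y : V) : φ.B (a • x) y = a * φ.B x y := by rw [φ.B_smul_left, c.σ]

theorem q_N (x : V) : c.q (N c.g x) = φ.B x (N c.g x) := by
  have h1 := c.inv x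
  rw [apply_eq, c.add] at h1
  linear_combination h1 - φ.B x (N c.g x) * c.two

theorem B_rec (z w : V) : φ.B (N c.g z) w + φ.B z (N c.g w) + φ.B (N c.g z) (N c.g w) = 0 := by
  have h1 := c.g.2.B z w
  rw [apply_eq c.g z, apply_eq c.g w] at h1
  simp only [map_add, LinearMap.add_apply] at h1
  linear_combination h1

theorem B_big {i a b : ℕ} {y : V} (hy : c.n i y = 0) (h : i ≤ a + b) (x : V) : φ.B (c.n a x) (c.n b y) = 0 := by
  have := c.n_of_le hy h
  rw [n] at this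
  rw [n, n, B_N_pow, this]; simp

theorem B_top {i a b : ℕ} {y : V} (hy : c.n (i + 1) y = 0) (h : a + b = i) (x : V) :
    φ.B (c.n a x) (c.n b y) = φ.B x (c.n i y) := by
  rw [n_succ] at hy
  have e : (-1 : F) = 1 := by linear_combination -c.two
  rw [n] at hy
  rw [n, n, B_N_pow, h, B_fix c.g hy, e, one_pow, one_mul, n]

theorem B_self {i a b : ℕ} {y : V} (hy : c.n (i + 1) y = 0) (h0 : φ.B y (c.n i y) = 0) (h : i ≤ a + b) :
    φ.B (c.n a y) (c.n b y) = 0 := by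
  rcases h.eq_or_lt with h | h
  · rw [c.B_top hy h.symm, h0]
  · exact c.B_big hy h y

theorem Q_succ (J : ℕ) (x : V) : c.Q (J + 1) x = φ.B (c.n J x) (c.n (J + 1) x) := by rw [Q, n_succ, q_N]

theorem Q_add (J : ℕ) (x y : V) : c.Q J (x + y) = c.Q J x + c.Q J y + φ.B (c.n J x) (c.n J y) := by
  rw [Q, map_add, c.add]; rfl

theorem Q_smul (J : ℕ) (a : F) (x : V) : c.Q J (a • x) = a ^ 2 * c.Q J x := by rw [Q, map_smul, c.smul]; rfl

theorem Q_n (J w : ℕ) (x : V) : c.Q J (c.n w x) = c.Q (J + w) x := by rw [Q, n_n]; rfl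

theorem Q_comb (J w : ℕ) (a : F) (x y : V) : c.Q J (x + a • c.n w y) =
    c.Q J x + a ^ 2 * c.Q (J + w) y + a * φ.B (c.n J x) (c.n (J + w) y) := by
  rw [Q_add, Q_smul, Q_n, map_smul, n_n, φ.B_smul_right]

theorem Q_big {i J : ℕ} {y : V} (hy : c.n (i + 1) y = 0) (h0 : φ.B y (c.n i y) = 0) (h : i < 2 * J) :
    c.Q J y = 0 := by
  obtain ⟨J, rfl⟩ : ∃ K, J = K + 1 := ⟨J - 1, by omega⟩
  rw [Q_succ, c.B_self hy h0 (by omega)]

theorem Q_big' {i J : ℕ} {y : V} (hy : c.n i y = 0) (h : i < 2 * J) : c.Q J y = 0 := by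
  obtain ⟨J, rfl⟩ : ∃ K, J = K + 1 := ⟨J - 1, by omega⟩
  rw [Q_succ, c.B_big hy (by omega)]

theorem beta_even {k : ℕ} {x : V} (hx : c.n (2 * k + 1) x = 0) : φ.B x (c.n (2 * k) x) = 0 := by
  rw [← c.B_top hx (two_mul k).symm, c.alt]

theorem beta_odd {k : ℕ} {x : V} (hx : c.n (2 * k + 2) x = 0) : φ.B x (c.n (2 * k + 1) x) = c.Q (k + 1) x := by
  rw [Q_succ, c.B_top (i := 2 * k + 1) hx (by ring)]

/-- a normalized generator of a single block -/
structure IsV (k : ℕ) (a : F) (x : V) : Prop where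
  nil : c.n (2 * k + 2) x = 0
  top : c.Q (k + 1) x = 1
  bit : c.Q k x = a
  low : ∀ J < k, c.Q J x = 0

/-- a dual pair -/
structure Pr (i : ℕ) (x y : V) : Prop where
  nx : c.n (i + 1) x = 0
  ny : c.n (i + 1) y = 0
  top : φ.B x (c.n i y) = 1
  bx : φ.B x (c.n i x) = 0
  bY : φ.B y (c.n i y) = 0

/-- normalized generators of a pair of blocks -/
structure IsW (i : ℕ) (a b : F) (x y : V) : Prop where
  pr : c.Pr i x y
  bit : ∀ J, 2 * J = i → c.Q J x = a ∧ c.Q J y = b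
  lowB : ∀ j < i, φ.B x (c.n j y) = 0
  low : ∀ J, 2 * J < i → c.Q J x = 0 ∧ c.Q J y = 0

variable {c}

theorem normV {W : Submodule F V} (hW : c.g ∈ φ.stab W) {k : ℕ} {x : V} (hx : x ∈ W) (h0 : c.n (2 * k + 2) x = 0)
    (h1 : c.Q (k + 1) x = 1) : ∃ x' ∈ W, c.IsV k (c.Q k x) x' := by
  have key : ∀ m j, j + m = k → ∃ x' ∈ W, c.n (2 * k + 2) x' = 0 ∧ c.Q (k + 1) x' = 1 ∧ c.Q k x' = c.Q k x ∧
      ∀ J, j ≤ J → J < k → c.Q J x' = 0 := by
    intro m
    induction m with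
    | zero => exact fun j hj => ⟨x, hx, h0, h1, rfl, fun J a b => by omega⟩
    | succ m ih =>
      intro j hj
      obtain ⟨y, y1, y2, y3, y4, y5⟩ := ih (j + 1) (by omega)
      have e : ∀ J, j < J → c.Q J (y + (-c.Q j y) • c.n (2 * m + 3) y) = c.Q J y := fun J hJ => by
        rw [Q_comb, c.Q_big' (J := J + _) y2 (by omega), c.B_big y2 (by omega)]; ring
      refine ⟨y + (-c.Q j y) • c.n (2 * m + 3) y, add_mem y1 (W.smul_mem _ (c.n_mem hW y1 _)), ?_,
        by rw [e _ (by omega), y3], by rw [e _ (by omega), y4], fun J a b => ?_⟩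
      · rw [map_add, map_smul, n_n, y2, c.n_of_le y2 (by omega)]; simp
      · rcases a.eq_or_lt with rfl | a
        · rw [Q_comb, c.Q_big' (J := j + _) y2 (by omega), c.B_top (i := 2 * k + 1) y2 (by omega), c.beta_odd y2, y3]
          ring
        · rw [e _ a, y5 J a b]
  obtain ⟨y, y1, y2, y3, y4, y5⟩ := key k 0 (zero_add k)
  exact ⟨y, y1, y2, y3, y4, fun J hJ => y5 J J.zero_le hJ⟩

theorem Pr.symm {i : ℕ} {x y : V} (h : c.Pr i x y) : c.Pr i y x :=
  ⟨h.ny, h.nx, by rw [c.symm, ← h.top, ← c.B_top h.ny (add_zero i)]; rfl, h.bY, h.bx⟩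

theorem Pr.s1 {i w : ℕ} {x y : V} (h : c.Pr i x y) (hw : 0 < w) (a : F) : c.Pr i (x + a • c.n w y) y ∧
    (∀ j, i ≤ j + w → φ.B (x + a • c.n w y) (c.n j y) = φ.B x (c.n j y) ∧
      φ.B y (c.n j (x + a • c.n w y)) = φ.B y (c.n j x)) ∧
    (∀ J, i < 2 * J + w → c.Q J (x + a • c.n w y) = c.Q J x) ∧
    (∀ J, i = 2 * J + w → c.Q J (x + a • c.n w y) = c.Q J x + a) := by
  have e1 : ∀ j, i ≤ j + w → φ.B (x + a • c.n w y) (c.n j y) = φ.B x (c.n j y) := fun j hj => by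
    rw [map_add, LinearMap.add_apply, c.smul_left, c.B_self h.ny h.bY (by omega)]; ring
  have e2 : c.n i (x + a • c.n w y) = c.n i x := by
    rw [map_add, map_smul, n_n, c.n_of_le h.ny (by omega)]; simp
  refine ⟨⟨?_, h.ny, by rw [e1 i (by omega), h.top], ?_, h.bY⟩, fun j hj => ⟨e1 j hj, ?_⟩, fun J hJ => ?_,
    fun J hJ => ?_⟩
  · rw [n_succ, e2, ← n_succ, h.nx]
  · rw [e2, map_add, LinearMap.add_apply, c.smul_left, c.B_big h.nx (by omega), h.bx]; ring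
  · have := c.B_self (a := 0) (b := j + w) h.ny h.bY (by omega)
    rw [n_zero] at this
    rw [map_add, map_smul, n_n, map_add, φ.B_smul_right, this]; ring
  · rw [Q_comb, c.Q_big h.ny h.bY (by omega), c.B_big h.ny (by omega)]; ring
  · rw [Q_comb, c.Q_big h.ny h.bY (by omega), c.B_top h.ny (by omega), h.top]; ring

theorem Pr.s2 {i w : ℕ} {x y : V} (h : c.Pr i x y) (hw : 0 < w) (a : F) : c.Pr i x (y + a • c.n w y) ∧
    (∀ j, i < j + w → φ.B x (c.n j (y + a • c.n w y)) = φ.B x (c.n j y)) ∧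
    (∀ j, i = j + w → φ.B x (c.n j (y + a • c.n w y)) = φ.B x (c.n j y) + a) ∧
    (∀ J, i ≤ 2 * J + w → c.Q J (y + a • c.n w y) = c.Q J y) := by
  have e2 : ∀ j, i < j + w → c.n j (y + a • c.n w y) = c.n j y := fun j hj => by
    rw [map_add, map_smul, n_n, c.n_of_le (b := j + w) h.ny (by omega)]; simp
  refine ⟨⟨h.nx, by rw [e2 _ (by omega), h.ny], by rw [e2 _ (by omega), h.top], h.bx, ?_⟩,
    fun j hj => by rw [e2 j hj], fun j hj => ?_, fun J hJ => ?_⟩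
  · rw [e2 _ (by omega), map_add, LinearMap.add_apply, c.smul_left, c.B_big h.ny (by omega), h.bY]; ring
  · rw [map_add, map_smul, n_n, map_add, φ.B_smul_right, ← hj, h.top]; ring
  · rw [Q_comb, c.Q_big (J := J + w) h.ny h.bY (by omega), c.B_self h.ny h.bY (by omega)]; ring

theorem normW {W : Submodule F V} (hW : c.g ∈ φ.stab W) {i : ℕ} {x y : V} (hx : x ∈ W) (hy : y ∈ W)
    (h : c.Pr i x y) {a b : F} (hb : ∀ J, 2 * J = i → c.Q J x = a ∧ c.Q J y = b) :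
    ∃ x' ∈ W, ∃ y' ∈ W, c.IsW i a b x' y' := by
  have key : ∀ w ≤ i, ∃ x' ∈ W, ∃ y' ∈ W, c.Pr i x' y' ∧ (∀ J, 2 * J = i → c.Q J x' = a ∧ c.Q J y' = b) ∧
      (∀ j < i, i ≤ j + w → φ.B x' (c.n j y') = 0) ∧
      ∀ J, 2 * J < i → i ≤ 2 * J + w → c.Q J x' = 0 ∧ c.Q J y' = 0 := by
    intro w
    induction w with
    | zero => exact fun _ => ⟨x, hx, y, hy, h, hb, fun j a b => by omega, fun j a b => by omega⟩
    | succ w ih =>
      intro hw
      obtain ⟨x, hx, y, hy, h, hb, h1, h2⟩ := ih (by omega)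
      obtain ⟨a1, a2, a3, a4⟩ := h.s1 w.succ_pos (-c.Q ((i - (w + 1)) / 2) x)
      set x₁ := x + (-c.Q ((i - (w + 1)) / 2) x) • c.n (w + 1) y with hx₁
      have m1 : x₁ ∈ W := add_mem hx (W.smul_mem _ (c.n_mem hW hy _))
      obtain ⟨b1, b2, b3, b4⟩ := a1.symm.s1 w.succ_pos (-c.Q ((i - (w + 1)) / 2) y)
      set y₁ := y + (-c.Q ((i - (w + 1)) / 2) y) • c.n (w + 1) x₁ with hy₁
      have m2 : y₁ ∈ W := add_mem hy (W.smul_mem _ (c.n_mem hW m1 _))
      obtain ⟨c1, c2, c3, c4⟩ := b1.symm.s2 w.succ_pos (-φ.B x₁ (c.n (i - (w + 1)) y₁))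
      refine ⟨x₁, m1, _, add_mem m2 (W.smul_mem _ (c.n_mem hW m2 _)), c1, fun J hJ => ?_, fun j hj hj' => ?_,
        fun J hJ hJ' => ?_⟩
      · rw [a3 J (by omega), c4 J (by omega), b3 J (by omega)]
        exact hb J hJ
      · rcases hj'.eq_or_lt with e | e
        · rw [c3 j e, show i - (w + 1) = j by omega]; ring
        · rw [c2 j e, (b2 j e.le).2, (a2 j e.le).1, h1 j hj (by omega)]
      · rw [c4 J hJ']
        rcases hJ'.eq_or_lt with e | e
        · rw [a4 J e, b4 J e, show (i - (w + 1)) / 2 = J by omega]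
          exact ⟨by ring, by ring⟩
        · rw [a3 J e, b3 J e]
          exact h2 J hJ (by omega)
  obtain ⟨x, hx, y, hy, h, hb, h1, h2⟩ := key i le_rfl
  exact ⟨x, hx, y, hy, h, hb, fun j hj => h1 j hj (by omega), fun J hJ => h2 J hJ (by omega)⟩

variable {c' : Cx φ κ}

theorem self_eq {x x' : V} (h : ∀ J, c'.Q (J + 1) x' = c.Q (J + 1) x) (a b : ℕ) :
    φ.B (c'.n a x') (c'.n b x') = φ.B (c.n a x) (c.n b x) := by
  have key : ∀ d a, φ.B (c'.n a x') (c'.n (a + d) x') = φ.B (c.n a x) (c.n (a + d) x) := by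
    intro d
    induction d using Nat.twoStepInduction with
    | zero => intro a; rw [add_zero, c.alt, c.alt]
    | one => intro a; rw [← Q_succ, ← Q_succ, h]
    | more d ih1 ih2 =>
      intro a
      have e1 := c.B_rec (c.n a x) (c.n (a + d + 1) x)
      have e2 := c'.B_rec (c'.n a x') (c'.n (a + d + 1) x')
      have e3 := ih1 (a + 1)
      have e4 := ih2 (a + 1)
      simp only [← n_succ] at e1 e2
      rw [show a + 1 + d = a + d + 1 by ring] at e3
      rw [show a + 1 + (d + 1) = a + d + 1 + 1 by ring] at e4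
      rw [show a + (d + 2) = a + d + 1 + 1 by ring]
      linear_combination e2 - e1 - e3 - e4
  rcases le_total a b with hab | hab <;> obtain ⟨d, rfl⟩ := Nat.exists_eq_add_of_le hab
  · exact key d a
  · rw [c.symm, key, c.symm]

theorem pair_eq {x x' y y' : V} {L : ℕ} (hy : c.n L y = 0) (hy' : c'.n L y' = 0)
    (h : ∀ j, φ.B x' (c'.n j y') = φ.B x (c.n j y)) (a b : ℕ) :
    φ.B (c'.n a x') (c'.n b y') = φ.B (c.n a x) (c.n b y) := by
  induction a generalizing b with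
  | zero => exact h b
  | succ a ih =>
    have key : ∀ m b, L ≤ b + m → φ.B (c'.n (a + 1) x') (c'.n b y') = φ.B (c.n (a + 1) x) (c.n b y) := by
      intro m
      induction m with
      | zero => intro b hb; rw [c.n_of_le (b := b) hy hb, c'.n_of_le (b := b) hy' hb, map_zero, map_zero]
      | succ m ihm =>
        intro b hb
        have e1 := c.B_rec (c.n a x) (c.n b y)
        have e2 := c'.B_rec (c'.n a x') (c'.n b y')
        simp only [← n_succ] at e1 e2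
        linear_combination e2 - e1 - ih (b + 1) - ihm (b + 1) (by omega)
    exact key L b (by omega)

theorem IsV.blk {k : ℕ} {a : F} {x : V} (h : c.IsV k a x) : Blk c.g (2 * k + 1) ![x] :=
  ⟨fun i => by fin_cases i; exact h.nil, by
    rw [det_fin_one]
    change φ.B x (c.n (2 * k + 1) x) ≠ 0
    rw [c.beta_odd h.nil, h.top]; exact one_ne_zero⟩

theorem Pr.blk {i : ℕ} {x y : V} (h : c.Pr i x y) : Blk c.g i ![x, y] :=
  ⟨fun i => by fin_cases i; exacts [h.nx, h.ny], by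
    rw [det_fin_two]
    change φ.B x (c.n i x) * φ.B y (c.n i y) - φ.B x (c.n i y) * φ.B y (c.n i x) ≠ 0
    rw [h.bx, h.top, h.symm.top]; simp⟩

theorem IsV.Q_eq {k : ℕ} {a : F} {x : V} (h : c.IsV k a x) (J : ℕ) :
    c.Q J x = if J = k + 1 then 1 else if J = k then a else 0 := by
  split_ifs with h1 h2
  · rw [h1, h.top]
  · rw [h2, h.bit]
  · by_cases h3 : J < k
    · exact h.low J h3
    · exact c.Q_big' h.nil (by omega)

theorem IsW.Q_eq {i : ℕ} {a b : F} {x y : V} (h : c.IsW i a b x y) (J : ℕ) :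
    c.Q J x = (if 2 * J = i then a else 0) ∧ c.Q J y = if 2 * J = i then b else 0 := by
  split_ifs with h1
  · exact h.bit J h1
  · by_cases h3 : 2 * J < i
    · exact h.low J h3
    · exact ⟨c.Q_big h.pr.nx h.pr.bx (by omega), c.Q_big h.pr.ny h.pr.bY (by omega)⟩

theorem IsW.B_eq {i : ℕ} {a b : F} {x y : V} (h : c.IsW i a b x y) (j : ℕ) :
    φ.B x (c.n j y) = if j = i then 1 else 0 := by
  split_ifs with h1
  · rw [h1, h.pr.top]
  · by_cases h3 : j < i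
    · exact h.lowB j h3
    · rw [c.n_of_le h.pr.ny (by omega), map_zero]

theorem eqvV {k : ℕ} {a a' : F} {x x' : V} (h : c.IsV k a x) (h' : c'.IsV k a' x') (he : a = a' ∨ (k = 0 ∧ κ = 0)) :
    Eqv φ (c.g.1 : V →ₗ[F] V) (c'.g.1 : V →ₗ[F] V) (bsp c.g (2 * k + 1) ![x]) (bsp c'.g (2 * k + 1) ![x']) := by
  refine blk_eqv c.σ h.blk h'.blk (fun a b i j => ?_) fun J i => ?_
  · fin_cases i; fin_cases j
    refine self_eq (x := x) (x' := x') (fun J => ?_) a b
    rw [h.Q_eq, h'.Q_eq]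
    rcases he with rfl | ⟨rfl, -⟩ <;> simp
  · fin_cases i
    rw [c'.cmp, c.cmp ((N c.g ^ _) _)]
    change κ * c'.Q J x' = κ * c.Q J x
    rw [h.Q_eq, h'.Q_eq]
    rcases he with rfl | ⟨-, rfl⟩ <;> simp

theorem eqvW {i : ℕ} {a a' b b' : F} {x x' y y' : V} (h : c.IsW i a b x y) (h' : c'.IsW i a' b' x' y')
    (he : (a = a' ∧ b = b') ∨ (i = 0 ∧ κ = 0)) :
    Eqv φ (c.g.1 : V →ₗ[F] V) (c'.g.1 : V →ₗ[F] V) (bsp c.g i ![x, y]) (bsp c'.g i ![x', y']) := by
  have e1 : ∀ a b, φ.B (c'.n a x') (c'.n b y') = φ.B (c.n a x) (c.n b y) :=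
    pair_eq h.pr.ny h'.pr.ny fun j => by rw [h.B_eq, h'.B_eq]
  refine blk_eqv c.σ h.pr.blk h'.pr.blk (fun a b i j => ?_) fun J i => ?_
  · fin_cases i <;> fin_cases j
    · refine self_eq (x := x) (x' := x') (fun J => ?_) a b
      rw [(h.Q_eq _).1, (h'.Q_eq _).1]
      rcases he with ⟨rfl, -⟩ | ⟨rfl, -⟩ <;> simp
    · exact e1 a b
    · exact (c.symm _ _).trans ((e1 b a).trans (c.symm _ _))
    · refine self_eq (x := y) (x' := y') (fun J => ?_) a b
      rw [(h.Q_eq _).2, (h'.Q_eq _).2]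
      rcases he with ⟨-, rfl⟩ | ⟨rfl, -⟩ <;> simp
  · rw [c'.cmp, c.cmp ((N c.g ^ _) _)]
    fin_cases i
    · change κ * c'.Q J x' = κ * c.Q J x
      rw [(h.Q_eq _).1, (h'.Q_eq _).1]
      rcases he with ⟨rfl, -⟩ | ⟨-, rfl⟩ <;> simp
    · change κ * c'.Q J y' = κ * c.Q J y
      rw [(h.Q_eq _).2, (h'.Q_eq _).2]
      rcases he with ⟨-, rfl⟩ | ⟨-, rfl⟩ <;> simp

end Cx

end We
end H16
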