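import Mathlib
import Cfsg.Agent.H16.We1

/-!
# Unipotent isometries in characteristic two: orthogonal decompositions

* `Ty`, `Pc`, `Dec` : types of pieces, pieces, decompositions; `Dec.exists`, `Dec.eqv`
* `NF`, `exists_nf` : decompositions in normal form
-/

open Matrix Module H10 H24.Wall

set_option linter.unusedSectionVars false

namespace H16
namespace We

open Wal

variable {F V : Type*} [Field F] [AddCommGroup V] [Module F V] {φ : Form F V} [φ.Nondeg] [FiniteDimensional F V]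

/-- types of pieces -/
inductive Ty
  | V (k : ℕ) (b : Bool)
  | W (i : ℕ)
  | U (k : ℕ)
  deriving DecidableEq

/-- dimension of a piece -/
def Ty.dim : Ty → ℕ
  | .V k _ => 2 * k + 2
  | .W i => 2 * i + 2
  | .U k => 4 * k + 2

/-- number of Jordan blocks of a piece -/
def Ty.bl : Ty → ℕ
  | .V _ _ => 1
  | .W _ => 2
  | .U _ => 2

/-- cost of a piece -/
def Ty.cost (D : ℕ) : Ty → ℕ
  | .V k b => D + 1 + cond b (k + 1) 0
  | .W _ => 0
  | .U _ => 2 * D + 2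

/-- the type seen by the symplectic group -/
def Ty.fg : Ty → Ty
  | .V 0 _ => .V 0 false
  | .U 0 => .W 0
  | t => t

theorem Ty.fg_eq {t t' : Ty} (h : t.fg = t'.fg) : t = t' ∨ (∃ b b', t = .V 0 b ∧ t' = .V 0 b') ∨
    ((t = .W 0 ∨ t = .U 0) ∧ (t' = .W 0 ∨ t' = .U 0)) := by
  rcases t with ⟨_ | k, b⟩ | i | _ | k <;> rcases t' with ⟨_ | k', b'⟩ | i' | _ | k' <;> simp_all [Ty.fg]

variable {κ : F} (α : F) (c : Cx φ κ)

/-- pieces -/
def Pc : Ty → Submodule F V → Prop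
  | .V k b, P => ∃ x, c.IsV k (cond b α 0) x ∧ P = bsp c.g (2 * k + 1) ![x]
  | .W i, P => ∃ x y, c.IsW i 0 0 x y ∧ P = bsp c.g i ![x, y]
  | .U k, P => ∃ x y, c.IsW (2 * k) 1 α x y ∧ P = bsp c.g (2 * k) ![x, y]

/-- decompositions -/
inductive Dec : Multiset Ty → Submodule F V → Prop
  | nil : Dec 0 ⊥
  | cons {t P L W} : Pc α c t P → Dec L W → W ≤ φ.perp P → Dec (t ::ₘ L) (P ⊔ W)

variable {α c}

theorem mem_bsp (g : φ.Isom) (k : ℕ) {m : ℕ} (v : Fin m → V) (i : Fin m) : v i ∈ bsp g k v := bf_mem g k v (0, i)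

theorem bsp_le' {g : φ.Isom} {k m : ℕ} {v : Fin m → V} {W : Submodule F V} (hW : g ∈ φ.stab W) (h : ∀ i, v i ∈ W) :
    bsp g k v ≤ W := bsp_le fun p => N_mem g hW (h p.2) _

theorem nd_sup {P W : Submodule F V} (hP : φ.NondegOn P) (hW : φ.NondegOn W) (h : W ≤ φ.perp P) :
    φ.NondegOn (P ⊔ W) := fun x hx e => by
  obtain ⟨a, ha, b, hb, rfl⟩ := Submodule.mem_sup.1 hx
  rw [hP a ha fun y hy => by simpa [φ.B_symm_zero (h hb y hy)] using e y (Submodule.mem_sup_left hy),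
    hW b hb fun y hy => by simpa [h hy a ha] using e y (Submodule.mem_sup_right hy), add_zero]

theorem stab_sup {g : φ.Isom} {P W : Submodule F V} (hP : g ∈ φ.stab P) (hW : g ∈ φ.stab W) : g ∈ φ.stab (P ⊔ W) :=
  φ.mem_stab_of_le fun x hx => by
    obtain ⟨a, ha, b, hb, rfl⟩ := Submodule.mem_sup.1 hx
    rw [map_add]
    exact Submodule.add_mem_sup ((φ.mem_stab.1 hP _).1 ha) ((φ.mem_stab.1 hW _).1 hb)

theorem finrank_sup_orth {P A B : Submodule F V} (hP : φ.NondegOn P) (hA : A ≤ P) (hB : B ≤ φ.perp P) :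
    finrank F ↥(A ⊔ B) = finrank F A + finrank F B := by
  rw [← Submodule.finrank_sup_add_finrank_inf_eq,
    (Disjoint.mono hA hB (φ.nondegOn_iff_disjoint.1 hP)).eq_bot, finrank_bot, add_zero]

theorem split {g : φ.Isom} {P W : Submodule F V} (h : P ≤ W) (hP : φ.NondegOn P) (hW : φ.NondegOn W)
    (sP : g ∈ φ.stab P) (sW : g ∈ φ.stab W) :
    P ⊔ φ.perp P ⊓ W = W ∧ g ∈ φ.stab (φ.perp P ⊓ W) ∧ φ.NondegOn (φ.perp P ⊓ W) := by
  have e0 : P ⊔ φ.perp P ⊓ W = W := by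
    rw [← sup_inf_assoc_of_le _ h, hP.isCompl_perp.sup_eq_top, top_inf_eq]
  refine ⟨e0, φ.mem_stab_of_le fun x hx =>
    ⟨(φ.mem_stab.1 (φ.stab_le_stab_perp _ sP) x).1 hx.1, (φ.mem_stab.1 sW x).1 hx.2⟩,
    fun x hx h => hW x hx.2 fun y hy => ?_⟩
  obtain ⟨u, hu, r, hr, rfl⟩ := Submodule.mem_sup.1 (e0.ge hy)
  rw [map_add, h r hr, φ.B_symm_zero (hx.1 u hu), add_zero]

namespace Pc
variable {t : Ty} {P : Submodule F V} (h : Pc α c t P)
include h

theorem blk : ∃ (k m : ℕ) (v : Fin m → V), Blk c.g k v ∧ P = bsp c.g k v ∧ t.dim = (k + 1) * m ∧ t.bl = m := by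
  cases t with
  | V k b => obtain ⟨x, h1, h2⟩ := h; exact ⟨_, _, _, h1.blk, h2, by simp [Ty.dim], rfl⟩
  | W i => obtain ⟨x, y, h1, h2⟩ := h; exact ⟨_, _, _, h1.pr.blk, h2, by simp [Ty.dim]; ring, rfl⟩
  | U i => obtain ⟨x, y, h1, h2⟩ := h; exact ⟨_, _, _, h1.pr.blk, h2, by simp [Ty.dim]; ring, rfl⟩

theorem nd : φ.NondegOn P := by obtain ⟨k, m, v, h1, rfl, -⟩ := h.blk; exact h1.nondeg

theorem stab : c.g ∈ φ.stab P := by obtain ⟨k, m, v, h1, rfl, -⟩ := h.blk; exact h1.stab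

theorem finrank_eq : finrank F P = t.dim := by
  obtain ⟨k, m, v, h1, rfl, h2, -⟩ := h.blk; rw [h1.finrank_bsp, h2]

theorem finrank_map : finrank F (P.map (c.n 1)) + t.bl = t.dim := by
  obtain ⟨k, m, v, h1, rfl, h2, h3⟩ := h.blk
  rw [Cx.n, blk_finrank_map h1 (add_comm 1 k), h2, h3]; ring

theorem eqv {c' : Cx φ κ} {t' : Ty} {P' : Submodule F V} (h' : Pc α c' t' P')
    (he : t = t' ∨ (κ = 0 ∧ t.fg = t'.fg)) : Eqv φ (c.g.1 : V →ₗ[F] V) (c'.g.1 : V →ₗ[F] V) P P' := by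
  have key : t = t' → Eqv φ (c.g.1 : V →ₗ[F] V) (c'.g.1 : V →ₗ[F] V) P P' := by
    rintro rfl
    cases t with
    | V k b => obtain ⟨x, h1, rfl⟩ := h; obtain ⟨x', h2, rfl⟩ := h'; exact Cx.eqvV h1 h2 (.inl rfl)
    | W i => obtain ⟨x, y, h1, rfl⟩ := h; obtain ⟨x', y', h2, rfl⟩ := h'; exact Cx.eqvW h1 h2 (.inl ⟨rfl, rfl⟩)
    | U i => obtain ⟨x, y, h1, rfl⟩ := h; obtain ⟨x', y', h2, rfl⟩ := h'; exact Cx.eqvW h1 h2 (.inl ⟨rfl, rfl⟩)
  rcases he with he | ⟨hκ, he⟩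
  · exact key he
  rcases Ty.fg_eq he with he | ⟨b, b', rfl, rfl⟩ | ⟨rfl | rfl, rfl | rfl⟩
  · exact key he
  · obtain ⟨x, h1, rfl⟩ := h; obtain ⟨x', h2, rfl⟩ := h'; exact Cx.eqvV h1 h2 (.inr ⟨rfl, hκ⟩)
  all_goals
    obtain ⟨x, y, h1, rfl⟩ := h; obtain ⟨x', y', h2, rfl⟩ := h'; exact Cx.eqvW h1 h2 (.inr ⟨rfl, hκ⟩)

end Pc

section mk
variable {W : Submodule F V} (hW : c.g ∈ φ.stab W)
include hW

theorem pcV {k : ℕ} {x : V} (hx : x ∈ W) (h0 : c.n (2 * k + 2) x = 0) (h1 : c.Q (k + 1) x = 1) {b : Bool}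
    (h2 : c.Q k x = cond b α 0) : ∃ P, Pc α c (.V k b) P ∧ P ≤ W := by
  obtain ⟨y, y1, y2⟩ := Cx.normV hW hx h0 h1
  exact ⟨_, ⟨y, h2 ▸ y2, rfl⟩, bsp_le' hW fun i => by fin_cases i; exact y1⟩

theorem mkV (hα : Al α) {k : ℕ} {x : V} (hx : x ∈ W) (h0 : c.n (2 * k + 2) x = 0) (h1 : c.Q (k + 1) x ≠ 0) :
    ∃ t P, Pc α c t P ∧ P ≤ W := by
  obtain ⟨s, hs⟩ := hα.sq (c.Q (k + 1) x)⁻¹
  have e0 : c.n (2 * k + 2) (s • x) = 0 := by rw [map_smul, h0, smul_zero]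
  have e1 : c.Q (k + 1) (s • x) = 1 := by rw [c.Q_smul, hs, inv_mul_cancel₀ h1]
  have hx' := W.smul_mem s hx
  generalize s • x = y at *
  obtain ⟨d, hd⟩ := hα.ex (c.Q k y)
  have e2 : c.n (2 * k + 2) (y + d • c.n 1 y) = 0 := by
    rw [map_add, map_smul, c.n_n, e0, c.n_of_le e0 (by omega)]; simp
  have e3 : c.Q (k + 1) (y + d • c.n 1 y) = 1 := by
    rw [c.Q_comb, e1, c.Q_big' e0 (by omega), c.B_big e0 (by omega)]; ring
  have e4 : c.Q k (y + d • c.n 1 y) = c.Q k y + d ^ 2 + d := by rw [c.Q_comb, ← c.Q_succ, e1]; ring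
  have e5 := add_mem hx' (W.smul_mem d (c.n_mem hW hx' 1))
  rcases hd with hd | hd
  · exact ⟨_, pcV hW e5 e2 e3 (b := false) (by rw [e4, hd]; change _ = 0; linear_combination (d ^ 2 + d) * hα.two)⟩
  · exact ⟨_, pcV hW e5 e2 e3 (b := true) (by rw [e4, hd]; change _ = α; linear_combination (d ^ 2 + d) * hα.two)⟩

omit hW in
theorem s0 {i : ℕ} {x y : V} (h : c.Pr i x y) (a : F) : c.Pr i x (y + a • x) ∧
    ∀ J, 2 * J = i → c.Q J (y + a • x) = c.Q J y + a ^ 2 * c.Q J x + a := by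
  refine ⟨⟨h.nx, by rw [map_add, map_smul, h.nx, h.ny]; simp, ?_, h.bx, ?_⟩, fun J hJ => ?_⟩
  · rw [map_add, map_smul, map_add, φ.B_smul_right, h.top, h.bx]; ring
  · simp only [map_add, LinearMap.add_apply, c.smul_left, LinearMap.map_smul, smul_eq_mul]
    rw [h.top, h.bx, h.bY, h.symm.top]
    linear_combination a * c.two
  · have := c.Q_comb J 0 a y x
    rwa [add_zero, c.B_top h.nx (by omega), h.symm.top, mul_one] at this

theorem pcW {i : ℕ} {x y : V} (hx : x ∈ W) (hy : y ∈ W) (h : c.Pr i x y) (h0 : ∀ J, 2 * J = i → c.Q J x = 0) :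
    ∃ P, Pc α c (.W i) P ∧ P ≤ W := by
  obtain ⟨a1, a2⟩ := s0 h (-c.Q (i / 2) y)
  obtain ⟨x', x1, y', y1, h1⟩ := Cx.normW hW hx (add_mem hy (W.smul_mem _ hx)) a1 (a := 0) (b := 0) fun J hJ =>
    ⟨h0 J hJ, by rw [a2 J hJ, h0 J hJ, show i / 2 = J by omega]; ring⟩
  exact ⟨_, ⟨x', y', h1, rfl⟩, bsp_le' hW fun i => by fin_cases i; exacts [x1, y1]⟩

theorem mkW (hα : Al α) {i : ℕ} {x y : V} (hx : x ∈ W) (hy : y ∈ W) (h : c.Pr i x y) :
    ∃ t P, Pc α c t P ∧ P ≤ W := by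
  by_cases h0 : ∀ J, 2 * J = i → c.Q J x = 0
  · exact ⟨_, pcW hW hx hy h h0⟩
  push Not at h0
  obtain ⟨k, rfl, hk⟩ := h0
  obtain ⟨s, hs⟩ := hα.sq (c.Q k x)
  have s0' : s ≠ 0 := by rintro rfl; exact hk (by rw [← hs]; ring)
  have e1 : c.Pr (2 * k) (s⁻¹ • x) (s • y) :=
    ⟨by rw [map_smul, h.nx, smul_zero], by rw [map_smul, h.ny, smul_zero],
      by rw [c.smul_left, map_smul, φ.B_smul_right, h.top]; field_simp,
      by rw [c.smul_left, map_smul, φ.B_smul_right, h.bx]; ring,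
      by rw [c.smul_left, map_smul, φ.B_smul_right, h.bY]; ring⟩
  have e2 : c.Q k (s⁻¹ • x) = 1 := by rw [c.Q_smul, ← hs]; field_simp
  have hx' := W.smul_mem s⁻¹ hx
  have hy' := W.smul_mem s hy
  generalize s⁻¹ • x = x at *
  generalize s • y = y at *
  obtain ⟨d, hd⟩ := hα.ex (c.Q k y)
  obtain ⟨a1, a2⟩ := s0 e1 d
  have a3 := a2 k rfl
  have e5 := add_mem hy' (W.smul_mem d hx')
  rw [e2] at a3
  rcases hd with hd | hd
  · exact ⟨_, pcW hW e5 hx' a1.symm fun J hJ => by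
      rw [show J = k by omega, a3, hd]; linear_combination (d ^ 2 + d) * hα.two⟩
  · obtain ⟨x', x1, y', y1, h1⟩ := Cx.normW hW hx' e5 a1 (a := 1) (b := α) fun J hJ => by
      rw [show J = k by omega, a3, hd]
      exact ⟨e2, by linear_combination (d ^ 2 + d) * hα.two⟩
    exact ⟨.U k, _, ⟨x', y', h1, rfl⟩, bsp_le' hW fun i => by fin_cases i; exacts [x1, y1]⟩

theorem exists_pc (hα : Al α) (hn : φ.NondegOn W) {e : ℕ} (he : ∀ x ∈ W, c.n e x = 0) (h0 : W ≠ ⊥) :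
    ∃ t P, Pc α c t P ∧ P ≤ W := by
  induction e with
  | zero => exact absurd (eq_bot_iff.2 he) h0
  | succ i ih =>
    by_cases h1 : ∀ x ∈ W, c.n i x = 0
    · exact ih h1
    push Not at h1
    obtain ⟨y, hy, h1⟩ := h1
    by_cases h2 : ∀ x ∈ W, φ.B x (c.n i x) = 0
    · have h3 : ¬ ∀ x ∈ W, φ.B (c.n i y) x = 0 := fun h => h1 (hn _ (c.n_mem hW hy i) h)
      push Not at h3
      obtain ⟨x, hx, h3⟩ := h3
      have hx' := W.smul_mem (φ.B (c.n i y) x)⁻¹ hx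
      exact mkW hW hα hx' hy ⟨he _ hx', he _ hy, by rw [c.smul_left, c.symm (c.n i y), inv_mul_cancel₀ h3],
        h2 _ hx', h2 _ hy⟩
    · push Not at h2
      obtain ⟨x, hx, h2⟩ := h2
      obtain ⟨k, rfl | rfl⟩ := Nat.even_or_odd' i
      · exact absurd (c.beta_even (he x hx)) h2
      · exact mkV hW hα hx (he x hx) (by rwa [c.beta_odd (he x hx)] at h2)

end mk

namespace Dec
variable {L : Multiset Ty} {W : Submodule F V}

theorem nd (h : Dec α c L W) : φ.NondegOn W := by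
  induction h with
  | nil => exact fun x hx _ => hx
  | cons h1 _ h3 ih => exact nd_sup h1.nd ih h3

theorem stab (h : Dec α c L W) : c.g ∈ φ.stab W := by
  induction h with
  | nil => exact φ.mem_stab_of_le fun x hx => by simp_all
  | cons h1 _ _ ih => exact stab_sup h1.stab ih

theorem finrank_eq (h : Dec α c L W) : finrank F W = (L.map Ty.dim).sum := by
  induction h with
  | nil => simp
  | cons h1 _ h3 ih => rw [finrank_sup_orth h1.nd le_rfl h3, ih, h1.finrank_eq]; simp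

theorem finrank_map (h : Dec α c L W) :
    finrank F (W.map (c.n 1)) + (L.map Ty.bl).sum = (L.map Ty.dim).sum := by
  induction h with
  | nil => simp
  | cons h1 h2 h3 ih =>
    rw [Submodule.map_sup, finrank_sup_orth h1.nd (by rintro _ ⟨x, hx, rfl⟩; exact c.n_mem h1.stab hx 1)
      (by rintro _ ⟨x, hx, rfl⟩; exact h3 (c.n_mem h2.stab hx 1))]
    have := h1.finrank_map
    simp only [Multiset.map_cons, Multiset.sum_cons]
    omega

theorem extract (h : Dec α c L W) {t : Ty} (ht : t ∈ L) :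
    ∃ P W', Pc α c t P ∧ Dec α c (L.erase t) W' ∧ W' ≤ φ.perp P ∧ W = P ⊔ W' := by
  induction h with
  | nil => simp at ht
  | @cons t₀ P₀ L₀ W₀ h1 h2 h3 ih =>
    by_cases e : t₀ = t
    · subst e
      exact ⟨P₀, W₀, h1, by rwa [Multiset.erase_cons_head], h3, rfl⟩
    · obtain ⟨P, W', a1, a2, a3, rfl⟩ := ih ((Multiset.mem_cons.1 ht).resolve_left (Ne.symm e))
      rw [Multiset.erase_cons_tail _ e]
      exact ⟨P, P₀ ⊔ W', a1, .cons h1 a2 (le_sup_right.trans h3),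
        sup_le (φ.le_perp_comm.1 (le_sup_left.trans h3)) a3, sup_left_comm _ _ _⟩

theorem extract' {t : Ty} (h : Dec α c (t ::ₘ L) W) :
    ∃ P W', Pc α c t P ∧ Dec α c L W' ∧ W' ≤ φ.perp P ∧ W = P ⊔ W' := by
  simpa using h.extract (Multiset.mem_cons_self t L)

theorem add {L' : Multiset Ty} {W' : Submodule F V} (h : Dec α c L W) (h' : Dec α c L' W') (ho : W' ≤ φ.perp W) :
    Dec α c (L + L') (W ⊔ W') := by
  induction h with
  | nil => simpa using h'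
  | cons h1 h2 h3 ih =>
    rw [φ.perp_sup, le_inf_iff] at ho
    rw [Multiset.cons_add, sup_assoc]
    exact .cons h1 (ih ho.2) (sup_le h3 ho.1)

theorem split {S : Multiset Ty} (h : Dec α c (S + L) W) :
    ∃ A W', Dec α c S A ∧ Dec α c L W' ∧ W' ≤ φ.perp A ∧ W = A ⊔ W' := by
  induction S using Multiset.induction_on generalizing W with
  | empty => exact ⟨⊥, W, .nil, by simpa using h, by simp, by simp⟩
  | cons t S ih =>
    rw [Multiset.cons_add] at h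
    obtain ⟨P, W₁, a1, a2, a3, rfl⟩ := h.extract'
    obtain ⟨A, W', b1, b2, b3, rfl⟩ := ih a2
    exact ⟨P ⊔ A, W', .cons a1 b1 (le_sup_left.trans a3),  b2,
      by rw [φ.perp_sup]; exact le_inf (le_sup_right.trans a3) b3, (sup_assoc _ _ _).symm⟩

theorem eqv {c' : Cx φ κ} (f : Ty → Ty) (hf : ∀ t t', f t = f t' → t = t' ∨ (κ = 0 ∧ t.fg = t'.fg))
    (h : Dec α c L W) : ∀ {L' : Multiset Ty} {W' : Submodule F V}, Dec α c' L' W' → L.map f = L'.map f →
      Eqv φ (c.g.1 : V →ₗ[F] V) (c'.g.1 : V →ₗ[F] V) W W' := by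
  induction h with
  | nil =>
    intro L' W' h' e
    have e1 := h'.finrank_eq
    rw [Multiset.map_zero, eq_comm, Multiset.map_eq_zero] at e
    rw [e, Multiset.map_zero, Multiset.sum_zero, Submodule.finrank_eq_zero] at e1
    exact ⟨1, by simp [e1], fun x hx => by simp at hx; simp [hx]⟩
  | @cons t P L W h1 h2 h3 ih =>
    intro L' W' h' e
    obtain ⟨t', m1, m2⟩ := Multiset.mem_map.1 (e ▸ Multiset.mem_map_of_mem f (Multiset.mem_cons_self t L))
    obtain ⟨P', W₁, a1, a2, a3, rfl⟩ := h'.extract m1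
    rw [← Multiset.cons_erase m1, Multiset.map_cons, Multiset.map_cons, m2, Multiset.cons_inj_right] at e
    exact eqv_sup' (h1.eqv a1 (hf _ _ m2.symm)) (ih a2 e) h1.nd a1.nd h3 a3
      (fun x hx => (φ.mem_stab.1 h1.stab x).1 hx) fun x hx => (φ.mem_stab.1 h2.stab x).1 hx

theorem «exists» (hα : Al α) {e : ℕ} (d : ℕ) : ∀ {W : Submodule F V}, finrank F W = d → c.g ∈ φ.stab W →
    φ.NondegOn W → (∀ x ∈ W, c.n e x = 0) → ∃ L, Dec α c L W := by
  induction d using Nat.strong_induction_on with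
  | _ d ih =>
    intro W hd hW hn he
    by_cases h0 : W = ⊥
    · exact ⟨0, h0 ▸ .nil⟩
    obtain ⟨t, P, h1, h2⟩ := exists_pc hW hα hn he h0
    obtain ⟨a1, a2, a3⟩ := We.split h2 h1.nd hn h1.stab hW
    have a4 := finrank_sup_orth h1.nd le_rfl (inf_le_left : φ.perp P ⊓ W ≤ _)
    rw [a1, h1.finrank_eq] at a4
    obtain ⟨L, hL⟩ := ih _ (by cases t <;> simp only [Ty.dim] at a4 <;> omega) rfl a2 a3 fun x hx => he x hx.2
    exact ⟨t ::ₘ L, a1 ▸ Dec.cons h1 hL inf_le_left⟩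

theorem two {t₁ t₂ : Ty} (h : Dec α c (t₁ ::ₘ t₂ ::ₘ L) W) : ∃ P₁ P₂, Pc α c t₁ P₁ ∧ Pc α c t₂ P₂ ∧ P₁ ≤ W ∧
    P₂ ≤ W ∧ P₂ ≤ φ.perp P₁ := by
  obtain ⟨P₁, W₁, a1, a2, a3, rfl⟩ := h.extract'
  obtain ⟨P₂, W₂, b1, -, -, rfl⟩ := a2.extract'
  exact ⟨P₁, P₂, a1, b1, le_sup_left, le_sup_left.trans le_sup_right, le_sup_left.trans a3⟩

end Dec

theorem cost_le (D : ℕ) {R : Multiset Ty} (h : (R.map Ty.dim).sum ≤ D) :
    (R.map (Ty.cost D)).sum ≤ (R.map Ty.bl).sum * (2 * D + 1) := by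
  induction R using Multiset.induction_on with
  | empty => simp
  | cons t R ih =>
    simp only [Multiset.map_cons, Multiset.sum_cons] at h ⊢
    have := ih (by omega)
    rw [add_mul]
    rcases t with ⟨k, _ | _⟩ | i | k <;> simp only [Ty.dim, Ty.cost, Ty.bl, cond] at h ⊢ <;> omega

theorem cost_le_one (D : ℕ) {R : Multiset Ty} (h : (R.map Ty.bl).sum = 1) :
    2 * (R.map (Ty.cost D)).sum ≤ 2 * (D + 1) + (R.map Ty.dim).sum := by
  induction R using Multiset.induction_on with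
  | empty => simp at h
  | cons t R _ =>
    rcases R.empty_or_exists_mem with rfl | ⟨s, hs⟩
    · rcases t with ⟨k, _ | _⟩ | i | k <;> simp [Ty.dim, Ty.cost, Ty.bl] at h ⊢
      omega
    · obtain ⟨R, rfl⟩ := Multiset.exists_cons_of_mem hs
      simp only [Multiset.map_cons, Multiset.sum_cons] at h
      cases t <;> cases s <;> simp only [Ty.bl] at h <;> omega

/-- the number of single blocks of a given size -/
def vv (L : Multiset Ty) (k : ℕ) : ℕ := L.count (.V k false) + L.count (.V k true)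

/-- the number of single blocks of the previous size -/
def pv (σ : ℕ) (L : Multiset Ty) : ℕ → ℕ
  | 0 => σ
  | k + 1 => vv L k

/-- normal forms -/
structure NF (σ : ℕ) (L : Multiset Ty) : Prop where
  v2 : ∀ k, vv L k ≤ 2
  b1 : ∀ k, L.count (.V k true) ≤ 1
  u1 : ∀ k, L.count (.U k) ≤ 1
  uv : ∀ k, 0 < L.count (.U k) → vv L k = 0 ∧ pv σ L k = 0
  bv : ∀ k, 0 < L.count (.V k true) → pv σ L k = 0

theorem orth_n {P P' : Submodule F V} (h : c.g ∈ φ.stab P) (h' : c.g ∈ φ.stab P') (ho : P' ≤ φ.perp P) {x y : V}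
    (hx : x ∈ P) (hy : y ∈ P') (a b : ℕ) : φ.B (c.n a x) (c.n b y) = 0 :=
  ho (c.n_mem h' hy b) _ (c.n_mem h hx a)

theorem moveVV (hα : Al α) {A : Submodule F V} {k j w : ℕ} {b : Bool} {L : Multiset Ty} (hk : k + w = j + 1)
    (hj : j ≤ k) (h : Dec α c (.V k true ::ₘ .V j b ::ₘ L) A) : ∃ P, Pc α c (.V k false) P ∧ P ≤ A := by
  obtain ⟨_, _, p1, p2, m1, m2, ho⟩ := h.two
  have o := fun {x y} => orth_n p1.stab p2.stab ho (x := x) (y := y)
  obtain ⟨x, a1, rfl⟩ := p1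
  obtain ⟨y, a2, rfl⟩ := p2
  have o' := o (mem_bsp _ _ _ 0) (mem_bsp _ _ _ 0)
  have x1 : x ∈ A := m1 (mem_bsp _ _ _ 0)
  have y1 : y ∈ A := m2 (mem_bsp _ _ _ 0)
  obtain ⟨s, hs⟩ := hα.sq α
  change ∀ a b, φ.B (c.n a x) (c.n b y) = 0 at o'
  refine pcV h.stab (add_mem x1 (A.smul_mem s (c.n_mem h.stab y1 w))) ?_ ?_ ?_
  · rw [map_add, map_smul, c.n_n, a1.nil, c.n_of_le a2.nil (by omega)]; simp
  · rw [c.Q_comb, o', a1.top, c.Q_big' a2.nil (by omega)]; ring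
  · rw [c.Q_comb, o', a1.bit, hk, a2.top, hs]
    change α + α * 1 + s * 0 = 0
    linear_combination α * hα.two

theorem moveU {A P' : Submodule F V} {k : ℕ} {x y z : V} (hA : c.g ∈ φ.stab A) (h : c.IsW (2 * k) 1 α x y)
    (m1 : bsp c.g (2 * k) ![x, y] ≤ A) (m2 : P' ≤ A) (hP : c.g ∈ φ.stab P')
    (ho : P' ≤ φ.perp (bsp c.g (2 * k) ![x, y])) (hz : z ∈ P') (h1 : c.n (2 * k + 1) z = 0) (h2 : c.Q k z = 1) :
    ∃ P, Pc α c (.W (2 * k)) P ∧ P ≤ A := by
  have o1 : ∀ a b, φ.B (c.n a x) (c.n b z) = 0 := orth_n h.pr.blk.stab hP ho (mem_bsp _ _ _ 0) hz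
  have o2 : ∀ a b, φ.B (c.n a y) (c.n b z) = 0 := orth_n h.pr.blk.stab hP ho (mem_bsp _ _ _ 1) hz
  have e : c.n (2 * k + 1) (x + z) = 0 := by rw [map_add, h.pr.nx, h1, add_zero]
  refine pcW hA (add_mem (m1 (mem_bsp _ _ ![x, y] 0)) (m2 hz)) (m1 (mem_bsp _ _ ![x, y] 1))
    ⟨e, h.pr.ny, ?_, c.beta_even e, h.pr.bY⟩ fun J hJ => ?_
  · change φ.B (x + z) (c.n (2 * k) y) = 1
    rw [map_add, LinearMap.add_apply, h.pr.top, c.symm, show φ.B (c.n (2 * k) y) z = 0 from o2 _ 0, add_zero]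
  · change c.Q J (x + z) = 0
    rw [show J = k by omega, c.Q_add, o1, h2, (h.bit k rfl).1]
    linear_combination c.two

theorem moveVVV {A : Submodule F V} {k : ℕ} {b₁ b₂ b₃ : Bool} {L : Multiset Ty}
    (h : Dec α c (.V k b₁ ::ₘ .V k b₂ ::ₘ .V k b₃ ::ₘ L) A) : ∃ P, Pc α c (.W (2 * k + 1)) P ∧ P ≤ A := by
  have hA := h.stab
  obtain ⟨_, W₁, p1, a2, a3, rfl⟩ := h.extract'
  obtain ⟨_, _, p2, p3, m2, m3, ho⟩ := a2.two
  have o12 := fun {x y} => orth_n p1.stab p2.stab (m2.trans a3) (x := x) (y := y)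
  have o13 := fun {x y} => orth_n p1.stab p3.stab (m3.trans a3) (x := x) (y := y)
  have o23 := fun {x y} => orth_n p2.stab p3.stab ho (x := x) (y := y)
  obtain ⟨x, b1, rfl⟩ := p1
  obtain ⟨y, b2, rfl⟩ := p2
  obtain ⟨z, b3, rfl⟩ := p3
  have e12 : ∀ a b, φ.B (c.n a x) (c.n b y) = 0 := o12 (mem_bsp _ _ _ 0) (mem_bsp _ _ _ 0)
  have e13 : ∀ a b, φ.B (c.n a x) (c.n b z) = 0 := o13 (mem_bsp _ _ _ 0) (mem_bsp _ _ _ 0)
  have e23 : ∀ a b, φ.B (c.n a y) (c.n b z) = 0 := o23 (mem_bsp _ _ _ 0) (mem_bsp _ _ _ 0)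
  have n1 : c.n (2 * k + 2) (x + y) = 0 := by rw [map_add, b1.nil, b2.nil, add_zero]
  have n2 : c.n (2 * k + 2) (y + z) = 0 := by rw [map_add, b3.nil, b2.nil, add_zero]
  have y1 : y ∈ bsp c.g (2 * k + 1) ![x] ⊔ W₁ := Submodule.mem_sup_right (m2 (mem_bsp _ _ _ 0))
  refine pcW hA (add_mem (Submodule.mem_sup_left (mem_bsp _ _ ![x] 0)) y1)
    (add_mem y1 (Submodule.mem_sup_right (m3 (mem_bsp _ _ ![z] 0)))) ⟨n1, n2, ?_, ?_, ?_⟩ fun J hJ => by omega
  · change φ.B (x + y) (c.n (2 * k + 1) (y + z)) = 1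
    simp only [map_add, LinearMap.add_apply]
    rw [show φ.B x _ = 0 from e12 0 _, show φ.B x _ = 0 from e13 0 _, show φ.B y _ = 0 from e23 0 _,
      c.beta_odd b2.nil, b2.top]; ring
  · change φ.B (x + y) (c.n (2 * k + 1) (x + y)) = 0
    rw [c.beta_odd n1, c.Q_add, e12, b1.top, b2.top]; linear_combination c.two
  · change φ.B (y + z) (c.n (2 * k + 1) (y + z)) = 0
    rw [c.beta_odd n2, c.Q_add, e23, b3.top, b2.top]; linear_combination c.two

theorem pair_le {L : Multiset Ty} {s t : Ty} (hs : 0 < L.count s) (ht : 0 < L.count t) (h : s = t → 1 < L.count s) :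
    s ::ₘ t ::ₘ 0 ≤ L := Multiset.le_iff_count.2 fun a => by
  simp only [Multiset.count_cons, Multiset.count_zero]
  split_ifs with h1 h2 h2
  · have := h (h2.symm.trans h1); subst h2; omega
  · subst h1; omega
  · subst h2; omega
  · omega

theorem exists_nf (hα : Al α) {W : Submodule F V} (hW : c.g ∈ φ.stab W) (hn : φ.NondegOn W) {e : ℕ}
    (he : ∀ x ∈ W, c.n e x = 0) : ∃ L, Dec α c L W ∧ NF 0 L := by
  set D := finrank F V with hD
  obtain ⟨L, hL, hmin⟩ := (measure fun L : Multiset Ty => (L.map (Ty.cost D)).sum).wf.has_min {L | Dec α c L W}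
    (Dec.exists hα _ rfl hW hn he)
  have key : ∀ S, S ≤ L → ∀ t, (∀ A, Dec α c S A → ∃ P, Pc α c t P ∧ P ≤ A) → ∃ R : Multiset Ty,
      (R.map Ty.dim).sum ≤ D ∧ t.dim + (R.map Ty.dim).sum = (S.map Ty.dim).sum ∧
      t.bl + (R.map Ty.bl).sum = (S.map Ty.bl).sum ∧
      (S.map (Ty.cost D)).sum ≤ t.cost D + (R.map (Ty.cost D)).sum := by
    intro S hS t ht
    obtain ⟨L', rfl⟩ := Multiset.le_iff_exists_add.1 hS
    obtain ⟨A, W', a1, a2, a3, rfl⟩ := Dec.split hL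
    obtain ⟨P, p1, p2⟩ := ht A a1
    obtain ⟨b1, b2, b3⟩ := split p2 p1.nd a1.nd p1.stab a1.stab
    obtain ⟨R, hR⟩ := Dec.exists hα _ rfl b2 b3 fun x hx => he x (Submodule.mem_sup_left hx.2)
    have b4 : Dec α c (t ::ₘ R) A := b1 ▸ Dec.cons p1 hR inf_le_left
    have b5 := hmin _ (b4.add a2 a3)
    have b6 := b4.finrank_eq.symm.trans a1.finrank_eq
    have b7 := b4.finrank_map
    have b8 := a1.finrank_map
    change ¬ ((_ : ℕ) < _) at b5
    simp only [Multiset.map_cons, Multiset.sum_cons, Multiset.map_add, Multiset.sum_add] at b5 b6 b7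
    exact ⟨R, hR.finrank_eq ▸ Submodule.finrank_le _, b6, by omega, by omega⟩
  have k1 : ∀ k j w b, k + w = j + 1 → j ≤ k → ¬ (Ty.V k true ::ₘ .V j b ::ₘ 0 ≤ L) ∨ (j = k ∧ b = false) := by
    intro k j w b h1 h2
    by_contra h
    push Not at h
    obtain ⟨R, r1, r2, r3, r4⟩ := key _ h.1 _ fun A hA => moveVV hα h1 h2 hA
    simp only [Multiset.map_cons, Multiset.sum_cons, Ty.dim, Ty.bl, Ty.cost, Multiset.map_zero,
      Multiset.sum_zero, cond_true, cond_false] at r2 r3 r4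
    have := cost_le_one D (R := R) (by omega)
    cases b
    · have : j ≠ k := fun e => h.2 e rfl
      simp only [cond_false] at r4; omega
    · simp only [cond_true] at r4; omega
  have k2 : ∀ k t, (∀ P, Pc α c t P → ∃ z ∈ P, c.n (2 * k + 1) z = 0 ∧ c.Q k z = 1) →
      t.bl * (2 * D + 1) < 2 * D + 2 + t.cost D → ¬ (Ty.U k ::ₘ t ::ₘ 0 ≤ L) := by
    intro k t ht hc h
    obtain ⟨R, r1, r2, r3, r4⟩ := key _ h (.W (2 * k)) fun A hA => by
      obtain ⟨_, P, ⟨x, y, a1, rfl⟩, p2, m1, m2, ho⟩ := hA.two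
      obtain ⟨z, z1, z2, z3⟩ := ht P p2
      exact moveU hA.stab a1 m1 m2 p2.stab ho z1 z2 z3
    have := cost_le D r1
    simp only [Multiset.map_cons, Multiset.sum_cons, Multiset.map_zero, Multiset.sum_zero, add_zero] at r3 r4
    rw [show (R.map Ty.bl).sum = t.bl from add_left_cancel r3] at this
    change 2 * D + 2 + _ ≤ 0 + _ at r4
    omega
  have k3 : ∀ k j b, (j = k ∨ j + 1 = k) → 0 < L.count (.U k) → L.count (.V j b) = 0 := by
    intro k j b hj h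
    by_contra h0
    refine k2 k (.V j b) ?_ (by simp only [Ty.bl, Ty.cost]; omega)
      (pair_le h (Nat.pos_of_ne_zero h0) (by simp))
    rintro _ ⟨x, a1, rfl⟩
    rcases hj with rfl | rfl
    · exact ⟨_, c.n_mem a1.blk.stab (mem_bsp _ _ _ 0) 1, by rw [c.n_n]; exact a1.nil, by rw [c.Q_n]; exact a1.top⟩
    · exact ⟨_, mem_bsp _ _ _ 0, c.n_of_le a1.nil (by omega), a1.top⟩
  have k4 : ∀ k, L.count (.V k true) ≤ 1 := fun k => by
    by_contra h
    exact (k1 k k 1 true rfl le_rfl).elim (fun e => e (pair_le (by omega) (by omega) fun _ => by omega)) (by simp)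
  refine ⟨L, hL, fun k => ?_, k4, fun k => ?_, fun k hk => ⟨?_, ?_⟩, fun k hk => ?_⟩
  · by_contra h
    have h1 := k4 k
    rw [vv] at h
    have h2 : ∃ b, Ty.V k false ::ₘ .V k false ::ₘ .V k b ::ₘ 0 ≤ L := by
      refine ⟨decide (0 < L.count (.V k true)), Multiset.le_iff_count.2 fun a => ?_⟩
      simp only [Multiset.count_cons, Multiset.count_zero]
      by_cases h3 : 0 < L.count (.V k true)
      · rw [decide_eq_true h3]
        split_ifs with h4 h5 h5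
        · rw [h4] at h5; simp at h5
        · subst h4; omega
        · subst h5; omega
        · omega
      · rw [decide_eq_false h3]
        split_ifs with h4
        · subst h4; omega
        · omega
    obtain ⟨b, h2⟩ := h2
    obtain ⟨R, r1, r2, r3, r4⟩ := key _ h2 _ fun A hA => moveVVV hA
    have := cost_le D r1
    simp only [Multiset.map_cons, Multiset.sum_cons, Ty.bl, Ty.cost, Multiset.map_zero, Multiset.sum_zero] at r3 r4
    rw [show (R.map Ty.bl).sum = 1 by omega] at this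
    omega
  · by_contra h
    refine k2 k (.U k) ?_ (by simp only [Ty.bl, Ty.cost]; omega)
      (pair_le (by omega) (by omega) fun _ => by omega)
    rintro _ ⟨x, y, a1, rfl⟩
    exact ⟨_, mem_bsp _ _ _ 0, a1.pr.nx, (a1.bit k rfl).1⟩
  · rw [vv, k3 k k _ (.inl rfl) hk, k3 k k _ (.inl rfl) hk]
  · cases k with
    | zero => rfl
    | succ k => rw [pv, vv, k3 _ k _ (.inr rfl) hk, k3 _ k _ (.inr rfl) hk]
  · cases k with
    | zero => rfl
    | succ k =>
      have : ∀ b, L.count (.V k b) = 0 := fun b => by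
        by_contra h0
        exact (k1 (k + 1) k 0 b rfl (by omega)).elim
          (fun e => e (pair_le hk (Nat.pos_of_ne_zero h0) (by simp))) (by omega)
      rw [pv, vv, this, this]

end We
end H16
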