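import Mathlib
import Cfsg.Agent.H16.We2

/-!
# Class data of isometries in characteristic two

* `ts_of_iso`, `not_ts` : Witt type through a binary section; `slotV`, `slotW`
* `exists_cx` : an invariant quadratic form for a symplectic element
* `exists_data`
-/

open Matrix Module H10 H24.Wall Polynomial H24.Sim

set_option linter.unusedSectionVars false

namespace H16
namespace We

open Wal Cnt

variable {F V : Type*} [Field F] [AddCommGroup V] [Module F V] {φ : Form F V} [φ.Nondeg] [FiniteDimensional F V]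

theorem ts_of_iso (hQ : φ.IsQuad) (two : (2 : F) = 0) {P S : Submodule F V} {z w : V} (hS : φ.TS S) (hSP : S ≤ P)
    (hz : z ∈ P) (hw : w ∈ P) (oz : z ∈ φ.perp S) (ow : w ∈ φ.perp S) (h1 : φ.B z w = 1) (h2 : φ.Q z = 1) {d : F}
    (h3 : φ.Q w = d ^ 2 + d) : ∃ X ≤ P, φ.TS X ∧ finrank F X = finrank F S + 1 := by
  have e1 : φ.Q (d • z + w) = 0 := by
    rw [hQ.Q_add, hQ.Q_smul, hQ.B_smul_left, h1, h2, h3]; linear_combination (d ^ 2 + d) * two
  refine ⟨S ⊔ F ∙ (d • z + w), sup_le hSP ((Submodule.span_singleton_le_iff_mem _ _).2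
    (add_mem (P.smul_mem _ hz) hw)), hS.sup (Form.TS.singleton e1) ((Submodule.span_singleton_le_iff_mem _ _).2
    (add_mem (Submodule.smul_mem _ _ oz) ow)), Form.finrank_sup_singleton fun e => ?_⟩
  have := oz _ e
  rw [hQ.B_comm, map_add, φ.B_smul_right, h1, hQ.B_self, two] at this
  simp at this

theorem not_ts (hQ : φ.IsQuad) (two : (2 : F) = 0) {P S : Submodule F V} {z w : V} (hP : φ.NondegOn P) (hS : φ.TS S)
    (hSP : S ≤ P) (hz : z ∈ P) (hw : w ∈ P) (oz : z ∈ φ.perp S) (ow : w ∈ φ.perp S) (h1 : φ.B z w = 1)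
    (h2 : φ.Q z = 1) (h3 : ∀ d, d ^ 2 + d ≠ φ.Q w) (hd : finrank F P = 2 * finrank F S + 2) :
    ¬ ∃ X ≤ P, φ.TS X ∧ finrank F X = finrank F S + 1 := by
  rintro ⟨X, x1, x2, x3⟩
  have g : φ.B z z * φ.B w w - φ.B z w * φ.B w z ≠ 0 := by
    rw [hQ.B_self, hQ.B_comm w z, h1, two]; simp
  have a0 : Submodule.span F {z, w} ≤ φ.perp S ⊓ P := by
    rw [Submodule.span_le]; rintro _ (rfl | rfl); exacts [⟨oz, hz⟩, ⟨ow, hw⟩]
  have a1 := finrank_sup_orth (φ.nondegOn_pair g) le_rfl (φ.le_perp_comm.1 (a0.trans inf_le_left))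
  rw [Form.finrank_span_pair_of_li (φ.linearIndependent_pair_of_gram g)] at a1
  have a2 := φ.finrank_perp (S ⊔ φ.perp P)
  rw [φ.perp_sup, φ.perp_perp, finrank_sup_orth hP hSP le_rfl] at a2
  have a3 := φ.finrank_perp P
  have a4 : Submodule.span F {z, w} ⊔ S = φ.perp S ⊓ P :=
    Submodule.eq_of_le_of_finrank_eq (sup_le a0 (le_inf hS.le_perp hSP)) (by omega)
  have a5 : X ⊓ φ.perp S ≤ X ⊓ S := fun x hx => by
    obtain ⟨u, hu, s, hs, rfl⟩ := Submodule.mem_sup.1 (a4.ge ⟨hx.2, x1 hx.1⟩)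
    obtain ⟨a, b, rfl⟩ := Submodule.mem_span_pair.1 hu
    have e := x2.Q _ hx.1
    rw [φ.Q_add_of_orth (φ.B_symm_zero ((a0 hu).1 s hs)), hS.Q s hs, hQ.Q_comb, h1, h2] at e
    have e1 : b = 0 := by
      by_contra hb
      exact h3 (a / b) (by field_simp; linear_combination e - φ.Q w * b ^ 2 * two)
    have e2 : a = 0 := by simpa [e1] using e
    exact ⟨hx.1, by simpa [e1, e2] using hs⟩
  have a6 := φ.finrank_perp (X ⊓ φ.perp S)
  rw [φ.perp_inf, φ.perp_perp] at a6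
  have a7 := Submodule.finrank_sup_add_finrank_inf_eq (φ.perp X) S
  have a8 := φ.finrank_perp X
  have a9 := Submodule.finrank_mono (a5.trans (inf_le_inf_right S x2.le_perp))
  omega

theorem blk_nil {g : φ.Isom} {k m : ℕ} {v : Fin m → V} (h : Blk g k v) {x : V} (hx : x ∈ bsp g k v) :
    (N g ^ (k + 1)) x = 0 := by
  refine (bsp_le (W := LinearMap.ker (N g ^ (k + 1))) fun p => ?_) hx
  rw [LinearMap.mem_ker, bf, ← End.mul_apply, ← pow_add, add_comm, pow_add, End.mul_apply, h.nil, map_zero]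

theorem slot_data (hQ : φ.IsQuad) {c : Cx φ 1} {i m : ℕ} {v : Fin m → V} (h : Blk c.g i v) {j r : ℕ}
    (hj : j + r = i + 1) (h2 : i + 1 < 2 * j) : ∃ S, φ.TS S ∧ S ≤ bsp c.g i v ∧ finrank F S = r * m ∧
      ∀ a, ∀ x ∈ bsp c.g i v, i + 1 ≤ j + a → c.n a x ∈ φ.perp S := by
  refine ⟨(bsp c.g i v).map (c.n j), hQ.ts ?_, ?_, blk_finrank_map h hj, ?_⟩
  · rintro _ ⟨x, hx, rfl⟩
    rw [c.cmp, one_mul]
    exact c.Q_big' (i := i + 1) (blk_nil h hx) h2
  · rintro _ ⟨x, hx, rfl⟩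
    exact c.n_mem h.stab hx j
  · rintro a x hx ha _ ⟨y, -, rfl⟩
    exact c.B_big (i := i + 1) (blk_nil h hx) ha y

theorem ts_map {P P' : Submodule F V} {e : φ.Isom} (he : P.map (e.1 : V →ₗ[F] V) = P') {k : ℕ}
    (h : ∃ X ≤ P, φ.TS X ∧ finrank F X = k) : ∃ X ≤ P', φ.TS X ∧ finrank F X = k := by
  obtain ⟨X, x1, x2, x3⟩ := h
  exact ⟨_, he ▸ Submodule.map_mono x1, x2.map e, by rw [LinearEquiv.finrank_map_eq, x3]⟩

theorem slotV (hQ : φ.IsQuad) {α : F} (hα : Al α) {c c' : Cx φ 1} {k : ℕ} {P P' : Submodule F V}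
    (h : Pc α c (.V k false) P) (h' : Pc α c' (.V k true) P') {e : φ.Isom} :
    P.map (e.1 : V →ₗ[F] V) ≠ P' := fun he => by
  have d' := h'.finrank_eq
  obtain ⟨x, a, rfl⟩ := h
  obtain ⟨y, b, rfl⟩ := h'
  obtain ⟨S, s1, s2, s3, s4⟩ := slot_data hQ a.blk (j := k + 2) (r := k) (by ring) (by omega)
  obtain ⟨T, t1, t2, t3, t4⟩ := slot_data hQ b.blk (j := k + 2) (r := k) (by ring) (by omega)
  have m : x ∈ _ := mem_bsp c.g (2 * k + 1) ![x] 0
  have m' : y ∈ _ := mem_bsp c'.g (2 * k + 1) ![y] 0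
  refine not_ts hQ hα.two b.blk.nondeg t1 t2 (c'.n_mem b.blk.stab m' (k + 1)) (c'.n_mem b.blk.stab m' k)
    (t4 _ _ m' (by omega)) (t4 _ _ m' (by omega)) (by rw [c.symm, ← c'.Q_succ, b.top])
    (by rw [c'.cmp, one_mul]; exact b.top) (fun d => by rw [c'.cmp, one_mul]; exact fun e => hα.ne d (e.trans b.bit))
    (by rw [d', t3, Ty.dim]; ring) (ts_map he ?_)
  rw [t3, ← s3]
  exact ts_of_iso hQ hα.two s1 s2 (c.n_mem a.blk.stab m (k + 1)) (c.n_mem a.blk.stab m k)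
    (s4 _ _ m (by omega)) (s4 _ _ m (by omega)) (by rw [c.symm, ← c.Q_succ, a.top])
    (by rw [c.cmp, one_mul]; exact a.top) (d := 0) (by rw [c.cmp, one_mul]; exact a.bit.trans (by simp))

theorem slotW (hQ : φ.IsQuad) {α : F} (hα : Al α) {c c' : Cx φ 1} {k : ℕ} {P P' : Submodule F V}
    (h : Pc α c (.W (2 * k)) P) (h' : Pc α c' (.U k) P') {e : φ.Isom} :
    P.map (e.1 : V →ₗ[F] V) ≠ P' := fun he => by
  have d' := h'.finrank_eq
  obtain ⟨x, y, a, rfl⟩ := h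
  obtain ⟨x', y', b, rfl⟩ := h'
  obtain ⟨S, s1, s2, s3, s4⟩ := slot_data hQ a.pr.blk (j := k + 1) (r := k) (by ring) (by omega)
  obtain ⟨T, t1, t2, t3, t4⟩ := slot_data hQ b.pr.blk (j := k + 1) (r := k) (by ring) (by omega)
  have m₁ : x ∈ _ := mem_bsp c.g (2 * k) ![x, y] 0
  have m₂ : y ∈ _ := mem_bsp c.g (2 * k) ![x, y] 1
  have m₁' : x' ∈ _ := mem_bsp c'.g (2 * k) ![x', y'] 0
  have m₂' : y' ∈ _ := mem_bsp c'.g (2 * k) ![x', y'] 1
  refine not_ts hQ hα.two b.pr.blk.nondeg t1 t2 (c'.n_mem b.pr.blk.stab m₁' k) (c'.n_mem b.pr.blk.stab m₂' k)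
    (t4 _ _ m₁' (by omega)) (t4 _ _ m₂' (by omega)) (by rw [c'.B_top b.pr.ny (by ring), b.pr.top])
    (by rw [c'.cmp, one_mul]; exact (b.bit k rfl).1)
    (fun d => by rw [c'.cmp, one_mul]; exact fun e => hα.ne d (e.trans (b.bit k rfl).2))
    (by rw [d', t3, Ty.dim]; ring) (ts_map he ?_)
  rw [t3, ← s3]
  have e1 : φ.B (c.n k x) (c.n k y) = 1 := by rw [c.B_top a.pr.ny (by ring), a.pr.top]
  exact ts_of_iso hQ hα.two s1 s2 (c.n_mem a.pr.blk.stab (add_mem m₁ m₂) k) (c.n_mem a.pr.blk.stab m₂ k)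
    (s4 _ _ (add_mem m₁ m₂) (by omega)) (s4 _ _ m₂ (by omega))
    (by rw [map_add, map_add, LinearMap.add_apply, e1, c.alt, add_zero])
    (by
      rw [c.cmp, one_mul]
      change c.Q k (x + y) = 1
      rw [c.Q_add, e1, (a.bit k rfl).1, (a.bit k rfl).2]; ring) (d := 0)
    (by rw [c.cmp, one_mul]; exact (a.bit k rfl).2.trans (by simp))

theorem exists_cx {α : F} (hα : Al α) (hσ : ∀ a, φ.σ a = a) (h0 : ∀ x, φ.Q x = 0) (q : V → F)
    (h1 : ∀ x y, q (x + y) = q x + q y + φ.B x y) (h2 : ∀ (c : F) x, q (c • x) = c ^ 2 * q x) (g : φ.Isom) :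
    ∃ c : Cx φ 0, c.g = g := by
  choose r hr using hα.sq
  have inj : ∀ a b : F, a ^ 2 = b ^ 2 → a = b := fun a b h =>
    sub_eq_zero.1 (pow_eq_zero_iff two_ne_zero |>.1 (by linear_combination h + (b ^ 2 - a * b) * hα.two))
  let f : V →ₗ[F] F :=
    { toFun := fun x => r (q (g.1 x) + q x)
      map_add' := fun x y => inj _ _ (by
        rw [hr, add_sq, hr, hr, map_add, h1, h1, g.2.B]
        linear_combination (φ.B x y - r (q (g.1 x) + q x) * r (q (g.1 y) + q y)) * hα.two)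
      map_smul' := fun a x => inj _ _ (by
        rw [hr, RingHom.id_apply, smul_eq_mul, mul_pow, hr, map_smul, h2, h2]; ring) }
  have e1 : f ∈ (LinearMap.ker (N g)).dualAnnihilator := (Submodule.mem_dualAnnihilator _).2 fun x hx => by
    refine inj _ _ ?_
    change r _ ^ 2 = _
    rw [hr, apply_eq, show N g x = 0 from hx, add_zero]
    linear_combination q x * hα.two
  rw [← LinearMap.range_dualMap_eq_dualAnnihilator_ker] at e1
  obtain ⟨f', e1⟩ := e1
  obtain ⟨v, rfl⟩ := φ.exists_B_eq f'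
  have e2 : ∀ x, φ.B v (N g x) ^ 2 = q (g.1 x) + q x := fun x => by
    rw [← hr (q _ + _)]; exact congrArg (· ^ 2) (LinearMap.congr_fun e1 x)
  refine ⟨⟨g, fun x => q x + φ.B v x ^ 2, hα.two, hσ, fun x y => ?_, fun a x => ?_, fun x => ?_, fun x => ?_⟩, rfl⟩
  · rw [h1, map_add]; linear_combination φ.B v x * φ.B v y * hα.two
  · rw [h2, φ.B_smul_right]; ring
  · have := e2 x
    rw [show φ.B v (g.1 x) = φ.B v x + φ.B v (N g x) by rw [← map_add, ← apply_eq]]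
    linear_combination this + (φ.B v x * φ.B v (N g x) + q (g.1 x)) * hα.two
  · rw [h0, zero_mul]

section V0
variable (g : φ.Isom)

/-- the unipotent part -/
noncomputable def W0 : Submodule F V := LinearMap.ker (N g ^ finrank F V)

theorem W0_stab : g ∈ φ.stab (W0 g) := φ.mem_stab_of_le fun x hx => by
  rw [W0, LinearMap.mem_ker, ← N_pow_comm, show (N g ^ finrank F V) x = 0 from hx, map_zero]

theorem W0_nd : φ.NondegOn (W0 g) := nondegOn_ker g le_rfl

theorem V0_inj {x : V} (hx : x ∈ φ.perp (W0 g)) (h : N g x = 0) : x = 0 := by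
  refine W0_nd g x ?_ (φ.mem_perp'.1 hx)
  rw [W0, ← End.ker_pow_eq_ker_pow_finrank_of_le (Nat.le_succ _), LinearMap.mem_ker, pow_succ, End.mul_apply, h,
    map_zero]

/-- the restriction to the part without eigenvalue one -/
noncomputable def g0 : End F (φ.perp (W0 g)) :=
  (g.1 : V →ₗ[F] V).restrict fun x hx => (φ.mem_stab.1 (φ.stab_le_stab_perp _ (W0_stab g)) x).1 hx

theorem g0_apply (x : φ.perp (W0 g)) : (g0 g x : V) = g.1 x := rfl

/-- its matrix -/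
noncomputable def A0 : Matrix (Fin (finrank F (φ.perp (W0 g)))) (Fin (finrank F (φ.perp (W0 g)))) F :=
  LinearMap.toMatrix (finBasis F _) (finBasis F _) (g0 g)

theorem A0_cong (hσ : ∀ a, φ.σ a = a) : ∃ J, J.det ≠ 0 ∧ (A0 g)ᵀ * J * A0 g = J := by
  set b := finBasis F (φ.perp (W0 g))
  have e1 : ∀ x, Fintype.linearCombination F (fun i => (b i : V)) x = (b.equivFun.symm x : V) := fun x => by
    simp [Fintype.linearCombination_apply]
  refine ⟨H09.gram φ fun i => (b i : V), fun e => ?_, matrix_ext_dot fun x y => ?_⟩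
  · obtain ⟨c, hc0, hc⟩ := exists_mulVec_eq_zero_iff.2 e
    apply hc0
    have : (b.equivFun.symm c : V) = 0 := (W0_nd g).perp _ (b.equivFun.symm c).2 fun y hy => φ.B_symm_zero (by
      obtain ⟨z, hz⟩ := b.equivFun.symm.surjective ⟨y, hy⟩
      rw [show y = (b.equivFun.symm z : V) by rw [hz], ← e1, ← e1, B_lc hσ, hc, dotProduct_zero])
    exact b.equivFun.symm.map_eq_zero_iff.1 (Subtype.ext this)
  · have e2 : ∀ x, b.equivFun.symm (A0 g *ᵥ x) = g0 g (b.equivFun.symm x) := fun x => by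
      rw [LinearEquiv.symm_apply_eq, b.equivFun_apply, ← LinearMap.toMatrix_mulVec_repr b b, ← b.equivFun_apply,
        LinearEquiv.apply_symm_apply]
      rfl
    rw [dot_cong, ← B_lc hσ, ← B_lc hσ, e1, e1, e1, e1, e2, e2, g0_apply, g0_apply, g.2.B]

theorem isUnit_A0 (hσ : ∀ a, φ.σ a = a) : IsUnit (A0 g) := by
  obtain ⟨J, h1, h2⟩ := A0_cong g hσ
  refine (isUnit_iff_isUnit_det _).2 (Ne.isUnit fun e => h1 ?_)
  rw [← h2, det_mul, e, mul_zero]

theorem dual_hs0 (hσ : ∀ a, φ.σ a = a) (i : ℕ) : dual (RingHom.id F) (hs (typ (A0 g)) i) = hs (typ (A0 g)) i := by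
  obtain ⟨J, h1, h2⟩ := A0_cong g hσ
  have hu := (isUnit_iff_isUnit_det _).2 (Ne.isUnit h1)
  refine hs_dual (B := J * A0 g * J⁻¹) (fun _ => rfl) (isUnit_A0 g hσ) (mul_eq_one_comm.1 ?_) ⟨hu.unit, ?_⟩ i
  · rw [RingHom.coe_id, Matrix.map_id, ← mul_assoc, ← mul_assoc, h2, mul_nonsing_inv _ (Ne.isUnit h1)]
  · change J * A0 g = J * A0 g * J⁻¹ * J
    rw [mul_assoc _ J⁻¹, nonsing_inv_mul _ (Ne.isUnit h1), mul_one]

theorem eval_hs0 (i : ℕ) : (hs (typ (A0 g)) i).eval 1 ≠ 0 := fun e => by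
  have e1 : (A0 g).charpoly.IsRoot 1 := IsRoot.dvd e (hs_dvd_charpoly _ i)
  rw [A0, LinearMap.charpoly_toMatrix, ← End.hasEigenvalue_iff_isRoot_charpoly] at e1
  obtain ⟨x, hx⟩ := e1.exists_hasEigenvector
  refine hx.2 (Subtype.ext (V0_inj g x.2 ?_))
  have := congrArg Subtype.val hx.apply_eq_smul
  rw [g0_apply] at this
  rw [N_apply, this]; simp

theorem unit0 : IsUnit (1 - g0 g) :=
  (LinearMap.isUnit_iff_ker_eq_bot _).2 (LinearMap.ker_eq_bot'.2 fun x hx => Subtype.ext (V0_inj g x.2 (by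
    have := congrArg Subtype.val hx
    change (x : V) - g.1 x = 0 at this
    rw [N_apply, ← neg_sub, this, neg_zero])))

theorem eqv0 [Finite F] (two : (2 : F) = 0) {g g' : φ.Isom} (h : typ (A0 g) = typ (A0 g')) :
    Eqv φ (g.1 : V →ₗ[F] V) (g'.1 : V →ₗ[F] V) (φ.perp (W0 g)) (φ.perp (W0 g')) := by
  obtain ⟨k, hk⟩ : Iso (g0 g) (g0 g') := ((iso_toMatrix _ _).trans
    ((hasTyp_typ (A0 g)).iso (h ▸ hasTyp_typ (A0 g')))).trans (iso_toMatrix _ _).symm
  haveI := (W0_nd g).perp.nondeg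
  haveI := (W0_nd g').perp.nondeg
  obtain ⟨e, e1, e2⟩ := H24.Adj.exists_equiv_of_conj (φ := φ.restrict (φ.perp (W0 g)))
    (ψ := φ.restrict (φ.perp (W0 g'))) (fun _ => rfl) rfl (g := g0 g) (h := g0 g') (fun x y => g.2.B x y)
    (fun x y => g'.2.B x y) k hk (unit0 g) (by
      convert unit0 g using 1
      rw [sub_eq_add_neg, ← neg_one_smul F (g0 g), show (-1 : F) = 1 by linear_combination -two, one_smul])
  have := eqv_of_maps' (φ := φ) (g := (g.1 : V →ₗ[F] V)) (g' := (g'.1 : V →ₗ[F] V)) (φ.perp (W0 g)).subtype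
    ((φ.perp (W0 g')).subtype ∘ₗ e.toLinearMap) Subtype.val_injective (Subtype.val_injective.comp e.injective) e1
    (fun x => by
      obtain ⟨z, rfl⟩ := ((End.isUnit_iff _).1 (unit0 g).neg).2 x
      have a1 : (((-(1 - g0 g)) z : φ.perp (W0 g)) : V) = N g z := by
        change -((z : V) - g.1 z) = _
        rw [neg_sub, N_apply]
      have a2 : ((e ((-(1 - g0 g)) z) : φ.perp (W0 g')) : V) = N g' (e z) := by
        rw [LinearMap.neg_apply, LinearMap.sub_apply, map_neg, map_sub, e2]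
        change -((e z : V) - g'.1 (e z)) = _
        rw [neg_sub, N_apply]
      change φ.Q (e ((-(1 - g0 g)) z) : φ.perp (W0 g')) = φ.Q ((-(1 - g0 g)) z : φ.perp (W0 g))
      rw [a2, Q_N, ← a2, a1, Q_N, ← a1]
      exact congrArg (fun t => -φ.T t) (e1 _ _)) (g0 g)
    (fun _ => rfl) (fun x => congrArg Subtype.val (e2 x).symm)
  rwa [Submodule.range_subtype, LinearMap.range_comp_of_range_eq_top _ e.range, Submodule.range_subtype] at this

theorem sum_deg0 : ∑ i ∈ Finset.Ico 1 (1 + finrank F V), i * (hs (typ (A0 g)) i).natDegree + finrank F (W0 g) =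
    finrank F V := by
  have h1 := deg_hs (isTyp_typ (A0 g)) (k := finrank F V) fun f hf => by
    have := be_le_deg (isTyp_typ (A0 g)) hf
    rw [deg_typ, Fintype.card_fin] at this
    exact this.trans (Submodule.finrank_le _)
  rw [deg_typ, Fintype.card_fin] at h1
  rw [h1, add_comm, φ.finrank_perp]

end V0

theorem pal_of_ev' (two : (2 : F) = 0) {f : F[X]} (hf : MC f) (hd : Cnt.dual (RingHom.id F) f = f)
    (h1 : f.eval 1 ≠ 0) : Pal f := by
  have e0 : ∀ x, f.eval x = (f.coeff 0)⁻¹ * f.reverse.eval x := fun x => by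
    conv_lhs => rw [← hd, Cnt.dual]
    simp
  have e1 := aeval_reverse_mul (F := F) (x := (1 : F)) (y := 1) (by simp) f
  simp only [coe_aeval_eq_eval, one_pow, mul_one] at e1
  have e3 : f.coeff 0 = 1 := by
    have := e0 1
    rw [e1] at this
    exact inv_eq_one.1 (mul_right_cancel₀ h1 (by rw [← this, one_mul]))
  refine ⟨hf, hd, e3, ?_⟩
  by_contra ho
  obtain ⟨k, hk⟩ := Nat.not_even_iff_odd.1 ho
  apply h1
  rw [eval_eq_sum_range, hk, show 2 * k + 1 + 1 = (k + 1) + (k + 1) by ring, Finset.sum_range_add,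
    ← Finset.sum_range_reflect (fun i => f.coeff (k + 1 + i) * 1 ^ (k + 1 + i)), ← Finset.sum_add_distrib]
  refine Finset.sum_eq_zero fun i hi => ?_
  rw [Finset.mem_range] at hi
  have := coeff_dual (RingHom.id F) (f := f) (k := i) (by omega)
  rw [hd, e3, map_one, inv_one, one_mul, RingHom.id_apply, hk] at this
  rw [show k + 1 + (k + 1 - 1 - i) = 2 * k + 1 - i by omega, ← this]
  linear_combination f.coeff i * two

theorem exists_data [Finite F] {α κ : F} (hα : Al α) (C : φ.Isom → Cx φ κ) (hC : ∀ g, (C g).g = g) :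
    ∃ (h : φ.Isom → ℕ → F[X]) (L : φ.Isom → Multiset Ty), (∀ g i, Pal (h g i) ∧ (h g i).eval 1 ≠ 0) ∧
      (∀ g, NF 0 (L g)) ∧
      (∀ g, ∑ i ∈ Finset.Ico 1 (1 + finrank F V), i * (h g i).natDegree + ((L g).map Ty.dim).sum = finrank F V) ∧
      (∀ f : Ty → Ty, (∀ t t', f t = f t' → t = t' ∨ (κ = 0 ∧ t.fg = t'.fg)) → ∀ g g',
        (∀ i ∈ Finset.Ico 1 (1 + finrank F V), h g i = h g' i) → (L g).map f = (L g').map f → IsConj g g') ∧
      ∀ g g' t t' M, (∀ i ∈ Finset.Ico 1 (1 + finrank F V), h g i = h g' i) → L g = t ::ₘ M → L g' = t' ::ₘ M →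
        ∃ P P', ∃ e : φ.Isom, Pc α (C g) t P ∧ Pc α (C g') t' P' ∧ P.map (e.1 : V →ₗ[F] V) = P' := by
  choose L l1 l2 using fun c : Cx φ κ => exists_nf (c := c) hα (W0_stab c.g) (W0_nd c.g) fun x hx => hx
  have key : ∀ g g' : φ.Isom, (∀ i ∈ Finset.Ico 1 (1 + finrank F V), hs (typ (A0 g)) i = hs (typ (A0 g')) i) →
      Eqv φ (g.1 : V →ₗ[F] V) (g'.1 : V →ₗ[F] V) (φ.perp (W0 g)) (φ.perp (W0 g')) := fun g g' h =>
    eqv0 hα.two (eq_of_hs (isTyp_typ _) (isTyp_typ _) fun i hi => by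
      by_cases h3 : i < 1 + finrank F V
      · exact h i (Finset.mem_Ico.2 ⟨hi, h3⟩)
      · rw [hs_typ_eq_one _ ((Submodule.finrank_le _).trans_lt (by omega)),
          hs_typ_eq_one _ ((Submodule.finrank_le _).trans_lt (by omega))])
  have st : ∀ g : φ.Isom, ∀ x ∈ φ.perp (W0 g), g.1 x ∈ φ.perp (W0 g) := fun g x =>
    (φ.mem_stab.1 (φ.stab_le_stab_perp _ (W0_stab g)) x).1
  refine ⟨fun g => hs (typ (A0 (C g).g)), fun g => L (C g), fun g i => ⟨pal_of_ev' hα.two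
    (mc_hs (isUnit_A0 _ (C g).σ) i) (dual_hs0 _ (C g).σ i) (eval_hs0 _ i), eval_hs0 _ i⟩, fun g => l2 _,
    fun g => by rw [← (l1 _).finrank_eq, sum_deg0], fun f hf g g' h1 h2 => ?_, fun g g' t t' M h1 h2 h3 => ?_⟩
  · have := eqv_sup' ((l1 _).eqv f hf (l1 _) h2) (key _ _ h1) (W0_nd _) (W0_nd _) le_rfl le_rfl
      (fun x => (φ.mem_stab.1 (W0_stab _) x).1) (st _)
    rw [(W0_nd _).isCompl_perp.sup_eq_top, (W0_nd _).isCompl_perp.sup_eq_top, hC, hC] at this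
    exact this.isConj
  · beta_reduce at h2 h3
    obtain ⟨P, W, a1, a2, a3, a4⟩ := (h2 ▸ l1 (C g)).extract'
    obtain ⟨P', W', b1, b2, b3, b4⟩ := (h3 ▸ l1 (C g')).extract'
    obtain ⟨e, e1, -⟩ := eqv_sup' (a2.eqv id (fun _ _ => .inl) b2 rfl) (key _ _ h1) a2.nd b2.nd
      (φ.perp_anti (a4 ▸ le_sup_right)) (φ.perp_anti (b4 ▸ le_sup_right))
      (fun x => (φ.mem_stab.1 a2.stab x).1) (st _)
    have p : ∀ {P W W₀ : Submodule F V}, φ.NondegOn W → W ≤ φ.perp P → W₀ = P ⊔ W → φ.perp (W ⊔ φ.perp W₀) = P := by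
      rintro P W _ h1 h2 rfl
      rw [φ.perp_sup, φ.perp_perp, inf_comm, sup_inf_assoc_of_le _ (φ.le_perp_comm.1 h2),
        (φ.nondegOn_iff_disjoint.1 h1).eq_bot, sup_bot_eq]
    exact ⟨P, P', e, a1, b1, by rw [← p a2.nd a3 a4, map_perp, e1, p b2.nd b3 b4]⟩

end We
end H16
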