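import Mathlib
import Cfsg.Agent.H16.We3

/-!
# Counting class data in characteristic two

* `RT` : transfer bounds for the unipotent extras; `RT_zero`, `Z_nn_le`
* `count_le` : the main counting inequality
-/

open Finset Polynomial

namespace H16
namespace We

open Wal Cnt

/-- the number of single blocks at the previous level -/
def pz (σ : ℕ) (e : ℕ → ℕ × ℕ × ℕ) : ℕ → ℕ
  | 0 => σ
  | k + 1 => (e k).2.1 + (e k).2.2

/-- level data without bits -/
def E0 : Finset (ℕ × ℕ × ℕ) := {(0, 0, 0), (0, 1, 0), (0, 2, 0)}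

/-- level data -/
def E1 : Finset (ℕ × ℕ × ℕ) := {(0, 0, 0), (1, 0, 0), (0, 1, 0), (0, 0, 1), (0, 2, 0), (0, 1, 1)}

/-- admissible sequences -/
def Adm (σ : ℕ) (e : ℕ → ℕ × ℕ × ℕ) : Prop := ∀ k, e k ∈ E1 ∧ (pz σ e k ≠ 0 → e k ∈ E0)

/-- half the dimension of level data -/
def hw (k : ℕ) (e : ℕ × ℕ × ℕ) : ℕ := e.1 * (2 * k + 1) + (e.2.1 + e.2.2) * (k + 1)

/-- transfer bound for `K` levels -/
def RTK (σ K k : ℕ) (a b : ℝ) : Prop := ∀ s : Finset (ℕ → ℕ × ℕ × ℕ), (∀ e ∈ s, Adm σ e) →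
  (∀ e ∈ s, ∀ e' ∈ s, (∀ j ∈ Ico k (k + K), e j = e' j) → e = e') →
  ∑ e ∈ s, (1 / 2 : ℝ) ^ ∑ j ∈ Ico k (k + K), hw j (e j) ≤ a ∧
    ((∀ e ∈ s, pz σ e k ≠ 0) → ∑ e ∈ s, (1 / 2 : ℝ) ^ ∑ j ∈ Ico k (k + K), hw j (e j) ≤ b)

theorem RTK.zero (σ k : ℕ) {a b : ℝ} (ha : 1 ≤ a) (hb : 1 ≤ b) : RTK σ 0 k a b := fun s _ h => by
  have : (s.card : ℝ) ≤ 1 := by exact_mod_cast card_le_one.2 fun a ha b hb => h a ha b hb (by simp)
  simp only [add_zero, Ico_self, sum_empty, pow_zero, sum_const, nsmul_eq_mul, mul_one]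
  exact ⟨this.trans ha, fun _ => this.trans hb⟩

theorem RTK.step {σ K k : ℕ} {a b a' b' : ℝ} (h : RTK σ K (k + 1) a b)
    (ha : (1 + (1 / 2) ^ (2 * k + 1)) * a + 2 * ((1 / 2) ^ (k + 1) + (1 / 2) ^ (2 * k + 2)) * b ≤ a')
    (hb : a + ((1 / 2) ^ (k + 1) + (1 / 2) ^ (2 * k + 2)) * b ≤ b') : RTK σ (K + 1) k a' b' := by
  classical
  intro s h1 h2
  have key : ∀ E : Finset (ℕ × ℕ × ℕ), (∀ e ∈ s, e k ∈ E) →
      ∑ e ∈ s, (1 / 2 : ℝ) ^ ∑ j ∈ Ico k (k + (K + 1)), hw j (e j) ≤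
        ∑ x ∈ E, (1 / 2 : ℝ) ^ hw k x * if x.2.1 + x.2.2 = 0 then a else b := by
    intro E hE
    rw [← sum_fiberwise_of_maps_to (g := fun e => e k) hE]
    refine sum_le_sum fun x _ => ?_
    obtain ⟨a1, a2⟩ := h (s.filter fun e => e k = x) (fun e he => h1 e (mem_filter.1 he).1) fun e he e' he' hj => by
      rw [mem_filter] at he he'
      refine h2 e he.1 e' he'.1 fun j hj' => ?_
      rw [mem_Ico] at hj'
      by_cases e : j = k
      · rw [e, he.2, he'.2]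
      · exact hj j (mem_Ico.2 ⟨by omega, by omega⟩)
    rw [sum_congr rfl (g := fun e => (1 / 2 : ℝ) ^ hw k x * (1 / 2) ^ ∑ j ∈ Ico (k + 1) (k + 1 + K), hw j (e j))
      fun e he => by
        rw [sum_eq_sum_Ico_succ_bot (by omega), pow_add, (mem_filter.1 he).2, show k + (K + 1) = k + 1 + K by ring],
      ← mul_sum]
    refine mul_le_mul_of_nonneg_left ?_ (by positivity)
    split_ifs with e
    · exact a1
    · exact a2 fun e' he' => by rw [pz, (mem_filter.1 he').2]; exact e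
  refine ⟨(key E1 fun e he => (h1 e he k).1).trans (le_trans (le_of_eq ?_) ha),
    fun h3 => (key E0 fun e he => (h1 e he k).2 (h3 e he)).trans (le_trans (le_of_eq ?_) hb)⟩
  · simp [E1, hw]; ring
  · simp [E0, hw]; ring

/-- transfer bound -/
def RT (σ k : ℕ) (a b : ℝ) : Prop := ∀ K, RTK σ K k a b

theorem RT.step {σ k : ℕ} {a b a' b' : ℝ} (h : RT σ (k + 1) a b)
    (ha : (1 + (1 / 2) ^ (2 * k + 1)) * a + 2 * ((1 / 2) ^ (k + 1) + (1 / 2) ^ (2 * k + 2)) * b ≤ a')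
    (hb : a + ((1 / 2) ^ (k + 1) + (1 / 2) ^ (2 * k + 2)) * b ≤ b') (h1 : 1 ≤ a') (h2 : 1 ≤ b') : RT σ k a' b' :=
  fun K => by
    cases K with
    | zero => exact RTK.zero σ k h1 h2
    | succ K => exact (h K).step ha hb

theorem RT_tail (σ : ℕ) {k : ℕ} (hk : 12 ≤ k) :
    RT σ k (1 + 201 / 100 * (1 / 2) ^ k) (1 + 201 / 100 * (1 / 2) ^ k) := by
  intro K
  induction K generalizing k with
  | zero => exact RTK.zero σ k (by simp) (by simp)
  | succ K ih =>
    have h1 : (1 / 2 : ℝ) ^ k ≤ (1 / 2) ^ 12 := pow_le_pow_of_le_one (by norm_num) (by norm_num) hk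
    have h0 : (0 : ℝ) ≤ (1 / 2) ^ k := by positivity
    refine (ih (k := k + 1) (by omega)).step ?_ ?_ <;>
    · simp only [pow_add, pow_mul', pow_one]
      generalize (1 / 2 : ℝ) ^ k = y at *
      have h2 : y ^ 2 ≤ y / 4096 := by nlinarith
      have h3 : y ^ 3 ≤ y / 4096 := by nlinarith
      nlinarith

theorem RT_zero (σ : ℕ) : RT σ 0 (7372022 / 10 ^ 6) (4383419 / 10 ^ 6) := by
  have r12 := RT_tail σ le_rfl
  have r11 : RT σ 11 (1000980 / 10 ^ 6) (1000736 / 10 ^ 6) :=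
    r12.step (by norm_num) (by norm_num) (by norm_num) (by norm_num)
  have r10 : RT σ 10 (1001959 / 10 ^ 6) (1001469 / 10 ^ 6) :=
    r11.step (by norm_num) (by norm_num) (by norm_num) (by norm_num)
  have r9 : RT σ 9 (1003919 / 10 ^ 6) (1002938 / 10 ^ 6) :=
    r10.step (by norm_num) (by norm_num) (by norm_num) (by norm_num)
  have r8 : RT σ 8 (1007853 / 10 ^ 6) (1005882 / 10 ^ 6) :=
    r9.step (by norm_num) (by norm_num) (by norm_num) (by norm_num)
  have r7 : RT σ 7 (1015773 / 10 ^ 6) (1011798 / 10 ^ 6) :=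
    r8.step (by norm_num) (by norm_num) (by norm_num) (by norm_num)
  have r6 : RT σ 6 (1031830 / 10 ^ 6) (1023740 / 10 ^ 6) :=
    r7.step (by norm_num) (by norm_num) (by norm_num) (by norm_num)
  have r5 : RT σ 5 (1064826 / 10 ^ 6) (1048076 / 10 ^ 6) :=
    r6.step (by norm_num) (by norm_num) (by norm_num) (by norm_num)
  have r4 : RT σ 4 (1134458 / 10 ^ 6) (1098602 / 10 ^ 6) :=
    r5.step (by norm_num) (by norm_num) (by norm_num) (by norm_num)
  have r3 : RT σ 3 (1289230 / 10 ^ 6) (1207413 / 10 ^ 6) :=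
    r4.step (by norm_num) (by norm_num) (by norm_num) (by norm_num)
  have r2 : RT σ 2 (1669104 / 10 ^ 6) (1459023 / 10 ^ 6) :=
    r3.step (by norm_num) (by norm_num) (by norm_num) (by norm_num)
  have r1 : RT σ 1 (2789632 / 10 ^ 6) (2125049 / 10 ^ 6) :=
    r2.step (by norm_num) (by norm_num) (by norm_num) (by norm_num)
  have r0 : RT σ 0 (7372022 / 10 ^ 6) (4383419 / 10 ^ 6) :=
    r1.step (by norm_num) (by norm_num) (by norm_num) (by norm_num)
  exact r0

theorem Z_nn_le {q : ℕ} {u : ℝ} (hu : 0 < u) (hqu : q * u ^ 2 = 1) (hq : 2 ≤ q) (k d : ℕ) :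
    (Z (fun _ => nn q) (k + 1) 1 d : ℝ) * u ^ d ≤ 34628 / 10000 := by
  have h1 : u ^ 2 ≤ 1 / 2 := by
    have : (2 : ℝ) ≤ q := by exact_mod_cast hq
    nlinarith [sq_nonneg u]
  have e1 : ∀ i, 2 ≤ i → 2 * (1 / 2 : ℝ) ^ i ≤ 1 / 2 := fun i hi => by
    have : (1 / 2 : ℝ) ^ i ≤ (1 / 2) ^ 2 := pow_le_pow_of_le_one (by norm_num) (by norm_num) hi
    linarith
  have e2 : ∀ i, 2 ≤ i → GB (fun _ => nn q) u i (1 / (1 - 2 * (1 / 2) ^ i)) := fun i hi M => by
    simp only [pow_mul]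
    refine sum_nn_le q (by positivity) ?_ (by have := e1 i hi; linarith) M
    obtain ⟨j, rfl⟩ : ∃ j, i = j + 1 := ⟨i - 1, by omega⟩
    rw [q_mul_pow hu hqu, ← pow_mul, pow_mul', pow_succ (1 / 2 : ℝ)]
    have := pow_le_pow_left₀ (sq_nonneg u) h1 j
    linarith
  have h2 := RB.prod hu.le (j := 2) (J := 14) (by norm_num) (RB.tail hu.le (ρ := 1 / 2) (by norm_num) (by norm_num)
    (C := 201 / 100) (A := 403 / 100) (J := 14) (by norm_num) (by norm_num) (fun i hi => (e2 i (by omega)).mono (by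
      have a1 : (1 / 2 : ℝ) ^ i ≤ (1 / 2) ^ 14 := pow_le_pow_of_le_one (by norm_num) (by norm_num) hi
      have a2 : (0 : ℝ) ≤ (1 / 2) ^ i := by positivity
      rw [div_le_iff₀ (by linarith)]
      nlinarith)) (by norm_num) le_rfl) _ fun i hi _ => ⟨e2 i hi, by
      have := e1 i hi
      have a2 : (0 : ℝ) ≤ (1 / 2) ^ i := by positivity
      rw [le_div_iff₀ (by linarith)]; linarith⟩
  have h3 := Z_one_le hu.le (h2.mono (B' := 34628 / 10000) (by
    simp only [prod_Ico_eq_prod_range, Nat.reduceSub, prod_range_succ, prod_range_zero]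
    norm_num)) (C := 1) (fun m => by rw [nn_mul hu hqu]; split_ifs <;> norm_num) k d
  linarith

/-- the extras of a decomposition -/
def ed (L : Multiset Ty) (k : ℕ) : ℕ × ℕ × ℕ := (L.count (.U k), L.count (.V k false), L.count (.V k true))

theorem NF.adm {σ : ℕ} {L : Multiset Ty} (h : NF σ L) : Adm σ (ed L) := fun k => by
  have h1 := h.v2 k
  have h2 := h.b1 k
  have h3 := h.u1 k
  have h4 := h.uv k
  have h5 := h.bv k
  rw [show pv σ L k = pz σ (ed L) k by cases k <;> rfl] at h4 h5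
  simp only [vv, E0, E1, ed, mem_insert, mem_singleton, Prod.mk.injEq] at *
  omega

theorem count_eq_zero {L : Multiset Ty} {D : ℕ} (h : (L.map Ty.dim).sum ≤ D) {t : Ty} (ht : D < t.dim) :
    L.count t = 0 := Multiset.count_eq_zero.2 fun e => by
  have := Multiset.single_le_sum (s := L.map Ty.dim) (fun _ _ => Nat.zero_le _) _ (Multiset.mem_map_of_mem _ e)
  omega

theorem dim_sum {L : Multiset Ty} {D : ℕ} (h : (L.map Ty.dim).sum ≤ D) :
    (L.map Ty.dim).sum = ∑ k ∈ range D, (k + 1) * (2 * L.count (.W k)) + 2 * ∑ k ∈ range D, hw k (ed L k) := by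
  rw [mul_sum, ← sum_add_distrib]
  induction L using Multiset.induction_on with
  | empty => simp [hw, ed]
  | cons t L ih =>
    rw [Multiset.map_cons, Multiset.sum_cons] at h ⊢
    obtain ⟨j, h1, h2⟩ : ∃ j < t.dim, ∀ k, (k + 1) * (2 * (t ::ₘ L).count (.W k)) + 2 * hw k (ed (t ::ₘ L) k) =
        (if k = j then t.dim else 0) + ((k + 1) * (2 * L.count (.W k)) + 2 * hw k (ed L k)) := by
      rcases t with ⟨j, _ | _⟩ | j | j <;> refine ⟨j, by simp only [Ty.dim]; omega, fun k => ?_⟩ <;>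
        by_cases e : k = j <;> simp [e, hw, ed, Multiset.count_cons, Ty.dim] <;> ring
    rw [ih (by omega), sum_congr rfl fun k _ => h2 k, sum_add_distrib (f := fun k => if k = j then t.dim else 0),
      sum_ite_eq', if_pos (mem_range.2 (by omega))]

variable {F : Type*} [Field F]

theorem eq_of_mul_pow_eq' {f g : F[X]} {a c : ℕ} (f1 : f.eval 1 ≠ 0) (g1 : g.eval 1 ≠ 0)
    (h : f * ((X - C 1) ^ 2) ^ a = g * ((X - C 1) ^ 2) ^ c) : f = g ∧ a = c := by
  have key : ∀ (f : F[X]) (a : ℕ), f.eval 1 ≠ 0 → (f * ((X - C 1) ^ 2) ^ a).rootMultiplicity 1 = 2 * a := by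
    intro f a hf
    rw [← pow_mul _ 2 a, rootMultiplicity_mul_X_sub_C_pow (by rintro rfl; simp at hf), rootMultiplicity_eq_zero hf,
      zero_add]
  have e1 := congrArg (rootMultiplicity 1) h
  rw [key _ _ f1, key _ _ g1] at e1
  obtain rfl : a = c := by omega
  exact ⟨mul_right_cancel₀ (pow_ne_zero _ (pow_ne_zero _ (X_sub_C_ne_zero _))) h, rfl⟩

theorem count_le [Fintype F] {Y : Type*} (s : Finset Y) (h : Y → ℕ → F[X]) (L : Y → Multiset Ty) {n : ℕ}
    (hn : 0 < n) (h1 : ∀ x ∈ s, ∀ i, Pal (h x i) ∧ (h x i).eval 1 ≠ 0)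
    (h2 : ∀ x ∈ s, ∑ i ∈ Ico 1 (1 + 2 * n), i * (h x i).natDegree + ((L x).map Ty.dim).sum = 2 * n)
    (h3 : ∀ x ∈ s, ∀ y ∈ s, (∀ i ∈ Ico 1 (1 + 2 * n), h x i = h y i) → L x = L y → x = y) {T : ℝ}
    (hT : ∀ S : Finset (ℕ → ℕ × ℕ × ℕ), (∀ e ∈ S, ∃ x ∈ s, ed (L x) = e) →
      (∀ e ∈ S, ∀ e' ∈ S, (∀ j ∈ Ico 0 (0 + 2 * n), e j = e' j) → e = e') →
      ∑ e ∈ S, (1 / 2 : ℝ) ^ ∑ j ∈ Ico 0 (0 + 2 * n), hw j (e j) ≤ T) :
    (s.card : ℝ) ≤ 34628 / 10000 * T * Fintype.card F ^ n := by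
  classical
  have hq : 2 ≤ Fintype.card F := Fintype.one_lt_card
  obtain ⟨u, hu, hqu⟩ := exists_u (q := Fintype.card F) (by omega)
  have hu2 : u ^ 2 ≤ 1 / 2 := by
    have : (2 : ℝ) ≤ Fintype.card F := by exact_mod_cast hq
    nlinarith [sq_nonneg u]
  have d0 : ∀ x ∈ s, ((L x).map Ty.dim).sum ≤ 2 * n := fun x hx => by have := h2 x hx; omega
  refine le_of_mul_u hu hqu n ?_
  have h4 := hT (s.image fun x => ed (L x)) (fun e he => mem_image.1 he) fun e he e' he' hj => by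
    obtain ⟨x, hx, rfl⟩ := mem_image.1 he
    obtain ⟨y, hy, rfl⟩ := mem_image.1 he'
    funext j
    by_cases e : j < 2 * n
    · exact hj j (by simpa using e)
    · simp only [ed]
      rw [count_eq_zero (d0 x hx), count_eq_zero (d0 x hx), count_eq_zero (d0 x hx), count_eq_zero (d0 y hy),
        count_eq_zero (d0 y hy), count_eq_zero (d0 y hy)] <;> simp only [Ty.dim] <;> omega
  refine le_trans ?_ (mul_le_mul_of_nonneg_left h4 (by norm_num))
  rw [card_eq_sum_card_image (fun x => ed (L x)), mul_sum]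
  push_cast
  rw [sum_mul]
  refine sum_le_sum fun e he => ?_
  obtain ⟨x₀, hx₀, rfl⟩ := mem_image.1 he
  rw [zero_add, ← range_eq_Ico]
  set H := ∑ j ∈ range (2 * n), hw j (ed (L x₀) j) with hH
  have hH2 : 2 * H ≤ 2 * n := by have := dim_sum (d0 x₀ hx₀); have := d0 x₀ hx₀; omega
  have h5 : (s.filter fun x => ed (L x) = ed (L x₀)).card ≤
      Z (fun _ => nn (Fintype.card F)) (2 * n) 1 (2 * n - 2 * H) := by
    refine card_le_Z _ natDegree (fun _ => Pal) (fun _ => card_pal)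
      (fun x i => h x i * ((X - C 1) ^ 2) ^ (L x).count (.W (i - 1))) _ 1 _ _ one_pos
      (fun x hx i _ => (h1 x (mem_filter.1 hx).1 i).1.mul ((pal_sq (by simp)).pow _)) (fun x hx => ?_)
      fun x hx y hy hxy => ?_
    · rw [mem_filter] at hx
      have a1 := h2 x hx.1
      rw [dim_sum (d0 x hx.1), hx.2, ← hH] at a1
      rw [sum_congr rfl (g := fun i => i * (h x i).natDegree + i * (2 * (L x).count (.W (i - 1)))) fun i _ => by
        rw [(h1 x hx.1 i).1.mc.1.natDegree_mul (((monic_X_sub_C _).pow _).pow _), natDegree_pow, natDegree_pow,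
          natDegree_X_sub_C]; ring, sum_add_distrib, sum_Ico_eq_sum_range (fun i => i * (2 * _))]
      simp only [Nat.add_sub_cancel, add_comm 1] at a1 ⊢
      omega
    · rw [mem_filter] at hx hy
      have a1 := fun i hi => eq_of_mul_pow_eq' (h1 x hx.1 i).2 (h1 y hy.1 i).2 (hxy i hi)
      have a2 := hx.2.trans hy.2.symm
      refine h3 x hx.1 y hy.1 (fun i hi => (a1 i hi).1) (Multiset.ext.2 fun t => ?_)
      rcases t with ⟨k, _ | _⟩ | k | k
      · exact congrArg (fun e => (e k).2.1) a2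
      · exact congrArg (fun e => (e k).2.2) a2
      · by_cases e : k < 2 * n
        · exact (a1 (k + 1) (mem_Ico.2 ⟨by omega, by omega⟩)).2
        · rw [count_eq_zero (d0 x hx.1), count_eq_zero (d0 y hy.1)] <;> simp only [Ty.dim] <;> omega
      · exact congrArg (fun e => (e k).1) a2
  have h6 := Z_nn_le hu hqu hq (2 * n - 1) (2 * n - 2 * H)
  rw [show 2 * n - 1 + 1 = 2 * n by omega] at h6
  have h7 : ((s.filter fun x => ed (L x) = ed (L x₀)).card : ℝ) ≤
      Z (fun _ => nn (Fintype.card F)) (2 * n) 1 (2 * n - 2 * H) := by exact_mod_cast h5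
  calc _ ≤ (Z (fun _ => nn (Fintype.card F)) (2 * n) 1 (2 * n - 2 * H) : ℝ) * u ^ (2 * n) := by gcongr
    _ = Z (fun _ => nn (Fintype.card F)) (2 * n) 1 (2 * n - 2 * H) * u ^ (2 * n - 2 * H) * (u ^ 2) ^ H := by
      rw [mul_assoc, ← pow_mul, ← pow_add]; congr 2; omega
    _ ≤ _ := by gcongr

end We
end H16
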