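import Mathlib
import Cfsg.Agent.H16.We4

/-!
# Upper bounds for class numbers of symplectic and orthogonal groups in characteristic two

`exists_al`, `card_sp_le`, `card_o_le`
-/

open Finset Polynomial Module H10

set_option linter.unusedSectionVars false

namespace H16
namespace We

open Wal Cnt

variable {F V : Type*} [Field F] [AddCommGroup V] [Module F V] {φ : Form F V} [φ.Nondeg] [FiniteDimensional F V]

theorem exists_al [Fintype F] (h : Even (Fintype.card F)) : ∃ α : F, Al α := by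
  have h1 : ringChar F = 2 := FiniteField.even_card_iff_char_two.2 (Nat.even_iff.1 h)
  have two : (2 : F) = 0 := by
    have := ringChar.Nat.cast_ringChar (R := F)
    rw [h1] at this; exact_mod_cast this
  let p : F →+ F := AddMonoidHom.mk' (fun d => d ^ 2 + d) fun a b => by linear_combination a * b * two
  have h2 : p.range.index = 2 := by
    rw [AddSubgroup.index_range, Nat.card_eq_two_iff]
    refine ⟨⟨0, by simp⟩, ⟨1, by change (1 : F) ^ 2 + 1 = 0; linear_combination two⟩, by simp,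
      Set.eq_univ_of_forall ?_⟩
    rintro ⟨x, hx⟩
    have : x * (x - 1) = 0 := by
      change x ^ 2 + x = 0 at hx
      linear_combination hx - x * two
    simpa [sub_eq_zero] using this
  obtain ⟨α, hα⟩ : ∃ α, α ∉ p.range := by
    by_contra e
    push Not at e
    rw [(AddSubgroup.eq_top_iff' _).2 e] at h2
    simp at h2
  refine ⟨α, two, fun a => ?_, fun d e => hα ⟨d, e⟩, fun a => ?_⟩
  · obtain ⟨b, hb⟩ := FiniteField.isSquare_of_char_two h1 a
    exact ⟨b, by rw [hb, sq]⟩
  · by_cases e : a ∈ p.range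
    · obtain ⟨d, hd⟩ := e
      exact ⟨d, .inl hd.symm⟩
    · obtain ⟨d, hd⟩ := (AddSubgroup.add_mem_iff_of_index_two h2).2 (iff_of_false e hα)
      change d ^ 2 + d = _ at hd
      exact ⟨d, .inr (by linear_combination -hd - α * two)⟩

theorem count_fg (L : Multiset Ty) : (∀ k b, (L.map Ty.fg).count (.V (k + 1) b) = L.count (.V (k + 1) b)) ∧
    (∀ k, (L.map Ty.fg).count (.U (k + 1)) = L.count (.U (k + 1))) ∧ (L.map Ty.fg).count (.U 0) = 0 ∧
    (L.map Ty.fg).count (.V 0 true) = 0 ∧ (L.map Ty.fg).count (.V 0 false) = vv L 0 := by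
  induction L using Multiset.induction_on with
  | empty => simp [vv]
  | cons t L ih =>
    obtain ⟨h1, h2, h3, h4, h5⟩ := ih
    rcases t with ⟨_ | k, _ | _⟩ | i | _ | k <;>
      simp [Multiset.count_cons, h1, h2, h3, h4, h5, Ty.fg, vv] <;> omega

theorem NF.fg {L : Multiset Ty} (h : NF 0 L) : NF 1 (L.map Ty.fg) := by
  obtain ⟨h1, h2, h3, h4, h5⟩ := count_fg L
  have e : ∀ k, vv (L.map Ty.fg) k = vv L k := fun k => by
    cases k with
    | zero => rw [vv, h4, h5, add_zero]
    | succ k => rw [vv, h1, h1, vv]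
  refine ⟨fun k => e k ▸ h.v2 k, ?_, ?_, ?_, ?_⟩ <;> rintro (_ | k)
  · omega
  · rw [h1]; exact h.b1 _
  · omega
  · rw [h2]; exact h.u1 _
  · omega
  · rw [h2, e, pv, e]; exact h.uv _
  · omega
  · rw [h1, pv, e]; exact h.bv _

theorem dim_fg (t : Ty) : t.fg.dim = t.dim := by rcases t with ⟨_ | k, b⟩ | i | _ | k <;> rfl

theorem card_sp_le [Fintype F] {α : F} (hα : Al α) (hσ : ∀ a, φ.σ a = a) (h0 : ∀ x, φ.Q x = 0) (q : V → F)
    (h1 : ∀ x y, q (x + y) = q x + q y + φ.B x y) (h2 : ∀ (c : F) x, q (c • x) = c ^ 2 * q x) {n : ℕ} (hn : 0 < n)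
    (hd : finrank F V = 2 * n) : 5 * Nat.card (ConjClasses φ.Isom) ≤ 76 * Fintype.card F ^ n := by
  haveI := finite_isom (φ := φ)
  haveI := Fintype.ofFinite (ConjClasses φ.Isom)
  choose C hC using exists_cx hα hσ h0 q h1 h2
  obtain ⟨h, L, d1, d2, d3, d4, -⟩ := exists_data hα C hC
  rw [hd] at d3 d4
  have := count_le (univ : Finset (ConjClasses φ.Isom)) (fun x => h (rp x)) (fun x => (L (rp x)).map Ty.fg) hn
    (fun x _ => d1 _) (fun x _ => by simpa only [Multiset.map_map, Function.comp_def, dim_fg] using d3 (rp x))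
    (fun x _ y _ e1 e2 => by
      rw [← mk_rp x, ← mk_rp y, ConjClasses.mk_eq_mk_iff_isConj]
      exact d4 Ty.fg (fun _ _ e => .inr ⟨rfl, e⟩) _ _ e1 e2) (T := 4383419 / 10 ^ 6) fun S s1 s2 =>
    (RT_zero 1 _ S (fun e he => by obtain ⟨x, -, rfl⟩ := s1 e he; exact (d2 _).fg.adm) s2).2 fun _ _ => one_ne_zero
  rw [card_univ, ← Nat.card_eq_fintype_card] at this
  have h3 : (0 : ℝ) ≤ Fintype.card F ^ n := by positivity
  have : (5 : ℝ) * Nat.card (ConjClasses φ.Isom) ≤ 76 * Fintype.card F ^ n := by linarith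
  exact_mod_cast this

/-- the type at a slot -/
def sl : Bool × ℕ → Bool → Ty
  | (true, k), b => .V k b
  | (false, k), false => .W (2 * k)
  | (false, k), true => .U k

/-- the data which do not see the bits -/
def iv (L : Multiset Ty) : (ℕ → ℕ) × (ℕ → ℕ) := (vv L, fun k => L.count (.W (2 * k)) + L.count (.U k))

/-- slots -/
def ok (i : (ℕ → ℕ) × (ℕ → ℕ)) (p : Bool × ℕ) : Prop :=
  (∀ j, p.2 = j + 1 → i.1 j = 0) ∧ (p.1 = true → 0 < i.1 p.2) ∧ (p.1 = false → 0 < i.2 p.2 ∧ i.1 p.2 = 0)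

theorem iv_sl (p : Bool × ℕ) (b b' : Bool) (M : Multiset Ty) : iv (sl p b ::ₘ M) = iv (sl p b' ::ₘ M) := by
  obtain ⟨_ | _, k⟩ := p <;> cases b <;> cases b' <;> refine Prod.ext (funext fun j => ?_) (funext fun j => ?_) <;>
    simp [iv, vv, sl, Multiset.count_cons] <;> split_ifs <;> omega

theorem dim_sl (p : Bool × ℕ) (b b' : Bool) : (sl p b).dim = (sl p b').dim := by
  obtain ⟨_ | _, k⟩ := p <;> cases b <;> cases b' <;> simp [sl, Ty.dim] <;> omega

theorem sl_ne (p : Bool × ℕ) : sl p true ≠ sl p false := by obtain ⟨_ | _, k⟩ := p <;> simp [sl]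

theorem NF.exists_sl {L : Multiset Ty} (h : NF 0 L) {p : Bool × ℕ} (hp : ok (iv L) p) :
    ∃ M, (∃ b, L = sl p b ::ₘ M) ∧ sl p true ∉ M := by
  by_cases e : sl p true ∈ L
  · refine ⟨L.erase (sl p true), ⟨true, (Multiset.cons_erase e).symm⟩, ?_⟩
    rw [← Multiset.count_eq_zero, Multiset.count_erase_self]
    obtain ⟨_ | _, k⟩ := p
    · have := h.u1 k; change L.count (.U k) - 1 = 0; omega
    · have := h.b1 k; change L.count (.V k true) - 1 = 0; omega
  · refine ⟨L.erase (sl p false), ⟨false, (Multiset.cons_erase ?_).symm⟩, fun e' => e (Multiset.mem_of_mem_erase e')⟩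
    rw [← Multiset.count_eq_zero] at e
    rw [← Multiset.count_pos]
    obtain ⟨_ | _, k⟩ := p
    · have := (hp.2.2 rfl).1
      simp only [iv, sl] at this e ⊢; omega
    · have := hp.2.1 rfl
      simp only [iv, sl, vv] at this e ⊢; omega

theorem NF.flip {M : Multiset Ty} {p : Bool × ℕ} {b : Bool} (h : NF 0 (sl p b ::ₘ M)) (hp : ok (iv (sl p b ::ₘ M)) p)
    (hM : sl p true ∉ M) (b' : Bool) : NF 0 (sl p b' ::ₘ M) := by
  have e : vv (sl p b' ::ₘ M) = vv (sl p b ::ₘ M) := congrArg Prod.fst (iv_sl p b' b M)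
  have e' : ∀ k, pv 0 (sl p b' ::ₘ M) k = pv 0 (sl p b ::ₘ M) k := fun k => by cases k <;> simp [pv, e]
  have e1 : pv 0 (sl p b ::ₘ M) p.2 = 0 := by
    rcases hk : p.2 with _ | k
    · rfl
    · exact hp.1 k hk
  rw [← Multiset.count_eq_zero] at hM
  have key : ∀ t, t ≠ sl p false → (sl p b' ::ₘ M).count t ≤ (sl p b ::ₘ M).count t ∨
      (t = sl p true ∧ (sl p b' ::ₘ M).count t = 1) := fun t ht => by
    by_cases e₀ : t = sl p true
    · cases b'
      · left; rw [Multiset.count_cons_of_ne ht, e₀, hM]; exact Nat.zero_le _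
      · right; exact ⟨e₀, by rw [e₀, Multiset.count_cons_self, hM]⟩
    · left
      rw [Multiset.count_cons_of_ne (by cases b' <;> assumption)]
      exact Multiset.count_le_count_cons _ _ _
  have k1 : ∀ k, Ty.V k true ≠ sl p false := fun k => by obtain ⟨_ | _, j⟩ := p <;> simp [sl]
  have k2 : ∀ k, Ty.U k ≠ sl p false := fun k => by obtain ⟨_ | _, j⟩ := p <;> simp [sl]
  refine ⟨fun k => e ▸ h.v2 k, fun k => ?_, fun k => ?_, fun k hk => ?_, fun k hk => ?_⟩
  · have := h.b1 k
    rcases key _ (k1 k) with a | a <;> omega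
  · have := h.u1 k
    rcases key _ (k2 k) with a | a <;> omega
  · rw [e, e']
    rcases key _ (k2 k) with a | ⟨a, -⟩
    · exact h.uv k (by omega)
    · obtain ⟨_ | _, j⟩ := p <;> simp only [sl, Ty.U.injEq, reduceCtorEq] at a
      subst a
      exact ⟨(hp.2.2 rfl).2, e1⟩
  · rw [e']
    rcases key _ (k1 k) with a | ⟨a, -⟩
    · exact h.bv k (by omega)
    · obtain ⟨_ | _, j⟩ := p <;> simp only [sl, Ty.V.injEq, reduceCtorEq, and_true] at a
      subst a
      exact e1

theorem NF.ed_eq {L : Multiset Ty} (h : NF 0 L) (hp : ¬ ∃ p, ok (iv L) p) : ed L = 0 := by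
  have e1 : ∀ k, vv L k = 0 := fun k => by
    induction k using Nat.strong_induction_on with
    | _ k ih =>
      by_contra e
      exact hp ⟨(true, k), fun j hj => ih j (by simp at hj; omega), fun _ => Nat.pos_of_ne_zero e, by simp⟩
  funext k
  have e2 := e1 k
  have e3 : L.count (.U k) = 0 := by
    by_contra e
    exact hp ⟨(false, k), fun j _ => e1 j, by simp, fun _ => ⟨by simp only [iv]; omega, e2⟩⟩
  rw [vv] at e2
  simp only [ed, Pi.zero_apply, Prod.mk_eq_zero]
  omega

theorem card_o_le [Fintype F] {α : F} (hα : Al α) (hQ : φ.IsQuad) {n : ℕ} (hn : 0 < n)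
    (hd : finrank F V = 2 * n) : Nat.card (ConjClasses φ.Isom) ≤ 15 * Fintype.card F ^ n := by
  classical
  haveI := finite_isom (φ := φ)
  haveI := Fintype.ofFinite (ConjClasses φ.Isom)
  obtain ⟨h, L, d1, d2, d3, d4, d5⟩ := exists_data hα (κ := 1) (fun g : φ.Isom => ⟨g, φ.Q, hα.two, hQ.σ_eq, hQ.Q_add,
    fun c x => by rw [hQ.Q_smul, sq], g.2.Q, fun x => (one_mul _).symm⟩) fun _ => rfl
  rw [hd] at d3 d4 d5
  have d6 : ∀ x y : ConjClasses φ.Isom, (∀ i ∈ Ico 1 (1 + 2 * n), h (rp x) i = h (rp y) i) →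
      L (rp x) = L (rp y) → x = y := fun x y e1 e2 => by
    rw [← mk_rp x, ← mk_rp y, ConjClasses.mk_eq_mk_iff_isConj]
    exact d4 id (fun _ _ => .inl) _ _ e1 (by rw [e2])
  have d7 : ∀ g g' p M, (∀ i ∈ Ico 1 (1 + 2 * n), h g i = h g' i) → L g = sl p false ::ₘ M →
      L g' ≠ sl p true ::ₘ M := fun g g' p M e1 e2 e3 => by
    obtain ⟨P, P', e, a1, a2, a3⟩ := d5 g g' _ _ M e1 e2 e3
    obtain ⟨_ | _, k⟩ := p
    · exact slotW hQ hα a1 a2 a3
    · exact slotV hQ hα a1 a2 a3
  let R : ConjClasses φ.Isom → Prop := fun x => ∃ p, ok (iv (L (rp x))) p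
  let p : ConjClasses φ.Isom → Bool × ℕ := fun x => Classical.epsilon (ok (iv (L (rp x))))
  have hp : ∀ x, R x → ok (iv (L (rp x))) (p x) := fun x h => Classical.epsilon_spec h
  choose! M m1 m2 using fun x (hx : R x) => (d2 (rp x)).exists_sl (hp x hx)
  let ψ : ConjClasses φ.Isom × Bool → Multiset Ty := fun x => if R x.1 then sl (p x.1) x.2 ::ₘ M x.1 else L (rp x.1)
  have e1 : ∀ x, iv (ψ x) = iv (L (rp x.1)) := fun x => by
    dsimp only [ψ]
    split_ifs with e
    · obtain ⟨b, hb⟩ := m1 _ e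
      rw [hb, iv_sl]
    · rfl
  have h1 := count_le ((univ ×ˢ univ).filter fun x : ConjClasses φ.Isom × Bool => x.2 = false ∨ R x.1)
    (fun x => h (rp x.1)) ψ hn (fun x _ => d1 _) (fun x _ => by
      refine Eq.trans ?_ (d3 (rp x.1))
      dsimp only [ψ]
      split_ifs with e
      · obtain ⟨b, hb⟩ := m1 _ e
        rw [hb, Multiset.map_cons, Multiset.map_cons, Multiset.sum_cons, Multiset.sum_cons, dim_sl]
      · rfl)
    (fun x hx y hy a1 a2 => by
      have a3 : iv (L (rp x.1)) = iv (L (rp y.1)) := by rw [← e1, a2, e1]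
      have a4 : p x.1 = p y.1 := congrArg (fun i => Classical.epsilon (ok i)) a3
      have a5 : R x.1 ↔ R y.1 := by simp only [R, a3]
      dsimp only [ψ] at a2
      by_cases e : R x.1
      · have e' := a5.1 e
        rw [if_pos e, if_pos e', a4] at a2
        have b1 := m2 _ e
        have b2 := m2 _ e'
        rw [a4] at b1
        have b3 : x.2 = y.2 := by
          have b4 := congrArg (sl (p y.1) true ∈ ·) a2
          have := sl_ne (p y.1)
          revert b4
          cases x.2 <;> cases y.2 <;> simp [b1, b2, this]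
        rw [b3, Multiset.cons_inj_right] at a2
        obtain ⟨b, hb⟩ := m1 _ e
        obtain ⟨b', hb'⟩ := m1 _ e'
        rw [a4, a2] at hb
        refine Prod.ext (d6 _ _ a1 ?_) b3
        cases b <;> cases b'
        · rw [hb, hb']
        · exact absurd hb' (d7 _ _ _ _ a1 hb)
        · exact absurd hb (d7 _ _ _ _ (fun i hi => (a1 i hi).symm) hb')
        · rw [hb, hb']
      · rw [if_neg e, if_neg (mt a5.2 e)] at a2
        refine Prod.ext (d6 _ _ a1 a2) ?_
        rw [(mem_filter.1 hx).2.resolve_right e, (mem_filter.1 hy).2.resolve_right (mt a5.2 e)])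
    (T := 7372022 / 10 ^ 6) fun S s1 s2 => (RT_zero 0 _ S (fun e he => by
      obtain ⟨x, -, rfl⟩ := s1 e he
      refine NF.adm ?_
      dsimp only [ψ]
      split_ifs with e
      · obtain ⟨b, hb⟩ := m1 _ e
        exact NF.flip (hb ▸ d2 _) (hb ▸ hp _ e) (m2 _ e) _
      · exact d2 _) s2).1
  have h2 := count_le (univ.filter fun x => ¬ R x) (fun x => h (rp x)) (fun x => L (rp x)) hn (fun x _ => d1 _)
    (fun x _ => d3 _) (fun x _ y _ => d6 x y) (T := 1) fun S s1 _ => by
      have : S ⊆ {0} := fun e he => by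
        obtain ⟨x, hx, rfl⟩ := s1 e he
        exact mem_singleton.2 ((d2 _).ed_eq (mem_filter.1 hx).2)
      refine (sum_le_sum_of_subset_of_nonneg this fun _ _ _ => by positivity).trans ?_
      simp [hw]
  have h3 : ((univ ×ˢ univ).filter fun x : ConjClasses φ.Isom × Bool => x.2 = false ∨ R x.1).card +
      (univ.filter fun x => ¬ R x).card = 2 * Nat.card (ConjClasses φ.Isom) := by
    rw [card_filter, sum_product, card_filter, ← sum_add_distrib, mul_comm, ← smul_eq_mul, Nat.card_eq_fintype_card,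
      ← card_univ, ← sum_const]
    refine sum_congr rfl fun C _ => ?_
    by_cases e : R C <;> simp [e]
  have h4 := congrArg (Nat.cast : ℕ → ℝ) h3
  push_cast at h4
  have h5 : (0 : ℝ) ≤ Fintype.card F ^ n := by positivity
  have : (Nat.card (ConjClasses φ.Isom) : ℝ) ≤ 15 * Fintype.card F ^ n := by linarith
  exact_mod_cast this

end We
end H16
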