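import Mathlib
import Cfsg.Agent.H16.We5

/-!
# Class numbers of symplectic and orthogonal groups in characteristic two

`card_sp_even`, `card_o_even`
-/

open Matrix Finset Polynomial Module H10

set_option linter.unusedSectionVars false

namespace H16
namespace We

open Wal Cnt

variable {F : Type*} [Field F] {ι : Type*} [Fintype ι] [DecidableEq ι]

theorem tr_toIsom {φ : Form F (ι → F)} [φ.Nondeg] {A A' : Matrix ι ι F} (h : φ.IsIsom (toLin' A))
    (h1 : A * A' = 1) : tr (φ.toIsom (toLin' A)) = (A + A').charpoly := by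
  rw [tr, ← charpoly_toLin', map_add, φ.toIsom_coe h]
  congr 2
  refine LinearMap.ext fun x => ?_
  rw [LinearEquiv.coe_coe, Form.Isom.inv_apply_eq, φ.toIsom_apply h]
  simp [h1]

theorem tr_model (two : (2 : F) = 0) {φ : Form F (ι ⊕ ι → F)} [φ.Nondeg] {S S' : Matrix ι ι F}
    (h : φ.IsIsom (toLin' (fromBlocks 1 S 0 1))) (h' : φ.IsIsom (toLin' (fromBlocks 1 0 S' 1))) :
    ∃ g : φ.Isom, tr g = (S * S').charpoly ^ 2 := by
  have e : (1 : Matrix ι ι F) + 1 = 0 := by rw [← two_smul F, two, zero_smul]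
  refine ⟨_, (tr_toIsom (A := fromBlocks 1 S 0 1 * fromBlocks 1 0 S' 1)
    (A' := fromBlocks 1 0 (-S') 1 * fromBlocks 1 (-S) 0 1) ?_ ?_).trans ?_⟩
  · rw [toLin'_mul]
    exact ⟨fun x y => (h.B _ _).trans (h'.B x y), fun x => (h.Q _).trans (h'.Q x)⟩
  · rw [Matrix.mul_assoc, ← Matrix.mul_assoc (fromBlocks 1 0 S' 1)]
    simp [fromBlocks_multiply]
  · have : fromBlocks 1 S 0 1 * fromBlocks 1 0 S' 1 + fromBlocks 1 0 (-S') 1 * fromBlocks 1 (-S) 0 1 =
        fromBlocks (S * S') 0 0 (S' * S) := by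
      simp only [fromBlocks_multiply, fromBlocks_add]
      congr 1
      · simp
        rw [add_right_comm, e, zero_add]
      · simp
      · simp
      · simp [add_left_comm, e]
    rw [this, charpoly_fromBlocks_zero₂₁, charpoly_mul_comm S', sq]

theorem card_sp_even [Fintype F] (h : Even (Fintype.card F)) {n : ℕ} (hn : 0 < n) :
    Fintype.card F ^ n ≤ Nat.card (ConjClasses (H09.spForm (Fin n) F).Isom) ∧
      5 * Nat.card (ConjClasses (H09.spForm (Fin n) F).Isom) ≤ 76 * Fintype.card F ^ n := by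
  obtain ⟨α, hα⟩ := exists_al h
  constructor
  · rw [← card_monic_deg]
    refine card_le_of_tr (fun f => f.1 ^ 2) (fun f g e => Subtype.ext (eq_of_sq_eq f.2.1 g.2.1 e)) fun f => ?_
    obtain ⟨L, M, h1, h3, h4, h5⟩ := exists_sym f.2.1 f.2.2
    have key : ∀ A : Matrix (Fin n ⊕ Fin n) (Fin n ⊕ Fin n) F, Aᵀ * J _ F * A = J _ F →
        (H09.spForm (Fin n) F).IsIsom (toLin' A) := fun A hA => ⟨fun x y => by
      rw [H09.spForm_B, H09.spForm_B, H09.spB_apply, H09.spB_apply, toLin'_apply, toLin'_apply, ← dot_cong, hA],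
      fun _ => rfl⟩
    obtain ⟨g, hg⟩ := tr_model hα.two (key (fromBlocks 1 L⁻¹ 0 1) (by
      simp [J, fromBlocks_transpose, fromBlocks_multiply, transpose_nonsing_inv, h1]))
      (key (fromBlocks 1 0 (L * M) 1) (by simp [J, fromBlocks_transpose, fromBlocks_multiply, h1, h4]))
    exact ⟨g, by rw [hg, ← Matrix.mul_assoc, nonsing_inv_mul _ (Ne.isUnit h3), Matrix.one_mul, h5]⟩
  · refine card_sp_le hα (fun _ => rfl) (fun _ => rfl) (fun x => ∑ i, x (.inl i) * x (.inr i)) (fun x y => ?_)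
      (fun c x => ?_) hn (by simp [two_mul])
    · rw [H09.spForm_B, H09.spB_apply', ← sum_add_distrib, ← sum_add_distrib]
      refine sum_congr rfl fun i _ => ?_
      simp only [Pi.add_apply]
      linear_combination x (.inl i) * y (.inr i) * hα.two
    · rw [mul_sum]
      refine sum_congr rfl fun i _ => ?_
      simp only [Pi.smul_apply, smul_eq_mul]; ring

theorem sum_sym (two : (2 : F) = 0) (f : ι → ι → F) (h : ∀ i j, f i j = f j i) :
    ∑ i, ∑ j, f i j = ∑ i, f i i := by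
  have e1 : ∑ p : ι × ι, (if p.1 = p.2 then 0 else f p.1 p.2) = 0 :=
    sum_involution (fun p _ => p.swap) (fun p _ => by
      by_cases e : p.1 = p.2
      · simp [e]
      · rw [if_neg e, Prod.fst_swap, Prod.snd_swap, if_neg (Ne.symm e), h p.2]
        linear_combination f p.1 p.2 * two)
      (fun p _ hp e => hp (if_pos (congrArg Prod.snd e))) (fun _ _ => mem_univ _) fun _ _ => rfl
  rw [Fintype.sum_prod_type] at e1
  rw [← sub_eq_zero, ← sum_sub_distrib, ← e1]
  refine sum_congr rfl fun i _ => ?_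
  rw [sub_eq_iff_eq_add, ← sum_ite_eq_of_mem univ i (f i) (mem_univ _), ← sum_add_distrib]
  exact sum_congr rfl fun j _ => by split_ifs <;> simp

/-- the model quadratic form -/
noncomputable def qM (T T' : Matrix ι ι F) : Form F (ι ⊕ ι → F) :=
  Form.ofQuad (fromBlocks T 1 0 T').toQuadraticForm'

theorem qM_Q (T T' : Matrix ι ι F) (x : ι ⊕ ι → F) : (qM T T').Q x = x ⬝ᵥ fromBlocks T 1 0 T' *ᵥ x := by
  simp [qM, toQuadraticForm', toLinearMap₂'_apply']

theorem qM_elim (T T' : Matrix ι ι F) (a b : ι → F) :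
    (qM T T').Q (Sum.elim a b) = a ⬝ᵥ T *ᵥ a + a ⬝ᵥ b + b ⬝ᵥ T' *ᵥ b := by
  simp [qM_Q, fromBlocks_mulVec, sumElim_dotProduct_sumElim]

theorem qM_isQuad (T T' : Matrix ι ι F) : (qM T T').IsQuad := Form.isQuad_ofQuad _

theorem qM_isom (two : (2 : F) = 0) {T T' : Matrix ι ι F} {U K : Matrix (ι ⊕ ι) (ι ⊕ ι) F}
    (h : Uᵀ * fromBlocks T 1 0 T' * U = fromBlocks T 1 0 T' + K + Kᵀ) : (qM T T').IsIsom (toLin' U) :=
  Form.ofQuad_isIsom fun x => by
    change (qM T T').Q _ = (qM T T').Q _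
    rw [qM_Q, qM_Q, toLin'_apply, ← dot_cong, h, add_mulVec, add_mulVec, dotProduct_add, dotProduct_add,
      mulVec_transpose, dotProduct_comm x (x ᵥ* K), ← dotProduct_mulVec]
    linear_combination (x ⬝ᵥ K *ᵥ x) * two

section
variable (two : (2 : F) = 0) {T T' : Matrix ι ι F} (hT : Tᵀ = T) (hT' : T'ᵀ = T')
include two hT hT'

theorem qM_B (a b a' b' : ι → F) : (qM T T').B (Sum.elim a b) (Sum.elim a' b') = a ⬝ᵥ b' + a' ⬝ᵥ b := by
  have h1 := (qM_isQuad T T').Q_add (Sum.elim a b) (Sum.elim a' b')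
  rw [show Sum.elim a b + Sum.elim a' b' = Sum.elim (a + a') (b + b') by ext (i | i) <;> rfl] at h1
  simp only [qM_elim, mulVec_add, add_dotProduct, dotProduct_add] at h1
  have h2 := dot_symm (η := 1) (by rwa [one_smul] : Tᵀ = (1 : F) • T) a a'
  have h3 := dot_symm (η := 1) (by rwa [one_smul] : T'ᵀ = (1 : F) • T') b b'
  linear_combination -h1 + h2 + h3 + (a ⬝ᵥ T *ᵥ a' + b ⬝ᵥ T' *ᵥ b') * two

theorem qM_nondeg : (qM T T').Nondeg := ⟨fun x h => by
  rw [← Sum.elim_comp_inl_inr x] at h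
  ext (i | i)
  · have := h (Sum.elim 0 (Pi.single i 1))
    rw [qM_B two hT hT'] at this
    simpa using this
  · have := h (Sum.elim (Pi.single i 1) 0)
    rw [qM_B two hT hT'] at this
    simpa using this⟩

omit hT' in
theorem dot_sq {p : ι → F} (hp : ∀ i, p i ^ 2 = T i i) (a : ι → F) : a ⬝ᵥ T *ᵥ a = (p ⬝ᵥ a) ^ 2 := by
  simp only [dotProduct, mulVec, sq, sum_mul_sum]
  simp only [mul_sum]
  rw [sum_sym two (fun i j => a i * (T i j * a j)) fun i j => by rw [← hT, transpose_apply, hT]; ring,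
    sum_sym two _ fun i j => by ring]
  exact sum_congr rfl fun i _ => by rw [← hp]; ring

theorem qM_hasTS {α : F} (hα : Al α) :
    (qM T T').HasTS (Fintype.card ι) ↔ ∃ d, trace (T * T') = d ^ 2 + d := by
  haveI := qM_nondeg two hT hT'
  choose p hp using fun i => hα.sq (T i i)
  choose r hr using fun i => hα.sq (T' i i)
  have e1 : trace (T * T') = (r ⬝ᵥ p) ^ 2 := by
    simp only [trace, Matrix.diag, mul_apply, dotProduct, sq, sum_mul_sum]
    rw [sum_sym two (fun i j => T i j * T' j i) fun i j => by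
      rw [← hT, ← hT', transpose_apply, transpose_apply, hT, hT'],
      sum_sym two _ fun i j => by ring]
    exact sum_congr rfl fun i _ => by rw [← hp, ← hr]; ring
  let e : (ι → F) →ₗ[F] (ι ⊕ ι → F) :=
    { toFun := fun a => Sum.elim a 0
      map_add' := fun a b => by ext (i | i) <;> simp
      map_smul' := fun a b => by ext (i | i) <;> simp }
  have e2 : Function.Injective e := fun a b h => funext fun i => congrFun h (.inl i)
  have e3 : ∀ a, (qM T T').Q (e a) = (p ⬝ᵥ a) ^ 2 := fun a => by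
    change (qM T T').Q (Sum.elim a 0) = _
    rw [qM_elim, dot_sq two hT hp]; simp
  by_cases h0 : p = 0
  · refine iff_of_true ⟨LinearMap.range e, (qM_isQuad T T').ts ?_, ?_⟩ ⟨0, by simp [e1, h0]⟩
    · rintro _ ⟨a, rfl⟩; simp [e3, h0]
    · rw [LinearMap.finrank_range_of_inj e2]; simp
  obtain ⟨i, hi⟩ := Function.ne_iff.1 h0
  let f : (ι → F) →ₗ[F] F := dotProductBilin F F p
  have f1 : p ⬝ᵥ Pi.single i (p i)⁻¹ = 1 := by simpa using mul_inv_cancel₀ hi
  have f2 : finrank F ((LinearMap.ker f).map e) + 1 = Fintype.card ι := by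
    have := Module.Dual.finrank_ker_add_one_of_ne_zero (f := f) fun e => by
      have := LinearMap.congr_fun e (Pi.single i (p i)⁻¹)
      exact one_ne_zero (f1.symm.trans this)
    rw [← (Submodule.equivMapOfInjective e e2 _).finrank_eq, this]; simp
  have s1 : (qM T T').TS ((LinearMap.ker f).map e) := (qM_isQuad T T').ts (by
    rintro _ ⟨a, ha, rfl⟩
    rw [e3, show p ⬝ᵥ a = 0 from ha]; simp)
  have s2 : e (Pi.single i (p i)⁻¹) ∈ (qM T T').perp ((LinearMap.ker f).map e) := by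
    rintro _ ⟨a, -, rfl⟩
    exact (qM_B two hT hT' _ _ _ _).trans (by simp)
  have s3 : (Sum.elim 0 p : ι ⊕ ι → F) ∈ (qM T T').perp ((LinearMap.ker f).map e) := by
    rintro _ ⟨a, ha, rfl⟩
    exact (qM_B two hT hT' _ _ _ _).trans (by rw [dotProduct_comm, show p ⬝ᵥ a = 0 from ha]; simp)
  have s4 : (qM T T').B (e (Pi.single i (p i)⁻¹)) (Sum.elim 0 p) = 1 :=
    (qM_B two hT hT' _ _ _ _).trans (by rw [dotProduct_comm, f1]; simp)
  have s5 : (qM T T').Q (e (Pi.single i (p i)⁻¹)) = 1 := by rw [e3, f1, one_pow]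
  have s6 : (qM T T').Q (Sum.elim 0 p) = trace (T * T') := by rw [qM_elim, dot_sq two hT' hr, e1]; simp
  rw [← f2]
  constructor
  · rintro ⟨X, x1, x2⟩
    by_contra h
    push Not at h
    exact not_ts (qM_isQuad T T') two (qM T T').nondegOn_top s1 le_top trivial trivial s2 s3 s4 s5
      (fun d => s6 ▸ (h d).symm) (by simp; omega) ⟨X, le_top, x1, x2⟩
  · rintro ⟨d, hd⟩
    obtain ⟨X, -, x⟩ := ts_of_iso (qM_isQuad T T') two s1 le_top trivial trivial s2 s3 s4 s5 (s6.trans hd)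
    exact ⟨X, x⟩

end

variable {V : Type*} [AddCommGroup V] [Module F V] {φ : Form F V} [φ.Nondeg] [FiniteDimensional F V]

theorem exists_o_model [Finite F] {α : F} (hα : Al α) (hQ : φ.IsQuad) (hd : finrank F V = 2 * Fintype.card ι)
    {S S' T T' : Matrix ι ι F} (hS : Sᵀ = S) (hS' : S'ᵀ = S') (hT : Tᵀ = T) (hT' : T'ᵀ = T') (h : S * T * S = S)
    (h' : S' * T' * S' = S') (ht : φ.HasTS (Fintype.card ι) ↔ ∃ d, trace (T * T') = d ^ 2 + d) :
    ∃ g : φ.Isom, tr g = (S * S').charpoly ^ 2 := by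
  haveI := qM_nondeg hα.two hT hT'
  obtain ⟨g, hg⟩ := tr_model hα.two (φ := qM T T') (S := S) (S' := S')
    (qM_isom hα.two (K := fromBlocks 0 (T * S) 0 S) (by
      simp only [fromBlocks_transpose, fromBlocks_multiply, fromBlocks_add, transpose_mul, hS, hT]
      congr 1 <;> simp [add_mul, h, add_comm, add_left_comm]))
    (qM_isom hα.two (K := fromBlocks S' (S' * T') 0 0) (by
      simp only [fromBlocks_transpose, fromBlocks_multiply, fromBlocks_add, transpose_mul, hS', hT']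
      congr 1 <;> simp [add_mul, h', add_comm, add_left_comm]))
  obtain ⟨e, he⟩ := (qM_isQuad T T').exists_isEquiv_even hQ (by simp [two_mul]) hd
    ((qM_hasTS hα.two hT hT' hα).trans ht.symm)
  refine ⟨he.isomEquiv g, ?_⟩
  rw [← hg, tr, tr, ← LinearEquiv.charpoly_conj e, ← map_inv]
  congr 1
  ext x
  simp [LinearEquiv.conj_apply_apply]
  rfl

theorem exists_o_elt [Finite F] {α : F} (hα : Al α) (hQ : φ.IsQuad) {f : F[X]} (hf : f.Monic) {n : ℕ}
    (hn : f.natDegree = n) (hd : finrank F V = 2 * n)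
    (ht : f.coeff 0 ≠ 0 → (φ.HasTS n ↔ ∃ d, f.coeff 1 / f.coeff 0 = d ^ 2 + d)) : ∃ g : φ.Isom, tr g = f ^ 2 := by
  obtain ⟨k, h1, h3⟩ := exists_eq_pow_rootMultiplicity_mul_and_not_dvd f hf.ne_zero 0
  generalize rootMultiplicity 0 f = a at h1
  have hk : k.Monic := ((monic_X_sub_C _).pow _).of_mul_monic_left (h1 ▸ hf)
  rw [C_0, sub_zero] at h1 h3
  rw [X_dvd_iff] at h3
  have h4 : n = k.natDegree + a := by rw [← hn, h1, (monic_X_pow a).natDegree_mul hk, natDegree_X_pow, add_comm]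
  obtain ⟨L, M, a1, a2, a3, a4⟩ := exists_sym hk rfl
  have a5 : M.det ≠ 0 := by
    rw [det_eq_sign_charpoly_coeff, a4]; exact mul_ne_zero (pow_ne_zero _ (by simp)) h3
  have a6 : trace (L * (L * M)⁻¹) = k.coeff 1 / k.coeff 0 := by
    rw [Matrix.mul_inv_rev, ← Matrix.mul_assoc, trace_mul_cycle, nonsing_inv_mul _ (Ne.isUnit a2), Matrix.one_mul]
    have b1 := charpoly_inv M⁻¹ ((isUnit_iff_isUnit_det _).2 (isUnit_nonsing_inv_det _ (Ne.isUnit a5)))
    rw [nonsing_inv_nonsing_inv _ (Ne.isUnit a5), a4, ← C_1, ← C_neg, ← C_pow, ← C_mul] at b1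
    have b2 := congrArg (coeff · 1) b1
    have b3 := congrArg (coeff · 0) b1
    simp only [coeff_C_mul, coeff_charpolyRev_eq_neg_trace] at b2 b3
    rw [coeff_zero_eq_eval_zero (charpolyRev _), eval_charpolyRev, mul_one] at b3
    rw [eq_div_iff h3, b2, ← b3]
    linear_combination k.coeff 0 * trace M⁻¹ * hα.two
  obtain ⟨D, hD⟩ : ∃ D : Fin a → F, φ.HasTS n ↔ ∃ d, k.coeff 1 / k.coeff 0 + ∑ i, D i = d ^ 2 + d := by
    rcases a with _ | a
    · rw [pow_zero, one_mul] at h1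
      exact ⟨0, by simpa [h1] using ht (h1 ▸ h3)⟩
    · by_cases e : φ.HasTS n
      · exact ⟨Pi.single 0 (-(k.coeff 1 / k.coeff 0)), iff_of_true e ⟨0, by simp⟩⟩
      · exact ⟨Pi.single 0 (α - k.coeff 1 / k.coeff 0), iff_of_false e fun ⟨d, hd⟩ => hα.ne d (by simpa using hd.symm)⟩
  have a7 : (L * M)ᵀ = L * M := by rw [transpose_mul, a1, a3]
  have a8 : IsUnit (L * M).det := by rw [det_mul]; exact Ne.isUnit (mul_ne_zero a2 a5)
  obtain ⟨g, hg⟩ := exists_o_model (ι := Fin k.natDegree ⊕ Fin a) hα hQ (by simp [hd, h4])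
    (S := fromBlocks L⁻¹ 0 0 0) (S' := fromBlocks (L * M) 0 0 0) (T := fromBlocks L 0 0 (diagonal D))
    (T' := fromBlocks (L * M)⁻¹ 0 0 1) (by simp [fromBlocks_transpose, transpose_nonsing_inv, a1])
    (by rw [fromBlocks_transpose, a7]; simp) (by simp [fromBlocks_transpose, a1])
    (by rw [fromBlocks_transpose, transpose_nonsing_inv, a7]; simp)
    (by simp [fromBlocks_multiply, nonsing_inv_mul _ (Ne.isUnit a2)])
    (by simp [fromBlocks_multiply, mul_nonsing_inv _ a8])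
    (by
      rw [Fintype.card_sum, Fintype.card_fin, Fintype.card_fin, ← h4, hD, ← a6, fromBlocks_multiply]
      simp [trace, Fintype.sum_sum_type])
  refine ⟨g, ?_⟩
  rw [hg, fromBlocks_multiply]
  simp only [Matrix.mul_zero, add_zero, Matrix.zero_mul]
  rw [charpoly_fromBlocks_zero₂₁, ← Matrix.mul_assoc, nonsing_inv_mul _ (Ne.isUnit a2), Matrix.one_mul, a4, h1]
  simp [mul_comm]

theorem card_o_even [Fintype F] (h : Even (Fintype.card F)) (hQ : φ.IsQuad) {n : ℕ} (h2 : 2 ≤ n)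
    (hn : finrank F V = 2 * n) : Fintype.card F ^ n ≤ 2 * Nat.card (ConjClasses φ.Isom) ∧
      Nat.card (ConjClasses φ.Isom) ≤ 15 * Fintype.card F ^ n := by
  classical
  obtain ⟨α, hα⟩ := exists_al h
  refine ⟨?_, card_o_le hα hQ (by omega) hn⟩
  let P : {f : F[X] // f.Monic ∧ f.natDegree = n} → Prop := fun f =>
    f.1.coeff 0 ≠ 0 → (φ.HasTS n ↔ ∃ d, f.1.coeff 1 / f.1.coeff 0 = d ^ 2 + d)
  have h1 : Nat.card {f // P f} ≤ Nat.card (ConjClasses φ.Isom) :=
    card_le_of_tr (fun f => f.1.1 ^ 2) (fun f g e => Subtype.ext (Subtype.ext (eq_of_sq_eq f.1.2.1 g.1.2.1 e)))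
      fun f => exists_o_elt hα hQ f.1.2.1 f.1.2.2 hn f.2
  haveI : Finite {f : F[X] // f.Monic ∧ f.natDegree = n} :=
    Nat.finite_of_card_ne_zero (by rw [card_monic_deg]; positivity)
  let τ : F[X] → F[X] := fun f => f + C (α * f.coeff 0) * X
  have t1 : ∀ f, (τ f).coeff 0 = f.coeff 0 := fun f => by simp [τ]
  have t2 : ∀ f, (τ f).coeff 1 = f.coeff 1 + α * f.coeff 0 := fun f => by simp only [τ, coeff_add, coeff_C_mul_X]; simp
  have t3 : ∀ f : F[X], f.Monic ∧ f.natDegree = n → (τ f).Monic ∧ (τ f).natDegree = n := fun f hf => by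
    have : (C (α * f.coeff 0) * X).natDegree < f.natDegree :=
      lt_of_le_of_lt (natDegree_C_mul_le _ _) (by rw [natDegree_X]; omega)
    exact ⟨hf.1.add_of_left (degree_lt_degree this), by rw [natDegree_add_eq_left_of_natDegree_lt this, hf.2]⟩
  have h5 : Nat.card {f // ¬ P f} ≤ Nat.card {f // P f} :=
    Nat.card_le_card_of_injective (fun f => ⟨⟨τ f.1.1, t3 _ f.1.2⟩, fun _ => by
      have := f.2
      simp only [P, _root_.not_imp, not_iff] at this
      rw [t1, t2, add_div, mul_div_cancel_right₀ _ this.1, ← not_iff_not, this.2]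
      constructor
      · rintro ⟨d, hd⟩ ⟨e, he⟩
        exact hα.ne (d + e) (by linear_combination -he + hd + (d * e + d ^ 2 + d) * hα.two)
      · intro h
        obtain ⟨d, hd | hd⟩ := hα.ex (f.1.1.coeff 1 / f.1.1.coeff 0)
        · exact ⟨d, hd⟩
        · exact absurd ⟨d, by linear_combination hd + α * hα.two⟩ h⟩) fun f g e => by
      have e1 : τ f.1.1 = τ g.1.1 := congrArg (fun x => x.1.1) e
      have e2 := congrArg (coeff · 0) e1
      simp only [t1] at e2
      simp only [τ, e2, add_left_inj] at e1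
      exact Subtype.ext (Subtype.ext e1)
  have h6 := Nat.card_congr (Equiv.sumCompl P)
  rw [Nat.card_sum, card_monic_deg] at h6
  omega

end We
end H16
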